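import Mathlib
import Cfsg.Prelude.Def_Classical
import Cfsg.Agent.H50.AutPSLSylow

/-!
helper88: Steinberg module for `Ω⁻_{2m+2}(q)`: basic definitions.

The isometry group `OGm m F a b` of `Cfsg.quadFormMinus m F a b` is described through matrices
indexed by `Fin (2 * m + 2)` in the ordered basis `e_0, …, e_{m-1}, z_0, z_1, f_{m-1}, …, f_0`
(positions `pE m i = i`, `pZ m j = m + j`, `pF m i = 2 m + 1 - i`), in which the form is `QF m a b`.
-/

set_option autoImplicit false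

namespace Cfsg.Agent.H88.StN

open Matrix

/-- The isometry group of the minus type form in dimension `2m+2`. -/
abbrev OGm (m : ℕ) (F : Type*) [Field F] (a b : F) : Type _ :=
  ↥(Cfsg.isometryGroup F (Cfsg.quadFormMinus m F a b))

/-- Position of `e_i`. -/
def pE (m : ℕ) (i : Fin m) : Fin (2 * m + 2) := ⟨i.val, by omega⟩

/-- Position of `z_j`. -/
def pZ (m : ℕ) (j : Fin 2) : Fin (2 * m + 2) := ⟨m + j.val, by omega⟩

/-- Position of `f_i`. -/
def pF (m : ℕ) (i : Fin m) : Fin (2 * m + 2) := ⟨2 * m + 1 - i.val, by omega⟩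

/-- The ordering of the basis. -/
def idxFun (m : ℕ) : (Fin m ⊕ Fin m) ⊕ Fin 2 → Fin (2 * m + 2)
  | Sum.inl (Sum.inl i) => pE m i
  | Sum.inl (Sum.inr i) => pF m i
  | Sum.inr j => pZ m j

/-- The inverse of the ordering. -/
def idxInv (m : ℕ) (k : Fin (2 * m + 2)) : (Fin m ⊕ Fin m) ⊕ Fin 2 :=
  if h : k.val < m then Sum.inl (Sum.inl ⟨k.val, h⟩)
  else if h2 : k.val < m + 2 then Sum.inr ⟨k.val - m, by omega⟩
  else Sum.inl (Sum.inr ⟨2 * m + 1 - k.val, by omega⟩)

/-- The ordering of the basis, as an equivalence. -/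
def idx (m : ℕ) : (Fin m ⊕ Fin m) ⊕ Fin 2 ≃ Fin (2 * m + 2) where
  toFun := idxFun m
  invFun := idxInv m
  left_inv := by
    rintro ((i | i) | j)
    · simp [idxFun, idxInv, pE]
    · have h1 : ¬ (2 * m + 1 - i.val < m) := by omega
      have h2 : ¬ (2 * m + 1 - i.val < m + 2) := by omega
      have h3 : 2 * m + 1 - (2 * m + 1 - i.val) = i.val := by omega
      simp [idxFun, idxInv, pF, h1, h2, h3]
    · have h1 : ¬ (m + j.val < m) := by omega
      have h2 : m + j.val < m + 2 := by omega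
      simp [idxFun, idxInv, pZ, h1, h2]
  right_inv := by
    intro k
    unfold idxInv
    split_ifs with h h2
    · rfl
    · apply Fin.ext
      show m + (k.val - m) = k.val
      omega
    · apply Fin.ext
      show 2 * m + 1 - (2 * m + 1 - k.val) = k.val
      omega

theorem idx_ee (m : ℕ) (i : Fin m) : idx m (Sum.inl (Sum.inl i)) = pE m i := rfl
theorem idx_ff (m : ℕ) (i : Fin m) : idx m (Sum.inl (Sum.inr i)) = pF m i := rfl
theorem idx_zz (m : ℕ) (j : Fin 2) : idx m (Sum.inr j) = pZ m j := rfl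

variable {m : ℕ} {F : Type*} [Field F] {a b : F}

/-- The matrix of an isometry in the ordered basis. -/
def mat (g : OGm m F a b) : Matrix (Fin (2 * m + 2)) (Fin (2 * m + 2)) F :=
  Matrix.reindex (idx m) (idx m)
    ((g : Matrix.GeneralLinearGroup ((Fin m ⊕ Fin m) ⊕ Fin 2) F) :
      Matrix ((Fin m ⊕ Fin m) ⊕ Fin 2) ((Fin m ⊕ Fin m) ⊕ Fin 2) F)

theorem mat_idx (g : OGm m F a b) (x y : (Fin m ⊕ Fin m) ⊕ Fin 2) :
    mat g (idx m x) (idx m y) =
      ((g : Matrix.GeneralLinearGroup ((Fin m ⊕ Fin m) ⊕ Fin 2) F) :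
        Matrix ((Fin m ⊕ Fin m) ⊕ Fin 2) ((Fin m ⊕ Fin m) ⊕ Fin 2) F) x y := by
  simp [mat]

theorem mat_one : mat (1 : OGm m F a b) = 1 := by
  ext i j
  simp [mat, Matrix.one_apply]

theorem mat_mul (g h : OGm m F a b) : mat (g * h) = mat g * mat h := by
  show (((g : Matrix.GeneralLinearGroup ((Fin m ⊕ Fin m) ⊕ Fin 2) F) :
      Matrix ((Fin m ⊕ Fin m) ⊕ Fin 2) ((Fin m ⊕ Fin m) ⊕ Fin 2) F) *
    ((h : Matrix.GeneralLinearGroup ((Fin m ⊕ Fin m) ⊕ Fin 2) F) :
      Matrix ((Fin m ⊕ Fin m) ⊕ Fin 2) ((Fin m ⊕ Fin m) ⊕ Fin 2) F)).submatrix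
        (idx m).symm (idx m).symm = _
  rw [← Matrix.submatrix_mul_equiv _ _ _ (idx m).symm]
  rfl

theorem mat_injective : Function.Injective (mat : OGm m F a b → _) := by
  intro g h hgh
  apply Subtype.ext
  apply Units.ext
  exact (Matrix.reindex (idx m) (idx m)).injective hgh

theorem mat_mul_inv (g : OGm m F a b) : mat g * mat g⁻¹ = 1 := by
  rw [← mat_mul, mul_inv_cancel, mat_one]

theorem mat_inv_mul (g : OGm m F a b) : mat g⁻¹ * mat g = 1 := by
  rw [← mat_mul, inv_mul_cancel, mat_one]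

/-- The form in the ordered basis. -/
def QF (m : ℕ) {F : Type*} [Field F] (a b : F) (v : Fin (2 * m + 2) → F) : F :=
  (∑ i : Fin m, v (pE m i) * v (pF m i)) +
    (v (pZ m 0) ^ 2 + a * v (pZ m 0) * v (pZ m 1) + b * v (pZ m 1) ^ 2)

theorem QF_eq (v : Fin (2 * m + 2) → F) :
    QF m a b v = Cfsg.quadFormMinus m F a b (v ∘ idx m) := rfl

theorem mat_mulVec_comp (g : OGm m F a b) (v : Fin (2 * m + 2) → F) :
    (mat g *ᵥ v) ∘ idx m =
      ((g : Matrix.GeneralLinearGroup ((Fin m ⊕ Fin m) ⊕ Fin 2) F) :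
        Matrix ((Fin m ⊕ Fin m) ⊕ Fin 2) ((Fin m ⊕ Fin m) ⊕ Fin 2) F) *ᵥ (v ∘ idx m) := by
  funext x
  show ∑ j, mat g (idx m x) j * v j = ∑ y, _ * v (idx m y)
  rw [← Equiv.sum_comp (idx m)]
  apply Finset.sum_congr rfl
  intro y _
  rw [mat_idx]

/-- The defining property of an isometry. -/
theorem quad_mat (g : OGm m F a b) (v : Fin (2 * m + 2) → F) :
    QF m a b (mat g *ᵥ v) = QF m a b v := by
  rw [QF_eq, QF_eq, mat_mulVec_comp]
  exact g.2 (v ∘ idx m) (v ∘ idx m)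

/-- Construction of isometries from matrices. -/
theorem exists_mat (M M' : Matrix (Fin (2 * m + 2)) (Fin (2 * m + 2)) F) (h1 : M * M' = 1)
    (h2 : M' * M = 1) (hQ : ∀ v, QF m a b (M *ᵥ v) = QF m a b v) :
    ∃ g : OGm m F a b, mat g = M := by
  obtain ⟨e, he⟩ : ∃ e : Matrix ((Fin m ⊕ Fin m) ⊕ Fin 2) ((Fin m ⊕ Fin m) ⊕ Fin 2) F ≃
      Matrix (Fin (2 * m + 2)) (Fin (2 * m + 2)) F, e = Matrix.reindex (idx m) (idx m) := ⟨_, rfl⟩
  have hmul : ∀ A B, e.symm (A * B) = e.symm A * e.symm B := by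
    intro A B
    rw [he]
    show (A * B).submatrix _ _ = A.submatrix _ _ * B.submatrix _ _
    rw [Matrix.submatrix_mul_equiv]
  have hone : e.symm 1 = 1 := by
    rw [he]
    show (1 : Matrix (Fin (2 * m + 2)) (Fin (2 * m + 2)) F).submatrix (idx m) (idx m) = 1
    rw [Matrix.submatrix_one_equiv]
  let u : Matrix.GeneralLinearGroup ((Fin m ⊕ Fin m) ⊕ Fin 2) F :=
    ⟨e.symm M, e.symm M', by rw [← hmul, h1, hone], by rw [← hmul, h2, hone]⟩
  have hu : u ∈ Cfsg.isometryGroup F (Cfsg.quadFormMinus m F a b) := by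
    intro x _
    have h3 := hQ (x ∘ (idx m).symm)
    rw [QF_eq, QF_eq] at h3
    have h4 : (x ∘ (idx m).symm) ∘ idx m = x := by
      funext y
      simp
    rw [h4] at h3
    have h5 : (e.symm M) *ᵥ x = (M *ᵥ (x ∘ (idx m).symm)) ∘ idx m := by
      funext y
      rw [he]
      show ∑ j, M (idx m y) (idx m j) * x j = ∑ k, M (idx m y) k * x ((idx m).symm k)
      rw [← Equiv.sum_comp (idx m)]
      apply Finset.sum_congr rfl
      intro j _
      rw [Equiv.symm_apply_apply]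
    show Cfsg.quadFormMinus m F a b ((e.symm M) *ᵥ x) = Cfsg.quadFormMinus m F a b x
    rw [h5]
    exact h3
  refine ⟨⟨u, hu⟩, ?_⟩
  have h6 : mat (⟨u, hu⟩ : OGm m F a b) = e (e.symm M) := by
    subst he
    rfl
  rw [h6, Equiv.apply_symm_apply]

/-- Unitriangular isometries: upper unitriangular in the ordered basis, with trivial action on
the anisotropic plane. -/
def IsUniM (g : OGm m F a b) : Prop :=
  Cfsg.Agent.H50.AutPSL.IsUT (mat g) ∧ mat g (pZ m 0) (pZ m 1) = 0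

/-- Block diagonal isometries: they fix all the lines `⟨e_i⟩`, `⟨f_i⟩` and the plane `⟨z_0, z_1⟩`. -/
def IsBlk (g : OGm m F a b) : Prop :=
  ∀ c d : Fin (2 * m + 2), c ≠ d →
    (c.val < m ∨ m + 1 < c.val ∨ d.val < m ∨ m + 1 < d.val) → mat g c d = 0

/-- The short simple reflections of the Weyl group (type `B_m`), as permutations of the
positions. -/
def sS (m : ℕ) (k : Fin m) (hk : k.val + 1 < m) : Equiv.Perm (Fin (2 * m + 2)) :=
  Equiv.swap (pE m k) (pE m ⟨k.val + 1, hk⟩) * Equiv.swap (pF m ⟨k.val + 1, hk⟩) (pF m k)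

/-- The sign change of the `k`-th hyperbolic pair (the last one is the long simple reflection). -/
def sT (m : ℕ) (k : Fin m) : Equiv.Perm (Fin (2 * m + 2)) := Equiv.swap (pE m k) (pF m k)

/-- The Weyl group. -/
def WN (m : ℕ) : Subgroup (Equiv.Perm (Fin (2 * m + 2))) :=
  Subgroup.closure ({s | ∃ (k : Fin m) (hk : k.val + 1 < m), s = sS m k hk} ∪
    {s | ∃ k : Fin m, k.val + 1 = m ∧ s = sT m k})

/-- The longest element: it reverses the outer positions and fixes the two middle ones. -/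
def wl (m : ℕ) : Equiv.Perm (Fin (2 * m + 2)) := Fin.revPerm * Equiv.swap (pZ m 0) (pZ m 1)

end Cfsg.Agent.H88.StN
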