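import Mathlib

/-!
helper88: combinatorial definitions for the Steinberg module of the unitary groups `UG n φ`
(antidiagonal form on `Fin n`, basis order `e_0 < … < f_0`): positions, simple reflections of the
Weyl group of type `B/C` of rank `n / 2` as permutations of the positions, the Weyl group, and
generalized monomial matrices.
-/

set_option autoImplicit false

namespace Cfsg.Agent.H88.StU

/-- Position of the `i`-th isotropic basis vector (`i < n / 2`). -/
def pr (n : ℕ) (i : Fin (n / 2)) : Fin n := ⟨i.val, lt_of_lt_of_le i.2 (Nat.div_le_self n 2)⟩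

theorem pr_val (n : ℕ) (i : Fin (n / 2)) : (pr n i).val = i.val := rfl

/-- The simple reflections: for `i + 1 < n / 2` the double transposition
`(i, i+1)(rev (i+1), rev i)`, for the last `i` the transposition `(i, rev i)`. -/
def sref (n : ℕ) (i : Fin (n / 2)) : Equiv.Perm (Fin n) :=
  if h : i.val + 1 < n / 2 then
    Equiv.swap (pr n i) (pr n ⟨i.val + 1, h⟩) *
      Equiv.swap (pr n ⟨i.val + 1, h⟩).rev (pr n i).rev
  else Equiv.swap (pr n i) (pr n i).rev

/-- The Weyl group, generated by the simple reflections. -/
def WU (n : ℕ) : Subgroup (Equiv.Perm (Fin n)) := Subgroup.closure (Set.range (sref n))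

/-- Generalized monomial matrices: `M e_b ∈ K e_{s b}`. -/
def IsMono {n : ℕ} {K : Type*} [Zero K] (s : Equiv.Perm (Fin n))
    (M : Matrix (Fin n) (Fin n) K) : Prop :=
  ∀ a b, a ≠ s b → M a b = 0

end Cfsg.Agent.H88.StU
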