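import Cfsg.Agent.H88.SylFus
import Cfsg.Agent.H88.M22Data
import Cfsg.Agent.H9.M11b
import Cfsg.Agent.H9.M24b
import Cfsg.Agent.H9.Duad2
import Cfsg.Agent.H9.DodOrb

set_option autoImplicit false
set_option maxHeartbeats 4000000
set_option maxRecDepth 100000

/-!
The `2`-fusion systems of the Mathieu groups `M₂₂` and `M₂₃` are simple: fusion certificate for the
explicit common Sylow `2`-subgroup.
-/

namespace Cfsg.Agent.H88.M22D

open Cfsg Cfsg.Agent.H9 Cfsg.Agent.H34 Cfsg.Agent.H88.PG
open scoped Pointwise

/-- Fusion certificate (generated): conjugating elements, words in the known elements, results. -/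
def steps : List (ℕ × List ℕ × ℕ) := [(977780908115574272052968310751447232, [984039380926573142868401560053371936], 969768684215484103433066569989084384), (981481550646448660320856256476955296, [969768684215484103433066569989084384, 984039380926573142868401560053371936], 984511223993344926975724756390760672), (957009755975810660876148024502065760, [984511223993344926975724756390760672], 984690096700511497057451740670141472), (980633677525194558695927758993232544, [984511223993344926975724756390760672, 984690096700511497057451740670141472, 984511223993344926975724756390760672], 978317721293770322615222185527609376), (984818244535754528103549039458486304, [984690096700511497057451740670141472, 984511223993344926975724756390760672, 978317721293770322615222185527609376, 984511223993344926975724756390760672], 969032131945662151086727385316953120), (984818244535754528103549039458486304, [978317721293770322615222185527609376, 969768684215484103433066569989084384, 984690096700511497057451740670141472, 984511223993344926975724756390760672, 969768684215484103433066569989084384], 978104373054724849442462620747992288), (984818244535754528103549039458486304,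 [984690096700511497057451740670141472, 984511223993344926975724756390760672, 984690096700511497057451740670141472, 969768684215484103433066569989084384], 970531819526550031117983620406741024), (984818244535754528103549039458486304, [984690096700511497057451740670141472, 984511223993344926975724756390760672, 969768684215484103433066569989084384, 984690096700511497057451740670141472], 970197198132291313630986488279904288), (984818244535754528103549039458486304, [984690096700511497057451740670141472, 969768684215484103433066569989084384, 984511223993344926975724756390760672, 984690096700511497057451740670141472, 984511223993344926975724756390760672, 969768684215484103433066569989084384], 984728318097572058002623567840450592)]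

/-- The central involution. -/
def zc : ℕ := 984039380926573142868401560053371936

theorem gens_ok : gs.all (okF [0x800000, 1]) = true := by decide +kernel

theorem fus_ok : fusB [0x800000, 1] (gen gs) gs steps [zc] = true := by decide +kernel

theorem zc_ok : stepB zc [] = true := by decide +kernel

theorem center_le : ∀ x ∈ grp gs, (∀ h ∈ grp gs, x * h = h * x) → x ∈ grp [zc] := by
  intro x hx hc
  have h := cmod_eq lvl0 (lvl 0) (lvl 7) (lvl 6) (grp_drop_le 0) (grp_drop_le 6)
    (fun s hs x hx => char7.conj_mem hs hx) exp8_ok (by decide +kernel) (by decide +kernel)
  have h2 : gs.drop 6 = [zc] := rfl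
  rw [h2] at h
  rw [← h]
  apply Subgroup.subset_closure
  exact ⟨hx, fun h hh => ⟨1, one_mem _, by rw [one_mul]; exact hc h hh⟩⟩

theorem gs_ne : gs ≠ [] := by
  intro h
  have := congrArg List.length h
  revert this
  decide

theorem fix_pt_of_smul {g : Equiv.Perm GolayPt} {j : ℕ} (hj : j < 24)
    (h : g • fs (2 ^ j) = fs (2 ^ j)) : g (gPt j) = gPt j := by
  rw [Cfsg.Agent.H9.fs_two_pow hj, Finset.smul_finset_singleton, Finset.singleton_inj] at h
  exact h

theorem gPt_last : gPt 23 = (none : GolayPt) := by decide

theorem okF_mem : ∀ c, okF [0x800000, 1] c = true → lperm c ∈ Spor.M22 := by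
  intro c hc
  have h1 := lperm_mem_SF hc
  rw [mem_SF] at h1
  have e : (0x800000 : ℕ) = 2 ^ 23 := by norm_num
  have h23 : lperm c (gPt 23) = gPt 23 := by
    apply fix_pt_of_smul (by norm_num)
    rw [← e]
    exact h1.2 0x800000 (by simp)
  have h0 : lperm c (gPt 0) = gPt 0 := fix_of_stabOf (h1.2 1 (by simp))
  rw [gPt_last] at h23
  rw [← some_zero_eq] at h0
  exact ⟨⟨h1.1, h23⟩, h0⟩

theorem okF_mem' : ∀ c, okF [0x800000, 1] c = true → lperm c ∈ Spor.M23 :=
  fun c hc => (okF_mem c hc).1

theorem card_sporM22 : Nat.card Spor.M22 = 443520 := by
  have e : (MulAction.stabilizer M24 (none : GolayPt) ⊓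
      MulAction.stabilizer M24 (some 0 : GolayPt)).map M24.subtype = Spor.M22 := by
    ext g
    constructor
    · rintro ⟨h, hh, rfl⟩
      exact ⟨⟨h.2, hh.1⟩, hh.2⟩
    · rintro ⟨⟨hg, h1⟩, h2⟩
      exact ⟨⟨g, hg⟩, ⟨h1, h2⟩, rfl⟩
  rw [← e, Subgroup.card_map_of_injective M24.subtype_injective]
  exact card_stabilizer_two_points _ _ (by decide)

theorem card_sporM23 : Nat.card Spor.M23 = 10200960 := by
  have e : (MulAction.stabilizer M24 (none : GolayPt)).map M24.subtype = Spor.M23 := by
    ext g
    constructor
    · rintro ⟨h, hh, rfl⟩
      exact ⟨h.2, hh⟩
    · rintro ⟨hg, h1⟩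
      exact ⟨⟨g, hg⟩, h1, rfl⟩
  rw [← e, Subgroup.card_map_of_injective M24.subtype_injective]
  exact card_stabilizer_point _

/-- The `2`-fusion system of `M₂₂` is simple. -/
theorem m22_fusion_simple (S : Sylow 2 Spor.M22) :
    (groupFusionSystem (S : Subgroup Spor.M22)).IsSimple 2 := by
  refine simple_of_packed okF_mem chain_ok strict_ok gens_ok gs_ne ?_ aut_isPGroup zc_ok
    center_le fus_ok S
  rw [card_sporM22]
  have hlen : gs.length = 7 := rfl
  rw [hlen]
  norm_num

/-- The `2`-fusion system of `M₂₃` is simple. -/
theorem m23_fusion_simple (S : Sylow 2 Spor.M23) :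
    (groupFusionSystem (S : Subgroup Spor.M23)).IsSimple 2 := by
  refine simple_of_packed okF_mem' chain_ok strict_ok gens_ok gs_ne ?_ aut_isPGroup zc_ok
    center_le fus_ok S
  rw [card_sporM23]
  have hlen : gs.length = 7 := rfl
  rw [hlen]
  norm_num

end Cfsg.Agent.H88.M22D
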