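import Mathlib
import Cfsg.Agent.H50.AutPSLSylow
import Cfsg.Agent.H50.SpCard
import Cfsg.Agent.H45.PSpInvol
import Cfsg.Agent.H88.FamCrit

/-!
helper88: `Sp_{2m}(F)`: subgroups given by level functions on the index set (unipotent radicals
`EL lam` and parabolics `PL lam`), the block elements `Lg g = diag(g, g⁻ᵀ)`, `Qm S = [1 S; 0 1]`,
`Ym C = [1 0; C 1]`.
-/

set_option autoImplicit false
set_option linter.unusedSectionVars false

namespace Cfsg.Agent.H88.Spn

open Matrix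

variable {m : ℕ} {F : Type*} [Field F]

/-- `M` is the identity on and below the level blocks of `lam`. -/
def IsUL (lam : Fin m ⊕ Fin m → ℕ) (M : Matrix (Fin m ⊕ Fin m) (Fin m ⊕ Fin m) F) : Prop :=
  ∀ i j, lam j ≤ lam i → M i j = (1 : Matrix (Fin m ⊕ Fin m) (Fin m ⊕ Fin m) F) i j

/-- `M` vanishes below the level blocks of `lam`. -/
def IsBL (lam : Fin m ⊕ Fin m → ℕ) (M : Matrix (Fin m ⊕ Fin m) (Fin m ⊕ Fin m) F) : Prop :=
  ∀ i j, lam j < lam i → M i j = 0

theorem isUL_one (lam : Fin m ⊕ Fin m → ℕ) :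
    IsUL lam (1 : Matrix (Fin m ⊕ Fin m) (Fin m ⊕ Fin m) F) := fun _ _ _ => rfl

theorem isBL_one (lam : Fin m ⊕ Fin m → ℕ) :
    IsBL lam (1 : Matrix (Fin m ⊕ Fin m) (Fin m ⊕ Fin m) F) := fun i j h =>
  Matrix.one_apply_ne (fun e => by rw [e] at h; exact lt_irrefl _ h)

theorem IsUL.mul {lam : Fin m ⊕ Fin m → ℕ} {M N : Matrix (Fin m ⊕ Fin m) (Fin m ⊕ Fin m) F}
    (hM : IsUL lam M) (hN : IsUL lam N) : IsUL lam (M * N) := by
  intro i j hij
  have e1 : (1 : Matrix (Fin m ⊕ Fin m) (Fin m ⊕ Fin m) F) i j =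
      ∑ k, (1 : Matrix (Fin m ⊕ Fin m) (Fin m ⊕ Fin m) F) i k *
        (1 : Matrix (Fin m ⊕ Fin m) (Fin m ⊕ Fin m) F) k j := by
    rw [← Matrix.mul_apply, Matrix.mul_one]
  rw [e1, Matrix.mul_apply]
  apply Finset.sum_congr rfl
  intro k _
  by_cases hk : lam k ≤ lam i
  · rw [hM i k hk]
    by_cases hki : k = i
    · rw [hki, hN i j hij]
    · rw [Matrix.one_apply_ne (Ne.symm hki), zero_mul, zero_mul]
  · have hk' : lam i < lam k := not_le.1 hk
    have hkj : k ≠ j := fun e => by rw [e] at hk'; exact absurd hij (not_le.2 hk')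
    have hki : i ≠ k := fun e => by rw [e] at hk'; exact lt_irrefl _ hk'
    rw [hN k j (le_trans hij hk'.le), Matrix.one_apply_ne hkj, mul_zero,
      Matrix.one_apply_ne hki, zero_mul]

theorem IsBL.mul {lam : Fin m ⊕ Fin m → ℕ} {M N : Matrix (Fin m ⊕ Fin m) (Fin m ⊕ Fin m) F}
    (hM : IsBL lam M) (hN : IsBL lam N) : IsBL lam (M * N) := by
  intro i j hij
  rw [Matrix.mul_apply]
  apply Finset.sum_eq_zero
  intro k _
  by_cases hk : lam k < lam i
  · rw [hM i k hk, zero_mul]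
  · rw [hN k j (lt_of_lt_of_le hij (not_lt.1 hk)), mul_zero]

variable [Fintype F]

/-- The unipotent radical attached to a level function. -/
def EL (lam : Fin m ⊕ Fin m → ℕ) : Subgroup (Matrix.symplecticGroup (Fin m) F) where
  carrier := {g | IsUL lam g.1}
  one_mem' := isUL_one lam
  mul_mem' := fun ha hb => IsUL.mul ha hb
  inv_mem' := by
    intro s hs
    have h1 : s⁻¹ = s ^ (orderOf s - 1) := by
      apply inv_eq_of_mul_eq_one_right
      rw [← pow_succ', Nat.sub_add_cancel (orderOf_pos s), pow_orderOf_eq_one]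
    rw [h1]
    have key : ∀ k : ℕ, IsUL lam (s ^ k).1 := by
      intro k
      induction k with
      | zero => rw [pow_zero]; exact isUL_one lam
      | succ k ih => rw [pow_succ]; exact IsUL.mul ih hs
    exact key _

/-- The parabolic subgroup attached to a level function. -/
def PL (lam : Fin m ⊕ Fin m → ℕ) : Subgroup (Matrix.symplecticGroup (Fin m) F) where
  carrier := {g | IsBL lam g.1}
  one_mem' := isBL_one lam
  mul_mem' := fun ha hb => IsBL.mul ha hb
  inv_mem' := by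
    intro s hs
    have h1 : s⁻¹ = s ^ (orderOf s - 1) := by
      apply inv_eq_of_mul_eq_one_right
      rw [← pow_succ', Nat.sub_add_cancel (orderOf_pos s), pow_orderOf_eq_one]
    rw [h1]
    have key : ∀ k : ℕ, IsBL lam (s ^ k).1 := by
      intro k
      induction k with
      | zero => rw [pow_zero]; exact isBL_one lam
      | succ k ih => rw [pow_succ]; exact IsBL.mul ih hs
    exact key _

theorem mem_EL {lam : Fin m ⊕ Fin m → ℕ} {g : Matrix.symplecticGroup (Fin m) F} :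
    g ∈ EL lam ↔ IsUL lam g.1 := Iff.rfl

theorem mem_PL {lam : Fin m ⊕ Fin m → ℕ} {g : Matrix.symplecticGroup (Fin m) F} :
    g ∈ PL lam ↔ IsBL lam g.1 := Iff.rfl

theorem EL_mono {lam lam' : Fin m ⊕ Fin m → ℕ}
    (h : ∀ i j, lam' j ≤ lam' i → lam j ≤ lam i) :
    (EL lam : Subgroup (Matrix.symplecticGroup (Fin m) F)) ≤ EL lam' :=
  fun _ hg i j hij => hg i j (h i j hij)

theorem EL_le_PL {lam lam' : Fin m ⊕ Fin m → ℕ}
    (h : ∀ i j, lam j < lam i → lam' j ≤ lam' i) :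
    (EL lam' : Subgroup (Matrix.symplecticGroup (Fin m) F)) ≤ PL lam := by
  intro g hg i j hij
  rw [hg i j (h i j hij)]
  exact Matrix.one_apply_ne (fun e => by rw [e] at hij; exact lt_irrefl _ hij)

/-- Parabolic elements normalize the unipotent radical. -/
theorem conj_mem_EL {lam : Fin m ⊕ Fin m → ℕ} {y g : Matrix.symplecticGroup (Fin m) F}
    (hy : y ∈ PL lam) (hg : g ∈ EL lam) : y * g * y⁻¹ ∈ EL lam := by
  have hy' : y⁻¹ ∈ PL lam := inv_mem hy
  intro i j hij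
  have e1 : (y * g * y⁻¹).1 = y.1 * (g.1 - 1) * (y⁻¹).1 + 1 := by
    have e2 : y.1 * (y⁻¹).1 = 1 := by
      have := congrArg Subtype.val (mul_inv_cancel y)
      exact this
    rw [Matrix.mul_sub, Matrix.sub_mul, Matrix.mul_one, e2, sub_add_cancel]
    rfl
  rw [e1, Matrix.add_apply]
  have e3 : (y.1 * (g.1 - 1) * (y⁻¹).1) i j = 0 := by
    rw [Matrix.mul_apply]
    apply Finset.sum_eq_zero
    intro l _
    by_cases hl : lam j < lam l
    · rw [hy' l j hl, mul_zero]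
    · have hl' : lam l ≤ lam j := not_lt.1 hl
      rw [Matrix.mul_apply]
      have : ∑ k, y.1 i k * (g.1 - 1) k l = 0 := by
        apply Finset.sum_eq_zero
        intro k _
        by_cases hk : lam k < lam i
        · rw [hy i k hk, zero_mul]
        · have hk' : lam i ≤ lam k := not_lt.1 hk
          rw [Matrix.sub_apply, hg k l (le_trans hl' (le_trans hij hk')), sub_self, mul_zero]
      rw [this, zero_mul]
  rw [e3, zero_add]

/-! ### Block elements -/

omit [Fintype F] in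
theorem gl_inv_mul (g : GL (Fin m) F) :
    ((g⁻¹ : GL (Fin m) F) : Matrix (Fin m) (Fin m) F) * (g : Matrix (Fin m) (Fin m) F) = 1 := by
  rw [← Units.val_mul, inv_mul_cancel, Units.val_one]

omit [Fintype F] in
theorem gl_mul_inv (g : GL (Fin m) F) :
    (g : Matrix (Fin m) (Fin m) F) * ((g⁻¹ : GL (Fin m) F) : Matrix (Fin m) (Fin m) F) = 1 := by
  rw [← Units.val_mul, mul_inv_cancel, Units.val_one]

/-- The Levi element `diag(g, g⁻ᵀ)`. -/
def Lg : GL (Fin m) F →* Matrix.symplecticGroup (Fin m) F where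
  toFun g := ⟨Matrix.fromBlocks (g : Matrix (Fin m) (Fin m) F) 0 0
      ((g⁻¹ : GL (Fin m) F) : Matrix (Fin m) (Fin m) F)ᵀ, by
    rw [SymplecticGroup.fromBlocks_mem_iff]
    refine ⟨by simp, by simp, ?_⟩
    rw [Matrix.transpose_zero, Matrix.zero_mul, sub_zero, ← Matrix.transpose_mul, gl_inv_mul,
      Matrix.transpose_one]⟩
  map_one' := by
    apply Subtype.ext
    show Matrix.fromBlocks ((1 : GL (Fin m) F) : Matrix (Fin m) (Fin m) F) 0 0
      (((1 : GL (Fin m) F)⁻¹ : GL (Fin m) F) : Matrix (Fin m) (Fin m) F)ᵀ = 1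
    rw [inv_one, Units.val_one, Matrix.transpose_one, Matrix.fromBlocks_one]
  map_mul' := by
    intro g h
    apply Subtype.ext
    show Matrix.fromBlocks ((g * h : GL (Fin m) F) : Matrix (Fin m) (Fin m) F) 0 0
      (((g * h)⁻¹ : GL (Fin m) F) : Matrix (Fin m) (Fin m) F)ᵀ =
      Matrix.fromBlocks (g : Matrix (Fin m) (Fin m) F) 0 0
        ((g⁻¹ : GL (Fin m) F) : Matrix (Fin m) (Fin m) F)ᵀ *
      Matrix.fromBlocks (h : Matrix (Fin m) (Fin m) F) 0 0
        ((h⁻¹ : GL (Fin m) F) : Matrix (Fin m) (Fin m) F)ᵀ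
    rw [Matrix.fromBlocks_multiply, _root_.mul_inv_rev, Units.val_mul, Units.val_mul,
      Matrix.transpose_mul]
    simp only [Matrix.mul_zero, Matrix.zero_mul, add_zero, zero_add]

theorem Lg_val (g : GL (Fin m) F) : (Lg g).1 = Matrix.fromBlocks (g : Matrix (Fin m) (Fin m) F) 0 0
    ((g⁻¹ : GL (Fin m) F) : Matrix (Fin m) (Fin m) F)ᵀ := rfl

/-- The Siegel element `[1 S; 0 1]`. -/
def Qm (S : Matrix (Fin m) (Fin m) F) (hS : S.IsSymm) : Matrix.symplecticGroup (Fin m) F :=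
  ⟨Matrix.fromBlocks 1 S 0 1, by
    rw [SymplecticGroup.fromBlocks_mem_iff]
    refine ⟨by simp, ?_, by simp⟩
    rw [Matrix.mul_one, Matrix.transpose_one, Matrix.one_mul]
    exact hS⟩

theorem Qm_val (S : Matrix (Fin m) (Fin m) F) (hS : S.IsSymm) :
    (Qm S hS).1 = Matrix.fromBlocks 1 S 0 1 := rfl

/-- The opposite Siegel element `[1 0; C 1]`. -/
def Ym (C : Matrix (Fin m) (Fin m) F) (hC : C.IsSymm) : Matrix.symplecticGroup (Fin m) F :=
  ⟨Matrix.fromBlocks 1 0 C 1, by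
    rw [SymplecticGroup.fromBlocks_mem_iff]
    refine ⟨?_, by simp, by simp⟩
    rw [Matrix.mul_one, Matrix.transpose_one, Matrix.one_mul]
    exact hC.symm⟩

theorem Ym_val (C : Matrix (Fin m) (Fin m) F) (hC : C.IsSymm) :
    (Ym C hC).1 = Matrix.fromBlocks 1 0 C 1 := rfl

theorem Qm_congr {S S' : Matrix (Fin m) (Fin m) F} (h : S = S') (hS : S.IsSymm) :
    Qm S hS = Qm S' (h ▸ hS) := by subst h; rfl

theorem Qm_mul (S S' : Matrix (Fin m) (Fin m) F) (hS : S.IsSymm) (hS' : S'.IsSymm) :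
    Qm S hS * Qm S' hS' = Qm (S + S') (hS.add hS') := by
  apply Subtype.ext
  show Matrix.fromBlocks 1 S 0 1 * Matrix.fromBlocks 1 S' 0 1 = Matrix.fromBlocks 1 (S + S') 0 1
  rw [Matrix.fromBlocks_multiply]
  simp [add_comm]

theorem Qm_zero : Qm (0 : Matrix (Fin m) (Fin m) F) Matrix.isSymm_zero = 1 := by
  apply Subtype.ext
  show Matrix.fromBlocks 1 (0 : Matrix (Fin m) (Fin m) F) 0 1 = 1
  rw [Matrix.fromBlocks_one]

theorem Qm_inv (S : Matrix (Fin m) (Fin m) F) (hS : S.IsSymm) :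
    (Qm S hS)⁻¹ = Qm (-S) hS.neg := by
  apply inv_eq_of_mul_eq_one_right
  rw [Qm_mul, Qm_congr (add_neg_cancel S), Qm_zero]

theorem Qm_injective {S S' : Matrix (Fin m) (Fin m) F} {hS : S.IsSymm} {hS' : S'.IsSymm}
    (h : Qm S hS = Qm S' hS') : S = S' := by
  have h1 := congrArg Subtype.val h
  rw [Qm_val, Qm_val, Matrix.fromBlocks_inj] at h1
  exact h1.2.1

theorem isSymm_congr (g : Matrix (Fin m) (Fin m) F) {S : Matrix (Fin m) (Fin m) F}
    (hS : S.IsSymm) : (g * S * gᵀ).IsSymm := by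
  show (g * S * gᵀ)ᵀ = g * S * gᵀ
  rw [Matrix.transpose_mul, Matrix.transpose_mul, Matrix.transpose_transpose, hS.eq,
    Matrix.mul_assoc]

/-- Conjugating `Qm S` by `Lg g` is the congruence action. -/
theorem Lg_mul_Qm (g : GL (Fin m) F) (S : Matrix (Fin m) (Fin m) F) (hS : S.IsSymm) :
    Lg g * Qm S hS = Qm ((g : Matrix (Fin m) (Fin m) F) * S * (g : Matrix (Fin m) (Fin m) F)ᵀ)
      (isSymm_congr _ hS) * Lg g := by
  apply Subtype.ext
  show Matrix.fromBlocks (g : Matrix (Fin m) (Fin m) F) 0 0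
      ((g⁻¹ : GL (Fin m) F) : Matrix (Fin m) (Fin m) F)ᵀ * Matrix.fromBlocks 1 S 0 1 =
    Matrix.fromBlocks 1 ((g : Matrix (Fin m) (Fin m) F) * S * (g : Matrix (Fin m) (Fin m) F)ᵀ) 0 1 *
      Matrix.fromBlocks (g : Matrix (Fin m) (Fin m) F) 0 0
      ((g⁻¹ : GL (Fin m) F) : Matrix (Fin m) (Fin m) F)ᵀ
  rw [Matrix.fromBlocks_multiply, Matrix.fromBlocks_multiply]
  have e : (g : Matrix (Fin m) (Fin m) F) * S * (g : Matrix (Fin m) (Fin m) F)ᵀ *
      ((g⁻¹ : GL (Fin m) F) : Matrix (Fin m) (Fin m) F)ᵀ = (g : Matrix (Fin m) (Fin m) F) * S := by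
    rw [Matrix.mul_assoc, ← Matrix.transpose_mul, gl_inv_mul, Matrix.transpose_one, Matrix.mul_one]
  simp only [Matrix.mul_one, Matrix.one_mul, Matrix.mul_zero, Matrix.zero_mul, add_zero,
    zero_add, e]

theorem Lg_conj_Qm (g : GL (Fin m) F) (S : Matrix (Fin m) (Fin m) F) (hS : S.IsSymm) :
    Lg g * Qm S hS * (Lg g)⁻¹ =
      Qm ((g : Matrix (Fin m) (Fin m) F) * S * (g : Matrix (Fin m) (Fin m) F)ᵀ)
      (isSymm_congr _ hS) := by
  rw [Lg_mul_Qm, mul_inv_cancel_right]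

end Cfsg.Agent.H88.Spn
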