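import Mathlib
import Cfsg.Agent.H88.SpnA

/-!
helper88: `Sp_{2m}(F)`: the unitriangular subgroup `U = EL rk`, its parametrization by
`Uni × Sym`, its order, and the Sylow property of its image in `PSp`.
-/

set_option autoImplicit false
set_option linter.unusedSectionVars false

namespace Cfsg.Agent.H88.Spn

open Matrix

open Cfsg.Agent.H50.AutPSL

variable {m : ℕ} {F : Type*} [Field F] [Fintype F]

/-! ### The centre and the quotient map -/

theorem negOne_mul_negOne :
    Cfsg.Agent.H6.spNegOne (Fin m) F * Cfsg.Agent.H6.spNegOne (Fin m) F = 1 := by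
  apply Subtype.ext
  show (-1 : Matrix (Fin m ⊕ Fin m) (Fin m ⊕ Fin m) F) * (-1) = 1
  rw [neg_mul_neg, Matrix.one_mul]

theorem negOne_comm (g : Matrix.symplecticGroup (Fin m) F) :
    Cfsg.Agent.H6.spNegOne (Fin m) F * g = g * Cfsg.Agent.H6.spNegOne (Fin m) F := by
  apply Subtype.ext
  show (-1 : Matrix (Fin m ⊕ Fin m) (Fin m ⊕ Fin m) F) * g.1 = g.1 * (-1)
  rw [neg_one_mul, mul_neg_one]

theorem mk_eq_mk_iff [Nonempty (Fin m)] (g h : Matrix.symplecticGroup (Fin m) F) :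
    (QuotientGroup.mk g : Cfsg.PSp m F) = QuotientGroup.mk h ↔
      g = h ∨ g = Cfsg.Agent.H6.spNegOne (Fin m) F * h := by
  rw [QuotientGroup.eq, Cfsg.Agent.H45.sp_mem_center_iff]
  constructor
  · rintro (h1 | h1)
    · left
      exact (inv_mul_eq_one.1 h1)
    · right
      have h2 : h = g * Cfsg.Agent.H6.spNegOne (Fin m) F := by rw [← h1, mul_inv_cancel_left]
      rw [h2, negOne_comm, mul_assoc, negOne_mul_negOne, mul_one]
  · rintro (rfl | rfl)
    · left
      exact inv_mul_cancel _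
    · right
      rw [negOne_comm, _root_.mul_inv_rev, inv_mul_cancel_right]
      exact inv_eq_of_mul_eq_one_right negOne_mul_negOne

theorem negOne_eq_one_of_pow (p : ℕ) [Fact p.Prime] [CharP F p] (k : ℕ)
    (h : Cfsg.Agent.H6.spNegOne (Fin m) F ^ (p ^ k) = 1) :
    Cfsg.Agent.H6.spNegOne (Fin m) F = 1 := by
  by_cases hp2 : p = 2
  · subst hp2
    have h2 : (2 : F) = 0 := by exact_mod_cast CharP.cast_eq_zero F 2
    have h1 : (-1 : F) = 1 := by linear_combination -h2
    apply Subtype.ext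
    show (-1 : Matrix (Fin m ⊕ Fin m) (Fin m ⊕ Fin m) F) = 1
    ext i j
    rw [Matrix.neg_apply]
    by_cases hij : i = j
    · rw [hij, Matrix.one_apply_eq, h1]
    · rw [Matrix.one_apply_ne hij, neg_zero]
  · have hodd : Odd (p ^ k) := ((Fact.out : p.Prime).odd_of_ne_two hp2).pow
    obtain ⟨t, ht⟩ := hodd
    rw [ht, pow_succ, pow_mul, sq, negOne_mul_negOne, one_pow, one_mul] at h
    exact h

/-- Two `p`-elements of `Sp` with the same image in `PSp` are equal. -/
theorem eq_of_mk_eq_of_pow [Nonempty (Fin m)] (p : ℕ) [Fact p.Prime] [CharP F p] (k : ℕ)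
    {x s : Matrix.symplecticGroup (Fin m) F} (hx : x ^ (p ^ k) = 1) (hs : s ^ (p ^ k) = 1)
    (h : (QuotientGroup.mk x : Cfsg.PSp m F) = QuotientGroup.mk s) : x = s := by
  rcases (mk_eq_mk_iff x s).1 h with h1 | h1
  · exact h1
  · have h2 : Cfsg.Agent.H6.spNegOne (Fin m) F ^ (p ^ k) = 1 := by
      have h3 : x ^ (p ^ k) = Cfsg.Agent.H6.spNegOne (Fin m) F ^ (p ^ k) * s ^ (p ^ k) := by
        rw [h1]
        exact (show Commute (Cfsg.Agent.H6.spNegOne (Fin m) F) s from negOne_comm s).mul_pow _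
      rw [hx, hs, mul_one] at h3
      exact h3.symm
    rw [h1, negOne_eq_one_of_pow p k h2, one_mul]

/-! ### Level functions -/

/-- The rank function of the standard flag `e₀ < ⋯ < e_{m-1} < f_{m-1} < ⋯ < f₀`. -/
def rk (m : ℕ) : Fin m ⊕ Fin m → ℕ
  | Sum.inl i => i.val
  | Sum.inr i => 2 * m - 1 - i.val

/-- The level function of the Siegel parabolic. -/
def lamQ (m : ℕ) : Fin m ⊕ Fin m → ℕ
  | Sum.inl _ => 0
  | Sum.inr _ => 1

theorem rk_inl (i : Fin m) : rk m (Sum.inl i) = i.val := rfl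

theorem rk_inr (i : Fin m) : rk m (Sum.inr i) = 2 * m - 1 - i.val := rfl

theorem rk_injective : Function.Injective (rk m) := by
  intro a b h
  rcases a with a | a <;> rcases b with b | b
  · rw [rk_inl, rk_inl] at h
    rw [Fin.ext h]
  · rw [rk_inl, rk_inr] at h
    have := a.isLt
    have := b.isLt
    omega
  · rw [rk_inl, rk_inr] at h
    have := a.isLt
    have := b.isLt
    omega
  · rw [rk_inr, rk_inr] at h
    have := a.isLt
    have := b.isLt
    rw [Fin.ext (show a.val = b.val by omega)]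

theorem Qm_mem_ELQ (S : Matrix (Fin m) (Fin m) F) (hS : S.IsSymm) : Qm S hS ∈ EL (lamQ m) := by
  intro i j hij
  rw [Qm_val]
  rcases i with i | i <;> rcases j with j | j
  · rw [Matrix.fromBlocks_apply₁₁]
    by_cases h : i = j
    · rw [h, Matrix.one_apply_eq, Matrix.one_apply_eq]
    · rw [Matrix.one_apply_ne h, Matrix.one_apply_ne (fun e => h (Sum.inl.inj e))]
  · exact absurd hij (by simp [lamQ])
  · rw [Matrix.fromBlocks_apply₂₁, Matrix.one_apply_ne (by simp)]
    rfl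
  · rw [Matrix.fromBlocks_apply₂₂]
    by_cases h : i = j
    · rw [h, Matrix.one_apply_eq, Matrix.one_apply_eq]
    · rw [Matrix.one_apply_ne h, Matrix.one_apply_ne (fun e => h (Sum.inr.inj e))]

theorem exists_Qm_of_mem_ELQ {g : Matrix.symplecticGroup (Fin m) F} (hg : g ∈ EL (lamQ m)) :
    ∃ (S : Matrix (Fin m) (Fin m) F) (hS : S.IsSymm), g = Qm S hS := by
  have h1 : g.1 = Matrix.fromBlocks 1 g.1.toBlocks₁₂ 0 1 := by
    conv_lhs => rw [← Matrix.fromBlocks_toBlocks g.1]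
    congr 1
    · ext i j
      show g.1 (Sum.inl i) (Sum.inl j) = _
      rw [hg _ _ (by simp [lamQ])]
      by_cases h : i = j
      · rw [h, Matrix.one_apply_eq, Matrix.one_apply_eq]
      · rw [Matrix.one_apply_ne h, Matrix.one_apply_ne (fun e => h (Sum.inl.inj e))]
    · ext i j
      show g.1 (Sum.inr i) (Sum.inl j) = _
      rw [hg _ _ (by simp [lamQ]), Matrix.one_apply_ne (by simp)]
      rfl
    · ext i j
      show g.1 (Sum.inr i) (Sum.inr j) = _
      rw [hg _ _ (by simp [lamQ])]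
      by_cases h : i = j
      · rw [h, Matrix.one_apply_eq, Matrix.one_apply_eq]
      · rw [Matrix.one_apply_ne h, Matrix.one_apply_ne (fun e => h (Sum.inr.inj e))]
  have h2 := g.2
  rw [h1, SymplecticGroup.fromBlocks_mem_iff] at h2
  have hS : g.1.toBlocks₁₂.IsSymm := by
    have h3 := h2.2.1
    rw [Matrix.mul_one, Matrix.transpose_one, Matrix.one_mul] at h3
    exact h3
  exact ⟨_, hS, Subtype.ext h1⟩

theorem ELQ_le_U : (EL (lamQ m) : Subgroup (Matrix.symplecticGroup (Fin m) F)) ≤ EL (rk m) := by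
  apply EL_mono
  intro i j h
  rcases i with i | i <;> rcases j with j | j
  · exact le_rfl
  · rw [rk_inl, rk_inr] at h
    have := i.isLt
    have := j.isLt
    omega
  · exact Nat.zero_le _
  · exact le_rfl

/-! ### The unitriangular subgroup -/

theorem Lg_toGL_val (a : Matrix.SpecialLinearGroup (Fin m) F) :
    (Lg (Matrix.SpecialLinearGroup.toGL a)).1 = Matrix.fromBlocks a.1 0 0 ((a⁻¹).1)ᵀ := by
  rw [Lg_val, ← map_inv]
  rfl

theorem Lg_mem_U (a : Matrix.SpecialLinearGroup (Fin m) F) (ha : a ∈ Uni m F) :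
    Lg (Matrix.SpecialLinearGroup.toGL a) ∈ EL (rk m) := by
  have ha' : IsUT (a⁻¹).1 := (Uni m F).inv_mem ha
  have ha0 : IsUT a.1 := ha
  intro i j hij
  rw [Lg_toGL_val]
  rcases i with i | i <;> rcases j with j | j
  · rw [Matrix.fromBlocks_apply₁₁]
    rw [rk_inl, rk_inl] at hij
    by_cases h : i = j
    · rw [h, Matrix.one_apply_eq, ha0.2]
    · rw [Matrix.one_apply_ne (fun e => h (Sum.inl.inj e))]
      exact ha0.1 i j (lt_of_le_of_ne hij (fun e => h e.symm))
  · rw [rk_inl, rk_inr] at hij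
    have := i.isLt
    have := j.isLt
    omega
  · rw [Matrix.fromBlocks_apply₂₁, Matrix.one_apply_ne (by simp)]
    rfl
  · rw [Matrix.fromBlocks_apply₂₂, Matrix.transpose_apply]
    rw [rk_inr, rk_inr] at hij
    by_cases h : i = j
    · rw [h, Matrix.one_apply_eq, ha'.2]
    · rw [Matrix.one_apply_ne (fun e => h (Sum.inr.inj e))]
      have := i.isLt
      have := j.isLt
      exact ha'.1 j i (lt_of_le_of_ne (by rw [Fin.le_def]; omega) h)

theorem Qm_mem_U (S : Matrix (Fin m) (Fin m) F) (hS : S.IsSymm) : Qm S hS ∈ EL (rk m) :=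
  ELQ_le_U (Qm_mem_ELQ S hS)

/-- Every element of `U` is `Lg a * Qm S` with `a` unitriangular. -/
theorem exists_of_mem_U {g : Matrix.symplecticGroup (Fin m) F} (hg : g ∈ EL (rk m)) :
    ∃ (a : Matrix.SpecialLinearGroup (Fin m) F) (S : Matrix (Fin m) (Fin m) F) (hS : S.IsSymm),
      a ∈ Uni m F ∧ g = Lg (Matrix.SpecialLinearGroup.toGL a) * Qm S hS := by
  have hA : IsUT g.1.toBlocks₁₁ := by
    constructor
    · intro i j hji
      show g.1 (Sum.inl i) (Sum.inl j) = 0
      rw [hg _ _ (by rw [rk_inl, rk_inl]; exact hji.le),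
        Matrix.one_apply_ne (fun e => (ne_of_gt hji) (Sum.inl.inj e))]
    · intro i
      show g.1 (Sum.inl i) (Sum.inl i) = 1
      rw [hg _ _ le_rfl, Matrix.one_apply_eq]
  have hC : g.1.toBlocks₂₁ = 0 := by
    ext i j
    show g.1 (Sum.inr i) (Sum.inl j) = 0
    rw [hg _ _ (by
      rw [rk_inl, rk_inr]
      have := i.isLt
      have := j.isLt
      omega), Matrix.one_apply_ne (by simp)]
  have h2 := g.2
  rw [← Matrix.fromBlocks_toBlocks g.1, SymplecticGroup.fromBlocks_mem_iff, hC] at h2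
  obtain ⟨-, h3, h4⟩ := h2
  rw [Matrix.transpose_zero, Matrix.zero_mul, sub_zero] at h4
  obtain ⟨a, hadef⟩ : ∃ a : Matrix.SpecialLinearGroup (Fin m) F, a = ⟨g.1.toBlocks₁₁, hA.det⟩ :=
    ⟨_, rfl⟩
  have ha1 : a.1 = g.1.toBlocks₁₁ := by rw [hadef]
  have haU : a ∈ Uni m F := by
    show IsUT a.1
    rw [ha1]
    exact hA
  have h5 : a.1 * (a⁻¹).1 = 1 := by
    rw [← Matrix.SpecialLinearGroup.coe_mul, mul_inv_cancel, Matrix.SpecialLinearGroup.coe_one]
  have h6 : g.1.toBlocks₂₂ᵀ * a.1 = 1 := by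
    have := congrArg Matrix.transpose h4
    rw [Matrix.transpose_mul, Matrix.transpose_transpose, Matrix.transpose_one] at this
    rw [ha1]
    exact this
  have h7 : (a⁻¹).1 = g.1.toBlocks₂₂ᵀ := by
    calc (a⁻¹).1 = (g.1.toBlocks₂₂ᵀ * a.1) * (a⁻¹).1 := by rw [h6, Matrix.one_mul]
      _ = g.1.toBlocks₂₂ᵀ := by rw [Matrix.mul_assoc, h5, Matrix.mul_one]
  have hS : (g.1.toBlocks₂₂ᵀ * g.1.toBlocks₁₂).IsSymm := by
    show (g.1.toBlocks₂₂ᵀ * g.1.toBlocks₁₂)ᵀ = _
    rw [Matrix.transpose_mul, Matrix.transpose_transpose]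
    exact h3
  refine ⟨a, _, hS, haU, ?_⟩
  apply Subtype.ext
  show g.1 = (Lg (Matrix.SpecialLinearGroup.toGL a)).1 * (Qm _ hS).1
  rw [Lg_toGL_val, Qm_val, Matrix.fromBlocks_multiply, h7, Matrix.transpose_transpose]
  conv_lhs => rw [← Matrix.fromBlocks_toBlocks g.1]
  rw [hC, ← Matrix.mul_assoc, ← h7, h5, ha1]
  simp only [Matrix.mul_one, Matrix.one_mul, Matrix.mul_zero, Matrix.zero_mul, add_zero, zero_add]

/-- The parametrization of `U`. -/
def uPar (x : Uni m F × {S : Matrix (Fin m) (Fin m) F // S.IsSymm}) :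
    (EL (rk m) : Subgroup (Matrix.symplecticGroup (Fin m) F)) :=
  ⟨Lg (Matrix.SpecialLinearGroup.toGL x.1.1) * Qm x.2.1 x.2.2,
    mul_mem (Lg_mem_U _ x.1.2) (Qm_mem_U _ _)⟩

theorem uPar_bijective : Function.Bijective (uPar (m := m) (F := F)) := by
  constructor
  · rintro ⟨⟨a, ha⟩, ⟨S, hS⟩⟩ ⟨⟨a', ha'⟩, ⟨S', hS'⟩⟩ h
    have h1 : (Lg (Matrix.SpecialLinearGroup.toGL a)).1 * (Qm S hS).1 =
        (Lg (Matrix.SpecialLinearGroup.toGL a')).1 * (Qm S' hS').1 :=
      congrArg (fun x => x.1.1) h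
    rw [Lg_toGL_val, Lg_toGL_val, Qm_val, Qm_val, Matrix.fromBlocks_multiply,
      Matrix.fromBlocks_multiply, Matrix.fromBlocks_inj] at h1
    obtain ⟨h2, h3, -, -⟩ := h1
    simp only [Matrix.mul_one, Matrix.mul_zero, add_zero] at h2 h3
    have haa : a = a' := Subtype.ext h2
    subst haa
    have h5 : (a⁻¹).1 * a.1 = 1 := by
      rw [← Matrix.SpecialLinearGroup.coe_mul, inv_mul_cancel, Matrix.SpecialLinearGroup.coe_one]
    have hSS : S = S' := by
      calc S = (a⁻¹).1 * (a.1 * S) := by rw [← Matrix.mul_assoc, h5, Matrix.one_mul]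
        _ = (a⁻¹).1 * (a.1 * S') := by rw [h3]
        _ = S' := by rw [← Matrix.mul_assoc, h5, Matrix.one_mul]
    subst hSS
    rfl
  · rintro ⟨g, hg⟩
    obtain ⟨a, S, hS, ha, e⟩ := exists_of_mem_U hg
    exact ⟨⟨⟨a, ha⟩, ⟨S, hS⟩⟩, Subtype.ext e.symm⟩

/-- Symmetric matrices from their upper triangle. -/
def symMat (f : (Σ j : Fin m, Fin (j.val + 1)) → F) : Matrix (Fin m) (Fin m) F :=
  Matrix.of fun i j => if h : i ≤ j then f ⟨j, ⟨i.val, Nat.lt_succ_of_le (Fin.le_def.1 h)⟩⟩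
    else f ⟨i, ⟨j.val, Nat.lt_succ_of_le (Fin.le_def.1 (le_of_lt (not_le.1 h)))⟩⟩

theorem symMat_isSymm (f : (Σ j : Fin m, Fin (j.val + 1)) → F) : (symMat f).IsSymm := by
  ext i j
  rw [Matrix.transpose_apply]
  simp only [symMat, Matrix.of_apply]
  by_cases h1 : i ≤ j
  · by_cases h2 : j ≤ i
    · have e : i = j := le_antisymm h1 h2
      subst e
      rfl
    · rw [dif_pos h1, dif_neg h2]
  · have h2 : j ≤ i := le_of_lt (not_le.1 h1)
    rw [dif_neg h1, dif_pos h2]

/-- The symmetric matrices are parametrized by their upper triangle. -/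
def symEquiv : {S : Matrix (Fin m) (Fin m) F // S.IsSymm} ≃ ((Σ j : Fin m, Fin (j.val + 1)) → F) where
  toFun S := fun p => S.1 ⟨p.2.val, lt_of_lt_of_le p.2.isLt p.1.isLt⟩ p.1
  invFun f := ⟨symMat f, symMat_isSymm f⟩
  left_inv := by
    rintro ⟨S, hS⟩
    apply Subtype.ext
    ext i j
    simp only [symMat, Matrix.of_apply]
    by_cases h1 : i ≤ j
    · rw [dif_pos h1]
    · rw [dif_neg h1]
      have := congrFun (congrFun hS.eq i) j
      rw [Matrix.transpose_apply] at this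
      exact this
  right_inv := by
    intro f
    funext p
    simp only [symMat, Matrix.of_apply]
    rw [dif_pos (by rw [Fin.le_def]; exact Nat.le_of_lt_succ p.2.isLt)]

theorem card_sym : Nat.card {S : Matrix (Fin m) (Fin m) F // S.IsSymm} =
    Fintype.card F ^ (∑ j : Fin m, (j.val + 1)) := by
  rw [Nat.card_congr symEquiv, Nat.card_fun, Nat.card_sigma, Nat.card_eq_fintype_card]
  simp only [Nat.card_eq_fintype_card, Fintype.card_fin]

theorem sum_fin_sq (m : ℕ) : (∑ j : Fin m, (j : ℕ)) + ∑ j : Fin m, (j.val + 1) = m ^ 2 := by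
  induction m with
  | zero => simp
  | succ m ih =>
    rw [Fin.sum_univ_castSucc, Fin.sum_univ_castSucc (f := fun j : Fin (m + 1) => j.val + 1)]
    simp only [Fin.val_castSucc, Fin.val_last]
    have : (∑ j : Fin m, (j : ℕ)) + m + (∑ j : Fin m, (j.val + 1) + (m + 1)) =
        ((∑ j : Fin m, (j : ℕ)) + ∑ j : Fin m, (j.val + 1)) + (2 * m + 1) := by ring
    rw [this, ih]
    ring

theorem card_U : Nat.card (EL (rk m) : Subgroup (Matrix.symplecticGroup (Fin m) F)) =
    Fintype.card F ^ (m ^ 2) := by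
  rw [← Nat.card_congr (Equiv.ofBijective _ (uPar_bijective (m := m) (F := F))), Nat.card_prod,
    card_Uni, card_sym, ← pow_add, sum_fin_sq]

/-- The image of `U` in `PSp`. -/
def Ub (m : ℕ) (F : Type*) [Field F] [Fintype F] : Subgroup (Cfsg.PSp m F) :=
  (EL (rk m)).map (QuotientGroup.mk' _)

theorem isPGroup_U {p f : ℕ} [Fact p.Prime] (hF : Fintype.card F = p ^ f) :
    IsPGroup p (EL (rk m) : Subgroup (Matrix.symplecticGroup (Fin m) F)) :=
  IsPGroup.of_card (by rw [card_U, hF, ← pow_mul])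

theorem exists_sylow_Ub {p f : ℕ} [Fact p.Prime] (hF : Fintype.card F = p ^ f) (hf : 1 ≤ f) :
    ∃ P : Sylow p (Cfsg.PSp m F), (P : Subgroup (Cfsg.PSp m F)) = Ub m F := by
  have hp := (Fact.out : p.Prime)
  have hP1 : IsPGroup p ↥(Ub m F) := (isPGroup_U hF).map _
  have hidx : ¬ p ∣ (EL (rk m) : Subgroup (Matrix.symplecticGroup (Fin m) F)).index := by
    have h1 := Subgroup.index_mul_card (EL (rk m) : Subgroup (Matrix.symplecticGroup (Fin m) F))
    rw [card_U, Cfsg.Agent.H50.SpCard.card_sp hF m, hF, mul_comm] at h1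
    have h2 : (EL (rk m) : Subgroup (Matrix.symplecticGroup (Fin m) F)).index =
        ∏ i ∈ Finset.range m, ((p ^ f) ^ (2 * (i + 1)) - 1) :=
      Nat.eq_of_mul_eq_mul_left (pow_pos (pow_pos hp.pos _) _) h1
    rw [h2]
    intro hd
    obtain ⟨i, -, hi⟩ := (Prime.dvd_finsetProd_iff hp.prime _).1 hd
    have h3 : p ∣ (p ^ f) ^ (2 * (i + 1)) := by
      rw [← pow_mul]
      exact dvd_pow_self p (by positivity)
    have h4 : 1 ≤ (p ^ f) ^ (2 * (i + 1)) := Nat.one_le_pow _ _ (pow_pos hp.pos _)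
    have h5 : p ∣ 1 := by
      have := (Nat.dvd_sub h3 hi)
      rwa [Nat.sub_sub_self h4] at this
    exact hp.one_lt.ne' (Nat.dvd_one.1 h5)
  have hP2 : ¬ p ∣ (Ub m F).index := fun hd =>
    hidx (dvd_trans hd (Subgroup.index_map_dvd _ (QuotientGroup.mk'_surjective _)))
  exact ⟨hP1.toSylow hP2, IsPGroup.toSylow_coe hP1 hP2⟩

end Cfsg.Agent.H88.Spn
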