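import Mathlib
import Cfsg.Agent.H88.SpnB

/-!
helper88: additive groups of symmetric matrices closed under congruence by `GL_m(F)`:
a nonzero one contains all symmetric matrices as soon as it contains a matrix `c E_ii`,
and always contains some `a (E_ik + E_ki)`.
-/

set_option autoImplicit false
set_option linter.unusedSectionVars false

namespace Cfsg.Agent.H88.Spn

open Matrix

variable {m : ℕ} {F : Type*} [Field F]

theorem single_mul_apply' {n : Type*} [Fintype n] [DecidableEq n] (i j : n) (c : F)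
    (M : Matrix n n F) (k l : n) :
    (Matrix.single i j c * M) k l = if k = i then c * M j l else 0 := by
  by_cases h : k = i
  · rw [if_pos h, h, Matrix.single_mul_apply_same]
  · rw [if_neg h, Matrix.single_mul_apply_of_ne _ _ _ _ _ h]

theorem mul_single_apply' {n : Type*} [Fintype n] [DecidableEq n] (i j : n) (c : F)
    (M : Matrix n n F) (k l : n) :
    (M * Matrix.single i j c) k l = if l = j then M k i * c else 0 := by
  by_cases h : l = j
  · rw [if_pos h, h, Matrix.mul_single_apply_same]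
  · rw [if_neg h, Matrix.mul_single_apply_of_ne _ _ _ _ _ h]

/-- The effect of a transvection congruence, minus the identity. -/
def Yop (S : Matrix (Fin m) (Fin m) F) (i j : Fin m) (c : F) : Matrix (Fin m) (Fin m) F :=
  Matrix.of fun k l => (if k = i then c * S j l else 0) + (if l = i then c * S k j else 0) +
    (if k = i ∧ l = i then c * c * S j j else 0)

theorem single_apply_c {n : Type*} [DecidableEq n] (i j : n) (c : F) (a b : n) :
    Matrix.single i j c a b = if a = i ∧ b = j then c else 0 := by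
  rw [Matrix.single_apply]
  by_cases h : a = i ∧ b = j
  · rw [if_pos h, if_pos ⟨h.1.symm, h.2.symm⟩]
  · rw [if_neg h, if_neg (fun h' => h ⟨h'.1.symm, h'.2.symm⟩)]

theorem cong_tv (S : Matrix (Fin m) (Fin m) F) (i j : Fin m) (c : F) :
    (1 + Matrix.single i j c) * S * (1 + Matrix.single i j c)ᵀ = S + Yop S i j c := by
  rw [Matrix.transpose_add, Matrix.transpose_one, Matrix.transpose_single]
  simp only [Matrix.add_mul, Matrix.mul_add, Matrix.one_mul, Matrix.mul_one,
    Matrix.single_mul_mul_single]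
  ext k l
  simp only [Matrix.add_apply, Yop, Matrix.of_apply, single_mul_apply', mul_single_apply',
    single_apply_c]
  by_cases hk : k = i <;> by_cases hl : l = i <;> simp [hk, hl] <;> ring

/-- The transvection `1 + c E_ij` in `GL`. -/
noncomputable def tvG {i j : Fin m} (hij : i ≠ j) (c : F) : GL (Fin m) F :=
  Matrix.SpecialLinearGroup.toGL (Matrix.SpecialLinearGroup.transvection hij c)

theorem tvG_val {i j : Fin m} (hij : i ≠ j) (c : F) :
    ((tvG hij c : GL (Fin m) F) : Matrix (Fin m) (Fin m) F) = 1 + Matrix.single i j c := rfl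

/-- Diagonal matrices in `GL`. -/
def Dg : (Fin m → Fˣ) →* GL (Fin m) F where
  toFun d := ⟨Matrix.diagonal (fun i => (d i : F)), Matrix.diagonal (fun i => (((d i)⁻¹ : Fˣ) : F)),
    by rw [Matrix.diagonal_mul_diagonal]; simp, by rw [Matrix.diagonal_mul_diagonal]; simp⟩
  map_one' := by
    apply Units.ext
    show Matrix.diagonal (fun i => (((1 : Fin m → Fˣ) i : Fˣ) : F)) = 1
    simp
  map_mul' := by
    intro d e
    apply Units.ext
    show Matrix.diagonal (fun i => (((d * e) i : Fˣ) : F)) =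
      Matrix.diagonal (fun i => (d i : F)) * Matrix.diagonal (fun i => (e i : F))
    rw [Matrix.diagonal_mul_diagonal]
    simp

theorem Dg_val (d : Fin m → Fˣ) :
    ((Dg d : GL (Fin m) F) : Matrix (Fin m) (Fin m) F) = Matrix.diagonal (fun i => (d i : F)) :=
  rfl

theorem Dg_inv_val (d : Fin m → Fˣ) :
    (((Dg d)⁻¹ : GL (Fin m) F) : Matrix (Fin m) (Fin m) F) =
      Matrix.diagonal (fun i => (((d i)⁻¹ : Fˣ) : F)) := rfl

section Module

variable (𝒯 : AddSubgroup (Matrix (Fin m) (Fin m) F))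
  (hc : ∀ S ∈ 𝒯, ∀ g : GL (Fin m) F,
    (g : Matrix (Fin m) (Fin m) F) * S * (g : Matrix (Fin m) (Fin m) F)ᵀ ∈ 𝒯)

include hc

theorem Yop_mem {S : Matrix (Fin m) (Fin m) F} (hS : S ∈ 𝒯) {i j : Fin m} (hij : i ≠ j) (c : F) :
    Yop S i j c ∈ 𝒯 := by
  have h1 := hc S hS (tvG hij c)
  rw [tvG_val, cong_tv] at h1
  have h2 := 𝒯.sub_mem h1 hS
  rwa [add_sub_cancel_left] at h2

theorem scale_mem {S : Matrix (Fin m) (Fin m) F} (hS : S ∈ 𝒯) (d : Fin m → Fˣ) :
    (Matrix.of fun k l => (d k : F) * S k l * (d l : F)) ∈ 𝒯 := by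
  have h1 := hc S hS (Dg d)
  rw [Dg_val, Matrix.diagonal_transpose] at h1
  have e : Matrix.diagonal (fun i => (d i : F)) * S * Matrix.diagonal (fun i => (d i : F)) =
      Matrix.of fun k l => (d k : F) * S k l * (d l : F) := by
    ext k l
    rw [Matrix.mul_diagonal, Matrix.diagonal_mul]
    rfl
  rwa [e] at h1

end Module

theorem Yop_Yop (S : Matrix (Fin m) (Fin m) F) (i j t r : Fin m) (hri : r ≠ i) :
    Yop (Yop S i j 1) t r 1 = Matrix.single t i (S r j) + Matrix.single i t (S j r) := by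
  ext a b
  simp only [Yop, Matrix.of_apply, Matrix.add_apply, single_apply_c, one_mul, if_neg hri,
    false_and, if_false, zero_add, add_zero]
  by_cases ha : a = t <;> by_cases hb : b = i <;> by_cases ha' : a = i <;> by_cases hb' : b = t <;>
    simp_all

theorem exists_ne_ne (hm : 3 ≤ m) (a b : Fin m) : ∃ i : Fin m, i ≠ a ∧ i ≠ b := by
  by_cases h0 : a.val ≠ 0 ∧ b.val ≠ 0
  · exact ⟨⟨0, by omega⟩, fun e => h0.1 (by rw [← e]), fun e => h0.2 (by rw [← e])⟩
  by_cases h1 : a.val ≠ 1 ∧ b.val ≠ 1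
  · exact ⟨⟨1, by omega⟩, fun e => h1.1 (by rw [← e]), fun e => h1.2 (by rw [← e])⟩
  · refine ⟨⟨2, by omega⟩, fun e => ?_, fun e => ?_⟩
    · have e' : (2 : ℕ) = a.val := congrArg Fin.val e
      omega
    · have e' : (2 : ℕ) = b.val := congrArg Fin.val e
      omega

theorem exists_ne_one (hm : 2 ≤ m) (a : Fin m) : ∃ i : Fin m, i ≠ a := by
  by_cases h0 : a.val ≠ 0
  · exact ⟨⟨0, by omega⟩, fun e => h0 (by rw [← e])⟩
  · refine ⟨⟨1, by omega⟩, fun e => ?_⟩
    have e' : (1 : ℕ) = a.val := congrArg Fin.val e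
    omega

theorem exists_ne_zero_one [Fintype F] (h : 3 ≤ Fintype.card F) : ∃ x : F, x ≠ 0 ∧ x ≠ 1 := by
  classical
  by_contra hcon
  push Not at hcon
  have h1 : (Finset.univ : Finset F) ⊆ {0, 1} := by
    intro x _
    by_cases hx : x = 0
    · rw [hx]; exact Finset.mem_insert_self _ _
    · rw [hcon x hx]; exact Finset.mem_insert_of_mem (Finset.mem_singleton_self _)
  have h2 := Finset.card_le_card h1
  have h3 : ({0, 1} : Finset F).card ≤ 2 := Finset.card_le_two
  rw [Finset.card_univ] at h2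
  omega

/-- For `m ≥ 3`, a nonzero congruence-closed group of symmetric matrices contains an
`a (E_ik + E_ki)`. -/
theorem alt_of_three (hm : 3 ≤ m) (𝒯 : AddSubgroup (Matrix (Fin m) (Fin m) F))
    (hsym : ∀ S ∈ 𝒯, S.IsSymm)
    (hc : ∀ S ∈ 𝒯, ∀ g : GL (Fin m) F,
      (g : Matrix (Fin m) (Fin m) F) * S * (g : Matrix (Fin m) (Fin m) F)ᵀ ∈ 𝒯)
    {S : Matrix (Fin m) (Fin m) F} (hS : S ∈ 𝒯) (hS0 : S ≠ 0) :
    ∃ (i k : Fin m) (a : F), i ≠ k ∧ a ≠ 0 ∧ Matrix.single i k a + Matrix.single k i a ∈ 𝒯 := by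
  obtain ⟨r, j, hrj⟩ : ∃ r j, S r j ≠ 0 := by
    by_contra h
    push Not at h
    exact hS0 (by ext a b; exact h a b)
  obtain ⟨i, hir, hij⟩ := exists_ne_ne hm r j
  obtain ⟨t, hti, htr⟩ := exists_ne_ne hm i r
  have h1 := Yop_mem 𝒯 hc hS hij 1
  have h2 := Yop_mem 𝒯 hc h1 htr 1
  rw [Yop_Yop S i j t r hir.symm] at h2
  have hsym' : S j r = S r j := congrFun (congrFun (hsym S hS).eq r) j
  rw [hsym'] at h2
  exact ⟨t, i, S r j, hti, hrj, h2⟩

/-- For `m = 2` and `|F| ≥ 3`, a nonzero congruence-closed group of symmetric matrices contains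
an `a (E_ik + E_ki)`. -/
theorem alt_of_two [Fintype F] (hm : m = 2) (hF : 3 ≤ Fintype.card F)
    (𝒯 : AddSubgroup (Matrix (Fin m) (Fin m) F)) (hsym : ∀ S ∈ 𝒯, S.IsSymm)
    (hc : ∀ S ∈ 𝒯, ∀ g : GL (Fin m) F,
      (g : Matrix (Fin m) (Fin m) F) * S * (g : Matrix (Fin m) (Fin m) F)ᵀ ∈ 𝒯)
    {S : Matrix (Fin m) (Fin m) F} (hS : S ∈ 𝒯) (hS0 : S ≠ 0) :
    ∃ (i k : Fin m) (a : F), i ≠ k ∧ a ≠ 0 ∧ Matrix.single i k a + Matrix.single k i a ∈ 𝒯 := by
  have h2 : ∀ i j k : Fin m, i ≠ j → k = i ∨ k = j := by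
    intro i j k hij
    have h1 : i.val ≠ j.val := fun e => hij (Fin.ext e)
    have := i.isLt
    have := j.isLt
    have := k.isLt
    rcases (show k.val = i.val ∨ k.val = j.val by omega) with e | e
    · exact Or.inl (Fin.ext e)
    · exact Or.inr (Fin.ext e)
  have hsymS : ∀ a b, S a b = S b a := fun a b => congrFun (congrFun (hsym S hS).eq b) a
  by_cases hd : ∃ j, S j j ≠ 0
  · obtain ⟨j, hj⟩ := hd
    obtain ⟨i, hij⟩ := exists_ne_one (by omega) j
    obtain ⟨x, hx0, hx1⟩ := exists_ne_zero_one hF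
    have h1 := Yop_mem 𝒯 hc hS hij 1
    obtain ⟨d, hd⟩ : ∃ d : Fin m → Fˣ, d = fun k => if k = j then Units.mk0 x hx0 else 1 :=
      ⟨_, rfl⟩
    have h3 := 𝒯.sub_mem (scale_mem 𝒯 hc h1 d) h1
    have e : (Matrix.of fun k l => (d k : F) * Yop S i j 1 k l * (d l : F)) - Yop S i j 1 =
        Matrix.single i j ((x - 1) * S j j) + Matrix.single j i ((x - 1) * S j j) := by
      ext a b
      rw [hd]
      simp only [Yop, Matrix.of_apply, Matrix.add_apply, Matrix.sub_apply, single_apply_c, one_mul]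
      rcases h2 i j a hij with rfl | rfl <;> rcases h2 _ _ b hij with rfl | rfl <;>
        simp [hij, hij.symm] <;> ring
    rw [e] at h3
    exact ⟨i, j, (x - 1) * S j j, hij, mul_ne_zero (sub_ne_zero.2 hx1) hj, h3⟩
  · push Not at hd
    obtain ⟨r, j, hrj⟩ : ∃ r j, S r j ≠ 0 := by
      by_contra h
      push Not at h
      exact hS0 (by ext a b; exact h a b)
    have hrj' : r ≠ j := fun e => hrj (by rw [e]; exact hd j)
    have e : S = Matrix.single r j (S r j) + Matrix.single j r (S r j) := by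
      ext a b
      simp only [Matrix.add_apply, single_apply_c]
      rcases h2 r j a hrj' with rfl | rfl <;> rcases h2 _ _ b hrj' with rfl | rfl <;>
        simp [hrj', hrj'.symm, hd, hsymS]
    rw [e] at hS
    exact ⟨r, j, S r j, hrj', hrj, hS⟩

theorem cong_vec (g : Matrix (Fin m) (Fin m) F) (c : F) (v : Fin m → F) :
    g * (c • Matrix.vecMulVec v v) * gᵀ = c • Matrix.vecMulVec (g *ᵥ v) (g *ᵥ v) := by
  rw [Matrix.mul_smul, Matrix.smul_mul, Matrix.mul_vecMulVec, Matrix.vecMulVec_mul,
    Matrix.vecMul_transpose]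

theorem single_eq_vec (i : Fin m) (c : F) :
    Matrix.single i i c = c • Matrix.vecMulVec (Pi.single i (1 : F)) (Pi.single i (1 : F)) := by
  ext a b
  simp only [single_apply_c, Matrix.smul_apply, Matrix.vecMulVec_apply, Pi.single_apply,
    smul_eq_mul]
  by_cases ha : a = i <;> by_cases hb : b = i <;> simp [ha, hb]

theorem vec_pair (i j : Fin m) (hij : i ≠ j) (c t : F) :
    c • Matrix.vecMulVec (Pi.single i (1 : F) + t • Pi.single j (1 : F))
      (Pi.single i (1 : F) + t • Pi.single j (1 : F)) =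
    Matrix.single i i c + (Matrix.single i j (c * t) + Matrix.single j i (c * t)) +
      Matrix.single j j (c * t * t) := by
  ext a b
  simp only [single_apply_c, Matrix.smul_apply, Matrix.vecMulVec_apply, Pi.single_apply,
    smul_eq_mul, Matrix.add_apply, Pi.add_apply, Pi.smul_apply]
  by_cases ha : a = i <;> by_cases hb : b = i <;> by_cases ha' : a = j <;> by_cases hb' : b = j <;>
    simp_all <;> ring

/-- A congruence-closed additive group containing some `c E_ii`, `c ≠ 0`, contains all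
symmetric matrices. -/
theorem all_of_single [Fintype F] (p : ℕ) [Fact p.Prime] [CharP F p]
    (𝒯 : AddSubgroup (Matrix (Fin m) (Fin m) F))
    (hc : ∀ S ∈ 𝒯, ∀ g : GL (Fin m) F,
      (g : Matrix (Fin m) (Fin m) F) * S * (g : Matrix (Fin m) (Fin m) F)ᵀ ∈ 𝒯)
    {i : Fin m} {c : F} (hc0 : c ≠ 0) (h : Matrix.single i i c ∈ 𝒯)
    (S : Matrix (Fin m) (Fin m) F) (hS : S.IsSymm) : S ∈ 𝒯 := by
  have hv : ∀ v : Fin m → F, c • Matrix.vecMulVec v v ∈ 𝒯 → ∀ g : GL (Fin m) F,
      c • Matrix.vecMulVec ((g : Matrix (Fin m) (Fin m) F) *ᵥ v)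
        ((g : Matrix (Fin m) (Fin m) F) *ᵥ v) ∈ 𝒯 := by
    intro v hv g
    have := hc _ hv g
    rwa [cong_vec] at this
  have h0 : c • Matrix.vecMulVec (Pi.single i (1 : F)) (Pi.single i (1 : F)) ∈ 𝒯 := by
    rwa [← single_eq_vec]
  have hpair : ∀ i' j' : Fin m, i' ≠ j' →
      c • Matrix.vecMulVec (Pi.single i' (1 : F)) (Pi.single i' (1 : F)) ∈ 𝒯 → ∀ t : F,
      c • Matrix.vecMulVec (Pi.single i' (1 : F) + t • Pi.single j' (1 : F))
        (Pi.single i' (1 : F) + t • Pi.single j' (1 : F)) ∈ 𝒯 := by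
    intro i' j' hij hi' t
    have h1 := hv _ hi' (tvG hij.symm t)
    rw [tvG_val, ← Matrix.SpecialLinearGroup.transvection_coe hij.symm,
      Matrix.SpecialLinearGroup.transvection_mulVec_single_other] at h1
    exact h1
  have h2 : ∀ j : Fin m, c • Matrix.vecMulVec (Pi.single j (1 : F)) (Pi.single j (1 : F)) ∈ 𝒯 := by
    intro j
    by_cases hji : j = i
    · rw [hji]; exact h0
    · have h1 := hpair i j (Ne.symm hji) h0 1
      have h3 := hv _ h1 (tvG (Ne.symm hji) (-1))
      rw [tvG_val, ← Matrix.SpecialLinearGroup.transvection_coe (Ne.symm hji), Matrix.mulVec_add,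
        Matrix.mulVec_smul, Matrix.SpecialLinearGroup.transvection_mulVec_single_other,
        Matrix.SpecialLinearGroup.transvection_mulVec_single_self] at h3
      have e : Pi.single i (1 : F) + (1 : F) • (Pi.single j (1 : F) + (-1 : F) • Pi.single i (1 : F)) =
          Pi.single j (1 : F) := by
        rw [one_smul, neg_one_smul]
        abel
      rwa [e] at h3
  have h2' : ∀ j : Fin m, Matrix.single j j c ∈ 𝒯 := fun j => by
    rw [single_eq_vec]; exact h2 j
  have hsq : ∀ (j : Fin m) (t : F), Matrix.single j j (c * t * t) ∈ 𝒯 := by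
    intro j t
    by_cases ht : t = 0
    · rw [ht, mul_zero, Matrix.single_zero]
      exact 𝒯.zero_mem
    · have h1 := scale_mem 𝒯 hc (h2' j) (fun k => if k = j then Units.mk0 t ht else 1)
      have e : (Matrix.of fun k l =>
          (((if k = j then Units.mk0 t ht else 1 : Fˣ)) : F) * Matrix.single j j c k l *
            (((if l = j then Units.mk0 t ht else 1 : Fˣ)) : F)) = Matrix.single j j (c * t * t) := by
        ext a b
        simp only [Matrix.of_apply, single_apply_c]
        by_cases hab : a = j ∧ b = j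
        · rw [if_pos hab, if_pos hab, if_pos hab.1, if_pos hab.2, Units.val_mk0]
          ring
        · rw [if_neg hab, if_neg hab, mul_zero, zero_mul]
      rwa [e] at h1
  have h3 : ∀ (j : Fin m) (x : F), Matrix.single j j x ∈ 𝒯 := by
    intro j x
    by_cases hp2 : p = 2
    · subst hp2
      obtain ⟨t, ht⟩ := FiniteField.isSquare_of_char_two (ringChar.eq F 2) (x / c)
      have e : x = c * t * t := by
        rw [mul_assoc, ← ht, mul_div_cancel₀ _ hc0]
      rw [e]
      exact hsq j t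
    · have h2F : (2 : F) ≠ 0 := Ring.two_ne_zero (by rw [ringChar.eq F p]; exact hp2)
      have h1 := 𝒯.sub_mem (hsq j ((x / c + 1) / 2)) (hsq j ((x / c - 1) / 2))
      have e : Matrix.single j j (c * ((x / c + 1) / 2) * ((x / c + 1) / 2)) -
          Matrix.single j j (c * ((x / c - 1) / 2) * ((x / c - 1) / 2)) = Matrix.single j j x := by
        ext a b
        simp only [Matrix.sub_apply, single_apply_c]
        by_cases hab : a = j ∧ b = j
        · simp only [if_pos hab]
          field_simp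
          ring
        · simp only [if_neg hab, sub_zero]
      rwa [e] at h1
  have h4 : ∀ (i' j' : Fin m), i' ≠ j' → ∀ x : F,
      Matrix.single i' j' x + Matrix.single j' i' x ∈ 𝒯 := by
    intro i' j' hij x
    have h1 := hpair i' j' hij (h2 i') (x / c)
    rw [vec_pair i' j' hij, mul_div_cancel₀ _ hc0] at h1
    have h5 := 𝒯.sub_mem (𝒯.sub_mem h1 (h3 j' (x * (x / c)))) (h3 i' c)
    have e : Matrix.single i' i' c + (Matrix.single i' j' x + Matrix.single j' i' x) +
        Matrix.single j' j' (x * (x / c)) - Matrix.single j' j' (x * (x / c)) -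
        Matrix.single i' i' c = Matrix.single i' j' x + Matrix.single j' i' x := by abel
    rwa [e] at h5
  -- decomposition
  obtain ⟨U, hU⟩ : ∃ U : Matrix (Fin m) (Fin m) F, U = Matrix.of fun a b => if a < b then S a b else 0 :=
    ⟨_, rfl⟩
  have hdec : S = Matrix.diagonal (fun a => S a a) + (U + Uᵀ) := by
    ext a b
    rw [Matrix.add_apply, Matrix.add_apply, Matrix.transpose_apply, hU, Matrix.diagonal_apply]
    simp only [Matrix.of_apply]
    rcases lt_trichotomy a b with hab | hab | hab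
    · rw [if_neg (ne_of_lt hab), if_pos hab, if_neg (not_lt.2 hab.le), zero_add, add_zero]
    · rw [hab, if_pos rfl, if_neg (lt_irrefl _), add_zero, add_zero]
    · rw [if_neg (ne_of_gt hab), if_neg (not_lt.2 hab.le), if_pos hab, zero_add, zero_add]
      exact congrFun (congrFun hS.eq b) a
  have hdiag : Matrix.diagonal (fun a => S a a) ∈ 𝒯 := by
    rw [Matrix.matrix_eq_sum_single (Matrix.diagonal (fun a => S a a))]
    apply 𝒯.sum_mem
    intro a _
    apply 𝒯.sum_mem
    intro b _
    by_cases hab : a = b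
    · rw [hab, Matrix.diagonal_apply_eq]
      exact h3 b _
    · rw [Matrix.diagonal_apply_ne _ hab, Matrix.single_zero]
      exact 𝒯.zero_mem
  have hoff : U + Uᵀ ∈ 𝒯 := by
    have e : U + Uᵀ = ∑ a, ∑ b, (Matrix.single a b (U a b) + Matrix.single b a (U a b)) := by
      conv_lhs => rw [Matrix.matrix_eq_sum_single U]
      simp only [Matrix.transpose_sum, Matrix.transpose_single, ← Finset.sum_add_distrib]
    rw [e]
    apply 𝒯.sum_mem
    intro a _
    apply 𝒯.sum_mem
    intro b _
    by_cases hab : a < b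
    · exact h4 a b (ne_of_lt hab) _
    · have e0 : U a b = 0 := by
        rw [hU]
        simp only [Matrix.of_apply]
        rw [if_neg hab]
      rw [e0, Matrix.single_zero, Matrix.single_zero, add_zero]
      exact 𝒯.zero_mem
  rw [hdec]
  exact 𝒯.add_mem hdiag hoff

end Cfsg.Agent.H88.Spn
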