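import Mathlib
import Cfsg.Agent.H50.AutPSLSylow
import Cfsg.Agent.H88.SpnC
import Cfsg.Agent.H88.FamCrit

/-!
helper88: the unitary group of the antidiagonal Hermitian form on `K^n` (with respect to an
involutive ring endomorphism `φ` of `K`), as the subgroup `UG n φ` of `SL_n(K)` of matrices `g`
with `adj φ g * g = 1`, where `adj φ g i j = φ (g j.rev i.rev)`.  Level-function subgroups
`EL lam` (unipotent radicals) and `PL lam` (parabolics), and root elements.
-/

set_option autoImplicit false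
set_option linter.unusedSectionVars false

namespace Cfsg.Agent.H88.Un

open Matrix

variable {n : ℕ} {K : Type*} [Field K]

/-- An involutive ring endomorphism. -/
class Invol (φ : K →+* K) : Prop where
  invol : ∀ a, φ (φ a) = a

/-- The anti-transpose twisted by `φ`. -/
def adj (φ : K →+* K) (M : Matrix (Fin n) (Fin n) K) : Matrix (Fin n) (Fin n) K :=
  Matrix.of fun i j => φ (M j.rev i.rev)

theorem adj_apply (φ : K →+* K) (M : Matrix (Fin n) (Fin n) K) (i j : Fin n) :
    adj φ M i j = φ (M j.rev i.rev) := rfl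

theorem adj_one (φ : K →+* K) : adj φ (1 : Matrix (Fin n) (Fin n) K) = 1 := by
  ext i j
  rw [adj_apply, Matrix.one_apply, Matrix.one_apply]
  by_cases h : i = j
  · rw [if_pos h, if_pos (by rw [h]), map_one]
  · rw [if_neg h, if_neg (fun e => h (Fin.rev_injective e).symm), map_zero]

theorem adj_mul (φ : K →+* K) (M N : Matrix (Fin n) (Fin n) K) :
    adj φ (M * N) = adj φ N * adj φ M := by
  ext i j
  rw [adj_apply, Matrix.mul_apply, map_sum, Matrix.mul_apply,
    ← Equiv.sum_comp Fin.revPerm (fun k => φ (M j.rev k * N k i.rev))]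
  apply Finset.sum_congr rfl
  intro k _
  rw [adj_apply, adj_apply, map_mul, mul_comm]
  rfl

theorem adj_add (φ : K →+* K) (M N : Matrix (Fin n) (Fin n) K) :
    adj φ (M + N) = adj φ M + adj φ N := by
  ext i j
  simp only [adj_apply, Matrix.add_apply, map_add]

theorem adj_sub (φ : K →+* K) (M N : Matrix (Fin n) (Fin n) K) :
    adj φ (M - N) = adj φ M - adj φ N := by
  ext i j
  simp only [adj_apply, Matrix.sub_apply, map_sub]

theorem adj_neg (φ : K →+* K) (M : Matrix (Fin n) (Fin n) K) :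
    adj φ (-M) = -adj φ M := by
  ext i j
  simp only [adj_apply, Matrix.neg_apply, map_neg]

theorem adj_zero (φ : K →+* K) : adj φ (0 : Matrix (Fin n) (Fin n) K) = 0 := by
  ext i j
  simp only [adj_apply, Matrix.zero_apply, map_zero]

/-- `adj` as an additive map. -/
def adjHom (φ : K →+* K) : Matrix (Fin n) (Fin n) K →+ Matrix (Fin n) (Fin n) K where
  toFun := adj φ
  map_zero' := adj_zero φ
  map_add' := adj_add φ

theorem adjHom_apply (φ : K →+* K) (M : Matrix (Fin n) (Fin n) K) : adjHom φ M = adj φ M := rfl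

theorem adj_single (φ : K →+* K) (i j : Fin n) (c : K) :
    adj φ (Matrix.single i j c) = Matrix.single j.rev i.rev (φ c) := by
  ext a b
  rw [adj_apply, Cfsg.Agent.H88.Spn.single_apply_c, Cfsg.Agent.H88.Spn.single_apply_c]
  by_cases h : a = j.rev ∧ b = i.rev
  · rw [if_pos h, if_pos ⟨by rw [h.2, Fin.rev_rev], by rw [h.1, Fin.rev_rev]⟩]
  · rw [if_neg h, if_neg (fun h' => h ⟨by rw [← h'.2, Fin.rev_rev], by rw [← h'.1, Fin.rev_rev]⟩),
      map_zero]

theorem adj_adj (φ : K →+* K) [Invol φ] (M : Matrix (Fin n) (Fin n) K) :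
    adj φ (adj φ M) = M := by
  ext i j
  rw [adj_apply, adj_apply, Fin.rev_rev, Fin.rev_rev, Invol.invol]

theorem adj_diagonal (φ : K →+* K) (d : Fin n → K) :
    adj φ (Matrix.diagonal d) = Matrix.diagonal (fun i => φ (d i.rev)) := by
  ext i j
  rw [adj_apply, Matrix.diagonal_apply, Matrix.diagonal_apply]
  by_cases h : i = j
  · rw [if_pos h, if_pos (by rw [h]), h]
  · rw [if_neg h, if_neg (fun e => h (Fin.rev_injective e).symm), map_zero]

variable [Fintype K]

/-- The special unitary group of the antidiagonal form. -/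
def UG (n : ℕ) (φ : K →+* K) : Subgroup (Matrix.SpecialLinearGroup (Fin n) K) where
  carrier := {g | adj φ g.1 * g.1 = 1}
  one_mem' := by
    show adj φ (1 : Matrix (Fin n) (Fin n) K) * (1 : Matrix (Fin n) (Fin n) K) = 1
    rw [adj_one, Matrix.one_mul]
  mul_mem' := by
    intro a b ha hb
    show adj φ (a.1 * b.1) * (a.1 * b.1) = 1
    rw [adj_mul, Matrix.mul_assoc, ← Matrix.mul_assoc (adj φ a.1), ha, Matrix.one_mul]
    exact hb
  inv_mem' := by
    intro s hs
    have h1 : s⁻¹ = s ^ (orderOf s - 1) := by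
      apply inv_eq_of_mul_eq_one_right
      rw [← pow_succ', Nat.sub_add_cancel (orderOf_pos s), pow_orderOf_eq_one]
    rw [h1]
    have key : ∀ k : ℕ, adj φ (s ^ k).1 * (s ^ k).1 = 1 := by
      intro k
      induction k with
      | zero =>
        show adj φ (1 : Matrix (Fin n) (Fin n) K) * (1 : Matrix (Fin n) (Fin n) K) = 1
        rw [adj_one, Matrix.one_mul]
      | succ k ih =>
        rw [pow_succ]
        show adj φ ((s ^ k).1 * s.1) * ((s ^ k).1 * s.1) = 1
        rw [adj_mul, Matrix.mul_assoc, ← Matrix.mul_assoc (adj φ (s ^ k).1), ih, Matrix.one_mul]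
        exact hs
    exact key _

variable {φ : K →+* K}

theorem adj_mul_self (g : UG n φ) : adj φ g.1.1 * g.1.1 = 1 := g.2

theorem self_mul_adj (g : UG n φ) : g.1.1 * adj φ g.1.1 = 1 := mul_eq_one_comm.1 g.2

theorem mul_val (g h : UG n φ) : (g * h).1.1 = g.1.1 * h.1.1 := rfl

theorem one_val : (1 : UG n φ).1.1 = 1 := rfl

theorem inv_val (g : UG n φ) : (g⁻¹).1.1 = adj φ g.1.1 := by
  have h1 : (g⁻¹).1.1 * g.1.1 = 1 := by
    rw [← mul_val, inv_mul_cancel]
    rfl
  calc (g⁻¹).1.1 = (g⁻¹).1.1 * (g.1.1 * adj φ g.1.1) := by rw [self_mul_adj, Matrix.mul_one]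
    _ = adj φ g.1.1 := by rw [← Matrix.mul_assoc, h1, Matrix.one_mul]

theorem inv_val_mul (g : UG n φ) : (g⁻¹).1.1 * g.1.1 = 1 := by
  rw [← mul_val, inv_mul_cancel]
  rfl

theorem val_mul_inv (g : UG n φ) : g.1.1 * (g⁻¹).1.1 = 1 := by
  rw [← mul_val, mul_inv_cancel]
  rfl

theorem ext_val {g h : UG n φ} (e : g.1.1 = h.1.1) : g = h := Subtype.ext (Subtype.ext e)

theorem pow_val (g : UG n φ) (k : ℕ) : (g ^ k).1.1 = g.1.1 ^ k := by
  induction k with
  | zero => rfl
  | succ k ih => rw [pow_succ, pow_succ, mul_val, ih]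

/-! ### Level functions -/

/-- `M` is the identity on and below the level blocks of `lam`. -/
def IsUL (lam : Fin n → ℕ) (M : Matrix (Fin n) (Fin n) K) : Prop :=
  ∀ i j, lam j ≤ lam i → M i j = (1 : Matrix (Fin n) (Fin n) K) i j

/-- `M` vanishes below the level blocks of `lam`. -/
def IsBL (lam : Fin n → ℕ) (M : Matrix (Fin n) (Fin n) K) : Prop :=
  ∀ i j, lam j < lam i → M i j = 0

theorem isUL_one (lam : Fin n → ℕ) : IsUL lam (1 : Matrix (Fin n) (Fin n) K) := fun _ _ _ => rfl

theorem isBL_one (lam : Fin n → ℕ) : IsBL lam (1 : Matrix (Fin n) (Fin n) K) := fun i j h =>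
  Matrix.one_apply_ne (fun e => by rw [e] at h; exact lt_irrefl _ h)

theorem IsUL.mul {lam : Fin n → ℕ} {M N : Matrix (Fin n) (Fin n) K}
    (hM : IsUL lam M) (hN : IsUL lam N) : IsUL lam (M * N) := by
  intro i j hij
  have e1 : (1 : Matrix (Fin n) (Fin n) K) i j =
      ∑ k, (1 : Matrix (Fin n) (Fin n) K) i k * (1 : Matrix (Fin n) (Fin n) K) k j := by
    rw [← Matrix.mul_apply, Matrix.mul_one]
  rw [e1, Matrix.mul_apply]
  apply Finset.sum_congr rfl
  intro k _
  by_cases hk : lam k ≤ lam i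
  · rw [hM i k hk]
    by_cases hki : k = i
    · rw [hki, hN i j hij]
    · rw [Matrix.one_apply_ne (Ne.symm hki), zero_mul, zero_mul]
  · have hk' : lam i < lam k := not_le.1 hk
    have hkj : k ≠ j := fun e => by rw [e] at hk'; exact absurd hij (not_le.2 hk')
    have hki : i ≠ k := fun e => by rw [e] at hk'; exact lt_irrefl _ hk'
    rw [hN k j (le_trans hij hk'.le), Matrix.one_apply_ne hkj, mul_zero,
      Matrix.one_apply_ne hki, zero_mul]

theorem IsBL.mul {lam : Fin n → ℕ} {M N : Matrix (Fin n) (Fin n) K}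
    (hM : IsBL lam M) (hN : IsBL lam N) : IsBL lam (M * N) := by
  intro i j hij
  rw [Matrix.mul_apply]
  apply Finset.sum_eq_zero
  intro k _
  by_cases hk : lam k < lam i
  · rw [hM i k hk, zero_mul]
  · rw [hN k j (lt_of_lt_of_le hij (not_lt.1 hk)), mul_zero]

/-- The unipotent radical attached to a level function. -/
def EL (φ : K →+* K) (lam : Fin n → ℕ) : Subgroup (UG n φ) where
  carrier := {g | IsUL lam g.1.1}
  one_mem' := isUL_one lam
  mul_mem' := fun ha hb => IsUL.mul ha hb
  inv_mem' := by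
    intro s hs
    have h1 : s⁻¹ = s ^ (orderOf s - 1) := by
      apply inv_eq_of_mul_eq_one_right
      rw [← pow_succ', Nat.sub_add_cancel (orderOf_pos s), pow_orderOf_eq_one]
    rw [h1]
    have key : ∀ k : ℕ, IsUL lam (s ^ k).1.1 := by
      intro k
      induction k with
      | zero => exact isUL_one lam
      | succ k ih => rw [pow_succ]; exact IsUL.mul ih hs
    exact key _

/-- The parabolic subgroup attached to a level function. -/
def PL (φ : K →+* K) (lam : Fin n → ℕ) : Subgroup (UG n φ) where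
  carrier := {g | IsBL lam g.1.1}
  one_mem' := isBL_one lam
  mul_mem' := fun ha hb => IsBL.mul ha hb
  inv_mem' := by
    intro s hs
    have h1 : s⁻¹ = s ^ (orderOf s - 1) := by
      apply inv_eq_of_mul_eq_one_right
      rw [← pow_succ', Nat.sub_add_cancel (orderOf_pos s), pow_orderOf_eq_one]
    rw [h1]
    have key : ∀ k : ℕ, IsBL lam (s ^ k).1.1 := by
      intro k
      induction k with
      | zero => exact isBL_one lam
      | succ k ih => rw [pow_succ]; exact IsBL.mul ih hs
    exact key _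

theorem mem_EL {lam : Fin n → ℕ} {g : UG n φ} : g ∈ EL φ lam ↔ IsUL lam g.1.1 := Iff.rfl

theorem mem_PL {lam : Fin n → ℕ} {g : UG n φ} : g ∈ PL φ lam ↔ IsBL lam g.1.1 := Iff.rfl

theorem EL_mono {lam lam' : Fin n → ℕ} (h : ∀ i j, lam' j ≤ lam' i → lam j ≤ lam i) :
    (EL φ lam : Subgroup (UG n φ)) ≤ EL φ lam' :=
  fun _ hg i j hij => hg i j (h i j hij)

theorem EL_le_PL {lam lam' : Fin n → ℕ} (h : ∀ i j, lam j < lam i → lam' j ≤ lam' i) :
    (EL φ lam' : Subgroup (UG n φ)) ≤ PL φ lam := by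
  intro g hg i j hij
  rw [hg i j (h i j hij)]
  exact Matrix.one_apply_ne (fun e => by rw [e] at hij; exact lt_irrefl _ hij)

/-- Parabolic elements normalize the unipotent radical. -/
theorem conj_mem_EL {lam : Fin n → ℕ} {y g : UG n φ}
    (hy : y ∈ PL φ lam) (hg : g ∈ EL φ lam) : y * g * y⁻¹ ∈ EL φ lam := by
  have hy' : y⁻¹ ∈ PL φ lam := inv_mem hy
  intro i j hij
  have e1 : (y * g * y⁻¹).1.1 = y.1.1 * (g.1.1 - 1) * (y⁻¹).1.1 + 1 := by
    rw [Matrix.mul_sub, Matrix.sub_mul, Matrix.mul_one, val_mul_inv, sub_add_cancel]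
    rfl
  rw [e1, Matrix.add_apply]
  have e3 : (y.1.1 * (g.1.1 - 1) * (y⁻¹).1.1) i j = 0 := by
    rw [Matrix.mul_apply]
    apply Finset.sum_eq_zero
    intro l _
    by_cases hl : lam j < lam l
    · rw [hy' l j hl, mul_zero]
    · have hl' : lam l ≤ lam j := not_lt.1 hl
      rw [Matrix.mul_apply]
      have : ∑ k, y.1.1 i k * (g.1.1 - 1) k l = 0 := by
        apply Finset.sum_eq_zero
        intro k _
        by_cases hk : lam k < lam i
        · rw [hy i k hk, zero_mul]
        · have hk' : lam i ≤ lam k := not_lt.1 hk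
          rw [Matrix.sub_apply, hg k l (le_trans hl' (le_trans hij hk')), sub_self, mul_zero]
      rw [this, zero_mul]
  rw [e3, zero_add]

end Cfsg.Agent.H88.Un
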