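import Mathlib
import Cfsg.Agent.H88.SUnA

/-!
helper88: root elements of the unitary group `UG n φ`: short root elements `xs`, long root
elements `xl`, the elements `xb` through the middle index (odd `n`), scalars.
-/

set_option autoImplicit false
set_option linter.unusedSectionVars false

namespace Cfsg.Agent.H88.Un

open Matrix

variable {n : ℕ} {K : Type*} [Field K]

theorem rev_ne {i j : Fin n} (h : i ≠ j) : j.rev ≠ i.rev :=
  fun e => h (Fin.rev_injective e).symm

theorem mid_unique {i m : Fin n} (hi : i.rev = i) (hm : m.rev = m) : i = m := by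
  have h1 := congrArg Fin.val hi
  have h2 := congrArg Fin.val hm
  rw [Fin.val_rev] at h1 h2
  apply Fin.ext
  omega

theorem ne_rev_of_ne_mid {i m : Fin n} (hm : m.rev = m) (hi : i ≠ m) : i ≠ i.rev :=
  fun e => hi (mid_unique e.symm hm)

theorem mid_ne_rev {i m : Fin n} (hm : m.rev = m) (hi : i ≠ m) : m ≠ i.rev := by
  intro e
  apply hi
  have := congrArg Fin.rev e
  rw [hm, Fin.rev_rev] at this
  exact this.symm

theorem ssm (i j k l : Fin n) (a b : K) :
    Matrix.single i j a * Matrix.single k l b = if j = k then Matrix.single i l (a * b) else 0 := by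
  by_cases h : j = k
  · rw [if_pos h, h, Matrix.single_mul_single_same]
  · rw [if_neg h, Matrix.single_mul_single_of_ne _ _ _ _ h]

variable [Fintype K] {φ : K →+* K}

/-! ### Short root elements -/

theorem xs_mat {i j : Fin n} (hij : i ≠ j) (hj : j ≠ j.rev) (a : K) :
    (Matrix.SpecialLinearGroup.transvection hij a *
      Matrix.SpecialLinearGroup.transvection (rev_ne hij) (-φ a)).1 =
      1 + Matrix.single i j a - Matrix.single j.rev i.rev (φ a) := by
  rw [Matrix.SpecialLinearGroup.coe_mul, Matrix.SpecialLinearGroup.transvection_coe,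
    Matrix.SpecialLinearGroup.transvection_coe, Matrix.add_mul, Matrix.one_mul, Matrix.mul_add,
    Matrix.mul_one, Matrix.single_mul_single_of_ne _ _ _ _ hj, add_zero, ← Matrix.single_neg]
  abel

/-- The short root element `1 + a E_{ij} - φ(a) E_{j'i'}`. -/
def xs [Invol φ] {i j : Fin n} (hij : i ≠ j) (hi : i ≠ i.rev) (hj : j ≠ j.rev) (a : K) :
    UG n φ :=
  ⟨Matrix.SpecialLinearGroup.transvection hij a *
      Matrix.SpecialLinearGroup.transvection (rev_ne hij) (-φ a), by
    show adj φ (Matrix.SpecialLinearGroup.transvection hij a *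
      Matrix.SpecialLinearGroup.transvection (rev_ne hij) (-φ a)).1 *
      (Matrix.SpecialLinearGroup.transvection hij a *
      Matrix.SpecialLinearGroup.transvection (rev_ne hij) (-φ a)).1 = 1
    rw [xs_mat hij hj, adj_sub, adj_add, adj_one, adj_single, adj_single, Fin.rev_rev,
      Fin.rev_rev, Invol.invol]
    have e1 : Matrix.single i j a * Matrix.single i j a = 0 :=
      Matrix.single_mul_single_of_ne _ _ _ _ hij.symm _
    have e2 : Matrix.single i j a * Matrix.single j.rev i.rev (φ a) = 0 :=
      Matrix.single_mul_single_of_ne _ _ _ _ hj _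
    have e3 : Matrix.single j.rev i.rev (φ a) * Matrix.single i j a = 0 :=
      Matrix.single_mul_single_of_ne _ _ _ _ hi.symm _
    have e4 : Matrix.single j.rev i.rev (φ a) * Matrix.single j.rev i.rev (φ a) = 0 :=
      Matrix.single_mul_single_of_ne _ _ _ _ (rev_ne hij).symm _
    simp only [Matrix.add_mul, Matrix.sub_mul, Matrix.mul_add, Matrix.mul_sub, Matrix.one_mul,
      Matrix.mul_one, e1, e2, e3, e4]
    abel⟩

theorem xs_val [Invol φ] {i j : Fin n} (hij : i ≠ j) (hi : i ≠ i.rev) (hj : j ≠ j.rev) (a : K) :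
    (xs (φ := φ) hij hi hj a).1.1 = 1 + Matrix.single i j a - Matrix.single j.rev i.rev (φ a) :=
  xs_mat hij hj a

/-! ### Long root elements -/

/-- The long root element `1 + c E_{ii'}`, `c + φ c = 0`. -/
def xl [Invol φ] {i : Fin n} (hi : i ≠ i.rev) (c : K) (hc : c + φ c = 0) : UG n φ :=
  ⟨Matrix.SpecialLinearGroup.transvection hi c, by
    show adj φ (Matrix.SpecialLinearGroup.transvection hi c).1 *
      (Matrix.SpecialLinearGroup.transvection hi c).1 = 1
    rw [Matrix.SpecialLinearGroup.transvection_coe, adj_add, adj_one, adj_single, Fin.rev_rev]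
    have e1 : Matrix.single i i.rev (φ c) * Matrix.single i i.rev c = 0 :=
      Matrix.single_mul_single_of_ne _ _ _ _ hi.symm _
    rw [Matrix.add_mul, Matrix.one_mul, Matrix.mul_add, Matrix.mul_one, e1, add_zero,
      add_assoc, add_comm (Matrix.single i i.rev c), ← Matrix.single_add, add_comm (φ c), hc,
      Matrix.single_zero, add_zero]⟩

theorem xl_val [Invol φ] {i : Fin n} (hi : i ≠ i.rev) (c : K) (hc : c + φ c = 0) :
    (xl (φ := φ) hi c hc).1.1 = 1 + Matrix.single i i.rev c :=
  Matrix.SpecialLinearGroup.transvection_coe hi c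

/-! ### Elements through the middle index -/

theorem xb_mat {i m : Fin n} (hm : m.rev = m) (hi : i ≠ m) (a d : K) :
    (Matrix.SpecialLinearGroup.transvection hi a *
      Matrix.SpecialLinearGroup.transvection (mid_ne_rev hm hi) (-φ a) *
      Matrix.SpecialLinearGroup.transvection (ne_rev_of_ne_mid hm hi) (d + a * φ a)).1 =
      1 + Matrix.single i m a - Matrix.single m i.rev (φ a) + Matrix.single i i.rev d := by
  have hi' : i ≠ i.rev := ne_rev_of_ne_mid hm hi
  rw [Matrix.SpecialLinearGroup.coe_mul, Matrix.SpecialLinearGroup.coe_mul,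
    Matrix.SpecialLinearGroup.transvection_coe, Matrix.SpecialLinearGroup.transvection_coe,
    Matrix.SpecialLinearGroup.transvection_coe]
  have e1 : Matrix.single i m a * Matrix.single m i.rev (-φ a) =
      Matrix.single i i.rev (-(a * φ a)) := by
    rw [Matrix.single_mul_single_same, mul_neg]
  have e2 : Matrix.single i m a * Matrix.single i i.rev (d + a * φ a) = 0 :=
    Matrix.single_mul_single_of_ne _ _ _ _ hi.symm _
  have e3 : Matrix.single m i.rev (-φ a) * Matrix.single i i.rev (d + a * φ a) = 0 :=
    Matrix.single_mul_single_of_ne _ _ _ _ hi'.symm _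
  have e4 : Matrix.single i i.rev (-(a * φ a)) * Matrix.single i i.rev (d + a * φ a) = 0 :=
    Matrix.single_mul_single_of_ne _ _ _ _ hi'.symm _
  simp only [Matrix.add_mul, Matrix.mul_add, Matrix.one_mul, Matrix.mul_one, e1, e2, e3, e4]
  have e5 : Matrix.single i i.rev (d + a * φ a) =
      Matrix.single i i.rev d - Matrix.single i i.rev (-(a * φ a)) := by
    rw [Matrix.single_add, ← Matrix.single_neg, sub_neg_eq_add]
  rw [e5, ← Matrix.single_neg m i.rev (φ a)]
  abel

/-- The element `1 + a E_{im} - φ(a) E_{mi'} + d E_{ii'}`, `m` the middle index. -/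
def xb [Invol φ] {i m : Fin n} (hm : m.rev = m) (hi : i ≠ m) (a d : K)
    (h : d + φ d + a * φ a = 0) : UG n φ :=
  ⟨Matrix.SpecialLinearGroup.transvection hi a *
      Matrix.SpecialLinearGroup.transvection (mid_ne_rev hm hi) (-φ a) *
      Matrix.SpecialLinearGroup.transvection (ne_rev_of_ne_mid hm hi) (d + a * φ a), by
    have hi' : i ≠ i.rev := ne_rev_of_ne_mid hm hi
    have hmi : m ≠ i.rev := mid_ne_rev hm hi
    show adj φ (Matrix.SpecialLinearGroup.transvection hi a *
      Matrix.SpecialLinearGroup.transvection (mid_ne_rev hm hi) (-φ a) *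
      Matrix.SpecialLinearGroup.transvection (ne_rev_of_ne_mid hm hi) (d + a * φ a)).1 *
      (Matrix.SpecialLinearGroup.transvection hi a *
      Matrix.SpecialLinearGroup.transvection (mid_ne_rev hm hi) (-φ a) *
      Matrix.SpecialLinearGroup.transvection (ne_rev_of_ne_mid hm hi) (d + a * φ a)).1 = 1
    rw [xb_mat hm hi, adj_add, adj_sub, adj_add, adj_one, adj_single, adj_single, adj_single,
      Fin.rev_rev, hm, Invol.invol]
    have f1 : Matrix.single m i.rev (φ a) * Matrix.single i m a = 0 :=
      Matrix.single_mul_single_of_ne _ _ _ _ hi'.symm _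
    have f2 : Matrix.single m i.rev (φ a) * Matrix.single m i.rev (φ a) = 0 :=
      Matrix.single_mul_single_of_ne _ _ _ _ hmi.symm _
    have f3 : Matrix.single m i.rev (φ a) * Matrix.single i i.rev d = 0 :=
      Matrix.single_mul_single_of_ne _ _ _ _ hi'.symm _
    have f4 : Matrix.single i m a * Matrix.single i m a = 0 :=
      Matrix.single_mul_single_of_ne _ _ _ _ hi.symm _
    have f5 : Matrix.single i m a * Matrix.single m i.rev (φ a) =
        Matrix.single i i.rev (a * φ a) := Matrix.single_mul_single_same _ _ _ _ _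
    have f6 : Matrix.single i m a * Matrix.single i i.rev d = 0 :=
      Matrix.single_mul_single_of_ne _ _ _ _ hi.symm _
    have f7 : Matrix.single i i.rev (φ d) * Matrix.single i m a = 0 :=
      Matrix.single_mul_single_of_ne _ _ _ _ hi'.symm _
    have f8 : Matrix.single i i.rev (φ d) * Matrix.single m i.rev (φ a) = 0 :=
      Matrix.single_mul_single_of_ne _ _ _ _ hmi.symm _
    have f9 : Matrix.single i i.rev (φ d) * Matrix.single i i.rev d = 0 :=
      Matrix.single_mul_single_of_ne _ _ _ _ hi'.symm _
    simp only [Matrix.add_mul, Matrix.sub_mul, Matrix.mul_add, Matrix.mul_sub, Matrix.one_mul,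
      Matrix.mul_one, f1, f2, f3, f4, f5, f6, f7, f8, f9]
    have e6 : Matrix.single i i.rev (a * φ a) =
        -(Matrix.single i i.rev d + Matrix.single i i.rev (φ d)) := by
      rw [← Matrix.single_add, Matrix.single_neg]
      congr 1
      linear_combination h
    rw [e6]
    abel⟩

theorem xb_val [Invol φ] {i m : Fin n} (hm : m.rev = m) (hi : i ≠ m) (a d : K)
    (h : d + φ d + a * φ a = 0) :
    (xb (φ := φ) hm hi a d h).1.1 =
      1 + Matrix.single i m a - Matrix.single m i.rev (φ a) + Matrix.single i i.rev d :=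
  xb_mat hm hi a d

/-! ### Scalars -/

/-- The scalar element `d · 1`. -/
def sc (d : K) (h1 : d ^ n = 1) (h2 : φ d * d = 1) : UG n φ :=
  ⟨⟨Matrix.diagonal (fun _ => d), by
    rw [Matrix.det_diagonal, Finset.prod_const, Finset.card_univ, Fintype.card_fin, h1]⟩, by
    show adj φ (Matrix.diagonal (fun _ => d)) * Matrix.diagonal (fun _ => d) = 1
    rw [adj_diagonal, Matrix.diagonal_mul_diagonal]
    simp only [h2]
    exact Matrix.diagonal_one⟩

theorem sc_val (d : K) (h1 : d ^ n = 1) (h2 : φ d * d = 1) :
    (sc (φ := φ) d h1 h2).1.1 = Matrix.diagonal (fun _ => d) := rfl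

theorem sc_mem_center (d : K) (h1 : d ^ n = 1) (h2 : φ d * d = 1) :
    sc (φ := φ) d h1 h2 ∈ Subgroup.center (UG n φ) := by
  rw [Subgroup.mem_center_iff]
  intro g
  apply ext_val
  rw [mul_val, mul_val, sc_val]
  ext i j
  rw [Matrix.mul_diagonal, Matrix.diagonal_mul, mul_comm]

end Cfsg.Agent.H88.Un
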