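import Mathlib
import Cfsg.Agent.H88.SUnB

/-!
helper88: the unitary group `UG n φ`: commutation with root elements, the centre (scalars),
unipotent elements are `p`-elements, lifting lemmas for the central quotient.
-/

set_option autoImplicit false
set_option linter.unusedSectionVars false

namespace Cfsg.Agent.H88.Un

open Matrix

variable {n : ℕ} {K : Type*} [Field K] [Fintype K] {φ : K →+* K}

/-- The field facts used about the involution. -/
structure Good (φ : K →+* K) : Prop where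
  ex_eps : ∃ ε : K, ε ≠ 0 ∧ ε + φ ε = 0
  ex_tr : ∃ θ : K, θ + φ θ = 1
  ex_nf : ∃ a : K, φ a ≠ a
  ex_norm : ∀ c : K, φ c = c → ∃ a : K, a * φ a = c

theorem comm_N {x N : Matrix (Fin n) (Fin n) K} (h : x * (1 + N) = (1 + N) * x) :
    x * N = N * x := by
  rw [Matrix.mul_add, Matrix.mul_one, Matrix.add_mul, Matrix.one_mul] at h
  exact add_left_cancel h

theorem comm_xl [Invol φ] {i : Fin n} (hi : i ≠ i.rev) (c : K) (hc : c + φ c = 0) (x : UG n φ)
    (hx : x * xl hi c hc = xl hi c hc * x) (k l : Fin n) :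
    (if l = i.rev then x.1.1 k i * c else 0) = (if k = i then c * x.1.1 i.rev l else 0) := by
  have h1 : x.1.1 * (1 + Matrix.single i i.rev c) = (1 + Matrix.single i i.rev c) * x.1.1 := by
    rw [← xl_val hi c hc, ← mul_val, ← mul_val, hx]
  have h2 := congrFun (congrFun (comm_N h1) k) l
  rwa [Spn.mul_single_apply', Spn.single_mul_apply'] at h2

theorem comm_xs [Invol φ] {i j : Fin n} (hij : i ≠ j) (hi : i ≠ i.rev) (hj : j ≠ j.rev) (a : K)
    (x : UG n φ) (hx : x * xs hij hi hj a = xs hij hi hj a * x) (k l : Fin n) :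
    (if l = j then x.1.1 k i * a else 0) - (if l = i.rev then x.1.1 k j.rev * φ a else 0) =
      (if k = i then a * x.1.1 j l else 0) - (if k = j.rev then φ a * x.1.1 i.rev l else 0) := by
  have h1 : x.1.1 * (1 + (Matrix.single i j a - Matrix.single j.rev i.rev (φ a))) =
      (1 + (Matrix.single i j a - Matrix.single j.rev i.rev (φ a))) * x.1.1 := by
    rw [← add_sub_assoc, ← xs_val hij hi hj a, ← mul_val, ← mul_val, hx]
  have h2 := congrFun (congrFun (comm_N h1) k) l
  rwa [Matrix.mul_sub, Matrix.sub_mul, Matrix.sub_apply, Matrix.sub_apply,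
    Spn.mul_single_apply', Spn.mul_single_apply', Spn.single_mul_apply',
    Spn.single_mul_apply'] at h2

theorem comm_xb [Invol φ] {i m : Fin n} (hm : m.rev = m) (hi : i ≠ m) (a d : K)
    (h : d + φ d + a * φ a = 0) (x : UG n φ)
    (hx : x * xb hm hi a d h = xb hm hi a d h * x) (k l : Fin n) :
    (if l = m then x.1.1 k i * a else 0) - (if l = i.rev then x.1.1 k m * φ a else 0) +
      (if l = i.rev then x.1.1 k i * d else 0) =
      (if k = i then a * x.1.1 m l else 0) - (if k = m then φ a * x.1.1 i.rev l else 0) +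
      (if k = i then d * x.1.1 i.rev l else 0) := by
  have h1 : x.1.1 * (1 + (Matrix.single i m a - Matrix.single m i.rev (φ a) +
      Matrix.single i i.rev d)) =
      (1 + (Matrix.single i m a - Matrix.single m i.rev (φ a) + Matrix.single i i.rev d)) *
        x.1.1 := by
    have e : (1 : Matrix (Fin n) (Fin n) K) + (Matrix.single i m a - Matrix.single m i.rev (φ a) +
        Matrix.single i i.rev d) =
        1 + Matrix.single i m a - Matrix.single m i.rev (φ a) + Matrix.single i i.rev d := by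
      abel
    rw [e, ← xb_val hm hi a d h, ← mul_val, ← mul_val, hx]
  have h2 := congrFun (congrFun (comm_N h1) k) l
  rwa [Matrix.mul_add, Matrix.add_mul, Matrix.mul_sub, Matrix.sub_mul, Matrix.add_apply,
    Matrix.add_apply, Matrix.sub_apply, Matrix.sub_apply,
    Spn.mul_single_apply', Spn.mul_single_apply', Spn.mul_single_apply',
    Spn.single_mul_apply', Spn.single_mul_apply', Spn.single_mul_apply'] at h2

/-- A valid parameter for `xb` with `a = 1`. -/
theorem xb_one_param {θ : K} (hθ : θ + φ θ = 1) : -θ + φ (-θ) + 1 * φ 1 = 0 := by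
  rw [map_neg, map_one]
  linear_combination -hθ

theorem rev_val (i : Fin n) : i.rev.val = n - 1 - i.val := by
  rw [Fin.val_rev]
  omega

/-- Central elements are scalar. -/
theorem center_scalar [Invol φ] (hn : 4 ≤ n) (hG : Good φ) (z : UG n φ)
    (hz : z ∈ Subgroup.center (UG n φ)) :
    ∃ d : K, z.1.1 = Matrix.diagonal (fun _ => d) := by
  obtain ⟨ε, hε0, hε⟩ := hG.ex_eps
  obtain ⟨θ, hθ⟩ := hG.ex_tr
  have hcomm : ∀ y : UG n φ, z * y = y * z := fun y => (Subgroup.mem_center_iff.1 hz y).symm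
  have hcol : ∀ i : Fin n, i ≠ i.rev → ∀ k, k ≠ i → z.1.1 k i = 0 := by
    intro i hi k hk
    have h := comm_xl hi ε hε z (hcomm _) k i.rev
    rw [if_pos rfl, if_neg hk] at h
    exact (mul_eq_zero.1 h).resolve_right hε0
  have hrow : ∀ i : Fin n, i ≠ i.rev → ∀ l, l ≠ i → z.1.1 i l = 0 := by
    intro i hi l hl
    have hi' : i.rev ≠ i.rev.rev := by rw [Fin.rev_rev]; exact hi.symm
    have h := comm_xl hi' ε hε z (hcomm _) i.rev l
    rw [Fin.rev_rev, if_neg hl, if_pos rfl] at h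
    exact (mul_eq_zero.1 h.symm).resolve_left hε0
  have hoff : ∀ k l : Fin n, k ≠ l → z.1.1 k l = 0 := by
    intro k l hkl
    by_cases hl : l = l.rev
    · have hk : k ≠ k.rev := fun e => hkl (mid_unique e.symm hl.symm)
      exact hrow k hk l (Ne.symm hkl)
    · exact hcol l hl k hkl
  have hdiag : ∀ i j : Fin n, i ≠ i.rev → j ≠ j.rev → z.1.1 i i = z.1.1 j j := by
    intro i j hi hj
    by_cases hij : i = j
    · rw [hij]
    by_cases hj' : j = i.rev
    · have h := comm_xl hi ε hε z (hcomm _) i i.rev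
      rw [if_pos rfl, if_pos rfl] at h
      rw [hj']
      have h2 : (z.1.1 i i - z.1.1 i.rev i.rev) * ε = 0 := by linear_combination h
      exact sub_eq_zero.1 ((mul_eq_zero.1 h2).resolve_right hε0)
    · have hi' : i ≠ j.rev := by
        intro e
        apply hj'
        rw [e, Fin.rev_rev]
      have h := comm_xs hij hi hj 1 z (hcomm _) i j
      rw [if_pos rfl, if_neg hj', if_pos rfl, if_neg hi'] at h
      linear_combination h
  let i0 : Fin n := ⟨0, by omega⟩
  have hi0 : i0 ≠ i0.rev := by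
    intro e
    have := congrArg Fin.val e
    rw [rev_val] at this
    simp only [i0] at this
    omega
  refine ⟨z.1.1 i0 i0, ?_⟩
  ext k l
  rw [Matrix.diagonal_apply]
  by_cases hkl : k = l
  · rw [if_pos hkl, ← hkl]
    by_cases hk : k = k.rev
    · have hk0 : i0 ≠ k := fun e => hi0 (by rw [e]; exact hk)
      have hk0' : k ≠ i0.rev := mid_ne_rev hk.symm hk0
      have h := comm_xb hk.symm hk0 1 (-θ) (xb_one_param hθ) z (hcomm _) i0 k
      rw [if_pos rfl, if_neg hk0', if_neg hk0', if_pos rfl, if_neg hk0, if_pos rfl,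
        hoff i0.rev k (Ne.symm hk0')] at h
      linear_combination -h
    · exact hdiag k i0 hk hi0
  · rw [if_neg hkl]
    exact hoff k l hkl

/-- The level function of the Borel subgroup. -/
def rk (n : ℕ) : Fin n → ℕ := fun i => i.val

theorem isUT_of_mem_U {u : UG n φ} (hu : u ∈ EL φ (rk n)) :
    Cfsg.Agent.H50.AutPSL.IsUT u.1.1 := by
  constructor
  · intro i j hji
    rw [hu i j (le_of_lt hji)]
    exact Matrix.one_apply_ne (ne_of_gt hji)
  · intro i
    rw [hu i i le_rfl]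
    exact Matrix.one_apply_eq i

variable (p : ℕ) [Fact p.Prime]

/-- Upper unitriangular elements are `p`-elements. -/
theorem U_pow {f : ℕ} (hK : Fintype.card K = p ^ f) {u : UG n φ} (hu : u ∈ EL φ (rk n)) :
    u ^ (p ^ (f * ∑ j : Fin n, (j : ℕ))) = 1 := by
  have h1 : u.1 ∈ Cfsg.Agent.H50.AutPSL.Uni n K := isUT_of_mem_U hu
  have h2 : (⟨u.1, h1⟩ : Cfsg.Agent.H50.AutPSL.Uni n K) ^
      Nat.card (Cfsg.Agent.H50.AutPSL.Uni n K) = 1 := pow_card_eq_one'
  rw [Cfsg.Agent.H50.AutPSL.card_Uni, hK, ← pow_mul] at h2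
  have h3 := congrArg Subtype.val h2
  apply Subtype.ext
  exact h3

/-- Lower unitriangular elements are `p`-elements. -/
theorem L_pow {f : ℕ} (hK : Fintype.card K = p ^ f) {u : UG n φ}
    (hu : ∀ i j : Fin n, i < j → u.1.1 i j = 0) (hd : ∀ i, u.1.1 i i = 1) :
    u ^ (p ^ (f * ∑ j : Fin n, (j : ℕ))) = 1 := by
  have h1 : u.1.transpose ∈ Cfsg.Agent.H50.AutPSL.Uni n K := by
    constructor
    · intro i j hji
      show u.1.1ᵀ i j = 0
      rw [Matrix.transpose_apply]
      exact hu j i hji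
    · intro i
      show u.1.1ᵀ i i = 1
      rw [Matrix.transpose_apply]
      exact hd i
  have h2 : (⟨u.1.transpose, h1⟩ : Cfsg.Agent.H50.AutPSL.Uni n K) ^
      Nat.card (Cfsg.Agent.H50.AutPSL.Uni n K) = 1 := pow_card_eq_one'
  rw [Cfsg.Agent.H50.AutPSL.card_Uni, hK, ← pow_mul] at h2
  have h3 : (u.1.transpose ^ (p ^ (f * ∑ j : Fin n, (j : ℕ)))).1 = 1 :=
    congrArg (fun x : Cfsg.Agent.H50.AutPSL.Uni n K => x.1.1) h2
  rw [Matrix.SpecialLinearGroup.coe_pow, Matrix.SpecialLinearGroup.coe_transpose,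
    ← Matrix.transpose_pow] at h3
  apply ext_val
  rw [pow_val, one_val]
  have h4 := congrArg Matrix.transpose h3
  rwa [Matrix.transpose_transpose, Matrix.transpose_one] at h4

variable [CharP K p]

/-- A central `p`-element is trivial. -/
theorem center_pow_eq_one [Invol φ] (hn : 4 ≤ n) (hG : Good φ) (z : UG n φ)
    (hz : z ∈ Subgroup.center (UG n φ)) (k : ℕ) (hk : z ^ (p ^ k) = 1) : z = 1 := by
  obtain ⟨d, hd⟩ := center_scalar hn hG z hz
  have h1 : z.1.1 ^ (p ^ k) = 1 := by rw [← pow_val, hk]; rfl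
  rw [hd, Matrix.diagonal_pow] at h1
  let i0 : Fin n := ⟨0, by omega⟩
  have h2 := congrFun (congrFun h1 i0) i0
  rw [Matrix.diagonal_apply_eq, Matrix.one_apply_eq] at h2
  have h3 : d ^ (p ^ k) = 1 := h2
  have h4 : (d - 1) ^ (p ^ k) = 0 := by rw [sub_pow_char_pow, h3, one_pow, sub_self]
  have h5 : d = 1 := sub_eq_zero.1 ((pow_eq_zero_iff (pow_pos (Fact.out : p.Prime).pos k).ne').1 h4)
  apply ext_val
  rw [hd, h5]
  exact Matrix.diagonal_one

/-- The central quotient. -/
abbrev PU (n : ℕ) (φ : K →+* K) : Type _ := UG n φ ⧸ Subgroup.center (UG n φ)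

/-- Two `p`-elements with the same image in the central quotient are equal. -/
theorem eq_of_mk_eq_of_pow [Invol φ] (hn : 4 ≤ n) (hG : Good φ) (a b : UG n φ) (k : ℕ)
    (ha : a ^ (p ^ k) = 1) (hb : b ^ (p ^ k) = 1)
    (h : (QuotientGroup.mk a : PU n φ) = QuotientGroup.mk b) : a = b := by
  have hz : a⁻¹ * b ∈ Subgroup.center (UG n φ) := QuotientGroup.eq.1 h
  have hcomm : Commute a⁻¹ b := by
    have h1 := Subgroup.mem_center_iff.1 hz a
    show a⁻¹ * b = b * a⁻¹
    symm
    calc b * a⁻¹ = a * (a⁻¹ * b) * a⁻¹ := by group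
      _ = a⁻¹ * b * a * a⁻¹ := by rw [h1]
      _ = a⁻¹ * b := by group
  have h2 : (a⁻¹ * b) ^ (p ^ k) = 1 := by
    rw [hcomm.mul_pow, inv_pow, ha, hb, inv_one, mul_one]
  have h3 := center_pow_eq_one p hn hG _ hz k h2
  exact inv_mul_eq_one.1 h3

/-- If the images commute and `e`, `x e x⁻¹` are `p`-elements, then `x` and `e` commute. -/
theorem comm_of_mk_comm [Invol φ] (hn : 4 ≤ n) (hG : Good φ) (x e : UG n φ) (k : ℕ)
    (he : e ^ (p ^ k) = 1)
    (h : (QuotientGroup.mk x : PU n φ) * QuotientGroup.mk e = QuotientGroup.mk e *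
      QuotientGroup.mk x) : x * e = e * x := by
  have h1 : (x * e * x⁻¹) ^ (p ^ k) = 1 := by
    rw [conj_pow, he, mul_one, mul_inv_cancel]
  have h2 : (QuotientGroup.mk (x * e * x⁻¹) : PU n φ) = QuotientGroup.mk e := by
    rw [QuotientGroup.mk_mul, QuotientGroup.mk_mul, h, QuotientGroup.mk_inv, mul_inv_cancel_right]
  have h3 := eq_of_mk_eq_of_pow p hn hG _ _ k h1 he h2
  calc x * e = x * e * x⁻¹ * x := by group
    _ = e * x := by rw [h3]

/-- The image of a unipotent radical in the central quotient. -/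
def Eb (φ : K →+* K) (lam : Fin n → ℕ) : Subgroup (PU n φ) :=
  (EL φ lam).map (QuotientGroup.mk' (Subgroup.center (UG n φ)))

theorem mk_mem_Eb {lam : Fin n → ℕ} {g : UG n φ} (hg : g ∈ EL φ lam) :
    (QuotientGroup.mk g : PU n φ) ∈ Eb φ lam := ⟨g, hg, rfl⟩

/-- Elements whose class conjugates `Ū` into itself conjugate `U` into itself. -/
theorem conj_mem_U_of_conj [Invol φ] (hn : 4 ≤ n) (hG : Good φ) {f : ℕ}
    (hK : Fintype.card K = p ^ f) {g : UG n φ}
    (hg : ∀ x ∈ Eb φ (rk n), (QuotientGroup.mk g : PU n φ) * x * (QuotientGroup.mk g)⁻¹ ∈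
      Eb φ (rk n))
    {u : UG n φ} (hu : u ∈ EL φ (rk n)) : g * u * g⁻¹ ∈ EL φ (rk n) := by
  have h1 : (QuotientGroup.mk g : PU n φ) * QuotientGroup.mk u * (QuotientGroup.mk g)⁻¹ ∈
      Eb φ (rk n) := hg _ (mk_mem_Eb hu)
  obtain ⟨u', hu', hu'e⟩ := h1
  have h2 : (g * u * g⁻¹) ^ (p ^ (f * ∑ j : Fin n, (j : ℕ))) = 1 := by
    rw [conj_pow, U_pow p hK hu, mul_one, mul_inv_cancel]
  have h3 : u' = g * u * g⁻¹ := by
    apply eq_of_mk_eq_of_pow p hn hG _ _ _ (U_pow p hK hu') h2
    rw [QuotientGroup.mk_mul, QuotientGroup.mk_mul, QuotientGroup.mk_inv]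
    exact hu'e
  rw [← h3]
  exact hu'

/-- Elements whose class normalizes `Ū` conjugate `U` into itself. -/
theorem conj_mem_U_of_normalizer [Invol φ] (hn : 4 ≤ n) (hG : Good φ) {f : ℕ}
    (hK : Fintype.card K = p ^ f) {g : UG n φ}
    (hg : (QuotientGroup.mk g : PU n φ) ∈ Subgroup.normalizer ((Eb φ (rk n) : Subgroup (PU n φ)) : Set (PU n φ)))
    {u : UG n φ} (hu : u ∈ EL φ (rk n)) : g * u * g⁻¹ ∈ EL φ (rk n) :=
  conj_mem_U_of_conj p hn hG hK (fun x hx => (Subgroup.mem_normalizer_iff.1 hg x).1 hx) hu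

theorem mk_mem_normalizer {lam : Fin n → ℕ} {y : UG n φ} (hy : y ∈ PL φ lam) :
    (QuotientGroup.mk y : PU n φ) ∈ Subgroup.normalizer ((Eb φ lam : Subgroup (PU n φ)) : Set (PU n φ)) := by
  rw [Subgroup.mem_normalizer_iff]
  intro x
  constructor
  · rintro ⟨g, hg, rfl⟩
    exact ⟨y * g * y⁻¹, conj_mem_EL hy hg, rfl⟩
  · rintro ⟨g, hg, hge⟩
    refine ⟨y⁻¹ * g * y, ?_, ?_⟩
    · have := conj_mem_EL (inv_mem hy) hg
      rwa [inv_inv] at this
    · have e : x = (QuotientGroup.mk y : PU n φ)⁻¹ * (QuotientGroup.mk y * x *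
          (QuotientGroup.mk y)⁻¹) * QuotientGroup.mk y := by group
      rw [e, ← hge]
      rfl

end Cfsg.Agent.H88.Un
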