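import Mathlib
import Cfsg.Prelude.Def_FusionSystem
import Cfsg.Agent.H69.SymSylowE

/-!
helper88: definitions and exact piece statements for S5165 (the `p`-fusion system of `A_n` is
simple for `p ^ 2 ≤ n`, `n % p ≤ 1`).

Model for `p` odd: points `Pt I E p = (I × ZMod p) ⊕ E` (`E` has at most one point), the base
group `baseB` of fibrewise translations, the square `ZMod p × ZMod p` embedded through
`j : ZMod p ↪ I`, the subgroup `subQ` (translations of the square together with the fibrewise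
translations off the square), `subR1 = baseB ⊔ ⟨tau0⟩`, and the elements `dEl u` (the diagonal
linear maps `(k, x) ↦ (u⁻¹ k, u x)` of the square).
-/

set_option autoImplicit false

namespace Cfsg.Agent.H88.AltF

open Cfsg

/-- The points of the model. -/
abbrev Pt (I E : Type) (p : ℕ) : Type := (I × ZMod p) ⊕ E

section defs

variable {I : Type} (E : Type) {p : ℕ}

/-- Fibrewise translations. -/
def fibP (f : I → ZMod p) : Equiv.Perm (Pt I E p) :=
  Equiv.sumCongr (Equiv.prodCongrRight fun i => Equiv.addRight (f i)) (Equiv.refl E)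

/-- Fibrewise multiplications by units. -/
def diagP (a : I → (ZMod p)ˣ) : Equiv.Perm (Pt I E p) :=
  Equiv.sumCongr (Equiv.prodCongrRight fun i => Units.mulLeft (a i)) (Equiv.refl E)

variable (p) in
/-- Permutations of the base. -/
def baseP (σ : Equiv.Perm I) : Equiv.Perm (Pt I E p) :=
  Equiv.sumCongr (Equiv.prodCongr σ (Equiv.refl (ZMod p))) (Equiv.refl E)

@[simp] theorem fibP_inl (f : I → ZMod p) (i : I) (x : ZMod p) :
    fibP E f (Sum.inl (i, x)) = Sum.inl (i, x + f i) := rfl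

@[simp] theorem fibP_inr (f : I → ZMod p) (e : E) : fibP E f (Sum.inr e) = Sum.inr e := rfl

@[simp] theorem diagP_inl (a : I → (ZMod p)ˣ) (i : I) (x : ZMod p) :
    diagP E a (Sum.inl (i, x)) = Sum.inl (i, (a i : ZMod p) * x) := rfl

@[simp] theorem diagP_inr (a : I → (ZMod p)ˣ) (e : E) : diagP E a (Sum.inr e) = Sum.inr e := rfl

@[simp] theorem baseP_inl (σ : Equiv.Perm I) (i : I) (x : ZMod p) :
    baseP E p σ (Sum.inl (i, x)) = Sum.inl (σ i, x) := rfl

@[simp] theorem baseP_inr (σ : Equiv.Perm I) (e : E) : baseP E p σ (Sum.inr e) = Sum.inr e := rfl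

theorem fibP_add (f g : I → ZMod p) : fibP E (f + g) = fibP E f * fibP E g := by
  ext (⟨i, x⟩ | e)
  · simp [add_comm (f i) (g i), add_assoc]
  · simp

@[simp] theorem fibP_zero : fibP E (0 : I → ZMod p) = 1 := by
  ext (⟨i, x⟩ | e) <;> simp

theorem fibP_neg (f : I → ZMod p) : fibP E (-f) = (fibP E f)⁻¹ := by
  rw [eq_inv_iff_mul_eq_one, ← fibP_add]
  simp

theorem fibP_injective : Function.Injective (fibP E : (I → ZMod p) → Equiv.Perm (Pt I E p)) := by
  intro f g h
  funext i
  have := congrArg (fun σ : Equiv.Perm (Pt I E p) => σ (Sum.inl (i, 0))) h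
  simpa using this

theorem baseP_mul (σ τ : Equiv.Perm I) : baseP E p (σ * τ) = baseP E p σ * baseP E p τ := by
  ext (⟨i, x⟩ | e) <;> simp

@[simp] theorem baseP_one : baseP E p (1 : Equiv.Perm I) = 1 := by
  ext (⟨i, x⟩ | e) <;> simp

theorem baseP_inv (σ : Equiv.Perm I) : baseP E p σ⁻¹ = (baseP E p σ)⁻¹ := by
  rw [eq_inv_iff_mul_eq_one, ← baseP_mul]
  simp

theorem diagP_mul (a b : I → (ZMod p)ˣ) : diagP E (a * b) = diagP E a * diagP E b := by
  ext (⟨i, x⟩ | e)
  · simp [mul_assoc]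
  · simp

@[simp] theorem diagP_one : diagP E (1 : I → (ZMod p)ˣ) = 1 := by
  ext (⟨i, x⟩ | e) <;> simp

variable (I p) in
/-- The base group: all fibrewise translations. -/
def baseB : Subgroup (Equiv.Perm (Pt I E p)) where
  carrier := Set.range (fibP E)
  mul_mem' := by
    rintro _ _ ⟨f, rfl⟩ ⟨g, rfl⟩
    exact ⟨f + g, fibP_add E f g⟩
  one_mem' := ⟨0, fibP_zero E⟩
  inv_mem' := by
    rintro _ ⟨f, rfl⟩
    exact ⟨-f, fibP_neg E f⟩

theorem mem_baseB {g : Equiv.Perm (Pt I E p)} : g ∈ baseB I E p ↔ ∃ f, fibP E f = g := Iff.rfl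

theorem fibP_mem_baseB (f : I → ZMod p) : fibP E f ∈ baseB I E p := ⟨f, rfl⟩

/-- The embedding of the square. -/
def sqEmb (j : ZMod p ↪ I) : ZMod p × ZMod p ↪ Pt I E p where
  toFun v := Sum.inl (j v.1, v.2)
  inj' := by
    rintro ⟨k, x⟩ ⟨k', x'⟩ h
    simp only [Sum.inl.injEq, Prod.mk.injEq, EmbeddingLike.apply_eq_iff_eq] at h
    exact Prod.ext h.1 h.2

/-- Permutations of the square, extended by the identity. -/
noncomputable def sqP (j : ZMod p ↪ I) : Equiv.Perm (ZMod p × ZMod p) →* Equiv.Perm (Pt I E p) :=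
  Equiv.Perm.viaEmbeddingHom (sqEmb E j)

theorem sqP_apply (j : ZMod p ↪ I) (g : Equiv.Perm (ZMod p × ZMod p)) (k x : ZMod p) :
    sqP E j g (Sum.inl (j k, x)) = Sum.inl (j (g (k, x)).1, (g (k, x)).2) :=
  Equiv.Perm.viaEmbedding_apply g (sqEmb E j) (k, x)

theorem sqP_apply_of_notMem (j : ZMod p ↪ I) (g : Equiv.Perm (ZMod p × ZMod p)) (i : I)
    (hi : i ∉ Set.range j) (x : ZMod p) : sqP E j g (Sum.inl (i, x)) = Sum.inl (i, x) := by
  apply Equiv.Perm.viaEmbedding_apply_of_notMem
  rintro ⟨⟨k, y⟩, h⟩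
  apply hi
  have h1 : (Sum.inl (j k, y) : Pt I E p) = Sum.inl (i, x) := h
  simp only [Sum.inl.injEq, Prod.mk.injEq] at h1
  exact ⟨k, h1.1⟩

theorem sqP_apply_inr (j : ZMod p ↪ I) (g : Equiv.Perm (ZMod p × ZMod p)) (e : E) :
    sqP E j g (Sum.inr e) = Sum.inr e := by
  apply Equiv.Perm.viaEmbedding_apply_of_notMem
  rintro ⟨⟨k, y⟩, h⟩
  have h1 : (Sum.inl (j k, y) : Pt I E p) = Sum.inr e := h
  simp at h1

theorem sign_sqP [Fintype I] [DecidableEq I] [Fintype E] [DecidableEq E] [NeZero p]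
    (j : ZMod p ↪ I) (g : Equiv.Perm (ZMod p × ZMod p)) :
    Equiv.Perm.sign (sqP E j g) = Equiv.Perm.sign g := by
  classical
  unfold sqP
  rw [Equiv.Perm.viaEmbeddingHom_apply]
  unfold Equiv.Perm.viaEmbedding
  convert Equiv.Perm.sign_extendDomain g (Equiv.ofInjective (sqEmb E j).1 (sqEmb E j).2)

/-- The base translation of the square. -/
noncomputable def tau0 (j : ZMod p ↪ I) : Equiv.Perm (Pt I E p) :=
  sqP E j (Equiv.addRight ((1 : ZMod p), (0 : ZMod p)))

/-- `Q`: translations of the square and fibrewise translations off the square. -/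
noncomputable def subQ (j : ZMod p ↪ I) : Subgroup (Equiv.Perm (Pt I E p)) :=
  Subgroup.closure (Set.range (fun v : ZMod p × ZMod p => sqP E j (Equiv.addRight v)) ∪
    {g | ∃ f : I → ZMod p, (∀ k, f (j k) = 0) ∧ fibP E f = g})

/-- `R1 = B ⟨tau0⟩`. -/
noncomputable def subR1 (j : ZMod p ↪ I) : Subgroup (Equiv.Perm (Pt I E p)) :=
  baseB I E p ⊔ Subgroup.zpowers (tau0 E j)

/-- The diagonal linear map `(k, x) ↦ (u⁻¹ k, u x)` of the square. -/
noncomputable def dEl (j : ZMod p ↪ I) (u : (ZMod p)ˣ) : Equiv.Perm (Pt I E p) :=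
  sqP E j (Equiv.prodCongr (Units.mulLeft u⁻¹) (Units.mulLeft u))

end defs

/-- The subgroup generated by the even permutations of `p`-power order normalizing `X`. -/
def pGen (p : ℕ) {α : Type} [Fintype α] [DecidableEq α] (X : Subgroup (Equiv.Perm α)) :
    Subgroup (Equiv.Perm α) :=
  Subgroup.closure {y : Equiv.Perm α | Equiv.Perm.sign y = 1 ∧
    y ∈ Subgroup.normalizer (X : Set (Equiv.Perm α)) ∧ ∃ k : ℕ, orderOf y = p ^ k}

/-! ### Piece statements, `p` odd, in the model -/

/-- (CB) the base group is self-centralizing. -/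
def StmtCB : Prop :=
  ∀ (I E : Type) [Fintype I] [DecidableEq I] [Fintype E] [DecidableEq E] [Subsingleton E]
    (p : ℕ) [Fact p.Prime],
    Subgroup.centralizer ((baseB I E p : Subgroup (Equiv.Perm (Pt I E p))) :
      Set (Equiv.Perm (Pt I E p))) ≤ baseB I E p

/-- (CQ) `subQ` is self-centralizing. -/
def StmtCQ : Prop :=
  ∀ (I E : Type) [Fintype I] [DecidableEq I] [Fintype E] [DecidableEq E] [Subsingleton E]
    (p : ℕ) [Fact p.Prime] (j : ZMod p ↪ I),
    Subgroup.centralizer ((subQ E j : Subgroup (Equiv.Perm (Pt I E p))) :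
      Set (Equiv.Perm (Pt I E p))) ≤ subQ E j

/-- (NB) the normalizer of a `p`-subgroup containing the base group normalizes the base group. -/
def StmtNB : Prop :=
  ∀ (I E : Type) [Fintype I] [DecidableEq I] [Fintype E] [DecidableEq E] [Subsingleton E]
    (p : ℕ) [Fact p.Prime] (S : Subgroup (Equiv.Perm (Pt I E p))),
    IsPGroup p S → baseB I E p ≤ S →
    Subgroup.normalizer (S : Set (Equiv.Perm (Pt I E p))) ≤
      Subgroup.normalizer ((baseB I E p : Subgroup (Equiv.Perm (Pt I E p))) :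
        Set (Equiv.Perm (Pt I E p)))

/-- (DQ) `dEl u` is a product of even `p`-elements normalizing `subQ`. -/
def StmtDQ : Prop :=
  ∀ (I E : Type) [Fintype I] [DecidableEq I] [Fintype E] [DecidableEq E] [Subsingleton E]
    (p : ℕ) [Fact p.Prime], p ≠ 2 → ∀ (j : ZMod p ↪ I) (u : (ZMod p)ˣ),
    dEl E j u ∈ pGen p (subQ E j)

/-- (DN) `dEl u` normalizes the base group and `subR1`. -/
def StmtDN : Prop :=
  ∀ (I E : Type) [Fintype I] [DecidableEq I] [Fintype E] [DecidableEq E] [Subsingleton E]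
    (p : ℕ) [Fact p.Prime] (j : ZMod p ↪ I) (u : (ZMod p)ˣ),
    dEl E j u ∈ Subgroup.normalizer ((baseB I E p : Subgroup (Equiv.Perm (Pt I E p))) :
        Set (Equiv.Perm (Pt I E p))) ∧
    dEl E j u ∈ Subgroup.normalizer ((subR1 E j : Subgroup (Equiv.Perm (Pt I E p))) :
        Set (Equiv.Perm (Pt I E p)))

/-- (QR) `subQ ≤ subR1`, `subR1` is a `p`-group of even permutations, the base group is not
trivial. -/
def StmtQR : Prop :=
  ∀ (I E : Type) [Fintype I] [DecidableEq I] [Fintype E] [DecidableEq E] [Subsingleton E]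
    (p : ℕ) [Fact p.Prime], p ≠ 2 → p ≤ Fintype.card I → ∀ (j : ZMod p ↪ I),
    subQ E j ≤ subR1 E j ∧ IsPGroup p (subR1 E j) ∧
    subR1 E j ≤ alternatingGroup (Pt I E p) ∧ baseB I E p ≠ ⊥

/-- (NORMB) the normalizer of the base group consists of the monomial maps. -/
def StmtNormB : Prop :=
  ∀ (I E : Type) [Fintype I] [DecidableEq I] [Fintype E] [DecidableEq E] [Subsingleton E]
    (p : ℕ) [Fact p.Prime] (g : Equiv.Perm (Pt I E p)),
    g ∈ Subgroup.normalizer ((baseB I E p : Subgroup (Equiv.Perm (Pt I E p))) :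
        Set (Equiv.Perm (Pt I E p))) →
    ∃ (f : I → ZMod p) (a : I → (ZMod p)ˣ) (σ : Equiv.Perm I),
      g = fibP E f * diagP E a * baseP E p σ

/-- (ALTGEN) even permutations are products of elements of order `p`. -/
def StmtAltGen : Prop :=
  ∀ (I : Type) [Fintype I] [DecidableEq I] (p : ℕ) [Fact p.Prime], p ≠ 2 → p ≤ Fintype.card I →
    ∀ σ : Equiv.Perm I, Equiv.Perm.sign σ = 1 →
      σ ∈ Subgroup.closure {c : Equiv.Perm I | orderOf c = p}

/-- (DIAGK) diagonal elements of determinant one are products of even `p`-elements normalizing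
the base group. -/
def StmtDiagK : Prop :=
  ∀ (I E : Type) [Fintype I] [DecidableEq I] [Fintype E] [DecidableEq E] [Subsingleton E]
    (p : ℕ) [Fact p.Prime], p ≠ 2 → p ≤ Fintype.card I →
    ∀ a : I → (ZMod p)ˣ, ∏ i, a i = 1 → diagP E a ∈ pGen p (baseB I E p)

/-- (GEN) every even element of the normalizer of the base group is, up to some `dEl u`, a
product of even `p`-elements of that normalizer. -/
def StmtGen : Prop :=
  ∀ (I E : Type) [Fintype I] [DecidableEq I] [Fintype E] [DecidableEq E] [Subsingleton E]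
    (p : ℕ) [Fact p.Prime], p ≠ 2 → p ≤ Fintype.card I →
    ∀ (j : ZMod p ↪ I) (g : Equiv.Perm (Pt I E p)),
    g ∈ Subgroup.normalizer ((baseB I E p : Subgroup (Equiv.Perm (Pt I E p))) :
        Set (Equiv.Perm (Pt I E p))) → Equiv.Perm.sign g = 1 →
    ∃ u : (ZMod p)ˣ, g * dEl E j u ∈ pGen p (baseB I E p)

/-- (SCA) a nontrivial subgroup closed under fusion contains the base group. -/
def StmtSCa : Prop :=
  ∀ (I E : Type) [Fintype I] [DecidableEq I] [Fintype E] [DecidableEq E] [Subsingleton E]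
    (p : ℕ) [Fact p.Prime], p ≠ 2 → p ≤ Fintype.card I →
    ∀ (S T : Subgroup (Equiv.Perm (Pt I E p))), IsPGroup p S → baseB I E p ≤ S → T ≤ S → T ≠ ⊥ →
      (∀ x ∈ T, ∀ d : Equiv.Perm (Pt I E p), Equiv.Perm.sign d = 1 →
        d * x * d⁻¹ ∈ S → d * x * d⁻¹ ∈ T) →
      baseB I E p ≤ T

/-- (SCB) every element of order dividing `p` is conjugate, under an even permutation, into the
base group. -/
def StmtSCb : Prop :=
  ∀ (I E : Type) [Fintype I] [DecidableEq I] [Fintype E] [DecidableEq E] [Subsingleton E]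
    (p : ℕ) [Fact p.Prime], p ≠ 2 → p ≤ Fintype.card I →
    ∀ x : Equiv.Perm (Pt I E p), x ^ p = 1 →
      ∃ w : Equiv.Perm (Pt I E p), Equiv.Perm.sign w = 1 ∧ w * x * w⁻¹ ∈ baseB I E p

/-- (GENP) Sylow subgroups of alternating groups are generated by their elements of order `p`. -/
def StmtGenP : Prop :=
  ∀ (α : Type) [Fintype α] [DecidableEq α] (p : ℕ) [Fact p.Prime]
    (S : Sylow p (alternatingGroup α)),
    Cfsg.Agent.H69.GenP p (S : Subgroup (alternatingGroup α))

/-- (ISO) simplicity of the fusion system on a Sylow subgroup is invariant under group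
isomorphisms and the choice of the Sylow subgroup. -/
def StmtIso : Prop :=
  ∀ (G G' : Type) [Group G] [Group G'] [Finite G] [Finite G'] (_e : G ≃* G') (p : ℕ)
    [Fact p.Prime] (S : Sylow p G) (S' : Sylow p G'),
    (groupFusionSystem (S : Subgroup G)).IsSimple p →
    (groupFusionSystem (S' : Subgroup G')).IsSimple p

/-- The model statement for `p` odd. -/
def StmtModelOdd : Prop :=
  ∀ (I E : Type) [Fintype I] [DecidableEq I] [Fintype E] [DecidableEq E] [Subsingleton E]
    (p : ℕ) [Fact p.Prime], p ≠ 2 → p ≤ Fintype.card I →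
    ∃ S : Sylow p (alternatingGroup (Pt I E p)),
      (groupFusionSystem (S : Subgroup (alternatingGroup (Pt I E p)))).IsSimple p

/-! ### Piece statements, `p = 2` -/

/-- (SNS) Sylow `2`-subgroups of symmetric groups are self-normalizing. -/
def StmtSelfNormSym : Prop :=
  ∀ (n : ℕ) (P : Sylow 2 (Equiv.Perm (Fin n))),
    Subgroup.normalizer ((P : Subgroup (Equiv.Perm (Fin n))) : Set (Equiv.Perm (Fin n))) ≤ P

/-- (SNA) Sylow `2`-subgroups of `A_n`, `n ≥ 6`, are self-normalizing. -/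
def StmtSelfNormAlt : Prop :=
  ∀ (n : ℕ), 6 ≤ n → ∀ (P : Sylow 2 (alternatingGroup (Fin n))),
    Subgroup.normalizer ((P : Subgroup (alternatingGroup (Fin n))) :
      Set (alternatingGroup (Fin n))) ≤ P

/-- (SC2) a Sylow `2`-subgroup of `A_n`, `n ≥ 6`, has no proper nontrivial subgroup closed under
fusion. -/
def StmtSCTwo : Prop :=
  ∀ (n : ℕ), 6 ≤ n → ∀ (P : Sylow 2 (alternatingGroup (Fin n)))
    (T : Subgroup (alternatingGroup (Fin n))), T ≤ (P : Subgroup (alternatingGroup (Fin n))) →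
    T ≠ ⊥ →
    (∀ x ∈ T, ∀ d : alternatingGroup (Fin n),
      d * x * d⁻¹ ∈ (P : Subgroup (alternatingGroup (Fin n))) → d * x * d⁻¹ ∈ T) →
    T = (P : Subgroup (alternatingGroup (Fin n)))

end Cfsg.Agent.H88.AltF
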