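import Cfsg.Agent.H88.Puig

set_option autoImplicit false

/-!
The hyperfocal subgroup of a saturated fusion system acts on a strongly closed subgroup `T` through
`O^p(Aut_F(T)) Inn(T)`.
-/

namespace Cfsg.Agent.H88

open Cfsg Cfsg.FusionSystem Cfsg.Agent.H86

theorem pResidual_conj_mem (p : ℕ) {G : Type*} [Group G] {n : G} (hn : n ∈ pResidual p G) (g : G) :
    g * n * g⁻¹ ∈ pResidual p G := by
  have h1 : (pResidual p G).map (MulAut.conj g).toMonoidHom ≤ pResidual p G := by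
    unfold pResidual
    rw [MonoidHom.map_closure]
    apply Subgroup.closure_mono
    rintro _ ⟨y, hy, rfl⟩
    show Nat.Coprime (orderOf ((MulAut.conj g) y)) p
    rw [MulEquiv.orderOf_eq]
    exact hy
  exact h1 ⟨n, hn, rfl⟩

variable {Ω : Type*} [Group Ω] {S : Subgroup Ω}

/-- Conjugation by `x` on `T` is realized by an element of `O^p(Aut_F(T)) Inn(T)`. -/
def ActsGood (F : FusionSystem S) (p : ℕ) (T : Subgroup Ω) (x : Ω) : Prop :=
  ∃ α ∈ ((pResidual p (F.autGroup T)).map (F.autGroup T).subtype ⊔ Inn T : Subgroup (MulAut T)),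
    ∀ t : T, ((α t : T) : Ω) = x * (t : Ω) * x⁻¹

section

variable {F : FusionSystem S} {p : ℕ} {T : Subgroup Ω}

lemma actsGood_one : ActsGood F p T 1 := ⟨1, one_mem _, fun t => by simp⟩

lemma actsGood_mul {x y : Ω} (hx : ActsGood F p T x) (hy : ActsGood F p T y) :
    ActsGood F p T (x * y) := by
  obtain ⟨α, hα, Hα⟩ := hx
  obtain ⟨β, hβ, Hβ⟩ := hy
  refine ⟨α * β, mul_mem hα hβ, fun t => ?_⟩
  show ((α (β t) : T) : Ω) = _
  rw [Hα, Hβ]
  group

lemma actsGood_inv {x : Ω} (hx : ActsGood F p T x) : ActsGood F p T x⁻¹ := by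
  obtain ⟨α, hα, Hα⟩ := hx
  refine ⟨α⁻¹, inv_mem hα, fun t => ?_⟩
  have h := Hα (α⁻¹ t)
  have e : α (α⁻¹ t) = t := by simp
  rw [e] at h
  rw [h]
  group

lemma actsGood_of_mem {t : Ω} (ht : t ∈ T) : ActsGood F p T t :=
  ⟨MulAut.conj ⟨t, ht⟩, Subgroup.mem_sup_right ⟨⟨t, ht⟩, rfl⟩, fun _ => rfl⟩

/-- A `p'`-automorphism `β` in `Aut_F(Q)`, `T ≤ Q`: the elements `u⁻¹ β(u)` act well on `T`. -/
lemma actsGood_of_coprime_of_le [Finite S] (hT : F.StronglyClosed T) {Q : Subgroup Ω} (hQS : Q ≤ S)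
    (hTQ : T ≤ Q) {β : MulAut Q} (hβ : β ∈ F.autGroup Q) (hcop : Nat.Coprime (orderOf β) p)
    {u : Ω} (hu : u ∈ Q) : ActsGood F p T (u⁻¹ * autFun Q β u) := by
  have hβm : Mor F Q (autFun Q β) := (mem_autGroup_iff hQS β).1 hβ
  have hbT : Mor F T (autFun Q β) := hβm.restrict hTQ
  have himgT : imgS T (autFun Q β) = T := imgS_stronglyClosed hT hβm hTQ
  have hβT : mkAut hbT himgT ∈ F.autGroup T := mkAut_mem hbT himgT
  have hpow : ∀ i : ℕ, ∀ t ∈ T, autFun T ((mkAut hbT himgT) ^ i) t = autFun Q (β ^ i) t := by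
    intro i
    induction i with
    | zero =>
      intro t ht
      rw [pow_zero, pow_zero, autFun_one ht, autFun_one (hTQ ht)]
    | succ i ih =>
      intro t ht
      have hbt : autFun Q β t ∈ T := map_mem_stronglyClosed hT hβm (hTQ ht) ht
      rw [pow_succ, pow_succ, autFun_mul _ _ ht, autFun_mul _ _ (hTQ ht), autFun_mkAut hbT himgT ht,
        ih _ hbt]
  have hord : (mkAut hbT himgT) ^ (orderOf β) = 1 := by
    apply autFun_ext
    intro t ht
    rw [hpow _ t ht, pow_orderOf_eq_one, autFun_one ht, autFun_one (hTQ ht)]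
  have hcopT : Nat.Coprime (orderOf (mkAut hbT himgT)) p :=
    Nat.Coprime.coprime_dvd_left (orderOf_dvd_of_pow_eq_one hord) hcop
  have hres : (⟨mkAut hbT himgT, hβT⟩ : F.autGroup T) ∈ pResidual p (F.autGroup T) := by
    apply Subgroup.subset_closure
    show Nat.Coprime (orderOf (⟨mkAut hbT himgT, hβT⟩ : F.autGroup T)) p
    rw [Subgroup.orderOf_mk]
    exact hcopT
  obtain ⟨γ, hγ⟩ := exists_conjAut (stronglyClosed_le_normalizer hT (hQS hu))
  have hγA : γ ∈ F.autGroup T :=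
    autInducedBy_le_autGroup F hT.1 ((mem_autInducedBy_iff S T γ).2 ⟨u, hQS hu, hγ⟩)
  have hδ : ((⟨γ, hγA⟩ : F.autGroup T)⁻¹ * ⟨mkAut hbT himgT, hβT⟩ * (⟨γ, hγA⟩ : F.autGroup T)⁻¹⁻¹) *
      (⟨mkAut hbT himgT, hβT⟩ : F.autGroup T)⁻¹ ∈ pResidual p (F.autGroup T) :=
    mul_mem (pResidual_conj_mem p hres _) (inv_mem hres)
  refine ⟨γ⁻¹ * mkAut hbT himgT * γ⁻¹⁻¹ * (mkAut hbT himgT)⁻¹, Subgroup.mem_sup_left ⟨_, hδ, rfl⟩,
    fun t => ?_⟩
  -- compute
  show ((γ⁻¹ ((mkAut hbT himgT) (γ⁻¹⁻¹ ((mkAut hbT himgT)⁻¹ t))) : T) : Ω) = _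
  rw [inv_inv]
  have hs : ((mkAut hbT himgT ((mkAut hbT himgT)⁻¹ t) : T) : Ω) = t := by simp
  rw [mkAut_apply] at hs
  have h1 : (((mkAut hbT himgT) (γ ((mkAut hbT himgT)⁻¹ t)) : T) : Ω) =
      autFun Q β u * (t : Ω) * (autFun Q β u)⁻¹ := by
    rw [mkAut_apply, hγ, hβm.map_mul (Q.mul_mem hu (hTQ (SetLike.coe_mem _))) (Q.inv_mem hu),
      hβm.map_mul hu (hTQ (SetLike.coe_mem _)), hβm.map_inv hu, hs]
  have h2 := hγ (γ⁻¹ ((mkAut hbT himgT) (γ ((mkAut hbT himgT)⁻¹ t))))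
  have e : γ (γ⁻¹ ((mkAut hbT himgT) (γ ((mkAut hbT himgT)⁻¹ t)))) =
      (mkAut hbT himgT) (γ ((mkAut hbT himgT)⁻¹ t)) := by simp
  rw [e, h1] at h2
  have h3 : ((γ⁻¹ ((mkAut hbT himgT) (γ ((mkAut hbT himgT)⁻¹ t))) : T) : Ω) =
      u⁻¹ * (autFun Q β u * (t : Ω) * (autFun Q β u)⁻¹) * u := by
    rw [h2]
    group
  rw [h3]
  group

/-- A `p'`-automorphism `α` in `Aut_F(P)`: the elements `u⁻¹ α(u)` act well on `T`. -/
lemma actsGood_of_coprime [Finite S] [Fact p.Prime] (hS : IsPGroup p S) (hF : F.IsSaturated p)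
    (hT : F.StronglyClosed T) {P : Subgroup Ω} (hPS : P ≤ S) {α : MulAut P} (hα : α ∈ F.autGroup P)
    (hcop : Nat.Coprime (orderOf α) p) {u : Ω} (hu : u ∈ P) :
    ActsGood F p T (u⁻¹ * autFun P α u) := by
  have hp : p.Prime := Fact.out
  have ha : Mor F P (autFun P α) := (mem_autGroup_iff hPS α).1 hα
  obtain ⟨ã, hã, Hã⟩ := exists_extension_mod hS hF hT ha
  have hmaps : ∀ x ∈ P ⊔ T, ã x ∈ P ⊔ T := by
    refine mor_sup_maps hã (fun x hx => ?_) (fun x hx => ?_)
    · have e : ã x = autFun P α x * ((autFun P α x)⁻¹ * ã x) := by group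
      rw [e]
      exact Subgroup.mul_mem_sup (autFun_mem α hx) (Hã x hx)
    · exact Subgroup.mem_sup_right (map_mem_stronglyClosed hT hã (Subgroup.mem_sup_right hx) hx)
  have hQS : P ⊔ T ≤ S := sup_le hPS hT.1
  have hfinQ : Finite (P ⊔ T : Subgroup Ω) := finite_of_le hQS
  have hfinP : Finite P := finite_of_le hPS
  have himg : imgS (P ⊔ T) ã = P ⊔ T := imgS_eq_of_maps hã hmaps
  have hαt : mkAut hã himg ∈ F.autGroup (P ⊔ T) := mkAut_mem hã himg
  obtain ⟨e, n', hn', ho⟩ := Nat.exists_eq_pow_mul_and_not_dvd (orderOf_pos (mkAut hã himg)).ne' p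
    hp.ne_one
  have hm : 0 < orderOf α := orderOf_pos α
  have hk1 : (p ^ e) ^ (orderOf α).totient ≡ 1 [MOD orderOf α] :=
    Nat.ModEq.pow_totient (Nat.Coprime.pow_left e hcop.symm)
  have hpowα : α ^ ((p ^ e) ^ (orderOf α).totient) = α :=
    (pow_eq_pow_iff_modEq.2 hk1).trans (pow_one α)
  have hβ : (mkAut hã himg) ^ ((p ^ e) ^ (orderOf α).totient) ∈ F.autGroup (P ⊔ T) := pow_mem hαt _
  have hβn : ((mkAut hã himg) ^ ((p ^ e) ^ (orderOf α).totient)) ^ n' = 1 := by
    rw [← pow_mul]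
    apply orderOf_dvd_iff_pow_eq_one.1
    rw [ho]
    obtain ⟨j, hj⟩ := Nat.exists_eq_succ_of_ne_zero (Nat.totient_pos.2 hm).ne'
    rw [hj, pow_succ]
    exact ⟨(p ^ e) ^ j, by ring⟩
  have hβcop : Nat.Coprime (orderOf ((mkAut hã himg) ^ ((p ^ e) ^ (orderOf α).totient))) p :=
    Nat.Coprime.coprime_dvd_left (orderOf_dvd_of_pow_eq_one hβn)
      ((Nat.Prime.coprime_iff_not_dvd hp).2 hn').symm
  have hcong : ∀ i : ℕ, ∀ x ∈ P,
      (autFun P (α ^ i) x)⁻¹ * autFun (P ⊔ T) ((mkAut hã himg) ^ i) x ∈ T := by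
    intro i
    induction i with
    | zero =>
      intro x hx
      rw [pow_zero, pow_zero, autFun_one hx, autFun_one (Subgroup.mem_sup_left hx), inv_mul_cancel]
      exact T.one_mem
    | succ i ih =>
      intro x hx
      have hy : autFun P (α ^ i) x ∈ P := autFun_mem _ hx
      have hz : autFun (P ⊔ T) ((mkAut hã himg) ^ i) x ∈ P ⊔ T := autFun_mem _ (Subgroup.mem_sup_left hx)
      have hyz := ih x hx
      rw [pow_succ', pow_succ', autFun_mul _ _ hx, autFun_mul _ _ (Subgroup.mem_sup_left hx),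
        autFun_mkAut hã himg hz]
      have e1 : autFun (P ⊔ T) ((mkAut hã himg) ^ i) x = autFun P (α ^ i) x *
          ((autFun P (α ^ i) x)⁻¹ * autFun (P ⊔ T) ((mkAut hã himg) ^ i) x) := by group
      rw [e1, hã.map_mul (Subgroup.mem_sup_left hy) (Subgroup.mem_sup_right hyz), ← mul_assoc]
      exact T.mul_mem (Hã _ hy) (map_mem_stronglyClosed hT hã (Subgroup.mem_sup_right hyz) hyz)
  have hk := hcong ((p ^ e) ^ (orderOf α).totient) u hu
  rw [hpowα] at hk
  have h1 := actsGood_of_coprime_of_le (p := p) hT hQS le_sup_right hβ hβcop (Subgroup.mem_sup_left hu)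
  have h2 : ActsGood F p T ((autFun (P ⊔ T) ((mkAut hã himg) ^ ((p ^ e) ^ (orderOf α).totient)) u)⁻¹ *
      autFun P α u) := by
    have := T.inv_mem hk
    rw [mul_inv_rev, inv_inv] at this
    exact actsGood_of_mem this
  have h3 := actsGood_mul h1 h2
  have e2 : u⁻¹ * autFun (P ⊔ T) ((mkAut hã himg) ^ ((p ^ e) ^ (orderOf α).totient)) u *
      ((autFun (P ⊔ T) ((mkAut hã himg) ^ ((p ^ e) ^ (orderOf α).totient)) u)⁻¹ * autFun P α u) =
      u⁻¹ * autFun P α u := by group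
  rw [e2] at h3
  exact h3

/-- **The hyperfocal subgroup acts on a strongly closed subgroup `T` through `O^p(Aut_F(T)) Inn(T)`.** -/
theorem hyperfocal_actsGood [Finite S] [Fact p.Prime] (hS : IsPGroup p S) (hF : F.IsSaturated p)
    (hT : F.StronglyClosed T) : ∀ x ∈ F.hyperfocalSubgroup p, ActsGood F p T x := by
  intro x hx
  unfold hyperfocalSubgroup at hx
  induction hx using Subgroup.closure_induction with
  | mem y hy =>
    obtain ⟨P, α, u, hPS, hα, rfl⟩ := hy
    have key : ∀ α : F.autGroup P, α ∈ pResidual p (F.autGroup P) →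
        ∀ u : P, ActsGood F p T ((u : Ω)⁻¹ * ((α : MulAut P) u : P)) := by
      intro α hα
      unfold pResidual at hα
      induction hα using Subgroup.closure_induction with
      | mem g hg =>
        intro u
        have hg' : Nat.Coprime (orderOf (g : MulAut P)) p := by
          rw [Subgroup.orderOf_coe]
          exact hg
        have h := actsGood_of_coprime hS hF hT hPS g.2 hg' u.2
        rwa [autFun_apply] at h
      | one =>
        intro u
        have e : (u : Ω)⁻¹ * ((((1 : F.autGroup P) : MulAut P) u : P) : Ω) = 1 := by simp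
        rw [e]
        exact actsGood_one
      | mul a b _ _ iha ihb =>
        intro u
        have h1 := ihb u
        have h2 := iha ((b : MulAut P) u)
        have h3 := actsGood_mul h1 h2
        have e : (u : Ω)⁻¹ * (((b : MulAut P) u : P) : Ω) *
            ((((b : MulAut P) u : P) : Ω)⁻¹ * (((a : MulAut P) ((b : MulAut P) u) : P) : Ω)) =
            (u : Ω)⁻¹ * ((((a * b : F.autGroup P) : MulAut P) u : P) : Ω) := by
          rw [Subgroup.coe_mul, MulAut.mul_apply]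
          group
        rw [e] at h3
        exact h3
      | inv a _ iha =>
        intro u
        have h1 := actsGood_inv (iha ((a : MulAut P)⁻¹ u))
        have e0 : (a : MulAut P) ((a : MulAut P)⁻¹ u) = u := by simp
        rw [e0] at h1
        have e : ((((a : MulAut P)⁻¹ u : P) : Ω)⁻¹ * (u : Ω))⁻¹ =
            (u : Ω)⁻¹ * ((((a⁻¹ : F.autGroup P) : MulAut P) u : P) : Ω) := by
          rw [Subgroup.coe_inv]
          group
        rw [e] at h1
        exact h1
    exact key α hα u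
  | one => exact actsGood_one
  | mul a b _ _ iha ihb => exact actsGood_mul iha ihb
  | inv a _ iha => exact actsGood_inv iha

end

end Cfsg.Agent.H88
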