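import Mathlib

set_option autoImplicit false

namespace Cfsg.Agent.H88

open Equiv

/-- A `p`-subgroup of the symmetric group on fewer than `p ^ 2` points is commutative. -/
theorem perm_pgroup_comm {α : Type*} [Finite α] (p : ℕ) [Fact p.Prime]
    (hα : Nat.card α < p ^ 2) (H : Subgroup (Perm α)) (hH : IsPGroup p H) :
    ∀ x ∈ H, ∀ y ∈ H, x * y = y * x := by
  classical
  have hp : p.Prime := Fact.out
  intro x hx y hy
  ext a
  let ρ : H →* Perm (MulAction.orbit H a) := MulAction.toPermHom H (MulAction.orbit H a)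
  have hρp : IsPGroup p ρ.range := hH.of_surjective ρ.rangeRestrict ρ.rangeRestrict_surjective
  obtain ⟨k, hk⟩ := hρp.exists_card_eq
  obtain ⟨m, hm⟩ := hH.card_orbit a
  have hOle : Nat.card (MulAction.orbit H a) ≤ Nat.card α :=
    Nat.card_le_card_of_injective (fun z : MulAction.orbit H a => (z : α)) Subtype.val_injective
  have hm1 : m ≤ 1 := by
    by_contra h
    push Not at h
    have : p ^ 2 ≤ p ^ m := Nat.pow_le_pow_right hp.pos h
    omega
  have hdvd : Nat.card ρ.range ∣ Nat.card (Perm (MulAction.orbit H a)) :=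
    Subgroup.card_subgroup_dvd_card _
  rw [Nat.card_perm, hm, hk] at hdvd
  have hk1 : k ≤ 1 := by
    by_contra h
    push Not at h
    have h2 : p ^ 2 ∣ (p ^ m).factorial := (pow_dvd_pow p h).trans hdvd
    have h3 : (p ^ m).factorial ∣ p.factorial := by
      apply Nat.factorial_dvd_factorial
      calc p ^ m ≤ p ^ 1 := Nat.pow_le_pow_right hp.pos hm1
        _ = p := pow_one p
    have h4 : p ^ 2 ∣ p.factorial := h2.trans h3
    obtain ⟨q, hq⟩ : ∃ q, p = q + 1 := ⟨p - 1, by have := hp.pos; omega⟩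
    rw [hq, Nat.factorial_succ, ← hq, pow_two] at h4
    have h5 : p ∣ q.factorial := Nat.dvd_of_mul_dvd_mul_left hp.pos h4
    have h6 := (hp.dvd_factorial).mp h5
    omega
  have hcomm : ∀ u v : ρ.range, u * v = v * u := by
    interval_cases k
    · have : Subsingleton ρ.range := by
        have h1 : Nat.card ρ.range = 1 := by simpa using hk
        exact (Nat.card_eq_one_iff_unique.mp h1).1
      intro u v
      exact Subsingleton.elim _ _
    · have hc : IsCyclic ρ.range := isCyclic_of_prime_card (p := p) (by simpa using hk)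
      intro u v
      exact hc.isMulCommutative.is_comm.comm u v
  have h := hcomm ⟨ρ ⟨x, hx⟩, ⟨_, rfl⟩⟩ ⟨ρ ⟨y, hy⟩, ⟨_, rfl⟩⟩
  have h' : ρ ⟨x, hx⟩ * ρ ⟨y, hy⟩ = ρ ⟨y, hy⟩ * ρ ⟨x, hx⟩ := congrArg Subtype.val h
  have h'' := congrArg (fun σ : Perm (MulAction.orbit H a) =>
    ((σ ⟨a, MulAction.mem_orbit_self a⟩ : MulAction.orbit H a) : α)) h'
  exact h''

/-- The permutation `(i, j) ↦ (i + a, j + b i + c)` of `ZMod p × ZMod p`. -/
def heisPerm (p : ℕ) (a b c : ZMod p) : Perm (ZMod p × ZMod p) where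
  toFun x := (x.1 + a, x.2 + b * x.1 + c)
  invFun x := (x.1 - a, x.2 - b * (x.1 - a) - c)
  left_inv x := by
    apply Prod.ext
    · simp
    · simp only [add_sub_cancel_right]
      ring
  right_inv x := by
    apply Prod.ext
    · simp
    · simp only
      ring

theorem heisPerm_apply (p : ℕ) (a b c : ZMod p) (x : ZMod p × ZMod p) :
    heisPerm p a b c x = (x.1 + a, x.2 + b * x.1 + c) := rfl

theorem heisPerm_mul (p : ℕ) (a b c a' b' c' : ZMod p) :
    heisPerm p a b c * heisPerm p a' b' c' = heisPerm p (a + a') (b + b') (c + c' + b * a') := by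
  ext x
  · simp only [Perm.mul_apply, heisPerm_apply]
    ring
  · simp only [Perm.mul_apply, heisPerm_apply]
    ring

theorem heisPerm_one (p : ℕ) : heisPerm p 0 0 0 = 1 := by
  ext x
  · simp [heisPerm_apply]
  · simp [heisPerm_apply]

theorem heisPerm_inv (p : ℕ) (a b c : ZMod p) :
    (heisPerm p a b c)⁻¹ = heisPerm p (-a) (-b) (-c + b * a) := by
  rw [inv_eq_iff_mul_eq_one, heisPerm_mul, ← heisPerm_one]
  congr 1
  · ring
  · ring
  · ring

/-- The Heisenberg-type group of permutations of `ZMod p × ZMod p`. -/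
def heisSubgroup (p : ℕ) : Subgroup (Perm (ZMod p × ZMod p)) where
  carrier := Set.range (fun t : ZMod p × ZMod p × ZMod p => heisPerm p t.1 t.2.1 t.2.2)
  mul_mem' := by
    rintro _ _ ⟨t, rfl⟩ ⟨t', rfl⟩
    exact ⟨(_, _, _), (heisPerm_mul p _ _ _ _ _ _).symm⟩
  one_mem' := ⟨(0, 0, 0), heisPerm_one p⟩
  inv_mem' := by
    rintro _ ⟨t, rfl⟩
    exact ⟨(_, _, _), (heisPerm_inv p _ _ _).symm⟩

theorem heisPerm_injective (p : ℕ) [Fact p.Prime] :
    Function.Injective (fun t : ZMod p × ZMod p × ZMod p => heisPerm p t.1 t.2.1 t.2.2) := by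
  rintro ⟨a, b, c⟩ ⟨a', b', c'⟩ h
  have h0 := congrArg (fun σ : Perm (ZMod p × ZMod p) => σ (0, 0)) h
  have h1 := congrArg (fun σ : Perm (ZMod p × ZMod p) => σ (1, 0)) h
  simp only [heisPerm_apply, Prod.mk.injEq, zero_add, mul_zero, add_zero, mul_one] at h0 h1
  obtain ⟨ha, hc⟩ := h0
  obtain ⟨-, hb⟩ := h1
  subst ha hc
  have hb' : b = b' := by
    have := congrArg (fun z => z - c) hb
    simpa using this
  subst hb'
  rfl

theorem heisSubgroup_isPGroup (p : ℕ) [Fact p.Prime] : IsPGroup p (heisSubgroup p) := by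
  apply IsPGroup.of_card (n := 3)
  have h1 : Nat.card (heisSubgroup p) =
      Nat.card (Set.range (fun t : ZMod p × ZMod p × ZMod p => heisPerm p t.1 t.2.1 t.2.2)) := rfl
  rw [h1, Nat.card_range_of_injective (heisPerm_injective p)]
  simp only [Nat.card_prod, Nat.card_zmod]
  ring

theorem heisSubgroup_not_comm (p : ℕ) [Fact p.Prime] :
    ∃ x ∈ heisSubgroup p, ∃ y ∈ heisSubgroup p, x * y ≠ y * x := by
  refine ⟨heisPerm p 1 0 0, ⟨(1, 0, 0), rfl⟩, heisPerm p 0 1 0, ⟨(0, 1, 0), rfl⟩, ?_⟩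
  rw [heisPerm_mul, heisPerm_mul]
  intro h
  have h' := heisPerm_injective p (a₁ := (_, _, _)) (a₂ := (_, _, _)) h
  simp only [Prod.mk.injEq] at h'
  have : (0 : ZMod p) = 1 := by simpa using h'.2.2
  exact zero_ne_one this

/-- The sign of left multiplication by a unit of `ℤ` on `ℤˣ` is that unit. -/
theorem sign_toPerm_intUnits (u : ℤˣ) : Perm.sign (MulAction.toPerm u : Perm ℤˣ) = u := by
  rcases Int.units_eq_one_or u with rfl | rfl
  · have h1 : (MulAction.toPerm (1 : ℤˣ) : Perm ℤˣ) = 1 := by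
      ext v
      simp
    rw [h1, map_one]
  · have : (MulAction.toPerm (-1 : ℤˣ) : Perm ℤˣ) = Equiv.swap 1 (-1) := by
      ext v
      rcases Int.units_eq_one_or v with rfl | rfl
      · simp
      · simp
    rw [this, Perm.sign_swap (by decide)]

/-- An injective homomorphism from `Perm α` to `Perm (α ⊕ ℤˣ)` with values even permutations. -/
noncomputable def evenEmb (α : Type*) [DecidableEq α] [Fintype α] : Perm α →* Perm (α ⊕ ℤˣ) :=
  (Perm.sumCongrHom α ℤˣ).comp
    ((MonoidHom.id (Perm α)).prod ((MulAction.toPermHom ℤˣ ℤˣ).comp Perm.sign))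

theorem evenEmb_apply (α : Type*) [DecidableEq α] [Fintype α] (σ : Perm α) :
    evenEmb α σ = Equiv.sumCongr σ (MulAction.toPerm (Perm.sign σ) : Perm ℤˣ) := rfl

theorem sign_evenEmb (α : Type*) [DecidableEq α] [Fintype α] (σ : Perm α) :
    Perm.sign (evenEmb α σ) = 1 := by
  rw [evenEmb_apply, Perm.sign_sumCongr, sign_toPerm_intUnits, Int.units_mul_self]

theorem evenEmb_injective (α : Type*) [DecidableEq α] [Fintype α] :
    Function.Injective (evenEmb α) := by
  intro σ τ h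
  ext a
  have := congrArg (fun π : Perm (α ⊕ ℤˣ) => π (Sum.inl a)) h
  simpa [evenEmb_apply] using this

theorem sign_viaEmbeddingHom {α β : Type*} [DecidableEq α] [Fintype α] [DecidableEq β] [Fintype β]
    (ι : α ↪ β) (σ : Perm α) : Perm.sign (Perm.viaEmbeddingHom ι σ) = Perm.sign σ := by
  classical
  rw [Perm.viaEmbeddingHom_apply]
  unfold Perm.viaEmbedding
  convert Perm.sign_extendDomain σ (Equiv.ofInjective ι.1 ι.2)

/-- For `p ^ 2 ≤ n` and `6 ≤ n` the alternating group of degree `n` has a non-commutative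
`p`-subgroup. -/
theorem exists_noncomm_pgroup_alt (n p : ℕ) [Fact p.Prime] (hn : 6 ≤ n) (hnp : p ^ 2 ≤ n) :
    ∃ K : Subgroup (Perm (Fin n)), IsPGroup p K ∧ K ≤ alternatingGroup (Fin n) ∧
      ∃ x ∈ K, ∃ y ∈ K, x * y ≠ y * x := by
  classical
  have hp : p.Prime := Fact.out
  obtain ⟨x, hx, y, hy, hxy⟩ := heisSubgroup_not_comm p
  rcases hp.eq_two_or_odd' with h2 | hodd
  · subst h2
    have hcard : Fintype.card ((ZMod 2 × ZMod 2) ⊕ ℤˣ) ≤ Fintype.card (Fin n) := by
      simp only [Fintype.card_sum, Fintype.card_prod, ZMod.card, Fintype.card_units_int,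
        Fintype.card_fin]
      omega
    obtain ⟨ι⟩ := Function.Embedding.nonempty_of_card_le hcard
    let f : Perm (ZMod 2 × ZMod 2) →* Perm (Fin n) :=
      (Perm.viaEmbeddingHom ι).comp (evenEmb (ZMod 2 × ZMod 2))
    have hf : Function.Injective f :=
      (Perm.viaEmbeddingHom_injective ι).comp (evenEmb_injective _)
    refine ⟨(heisSubgroup 2).map f, (heisSubgroup_isPGroup 2).map f, ?_,
      f x, ⟨x, hx, rfl⟩, f y, ⟨y, hy, rfl⟩, ?_⟩
    · rintro _ ⟨σ, -, rfl⟩
      rw [Perm.mem_alternatingGroup]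
      show Perm.sign (Perm.viaEmbeddingHom ι (evenEmb _ σ)) = 1
      rw [sign_viaEmbeddingHom, sign_evenEmb]
    · rw [← map_mul, ← map_mul]
      exact fun h => hxy (hf h)
  · have hcard : Fintype.card (ZMod p × ZMod p) ≤ Fintype.card (Fin n) := by
      simp only [Fintype.card_prod, ZMod.card, Fintype.card_fin]
      rw [← pow_two]
      exact hnp
    obtain ⟨ι⟩ := Function.Embedding.nonempty_of_card_le hcard
    have hP : IsPGroup p ((heisSubgroup p).map (Perm.viaEmbeddingHom ι)) :=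
      (heisSubgroup_isPGroup p).map _
    refine ⟨(heisSubgroup p).map (Perm.viaEmbeddingHom ι), hP, ?_,
      Perm.viaEmbeddingHom ι x, ⟨x, hx, rfl⟩, Perm.viaEmbeddingHom ι y, ⟨y, hy, rfl⟩, ?_⟩
    · intro g hg
      rw [Perm.mem_alternatingGroup]
      obtain ⟨k, hk⟩ := hP ⟨g, hg⟩
      have hk' : g ^ p ^ k = 1 := congrArg Subtype.val hk
      have hs : Perm.sign g ^ p ^ k = 1 := by rw [← map_pow, hk', map_one]
      rcases Int.units_eq_one_or (Perm.sign g) with h1 | h1
      · exact h1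
      · rw [h1, (hodd.pow).neg_one_pow] at hs
        exact absurd hs (by decide)
    · rw [← map_mul, ← map_mul]
      exact fun h => hxy (Perm.viaEmbeddingHom_injective ι h)

/-- Sylow `p`-subgroups of the alternating group of degree `n ≥ 6` are commutative exactly
when `n < p ^ 2`. -/
theorem sylow_alt_comm_iff (n p : ℕ) (hn : 6 ≤ n) [Fact p.Prime]
    (S : Sylow p (alternatingGroup (Fin n))) : IsMulCommutative S ↔ n < p ^ 2 := by
  classical
  constructor
  · intro hS
    by_contra hlt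
    push Not at hlt
    obtain ⟨K, hK, hKA, x, hx, y, hy, hxy⟩ := exists_noncomm_pgroup_alt n p hn hlt
    have hK' : IsPGroup p (K.subgroupOf (alternatingGroup (Fin n))) :=
      hK.comap_of_injective _ (Subgroup.subtype_injective _)
    obtain ⟨R, hR⟩ := hK'.exists_le_sylow
    obtain ⟨g, hg⟩ := MulAction.exists_smul_eq (alternatingGroup (Fin n)) R S
    have hmem : ∀ z : alternatingGroup (Fin n), (z : Perm (Fin n)) ∈ K → g * z * g⁻¹ ∈ S := by
      intro z hz
      have hzR : z ∈ (R : Subgroup (alternatingGroup (Fin n))) := hR (Subgroup.mem_subgroupOf.mpr hz)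
      have h4 : g * z * g⁻¹ ∈ ((g • R : Sylow p _) : Subgroup _) := by
        rw [Sylow.coe_subgroup_smul, Subgroup.mem_pointwise_smul_iff_inv_smul_mem]
        simpa [MulAut.smul_def, mul_assoc] using hzR
      rw [hg] at h4
      exact h4
    have hxs := hmem ⟨x, hKA hx⟩ hx
    have hys := hmem ⟨y, hKA hy⟩ hy
    have hc := hS.is_comm.comm (⟨_, hxs⟩ : S) ⟨_, hys⟩
    have hc' : g * ⟨x, hKA hx⟩ * g⁻¹ * (g * ⟨y, hKA hy⟩ * g⁻¹) =
        g * ⟨y, hKA hy⟩ * g⁻¹ * (g * ⟨x, hKA hx⟩ * g⁻¹) := congrArg Subtype.val hc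
    have hc'' : (⟨x, hKA hx⟩ : alternatingGroup (Fin n)) * ⟨y, hKA hy⟩ =
        ⟨y, hKA hy⟩ * ⟨x, hKA hx⟩ := by
      have e1 : g * ⟨x, hKA hx⟩ * g⁻¹ * (g * ⟨y, hKA hy⟩ * g⁻¹) =
          g * ((⟨x, hKA hx⟩ : alternatingGroup (Fin n)) * ⟨y, hKA hy⟩) * g⁻¹ := by group
      have e2 : g * ⟨y, hKA hy⟩ * g⁻¹ * (g * ⟨x, hKA hx⟩ * g⁻¹) =
          g * ((⟨y, hKA hy⟩ : alternatingGroup (Fin n)) * ⟨x, hKA hx⟩) * g⁻¹ := by group
      rw [e1, e2] at hc'
      exact mul_left_cancel (mul_right_cancel hc')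
    exact hxy (congrArg Subtype.val hc'')
  · intro hlt
    have hH : IsPGroup p ((S : Subgroup (alternatingGroup (Fin n))).map
        (alternatingGroup (Fin n)).subtype) := S.isPGroup'.map _
    have hcomm := perm_pgroup_comm p (α := Fin n) (by simpa using hlt) _ hH
    refine ⟨⟨fun a b => ?_⟩⟩
    have h := hcomm (a : alternatingGroup (Fin n)) ⟨a, a.2, rfl⟩ (b : alternatingGroup (Fin n))
      ⟨b, b.2, rfl⟩
    apply Subtype.ext
    apply Subtype.ext
    exact h

end Cfsg.Agent.H88
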