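import Cfsg.Agent.H23.IcDefs

set_option autoImplicit false

/-!
# S5751 piece END: `Rk 6 = ⊥` from the table facts and the leading-term lemma
-/

namespace Cfsg.Agent.H88.Ic

open Cfsg.Lie Cfsg.Agent.H23 Cfsg.Agent.H23.Ic

theorem tailW_zero (k : ℕ) : tailW Ic.hS k (fun _ => (0 : ZMod 2)) = 1 := by
  unfold tailW
  generalize tailL chevE8 k = L
  induction L with
  | nil => rfl
  | cons a L ih =>
    rw [List.map_cons, wordU_cons, ih, mul_one]
    exact xU_zero Ic.hS a

theorem endp : StEnd := by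
  classical
  intro hTab hLT
  obtain ⟨-, -, -, -, hlev6, -, hwpos, -⟩ := hTab
  rw [eq_bot_iff]
  intro u hu
  rw [Subgroup.mem_bot]
  have hu' : u ∈ Up ⊓ raisGroupM (ZMod 2) (wt levC) ((6 : ℕ) : ℤ) (Int.natCast_nonneg 6) := hu
  obtain ⟨huU, huR⟩ := Subgroup.mem_inf.mp hu'
  obtain ⟨t, ⟨ht0, htu⟩, -⟩ := (factor_E8 (F := ZMod 2)).1 u huU
  have hval : ((tailW Ic.hS 0 t : GLE) : Matrix chevE8.Idx chevE8.Idx (ZMod 2)) =
      chevE8.wordMat (ZMod 2) (chevE8.posRoots.map fun r => (r, t r)) := by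
    unfold tailW
    rw [wordU_val, tailL_zero]
  have hu_eq : u = tailW Ic.hS 0 t := Units.ext (by rw [hval, htu])
  by_cases hall : ∀ r, chevE8.IsPosRoot r → t r = 0
  · have ht : t = fun _ => 0 := by
      funext r
      by_cases hr : chevE8.IsPosRoot r
      · exact hall r hr
      · exact ht0 r hr
    rw [hu_eq, ht]
    exact tailW_zero 0
  · exfalso
    push Not at hall
    obtain ⟨r0, hr0, htr0⟩ := hall
    obtain ⟨r, hrS, hrmin⟩ := Finset.exists_min_image
      ((Finset.range 240).filter (fun s => chevE8.IsPosRoot s ∧ t s ≠ 0)) (fun s => wN wsC s)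
      ⟨r0, by
        simp only [Finset.mem_filter, Finset.mem_range]
        exact ⟨hr0.1, hr0, htr0⟩⟩
    simp only [Finset.mem_filter, Finset.mem_range] at hrS
    obtain ⟨hr240, hrpos, htr⟩ := hrS
    obtain ⟨i, c, hc, hne⟩ := hLT wsC hwpos t r hrpos htr (by
      intro s hs hts
      exact hrmin s (by
        simp only [Finset.mem_filter, Finset.mem_range]
        exact ⟨hs.1, hs, hts⟩))
    rw [← hu_eq] at hne
    have h2 : ((u : Matrix chevE8.Idx chevE8.Idx (ZMod 2)) - 1) (Sum.inl i) (Sum.inr c) ≠ 0 := by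
      rw [Matrix.sub_apply, Matrix.one_apply_ne (by simp), sub_zero]
      exact hne
    have h3 : wt levC (Sum.inr c) + ((6 : ℕ) : ℤ) < wt levC (Sum.inl i) := huR.1 _ _ h2
    have hadm : Adm chevE8 (zRl levC ctblE8 chevE8.nroots) := adm_zRl chevE8 levC ctblE8 chk_E8.admZ
    have hneg : zRl levC ctblE8 chevE8.nroots (chevE8.neg r) = - zRl levC ctblE8 chevE8.nroots r :=
      adm_neg tab_E8 tab2_E8 _ hadm r hr240
    have e1 : wt levC (Sum.inr c) = - wN levC r := by
      have e0 : wt levC (Sum.inr c) = wN levC (chevE8.neg r) := by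
        show wN levC (ix chevE8 (Sum.inr c)) = wN levC (chevE8.neg r)
        have e00 : ix chevE8 (Sum.inr c : chevE8.Idx) = chevE8.neg r := hc
        rw [e00]
      rw [e0]
      exact hneg
    have e2 : wt levC (Sum.inl i) = 0 :=
      zRl_ge _ _ _ _ (by show chevE8.nroots ≤ chevE8.nroots + i.val; omega)
    have h6 := hlev6 r hr240
    rw [e1, e2] at h3
    omega

example : Cfsg.Agent.H23.Ic.StEnd := endp

end Cfsg.Agent.H88.Ic
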