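import Cfsg.Agent.H23.IcDefs

set_option autoImplicit false
set_option maxRecDepth 100000

/-!
# S5751 piece LT: the leading term of an ordered product of positive root elements
-/

namespace Cfsg.Agent.H88.Ic

open Cfsg.Lie Cfsg.Agent.H23 Cfsg.Agent.H23.Ic

/-- The entry of `x_k(t)` at `(h_i, e_{-r})` vanishes for `k ≠ r`. -/
theorem x_entry_h_ne (k : ℕ) (hk : k < chevE8.nroots) (r : ℕ) (hr : r < chevE8.nroots) (hkr : k ≠ r)
    (i : Fin chevE8.rank) (t : ZMod 2) :
    chevE8.x (ZMod 2) k t (Sum.inl i) (Sum.inr ⟨chevE8.neg r, tab_E8.neg_lt r hr⟩) = 0 := by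
  by_contra h
  rw [x_apply _ hk] at h
  obtain ⟨x, hx, hix⟩ := evalE_ne_zero t _ (Sum.inl i) h
  have e1 : ix chevE8 (Sum.inr ⟨chevE8.neg r, tab_E8.neg_lt r hr⟩ : chevE8.Idx) = chevE8.neg r := rfl
  rw [e1] at hx
  have hcn : chevE8.neg r ≠ chevE8.negIdx.getD k 0 := by
    intro e
    have e' : chevE8.neg r = chevE8.neg k := e
    have e'' := congrArg chevE8.neg e'
    rw [tab_E8.neg_neg r hr, tab_E8.neg_neg k hk] at e''
    exact hkr e''.symm
  have hlt := xEntries_lt k (chevE8.neg r) (tab_E8.neg_lt r hr) hcn x hx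
  have e2 : ix chevE8 (Sum.inl i : chevE8.Idx) = chevE8.nroots + i.val := rfl
  rw [e2] at hix
  omega

/-- Entries at weight difference exactly `m` add up for matrices raising the weights by at least `m`. -/
theorem lead_mul {W : chevE8.Idx → ℤ} {m : ℤ} (hm : 0 < m)
    {A B : Matrix chevE8.Idx chevE8.Idx (ZMod 2)}
    (hA : RaisM W (m - 1) (A - 1)) (hB : RaisM W (m - 1) (B - 1)) (a c : chevE8.Idx)
    (hac : W a = W c + m) :
    (A * B - 1) a c = (A - 1) a c + (B - 1) a c := by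
  have e : A * B - 1 = (A - 1) * (B - 1) + (A - 1) + (B - 1) := by noncomm_ring
  rw [e, Matrix.add_apply, Matrix.add_apply]
  have h0 : ((A - 1) * (B - 1)) a c = 0 := by
    by_contra h
    obtain ⟨l, h1, h2⟩ := exists_of_mul_ne_zero h
    have e1 := hA a l h1
    have e2 := hB l c h2
    omega
  rw [h0, zero_add]

theorem lt_aux (cw : List ℤ) (t : ℕ → ZMod 2) (r : ℕ) (hr : chevE8.IsPosRoot r)
    (hm : 0 < wN cw r)
    (hmin : ∀ s, chevE8.IsPosRoot s → t s ≠ 0 → wN cw r ≤ wN cw s)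
    (i : Fin chevE8.rank) :
    ∀ (d k : ℕ), k + d = chevE8.nroots →
      RaisM (wt cw) (wN cw r - 1)
        (((tailW Ic.hS k t : GLE) : Matrix chevE8.Idx chevE8.Idx (ZMod 2)) - 1) ∧
      (((tailW Ic.hS k t : GLE) : Matrix chevE8.Idx chevE8.Idx (ZMod 2)) - 1) (Sum.inl i)
          (Sum.inr ⟨chevE8.neg r, tab_E8.neg_lt r hr.1⟩) =
        if k ≤ r then (((chevE8.coroot.getD r #[]).getD i.val 0 : ℤ) : ZMod 2) * t r else 0 := by
  have hadm : Adm chevE8 (zRl cw ctblE8 chevE8.nroots) := adm_zRl chevE8 cw ctblE8 chk_E8.admZ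
  have hneg : zRl cw ctblE8 chevE8.nroots (chevE8.neg r) = - zRl cw ctblE8 chevE8.nroots r :=
    adm_neg tab_E8 tab2_E8 _ hadm r hr.1
  have hW : wt cw (Sum.inl i) = wt cw (Sum.inr ⟨chevE8.neg r, tab_E8.neg_lt r hr.1⟩) + wN cw r := by
    have e2 : wt cw (Sum.inl i) = 0 :=
      zRl_ge _ _ _ _ (by show chevE8.nroots ≤ chevE8.nroots + i.val; omega)
    have e1 : wt cw (Sum.inr ⟨chevE8.neg r, tab_E8.neg_lt r hr.1⟩) = - wN cw r := hneg
    rw [e1, e2]; ring
  intro d
  induction d with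
  | zero =>
    intro k hk
    have h1 : tailW Ic.hS k t = 1 := tailW_ge Ic.hS k (by omega) t
    rw [h1, Units.val_one, sub_self]
    refine ⟨RaisM.zero, ?_⟩
    have hkr : ¬ k ≤ r := by have := hr.1; omega
    rw [if_neg hkr]; rfl
  | succ d ih =>
    intro k hk
    have hkn : k < chevE8.nroots := by omega
    obtain ⟨ihR, ihE⟩ := ih (k + 1) (by omega)
    by_cases hp : chevE8.IsPosRoot k
    · rw [tailW_pos Ic.hS k hkn hp, Units.val_mul, xU_val]
      have hx : RaisM (wt cw) (wN cw r - 1) (chevE8.x (ZMod 2) k (t k) - 1) := by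
        by_cases htk : t k = 0
        · rw [htk, x_zero, sub_self]; exact RaisM.zero
        · have hk1 : wN cw r - 1 < zRl cw ctblE8 chevE8.nroots k := by
            have h := hmin k hp htk
            have h' : wN cw k = zRl cw ctblE8 chevE8.nroots k := rfl
            omega
          exact x_raisM _ hadm k hkn _ (by omega) hk1 (t k)
      refine ⟨raisM_mul_sub_one (by omega) hx ihR, ?_⟩
      rw [lead_mul hm hx ihR _ _ hW, ihE]
      by_cases hkr : k = r
      · rw [hkr]
        have hx1 : chevE8.x (ZMod 2) r (t r) (Sum.inl i) (Sum.inr ⟨chevE8.neg r, tab_E8.neg_lt r hr.1⟩) =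
            (((chevE8.coroot.getD r #[]).getD i.val 0 : ℤ) : ZMod 2) * t r :=
          x_entry_h tab_E8 tab2_E8 r hr.1 i.val i.isLt (t r)
        have h1 : r ≤ r := le_refl r
        have h2 : ¬ r + 1 ≤ r := by omega
        rw [Matrix.sub_apply, Matrix.one_apply_ne (by simp), sub_zero, hx1, if_pos h1, if_neg h2, add_zero]
      · rw [Matrix.sub_apply, Matrix.one_apply_ne (by simp), sub_zero,
          x_entry_h_ne k hkn r hr.1 hkr i (t k), zero_add]
        by_cases h1 : k ≤ r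
        · have h2 : k + 1 ≤ r := by omega
          rw [if_pos h1, if_pos h2]
        · have h2 : ¬ k + 1 ≤ r := by omega
          rw [if_neg h1, if_neg h2]
    · rw [tailW_not_pos Ic.hS k hkn hp]
      refine ⟨ihR, ?_⟩
      rw [ihE]
      have hkr : k ≠ r := fun e => hp (e ▸ hr)
      by_cases h1 : k ≤ r
      · have h2 : k + 1 ≤ r := by omega
        rw [if_pos h1, if_pos h2]
      · have h2 : ¬ k + 1 ≤ r := by omega
        rw [if_neg h1, if_neg h2]

theorem lt : StLT := by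
  intro cw hpos t r hr htr hmin
  have hr240 : r < 240 := hr.1
  have hm : 0 < wN cw r := hpos r hr240 hr
  by_contra hcon
  push Not at hcon
  have hbz : ∑ i ∈ Finset.range chevE8.rank,
      bzF chevE8 bzE8 r i * (chevE8.coroot.getD r #[]).getD i 0 = 1 :=
    bez_of bzE8 tabHalf_E8 bez_E8 r hr.1 hr
  have key : ∀ i ∈ Finset.range chevE8.rank,
      (((chevE8.coroot.getD r #[]).getD i 0 : ℤ) : ZMod 2) * t r = 0 := by
    intro i hi
    have hi' : i < chevE8.rank := Finset.mem_range.mp hi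
    have h1 := hcon ⟨i, hi'⟩ ⟨chevE8.neg r, tab_E8.neg_lt r hr.1⟩ rfl
    have h2 := (lt_aux cw t r hr hm hmin ⟨i, hi'⟩ chevE8.nroots 0 (Nat.zero_add _)).2
    rw [Matrix.sub_apply, Matrix.one_apply_ne (by simp), sub_zero, if_pos (Nat.zero_le r)] at h2
    exact h2.symm.trans h1
  have h4 : (((∑ i ∈ Finset.range chevE8.rank,
      bzF chevE8 bzE8 r i * (chevE8.coroot.getD r #[]).getD i 0 : ℤ)) : ZMod 2) * t r = 0 := by
    rw [Int.cast_sum, Finset.sum_mul]
    apply Finset.sum_eq_zero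
    intro i hi
    rw [Int.cast_mul, mul_assoc, key i hi, mul_zero]
  rw [hbz, Int.cast_one, one_mul] at h4
  exact htr h4

example : Cfsg.Agent.H23.Ic.StLT := lt

end Cfsg.Agent.H88.Ic
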