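import Cfsg.Agent.H23.IcDefs

set_option autoImplicit false

/-!
# S5751 piece LOWT: `Q 6 ≠ ⊥` (the highest root has level 6)
-/

namespace Cfsg.Agent.H88.Ic

open Cfsg.Lie Cfsg.Agent.H23 Cfsg.Agent.H23.Ic

theorem lowT_pos : chevE8.IsPosRoot 239 := by decide +kernel

theorem lowT_lev : ((6 : ℕ) : ℤ) ≤ wN levC 239 := by decide +kernel

theorem lowT_lt : 239 < chevE8.nroots := by decide +kernel

theorem lowT : StLowT := by
  intro h
  have hmem : xU Ic.hS 239 (1 : ZMod 2) ∈ Q 6 :=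
    xU_mem_rootGen Ic.hS _ 239 ⟨lowT_pos, lowT_lev⟩ 1
  rw [h, Subgroup.mem_bot] at hmem
  have h0 := xU_eq_one_imp Ic.hS tab_E8 tab2_E8 239 lowT_lt (1 : ZMod 2) hmem
  exact one_ne_zero h0

example : Cfsg.Agent.H23.Ic.StLowT := lowT

end Cfsg.Agent.H88.Ic
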