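import Mathlib
import Cfsg.Agent.H88.PSU3A

/-!
helper88: the `2`-fusion system of `PSU(3, q)`, `q ≡ 1 (mod 4)`: semidihedral Sylow `2`-subgroup
coming from a Sylow `2`-subgroup of `GU(2, q)` (normalizer of a torus of order `q ^ 2 - 1`), and the
final statement for all odd `q`.
-/

set_option autoImplicit false
set_option linter.unusedSectionVars false

namespace Cfsg.Agent.H88.U3

open Matrix Cfsg Cfsg.Agent.H88.L3

open scoped MatrixGroups

section Tools

variable {F : Type*} [Field F] [Fintype F] {q : ℕ}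

/-- A field with `q` elements. -/
theorem exists_field_card (hF : Fintype.card F = q ^ 2) :
    ∃ (K : Type) (_ : Field K) (_ : Fintype K), Fintype.card K = q := by
  obtain ⟨p, hp⟩ := CharP.exists F
  obtain ⟨n, hprime, hn⟩ := FiniteField.card F p
  rw [hF] at hn
  have hdvd : q ∣ p ^ (n : ℕ) := by
    rw [← hn]
    exact Dvd.intro_left (q ^ 1) (by ring)
  obtain ⟨k, _, hk⟩ := (Nat.dvd_prime_pow hprime).mp hdvd
  have : Fact p.Prime := ⟨hprime⟩
  have hk0 : k ≠ 0 := by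
    rintro rfl
    rw [pow_zero] at hk
    have h1 := Fintype.one_lt_card (α := F)
    rw [hF, hk] at h1
    norm_num at h1
  let _ : Fintype (GaloisField p k) := Fintype.ofFinite _
  refine ⟨GaloisField p k, inferInstance, inferInstance, ?_⟩
  rw [← Nat.card_eq_fintype_card, GaloisField.card p k hk0, hk]

/-- Elements of `SU(2, q)` with square `-1` are conjugate. -/
theorem su2_conj (hF : Fintype.card F = q ^ 2) (hodd : q % 2 = 1) (A B : SL(2, F))
    (hA : A ∈ SU 2 F q) (hB : B ∈ SU 2 F q) (hA2 : A.1 * A.1 = -1) (hB2 : B.1 * B.1 = -1) :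
    ∃ D : SL(2, F), D ∈ SU 2 F q ∧ D.1 * A.1 = B.1 * D.1 := by
  obtain ⟨K, _, _, hK⟩ := exists_field_card hF
  obtain ⟨ψ⟩ := Cfsg.Agent.H7.su2_equiv_sl2 hF hK
  have hKodd : Fintype.card K % 2 = 1 := by
    rw [hK]
    exact hodd
  have hK2 : (2 : K) ≠ 0 := Cfsg.Agent.H7.two_ne_zero_of_odd_card (Nat.odd_iff.2 hKodd)
  have hF2 : (2 : F) ≠ 0 := by
    apply Cfsg.Agent.H7.two_ne_zero_of_odd_card
    rw [hF]
    exact (Nat.odd_iff.2 hodd).pow
  have key : ∀ a : SU 2 F q, a.1.1 * a.1.1 = -1 → (ψ a).1 0 0 + (ψ a).1 1 1 = 0 := by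
    intro a ha
    have h4 : (a * a) * (a * a) = 1 := by
      apply Subtype.ext
      apply Subtype.ext
      show a.1.1 * a.1.1 * (a.1.1 * a.1.1) = 1
      rw [ha]
      simp
    have hne : a * a ≠ 1 := by
      intro h
      have h' : a.1.1 * a.1.1 = 1 := congrArg (fun x : SU 2 F q => x.1.1) h
      rw [ha] at h'
      have h00 := congrFun (congrFun h' 0) 0
      simp at h00
      apply hF2
      linear_combination -h00
    have hZ4 : (ψ a * ψ a) * (ψ a * ψ a) = 1 := by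
      rw [← map_mul, ← map_mul, h4, map_one]
    have hZne : ψ a * ψ a ≠ 1 := by
      rw [← map_mul]
      intro h
      exact hne (ψ.injective (h.trans (map_one ψ).symm))
    have hZ : (ψ a).1 * (ψ a).1 = -1 := by
      obtain ⟨Z, hZdef⟩ : ∃ Z : SL(2, K), Z = ψ a * ψ a := ⟨_, rfl⟩
      rw [← hZdef] at hZ4 hZne
      have hsq := Cfsg.Agent.H62.mat2_sq Z.1 Z.2
      have hZZ : Z.1 * Z.1 = 1 := congrArg Subtype.val hZ4
      rw [hZZ] at hsq
      have e00 := congrFun (congrFun hsq 0) 0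
      have e01 := congrFun (congrFun hsq 0) 1
      have e10 := congrFun (congrFun hsq 1) 0
      have e11 := congrFun (congrFun hsq 1) 1
      simp at e00 e01 e10 e11
      have hτ : Z.1 0 0 + Z.1 1 1 ≠ 0 := by
        intro h
        rw [h] at e00
        apply hK2
        linear_combination e00
      have z01 : Z.1 0 1 = 0 := by
        rcases e01 with h | h
        · exact absurd h hτ
        · exact h
      have z10 : Z.1 1 0 = 0 := by
        rcases e10 with h | h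
        · exact absurd h hτ
        · exact h
      have hd := Z.2
      rw [Matrix.det_fin_two, z01, z10] at hd
      have z00 : Z.1 0 0 = Z.1 1 1 := by
        have : (Z.1 0 0 + Z.1 1 1) * (Z.1 0 0 - Z.1 1 1) = 0 := by linear_combination e11 - e00
        rcases mul_eq_zero.1 this with h | h
        · exact absurd h hτ
        · exact sub_eq_zero.1 h
      have hz : (Z.1 0 0 - 1) * (Z.1 0 0 + 1) = 0 := by
        rw [← z00] at hd
        linear_combination hd
      have hm1 : Z.1 0 0 = -1 := by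
        rcases mul_eq_zero.1 hz with h | h
        · exfalso
          apply hZne
          have h1 : Z.1 0 0 = 1 := sub_eq_zero.1 h
          ext i j
          fin_cases i <;> fin_cases j <;> simp [z01, z10, h1, ← z00]
        · linear_combination h
      have hZ1 : Z.1 = -1 := by
        ext i j
        fin_cases i <;> fin_cases j <;> simp [z01, z10, hm1, ← z00]
      rw [← hZ1, hZdef]
      rfl
    exact trace_zero_of_sq (ψ a).1 (ψ a).2 hZ
  have hX := key ⟨A, hA⟩ hA2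
  have hY := key ⟨B, hB⟩ hB2
  have hconj : IsConj (ψ ⟨A, hA⟩) (ψ ⟨B, hB⟩) := by
    apply Cfsg.Agent.H46.isConj_of_trace_odd hKodd
    · rw [Matrix.trace_fin_two, Matrix.trace_fin_two, hX, hY]
    · rw [Matrix.trace_fin_two, hX]
      intro h
      have h4 : (2 : K) * 2 = 0 := by linear_combination -h
      rcases mul_eq_zero.1 h4 with h | h <;> exact hK2 h
  obtain ⟨c, hc⟩ := isConj_iff.1 hconj
  refine ⟨(ψ.symm c).1, (ψ.symm c).2, ?_⟩
  have e : ψ.symm c * ⟨A, hA⟩ = ⟨B, hB⟩ * ψ.symm c := by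
    apply ψ.injective
    rw [map_mul, map_mul, ψ.apply_symm_apply, ← hc]
    group
  exact congrArg (fun x : SU 2 F q => x.1.1) e

/-- Membership of `SU(3, q)` for block matrices. -/
theorem emb_mem (φ : F →+* F) (hφ : ∀ a, φ a = a ^ q) (M : Matrix (Fin 2) (Fin 2) F) (e : F)
    (h : M.det * e = 1) (hM : Mᵀ * M.map φ = 1) (he : e * φ e = 1) : emb M e h ∈ SU 3 F q := by
  apply mem_SU_of_gram φ hφ
  rw [emb_coe]
  have h00 := congrFun (congrFun hM 0) 0
  have h01 := congrFun (congrFun hM 0) 1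
  have h10 := congrFun (congrFun hM 1) 0
  have h11 := congrFun (congrFun hM 1) 1
  simp [Matrix.mul_apply, Fin.sum_univ_two] at h00 h01 h10 h11
  ext i j
  fin_cases i <;> fin_cases j <;> simp [Matrix.mul_apply, Fin.sum_univ_three, he] <;> assumption

/-- The matrix `h (a + b) + h (a - b) J` with `J = !![0, -i; i, 0]`, where `h = 1 / 2`. -/
def m2 (i h a b : F) : Matrix (Fin 2) (Fin 2) F :=
  !![h * (a + b), -(i * (h * (a - b))); i * (h * (a - b)), h * (a + b)]

theorem m2_mul (i h : F) (hi : i * i = -1) (hh : 2 * h = 1) (a b a' b' : F) :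
    m2 i h a b * m2 i h a' b' = m2 i h (a * a') (b * b') := by
  ext k l
  fin_cases k <;> fin_cases l <;> simp [m2, Matrix.mul_apply, Fin.sum_univ_two]
  · linear_combination (h * (a * a' + b * b')) * hh + (-(h * h * (a - b) * (a' - b'))) * hi
  · linear_combination (-(i * h * (a * a' - b * b'))) * hh
  · linear_combination (i * h * (a * a' - b * b')) * hh
  · linear_combination (h * (a * a' + b * b')) * hh + (-(h * h * (a - b) * (a' - b'))) * hi

theorem m2_one (i h : F) (hh : 2 * h = 1) : m2 i h 1 1 = 1 := by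
  ext k l
  fin_cases k <;> fin_cases l <;> simp [m2]
  · linear_combination hh
  · linear_combination hh

theorem m2_neg_one (i h : F) (hh : 2 * h = 1) : m2 i h (-1) (-1) = -1 := by
  ext k l
  fin_cases k <;> fin_cases l <;> simp [m2]
  · linear_combination -hh
  · linear_combination -hh

theorem m2_pow (i h : F) (hi : i * i = -1) (hh : 2 * h = 1) (a b : F) (k : ℕ) :
    m2 i h a b ^ k = m2 i h (a ^ k) (b ^ k) := by
  induction k with
  | zero => rw [pow_zero, pow_zero, pow_zero, m2_one i h hh]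
  | succ k ih => rw [pow_succ, ih, m2_mul i h hi hh, ← pow_succ, ← pow_succ]

theorem m2_det (i h : F) (hi : i * i = -1) (hh : 2 * h = 1) (a b : F) :
    (m2 i h a b).det = a * b := by
  rw [Matrix.det_fin_two]
  simp [m2]
  linear_combination (a * b * (2 * h + 1)) * hh + (h * h * (a - b) ^ 2) * hi

theorem m2_gram (φ : F →+* F) (i h : F) (hi : i * i = -1) (hh : 2 * h = 1) (a b : F)
    (hab : a * b = -1) (hφi : φ i = i) (hφh : φ h = h) (hφa : φ a = -a) (hφb : φ b = -b) :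
    (m2 i h a b)ᵀ * (m2 i h a b).map φ = 1 := by
  ext k l
  fin_cases k <;> fin_cases l <;>
    simp [m2, Matrix.mul_apply, Fin.sum_univ_two, hφi, hφh, hφa, hφb]
  · linear_combination (2 * h + 1) * hh + (-4 * h * h) * hab + (-(h * h * (a - b) ^ 2)) * hi
  · ring
  · ring
  · linear_combination (2 * h + 1) * hh + (-4 * h * h) * hab + (-(h * h * (a - b) ^ 2)) * hi

end Tools

section CaseB

variable {F : Type*} [Field F] [Fintype F] {q : ℕ}

/-- An element of the field whose `2 ^ n`-th power is `-1`. -/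
theorem exists_pow_neg_one (n : ℕ) (hdiv : 2 ^ (n + 1) ∣ Fintype.card F - 1) :
    ∃ a : F, a ^ 2 ^ n = -1 := by
  have hcard : Nat.card Fˣ = Fintype.card F - 1 := by
    rw [Nat.card_units, Nat.card_eq_fintype_card]
  obtain ⟨g, hg⟩ := IsCyclic.exists_ofOrder_eq_natCard (α := Fˣ)
  have hpos : orderOf g ≠ 0 := by
    rw [hg]
    exact Nat.card_pos.ne'
  have hs := orderOf_pow_orderOf_div hpos (by rw [hg, hcard]; exact hdiv : 2 ^ (n + 1) ∣ orderOf g)
  obtain ⟨s, hsdef⟩ : ∃ s : Fˣ, s = g ^ (orderOf g / 2 ^ (n + 1)) := ⟨_, rfl⟩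
  rw [← hsdef] at hs
  refine ⟨(s : F), ?_⟩
  have h1 : (s : F) ^ 2 ^ n * (s : F) ^ 2 ^ n = 1 := by
    rw [← pow_add, ← two_mul, ← pow_succ', ← Units.val_pow_eq_pow_val, ← hs, pow_orderOf_eq_one]
    rfl
  rcases mul_self_eq_one_iff.1 h1 with h | h
  · exfalso
    have h3 : s ^ 2 ^ n = 1 := Units.ext (by rw [Units.val_pow_eq_pow_val]; exact h)
    have hd := orderOf_dvd_of_pow_eq_one h3
    rw [hs] at hd
    have h4 := Nat.le_of_dvd (by positivity) hd
    have h5 : 2 ^ n < 2 ^ (n + 1) := Nat.pow_lt_pow_right (by norm_num) (by omega)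
    omega
  · exact h

/-- The case `q ≡ 1 (mod 4)`. -/
theorem caseB (hF : Fintype.card F = q ^ 2) (hodd : q % 2 = 1) {n u v : ℕ} (hn : 2 ≤ n)
    (hu : Odd u) (hv : Odd v) (h1 : q - 1 = 2 ^ n * u) (h2 : q + 1 = 2 * v)
    (hcard : ¬ 2 ^ (n + 3) ∣ Nat.card (PSU 3 F q)) (S : Sylow 2 (PSU 3 F q)) :
    (groupFusionSystem (S : Subgroup (PSU 3 F q))).IsSimple 2 := by
  have hF2 : (2 : F) ≠ 0 := by
    apply Cfsg.Agent.H7.two_ne_zero_of_odd_card
    rw [hF]
    exact (Nat.odd_iff.2 hodd).pow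
  obtain ⟨φ, hφ⟩ := Cfsg.Agent.H61.exists_frobHom hF
  have hq0 : q ≠ 0 := by omega
  have hqe : q = 2 ^ n * u + 1 := by omega
  have hdiv : 2 ^ (n + 1) ∣ Fintype.card F - 1 := by
    rw [hF]
    have e : q ^ 2 = 2 ^ (n + 1) * (u * v) + 1 := by
      have e1 : q ^ 2 = (q - 1) * (q + 1) + 1 := by
        rw [h1]
        nth_rewrite 1 [hqe]
        rw [hqe]
        ring
      rw [e1, h1, h2]
      ring
    rw [e, Nat.add_sub_cancel]
    exact dvd_mul_right _ _
  obtain ⟨a, ha⟩ := exists_pow_neg_one n hdiv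
  have hn0 : n - 1 + 1 = n := by omega
  have heven : Even (2 ^ n) := (Nat.even_pow).2 ⟨even_two, by omega⟩
  have heven' : Even (2 ^ (n - 1)) := (Nat.even_pow).2 ⟨even_two, by omega⟩
  have ha0 : a ≠ 0 := by
    rintro rfl
    rw [zero_pow (by positivity)] at ha
    exact one_ne_zero (neg_eq_zero.1 ha.symm)
  -- values of the Frobenius map
  have hφa : φ a = -a := by
    rw [hφ, hqe, pow_succ, pow_mul, ha, hu.neg_one_pow]
    ring
  obtain ⟨i, hidef⟩ : ∃ i : F, i = a ^ 2 ^ (n - 1) := ⟨_, rfl⟩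
  have hi : i * i = -1 := by
    rw [hidef, ← pow_add, ← two_mul, ← pow_succ', hn0, ha]
  have hφi : φ i = i := by
    rw [hidef, map_pow, hφa, heven'.neg_pow]
  obtain ⟨h, hhdef⟩ : ∃ h : F, h = 2⁻¹ := ⟨_, rfl⟩
  have hh : 2 * h = 1 := by
    rw [hhdef]
    exact mul_inv_cancel₀ hF2
  have hφh : φ h = h := by
    rw [hhdef, map_inv₀, map_ofNat]
  obtain ⟨b, hbdef⟩ : ∃ b : F, b = -a⁻¹ := ⟨_, rfl⟩
  have hab : a * b = -1 := by
    rw [hbdef, mul_neg, mul_inv_cancel₀ ha0]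
  have hφb : φ b = -b := by
    rw [hbdef, map_neg, map_inv₀, hφa, inv_neg]
  have hb2n : b ^ 2 ^ n = -1 := by
    rw [hbdef, heven.neg_pow, inv_pow, ha, inv_neg_one]
  obtain ⟨S0, hS0def⟩ : ∃ S0 : Matrix (Fin 2) (Fin 2) F, S0 = m2 i h a b := ⟨_, rfl⟩
  have hS0 : S0 ^ 2 ^ n = -1 := by
    rw [hS0def, m2_pow i h hi hh, ha, hb2n, m2_neg_one i h hh]
  have hdet : S0.det = -1 := by
    rw [hS0def, m2_det i h hi hh, hab]
  have hgS : S0ᵀ * S0.map φ = 1 := by
    rw [hS0def]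
    exact m2_gram φ i h hi hh a b hab hφi hφh hφa hφb
  obtain ⟨K, hK⟩ : ∃ K : Matrix (Fin 2) (Fin 2) F, K = !![1, 0; 0, -1] := ⟨_, rfl⟩
  have hKdet : K.det = -1 := by
    rw [hK, Matrix.det_fin_two]
    simp
  have hgK : Kᵀ * K.map φ = 1 := by
    rw [hK]
    ext k l
    fin_cases k <;> fin_cases l <;> simp [Matrix.mul_apply, Fin.sum_univ_two]
  have m1 : K * K = 1 := by
    rw [hK]
    ext k l
    fin_cases k <;> fin_cases l <;> simp [Matrix.mul_apply, Fin.sum_univ_two]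
  have m4 : (K * S0) * (K * S0) = -1 := by
    rw [hK, hS0def]
    ext k l
    fin_cases k <;> fin_cases l <;> simp [m2, Matrix.mul_apply, Fin.sum_univ_two]
    · linear_combination (4 * h * h) * hab - (2 * h + 1) * hh + (h * h * (a - b) ^ 2) * hi
    · ring
    · ring
    · linear_combination (4 * h * h) * hab - (2 * h + 1) * hh + (h * h * (a - b) ^ 2) * hi
  have hAdet : (K * S0).det = 1 := by
    rw [Matrix.det_mul, hKdet, hdet]
    ring
  have hgA : (K * S0)ᵀ * (K * S0).map φ = 1 := gram_mul φ _ _ hgK hgS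
  -- the elements of `SU(3, q)` and `PSU(3, q)`
  have hS3 : S0.det * (-1) = 1 := by rw [hdet]; ring
  have hK3 : K.det * (-1) = 1 := by rw [hKdet]; ring
  have hA3 : (K * S0).det * ((-1) * (-1)) = 1 := by rw [hAdet]; ring
  have hneg1 : (-1 : F) * φ (-1) = 1 := by
    rw [map_neg, map_one]
    ring
  have hone1 : (1 : F) * φ 1 = 1 := by
    rw [map_one]
    ring
  have hmS : emb S0 (-1) hS3 ∈ SU 3 F q := emb_mem φ hφ _ _ _ hgS hneg1
  have hmK : emb K (-1) hK3 ∈ SU 3 F q := emb_mem φ hφ _ _ _ hgK hneg1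
  have hmd0 : d0 F ∈ SU 3 F q := by
    have hg : (-1 : Matrix (Fin 2) (Fin 2) F)ᵀ * (-1 : Matrix (Fin 2) (Fin 2) F).map φ = 1 := by
      ext k l
      fin_cases k <;> fin_cases l <;> simp [Matrix.mul_apply, Fin.sum_univ_two]
    have hm := emb_mem φ hφ (-1 : Matrix (Fin 2) (Fin 2) F) 1 (by simp [Matrix.det_neg]) hg hone1
    rwa [emb_neg_one] at hm
  obtain ⟨c, hcdef⟩ : ∃ c : PSU 3 F q, c = pmk q (emb S0 (-1) hS3) hmS := ⟨_, rfl⟩
  obtain ⟨t, htdef⟩ : ∃ t : PSU 3 F q, t = pmk q (emb K (-1) hK3) hmK := ⟨_, rfl⟩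
  have g1 : c ^ 2 ^ n = pmk q (d0 F) hmd0 := by
    rw [hcdef, pmk_pow]
    apply pmk_congr
    rw [emb_pow _ _ hS3 (2 ^ n) (by rw [Matrix.det_pow, ← mul_pow, hS3, one_pow]),
      emb_congr hS0 heven.neg_one_pow _ (by simp [Matrix.det_neg]), emb_neg_one]
  have g2 : pmk q (d0 F) hmd0 ≠ 1 := by
    intro h
    have h1 := eq_one_of_pmk_eq_one hF _ _ 1 (by rw [pow_one, pow_two]; exact d0_sq) h
    exact d0_not_central hF2 (by rw [h1]; exact one_mem _)
  have g2' : pmk q (d0 F) hmd0 * pmk q (d0 F) hmd0 = 1 := by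
    rw [pmk_mul]
    exact (pmk_congr d0_sq _ (one_mem _)).trans pmk_one
  have hc : orderOf c = 2 ^ (n + 1) := by
    apply orderOf_eq_prime_pow
    · rw [g1]
      exact g2
    · rw [pow_succ, pow_mul, g1, pow_two, g2']
  have ht : t * t = 1 := by
    rw [htdef, pmk_mul]
    refine (pmk_congr ?_ _ (one_mem _)).trans pmk_one
    rw [emb_mul _ _ _ _ hK3 hK3 (by rw [m1]; simp),
      emb_congr m1 (by ring : (-1 : F) * -1 = 1) _ (by simp), emb_one]
  have g5 : (t * c) * (t * c) = pmk q (d0 F) hmd0 := by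
    rw [htdef, hcdef, pmk_mul, pmk_mul]
    apply pmk_congr
    rw [emb_mul _ _ _ _ hK3 hS3 hA3, emb_mul _ _ _ _ hA3 hA3 (by rw [m4]; simp [Matrix.det_neg]),
      emb_congr m4 (by ring : ((-1 : F) * -1) * ((-1) * -1) = 1) _ (by simp [Matrix.det_neg]),
      emb_neg_one]
  have htc : t * c * t⁻¹ = c ^ ((2 : ℤ) ^ n - 1) := by
    have e1 : t * c * t⁻¹ = ((t * c) * (t * c)) * c⁻¹ := by
      rw [Cfsg.Agent.H88.Dih.inv_eq_self ht]
      group
    rw [e1, g5, ← g1, _root_.zpow_sub, zpow_one, ← zpow_natCast]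
    push_cast
    rfl
  have hord : ∀ i : ℤ, (t * c ^ i) ^ 2 ^ (n + 1 - 1) = 1 := by
    intro i
    have e : 2 ^ (n + 1 - 1) = 4 * 2 ^ (n - 2) := by
      obtain ⟨m, rfl⟩ : ∃ m, n = m + 2 := ⟨n - 2, by omega⟩
      simp only [Nat.add_sub_cancel]
      ring
    rw [e, pow_mul, Cfsg.Agent.H88.Cyc2.sd_pow_four hc ht htc, one_pow]
  have htn := Cfsg.Agent.H88.Cyc2.sd_not_mem hn hc htc
  have hcardQ := Cfsg.Agent.H88.Cyc2.card_closure hc ht htc htn
  have hQ2 : IsPGroup 2 (Subgroup.closure {c, t}) := IsPGroup.of_card hcardQ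
  have hcQ : c ∈ Subgroup.closure {c, t} := Subgroup.subset_closure (by simp)
  have htQ : t ∈ Subgroup.closure {c, t} := Subgroup.subset_closure (by simp)
  refine Cfsg.Agent.H88.L2.simple_of_card_data (Q := Subgroup.closure {c, t}) (k := n + 1 + 1)
    hcardQ (by omega) hcard
    (Cfsg.Agent.H88.Cyc2.mulAut_closure_isPGroup (by omega) hc ht htc hord) ?_ S
  intro T hT hT1 hcl
  obtain ⟨w, hwT, hw⟩ := exists_invol hQ2 hT hT1
  have ot : orderOf t = 2 := by
    apply orderOf_eq_prime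
    · rw [pow_two]
      exact ht
    · intro h
      apply htn
      rw [h]
      exact one_mem _
  have htT : t ∈ T := by
    obtain ⟨g, hg⟩ := psu3_invol_conj hF hF2 w t hw ot
    have := hcl w hwT g (by rw [hg]; exact htQ)
    rwa [hg] at this
  have o2 : orderOf (t * c ^ (2 : ℤ)) = 2 := by
    apply orderOf_eq_prime
    · rw [pow_two, Cfsg.Agent.H88.Cyc2.sd_sq ht htc]
      have e : (2 : ℤ) ^ n * 2 = ((2 ^ (n + 1) : ℕ) : ℤ) := by
        push_cast
        ring
      rw [e, zpow_natCast, ← hc, pow_orderOf_eq_one]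
    · intro h
      apply htn
      have e : t = (c ^ (2 : ℤ))⁻¹ := eq_inv_of_mul_eq_one_left h
      rw [e]
      exact inv_mem (zpow_mem (Subgroup.mem_zpowers c) 2)
  have hc2Q : c ^ (2 : ℤ) ∈ Subgroup.closure {c, t} := zpow_mem hcQ _
  have h2T : t * c ^ (2 : ℤ) ∈ T := by
    obtain ⟨g, hg⟩ := psu3_invol_conj hF hF2 w _ hw o2
    have := hcl w hwT g (by rw [hg]; exact mul_mem htQ hc2Q)
    rwa [hg] at this
  have hc2T : c ^ (2 : ℤ) ∈ T := by
    have e : c ^ (2 : ℤ) = t⁻¹ * (t * c ^ (2 : ℤ)) := by group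
    rw [e]
    exact mul_mem (inv_mem htT) h2T
  have hcpT : c ^ 2 ^ (n - 1) ∈ T := by
    have e : c ^ 2 ^ (n - 1) = (c ^ (2 : ℤ)) ^ 2 ^ (n - 2) := by
      obtain ⟨m, rfl⟩ : ∃ m, n = m + 2 := ⟨n - 2, by omega⟩
      simp only [Nat.add_sub_cancel]
      rw [zpow_ofNat, ← pow_mul, ← pow_succ']
      rfl
    rw [e]
    exact pow_mem hc2T _
  -- fusion of the elements of order `4`
  have hBdet : (S0 ^ 2 ^ (n - 1)).det = 1 := by
    rw [Matrix.det_pow, hdet, heven'.neg_one_pow]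
  have hBsq : S0 ^ 2 ^ (n - 1) * S0 ^ 2 ^ (n - 1) = -1 := by
    rw [← pow_add, ← two_mul, ← pow_succ', hn0, hS0]
  have hgB : (S0 ^ 2 ^ (n - 1))ᵀ * (S0 ^ 2 ^ (n - 1)).map φ = 1 := gram_pow φ _ hgS _
  obtain ⟨D, hDmem, hDmat⟩ := su2_conj hF hodd ⟨K * S0, hAdet⟩ ⟨S0 ^ 2 ^ (n - 1), hBdet⟩
    (mem_SU_of_gram φ hφ _ hgA) (mem_SU_of_gram φ hφ _ hgB) m4 hBsq
  have hDmat' : D.1 * (K * S0) = S0 ^ 2 ^ (n - 1) * D.1 := hDmat
  have hgD := gram_of_mem_SU φ hφ hq0 D hDmem
  have hD3 : D.1.det * 1 = 1 := by rw [D.2]; ring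
  have hmD : emb D.1 1 hD3 ∈ SU 3 F q := emb_mem φ hφ _ _ _ hgD hone1
  have hfus : pmk q (emb D.1 1 hD3) hmD * (t * c) =
      c ^ 2 ^ (n - 1) * pmk q (emb D.1 1 hD3) hmD := by
    have hB3 : (S0 ^ 2 ^ (n - 1)).det * (-1) ^ 2 ^ (n - 1) = 1 := by
      rw [hBdet, heven'.neg_one_pow]
      ring
    rw [htdef, hcdef, pmk_mul, pmk_mul, pmk_pow, pmk_mul]
    apply pmk_congr
    rw [emb_mul _ _ _ _ hK3 hS3 hA3, emb_pow _ _ hS3 (2 ^ (n - 1)) hB3,
      emb_mul _ _ _ _ hD3 hA3 (by rw [Matrix.det_mul, D.2, hAdet]; ring),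
      emb_mul _ _ _ _ hB3 hD3 (by rw [Matrix.det_mul, D.2, hBdet, heven'.neg_one_pow]; ring)]
    exact emb_congr hDmat' (by rw [heven'.neg_one_pow]; ring) _ _
  have htcT : t * c ∈ T := by
    have e : t * c = (pmk q (emb D.1 1 hD3) hmD)⁻¹ * c ^ 2 ^ (n - 1) *
        ((pmk q (emb D.1 1 hD3) hmD)⁻¹)⁻¹ := by
      rw [inv_inv, mul_assoc, ← hfus]
      group
    have := hcl _ hcpT (pmk q (emb D.1 1 hD3) hmD)⁻¹
      (by rw [← e]; exact mul_mem htQ hcQ)
    rwa [← e] at this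
  exact Cfsg.Agent.H88.Dih.eq_closure_of_mem hT htT htcT

/-- For a field with `q ^ 2` elements, `q` odd, the `2`-fusion system of `PSU(3, q)` is
simple. -/
theorem psu3_fusion_simple (hF : Fintype.card F = q ^ 2) (hodd : q % 2 = 1)
    (S : Sylow 2 (PSU 3 F q)) : (groupFusionSystem (S : Subgroup (PSU 3 F q))).IsSimple 2 := by
  have hF2 : (2 : F) ≠ 0 := by
    apply Cfsg.Agent.H7.two_ne_zero_of_odd_card
    rw [hF]
    exact (Nat.odd_iff.2 hodd).pow
  have hq1 : 1 < q := by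
    have h := Fintype.one_lt_card (α := F)
    rw [hF] at h
    by_contra hcon
    have : q = 1 := by omega
    rw [this] at h
    norm_num at h
  have hq : 3 ≤ q := by omega
  obtain ⟨α, u, hu, h1⟩ := Nat.exists_eq_two_pow_mul_odd (n := q - 1) (by omega)
  obtain ⟨β, v, hv, h2⟩ := Nat.exists_eq_two_pow_mul_odd (n := q + 1) (by omega)
  have hN := Cfsg.Agent.S0280.result hF 3 (by norm_num)
  have hN' : Nat.gcd 3 (q + 1) * ((q + 1) * Nat.card (PSU 3 F q)) =
      q ^ 3 * ((q + 1) * (q ^ 2 - 1) * (q ^ 3 + 1)) := by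
    rw [hN]
    simp [Finset.prod_range_succ]
  have hcard := arithU _ _ _ hodd hq hN' α β u v hu hv h1 h2
  rcases exps _ α β u v hodd hq hu hv h1 h2 with ⟨hβ, hα⟩ | ⟨hα, hβ⟩
  · -- `q ≡ 1 (mod 4)`
    subst hβ
    rw [pow_one] at h2
    have e : α + 2 * 1 + 1 = α + 3 := by ring
    rw [e] at hcard
    exact caseB hF hodd hα hu hv h1 h2 hcard S
  · -- `q ≡ 3 (mod 4)`
    subst hα
    have hcF : Nat.card Fˣ = q ^ 2 - 1 := by
      rw [Nat.card_units, Nat.card_eq_fintype_card, hF]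
    have hdv : 2 ^ β ∣ q ^ 2 - 1 := by
      have e : q ^ 2 - 1 = (q + 1) * (q - 1) := by
        have e1 : q ^ 2 = (q + 1) * (q - 1) + 1 := by
          obtain ⟨r, rfl⟩ : ∃ r, q = r + 1 := ⟨q - 1, by omega⟩
          simp only [Nat.add_sub_cancel]
          ring
        omega
      rw [e, h2]
      exact Dvd.intro _ (mul_assoc _ _ _).symm
    obtain ⟨g, hg⟩ := IsCyclic.exists_ofOrder_eq_natCard (α := Fˣ)
    have hpos : orderOf g ≠ 0 := by
      rw [hg]
      exact Nat.card_pos.ne'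
    have hω := orderOf_pow_orderOf_div hpos (by rw [hg, hcF]; exact hdv : 2 ^ β ∣ orderOf g)
    obtain ⟨ω, hωdef⟩ : ∃ ω : Fˣ, ω = g ^ (orderOf g / 2 ^ β) := ⟨_, rfl⟩
    rw [← hωdef] at hω
    have hωq : ω ^ (q + 1) = 1 := by
      rw [h2, pow_mul, ← hω, pow_orderOf_eq_one, one_pow]
    have e : 1 + 2 * β + 1 = 2 * β + 2 := by ring
    rw [e] at hcard
    exact caseA hF hF2 hβ ω hω hωq hcard S

end CaseB

end Cfsg.Agent.H88.U3
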