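import Mathlib
import Cfsg.Agent.H88.Dih

/-!
helper88: groups generated by `c` and `t` with `t c t⁻¹ = c⁻¹` and `t²` a power of `c`
(generalized quaternion type): normal form of the elements and a lower bound for the order.
-/

set_option autoImplicit false

namespace Cfsg.Agent.H88.Quat

variable {T : Type*} [Group T]

/-- Normal form of the elements of `⟨c, t⟩`. -/
theorem closure_cases {c t : T} {k : ℤ} (ht : t * t = c ^ k) (htc : t * c * t⁻¹ = c⁻¹) (x : T)
    (hx : x ∈ Subgroup.closure {c, t}) :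
    (∃ i : ℤ, x = c ^ i) ∨ ∃ i : ℤ, x = t * c ^ i := by
  have h1 : c * t = t * c⁻¹ := by
    have e : t * c⁻¹ = (t * c * t⁻¹)⁻¹ * t := by group
    rw [e, htc, inv_inv]
  have h2 : c⁻¹ * t = t * c := by
    rw [← htc]
    group
  have hti : t⁻¹ = t * c ^ (-k) := by
    rw [zpow_neg, ← ht]
    group
  induction hx using Subgroup.closure_induction_left with
  | one => exact Or.inl ⟨0, by simp⟩
  | mul_left g hg y hy ih =>
    rcases hg with rfl | hg
    · rcases ih with ⟨i, rfl⟩ | ⟨i, rfl⟩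
      · exact Or.inl ⟨1 + i, by rw [zpow_one_add]⟩
      · exact Or.inr ⟨-1 + i, by rw [zpow_add, zpow_neg_one, ← mul_assoc, ← mul_assoc, h1]⟩
    · rw [Set.mem_singleton_iff] at hg
      subst hg
      rcases ih with ⟨i, rfl⟩ | ⟨i, rfl⟩
      · exact Or.inr ⟨i, rfl⟩
      · exact Or.inl ⟨k + i, by rw [← mul_assoc, ht, zpow_add]⟩
  | inv_mul_cancel g hg y hy ih =>
    rcases hg with rfl | hg
    · rcases ih with ⟨i, rfl⟩ | ⟨i, rfl⟩
      · exact Or.inl ⟨-1 + i, by rw [zpow_add, zpow_neg_one]⟩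
      · exact Or.inr ⟨1 + i, by rw [zpow_one_add, ← mul_assoc, ← mul_assoc, h2]⟩
    · rw [Set.mem_singleton_iff] at hg
      subst hg
      rcases ih with ⟨i, rfl⟩ | ⟨i, rfl⟩
      · exact Or.inr ⟨-k + i, by rw [hti, zpow_add, mul_assoc]⟩
      · exact Or.inl ⟨i, by rw [inv_mul_cancel_left]⟩

/-- The square of `t c^i`. -/
theorem sq_mul {c t : T} (htc : t * c * t⁻¹ = c⁻¹) (i : ℤ) :
    (t * c ^ i) * (t * c ^ i) = t * t := by
  have h := Cfsg.Agent.H88.Dih.conj_zpow_eq htc i
  have e : (t * c ^ i) * (t * c ^ i) = (t * c ^ i * t⁻¹) * (t * t) * c ^ i := by group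
  rw [e, h]
  have e2 : (c ^ i)⁻¹ * (t * t) * c ^ i = t * t ↔ (t * t) * c ^ i = c ^ i * (t * t) := by
    constructor
    · intro h'
      calc t * t * c ^ i = c ^ i * ((c ^ i)⁻¹ * (t * t) * c ^ i) := by group
        _ = c ^ i * (t * t) := by rw [h']
    · intro h'
      rw [mul_assoc, h']
      group
  rw [e2]
  have h3 : t * c ^ i = (c ^ i)⁻¹ * t := by
    rw [← h]
    group
  calc t * t * c ^ i = t * (t * c ^ i) := by group
    _ = t * ((c ^ i)⁻¹ * t) := by rw [h3]
    _ = (t * c ^ i * t⁻¹)⁻¹ * (t * t) := by group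
    _ = c ^ i * (t * t) := by rw [h, inv_inv]

/-- `⟨c, t⟩` has at least twice as many elements as `⟨c⟩`. -/
theorem card_closure_ge [Finite T] {c t : T} (htc : t * c * t⁻¹ = c⁻¹) (hc2 : c * c ≠ 1) :
    2 * orderOf c ≤ Nat.card (Subgroup.closure {c, t}) := by
  have htn := Cfsg.Agent.H88.Dih.not_mem_zpowers htc hc2
  have hcD : c ∈ Subgroup.closure {c, t} := Subgroup.subset_closure (by simp)
  have htD : t ∈ Subgroup.closure {c, t} := Subgroup.subset_closure (by simp)
  have hle : Subgroup.zpowers c ≤ Subgroup.closure {c, t} := by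
    rw [Subgroup.zpowers_le]
    exact hcD
  obtain ⟨d, hd⟩ := Subgroup.card_dvd_of_le hle
  rw [Nat.card_zpowers] at hd
  have hpos : 0 < Nat.card (Subgroup.closure {c, t}) := Nat.card_pos
  have hd1 : d ≠ 1 := by
    intro h
    rw [h, mul_one] at hd
    have heq : Subgroup.zpowers c = Subgroup.closure {c, t} :=
      Subgroup.eq_of_le_of_card_ge hle (by rw [Nat.card_zpowers, hd])
    apply htn
    rw [heq]
    exact htD
  have hd0 : d ≠ 0 := by
    intro h
    rw [h, mul_zero] at hd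
    omega
  have hd2 : 2 ≤ d := by omega
  rw [hd, mul_comm]
  exact Nat.mul_le_mul_left _ hd2

end Cfsg.Agent.H88.Quat
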