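import Mathlib
import Cfsg.Agent.H88.SUnC

/-!
helper88: the unitary group `UG n φ`: membership of root elements in the level subgroups, the
normalizer of the unitriangular subgroup is triangular, the diagonal torus, and the image of
the unitriangular subgroup in the central quotient is a Sylow `p`-subgroup.
-/

set_option autoImplicit false
set_option linter.unusedSectionVars false

namespace Cfsg.Agent.H88.Un

open Matrix

variable {n : ℕ} {K : Type*} [Field K] [Fintype K] {φ : K →+* K}

theorem xs_apply [Invol φ] {i j : Fin n} (hij : i ≠ j) (hi : i ≠ i.rev) (hj : j ≠ j.rev) (a : K)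
    (k l : Fin n) :
    (xs (φ := φ) hij hi hj a).1.1 k l = (1 : Matrix (Fin n) (Fin n) K) k l +
      (if k = i ∧ l = j then a else 0) - (if k = j.rev ∧ l = i.rev then φ a else 0) := by
  rw [xs_val, Matrix.sub_apply, Matrix.add_apply, Spn.single_apply_c, Spn.single_apply_c]

theorem xl_apply [Invol φ] {i : Fin n} (hi : i ≠ i.rev) (c : K) (hc : c + φ c = 0)
    (k l : Fin n) :
    (xl (φ := φ) hi c hc).1.1 k l = (1 : Matrix (Fin n) (Fin n) K) k l +
      (if k = i ∧ l = i.rev then c else 0) := by
  rw [xl_val, Matrix.add_apply, Spn.single_apply_c]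

theorem xb_apply [Invol φ] {i m : Fin n} (hm : m.rev = m) (hi : i ≠ m) (a d : K)
    (h : d + φ d + a * φ a = 0) (k l : Fin n) :
    (xb (φ := φ) hm hi a d h).1.1 k l = (1 : Matrix (Fin n) (Fin n) K) k l +
      (if k = i ∧ l = m then a else 0) - (if k = m ∧ l = i.rev then φ a else 0) +
      (if k = i ∧ l = i.rev then d else 0) := by
  rw [xb_val, Matrix.add_apply, Matrix.sub_apply, Matrix.add_apply, Spn.single_apply_c,
    Spn.single_apply_c, Spn.single_apply_c]

theorem xs_mem_EL [Invol φ] {i j : Fin n} (hij : i ≠ j) (hi : i ≠ i.rev) (hj : j ≠ j.rev)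
    (a : K) (lam : Fin n → ℕ) (h1 : lam i < lam j) (h2 : lam j.rev < lam i.rev) :
    xs (φ := φ) hij hi hj a ∈ EL φ lam := by
  intro k l hkl
  rw [xs_apply, if_neg, if_neg, add_zero, sub_zero]
  · rintro ⟨rfl, rfl⟩
    exact absurd hkl (not_le.2 h2)
  · rintro ⟨rfl, rfl⟩
    exact absurd hkl (not_le.2 h1)

theorem xs_mem_PL [Invol φ] {i j : Fin n} (hij : i ≠ j) (hi : i ≠ i.rev) (hj : j ≠ j.rev)
    (a : K) (lam : Fin n → ℕ) (h1 : lam i ≤ lam j) (h2 : lam j.rev ≤ lam i.rev) :
    xs (φ := φ) hij hi hj a ∈ PL φ lam := by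
  intro k l hkl
  rw [xs_apply, if_neg, if_neg, add_zero, sub_zero]
  · exact Matrix.one_apply_ne (fun e => by rw [e] at hkl; exact lt_irrefl _ hkl)
  · rintro ⟨rfl, rfl⟩
    exact absurd hkl (not_lt.2 h2)
  · rintro ⟨rfl, rfl⟩
    exact absurd hkl (not_lt.2 h1)

theorem xl_mem_EL [Invol φ] {i : Fin n} (hi : i ≠ i.rev) (c : K) (hc : c + φ c = 0)
    (lam : Fin n → ℕ) (h1 : lam i < lam i.rev) : xl (φ := φ) hi c hc ∈ EL φ lam := by
  intro k l hkl
  rw [xl_apply, if_neg, add_zero]
  rintro ⟨rfl, rfl⟩
  exact absurd hkl (not_le.2 h1)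

theorem xl_mem_PL [Invol φ] {i : Fin n} (hi : i ≠ i.rev) (c : K) (hc : c + φ c = 0)
    (lam : Fin n → ℕ) (h1 : lam i ≤ lam i.rev) : xl (φ := φ) hi c hc ∈ PL φ lam := by
  intro k l hkl
  rw [xl_apply, if_neg, add_zero]
  · exact Matrix.one_apply_ne (fun e => by rw [e] at hkl; exact lt_irrefl _ hkl)
  · rintro ⟨rfl, rfl⟩
    exact absurd hkl (not_lt.2 h1)

theorem xb_mem_EL [Invol φ] {i m : Fin n} (hm : m.rev = m) (hi : i ≠ m) (a d : K)
    (h : d + φ d + a * φ a = 0) (lam : Fin n → ℕ) (h1 : lam i < lam m)
    (h2 : lam m < lam i.rev) : xb (φ := φ) hm hi a d h ∈ EL φ lam := by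
  intro k l hkl
  rw [xb_apply, if_neg, if_neg, if_neg, add_zero, sub_zero, add_zero]
  · rintro ⟨rfl, rfl⟩
    exact absurd hkl (not_le.2 (lt_trans h1 h2))
  · rintro ⟨rfl, rfl⟩
    exact absurd hkl (not_le.2 h2)
  · rintro ⟨rfl, rfl⟩
    exact absurd hkl (not_le.2 h1)

theorem xb_mem_PL [Invol φ] {i m : Fin n} (hm : m.rev = m) (hi : i ≠ m) (a d : K)
    (h : d + φ d + a * φ a = 0) (lam : Fin n → ℕ) (h1 : lam i ≤ lam m)
    (h2 : lam m ≤ lam i.rev) : xb (φ := φ) hm hi a d h ∈ PL φ lam := by
  intro k l hkl
  rw [xb_apply, if_neg, if_neg, if_neg, add_zero, sub_zero, add_zero]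
  · exact Matrix.one_apply_ne (fun e => by rw [e] at hkl; exact lt_irrefl _ hkl)
  · rintro ⟨rfl, rfl⟩
    exact absurd hkl (not_lt.2 (le_trans h1 h2))
  · rintro ⟨rfl, rfl⟩
    exact absurd hkl (not_lt.2 h2)
  · rintro ⟨rfl, rfl⟩
    exact absurd hkl (not_lt.2 h1)

/-- A simple root element with nonzero entry at `(i, i+1)`. -/
theorem exists_root [Invol φ] (hG : Good φ) (i j : Fin n) (hj : j.val = i.val + 1) :
    ∃ x : UG n φ, x ∈ EL φ (rk n) ∧ x.1.1 i j ≠ 0 := by
  obtain ⟨θ, hθ⟩ := hG.ex_tr
  obtain ⟨a₀, ha₀⟩ := hG.ex_nf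
  have hij : i ≠ j := fun e => by rw [e] at hj; omega
  have hri : i.rev.val = n - 1 - i.val := rev_val i
  have hrj : j.rev.val = n - 1 - j.val := rev_val j
  have hin : i.val < n := i.2
  have hjn : j.val < n := j.2
  by_cases hi : i = i.rev
  · -- `i` is the middle index
    have hk : j.rev ≠ i := by
      intro e
      have := congrArg Fin.val e
      have := congrArg Fin.val hi
      omega
    refine ⟨xb hi.symm hk 1 (-θ) (xb_one_param hθ), ?_, ?_⟩
    · apply xb_mem_EL
      · show j.rev.val < i.val
        have := congrArg Fin.val hi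
        omega
      · show i.val < j.rev.rev.val
        rw [Fin.rev_rev]
        omega
    · rw [xb_apply, Matrix.one_apply_ne hij, if_neg (fun h => hk h.1.symm), Fin.rev_rev,
        if_pos ⟨rfl, rfl⟩, if_neg (fun h => hk h.1.symm), map_one]
      norm_num
  · by_cases hjm : j = j.rev
    · refine ⟨xb hjm.symm hij 1 (-θ) (xb_one_param hθ), ?_, ?_⟩
      · apply xb_mem_EL
        · show i.val < j.val
          omega
        · show j.val < i.rev.val
          have := congrArg Fin.val hjm
          omega
      · have h1 : j ≠ i.rev := by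
          intro e
          have := congrArg Fin.val e
          have := congrArg Fin.val hjm
          omega
        rw [xb_apply, Matrix.one_apply_ne hij, if_pos ⟨rfl, rfl⟩, if_neg (fun h => hij h.1),
          if_neg (fun h => h1 h.2)]
        norm_num
    · refine ⟨xs hij hi hjm a₀, ?_, ?_⟩
      · apply xs_mem_EL
        · show i.val < j.val
          omega
        · show j.rev.val < i.rev.val
          omega
      · rw [xs_apply, Matrix.one_apply_ne hij, if_pos ⟨rfl, rfl⟩, zero_add]
        by_cases h1 : i = j.rev ∧ j = i.rev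
        · rw [if_pos h1]
          exact sub_ne_zero.2 (Ne.symm ha₀)
        · rw [if_neg h1, sub_zero]
          rintro rfl
          exact ha₀ (map_zero φ)

variable (p : ℕ) [Fact p.Prime] [CharP K p]

/-- An element conjugating the unitriangular subgroup into itself is triangular. -/
theorem norm_upper [Invol φ] (hG : Good φ) (g : UG n φ)
    (hg : ∀ u ∈ EL φ (rk n), g * u * g⁻¹ ∈ EL φ (rk n)) : g ∈ PL φ (rk n) := by
  have key : ∀ d : ℕ, ∀ k : Fin n, n - 1 - k.val = d → ∀ l : Fin n, l < k → g.1.1 k l = 0 := by
    intro d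
    induction d using Nat.strong_induction_on with
    | _ d ihd =>
      intro k hk
      have hrows : ∀ r : Fin n, k < r → ∀ l : Fin n, l < r → g.1.1 r l = 0 := by
        intro r hr l hl
        have hr' : k.val < r.val := hr
        exact ihd (n - 1 - r.val) (by have := r.2; omega) r rfl l hl
      have inner : ∀ e : ℕ, ∀ l : Fin n, l.val = e → l < k → g.1.1 k l = 0 := by
        intro e
        induction e using Nat.strong_induction_on with
        | _ e ihe =>
          intro l hl hlk
          have hlk' : l.val < k.val := hlk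
          let j : Fin n := ⟨l.val + 1, by have := k.2; omega⟩
          obtain ⟨x, hxU, hx0⟩ := exists_root hG l j rfl
          have hu := hg x hxU
          have heq : g.1.1 * x.1.1 = (g * x * g⁻¹).1.1 * g.1.1 := by
            rw [← mul_val, ← mul_val, inv_mul_cancel_right]
          have h1 := congrFun (congrFun heq k) j
          rw [Matrix.mul_apply, Matrix.mul_apply] at h1
          have hlj : l ≠ j := fun e' => by
            have := congrArg Fin.val e'
            simp only [j] at this
            omega
          have h2 : ∑ r, g.1.1 k r * x.1.1 r j = g.1.1 k l * x.1.1 l j + g.1.1 k j * x.1.1 j j := by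
            apply Finset.sum_eq_add l j hlj
            · intro r _ hr
              by_cases hrl : r.val < l.val
              · rw [ihe r.val (by omega) r rfl (lt_trans hrl hlk), zero_mul]
              · have hrj : j.val < r.val := by
                  have h3 : r.val ≠ l.val := fun e' => hr.1 (Fin.ext e')
                  have h4 : r.val ≠ j.val := fun e' => hr.2 (Fin.ext e')
                  simp only [j] at h4 ⊢
                  omega
                rw [hxU r j (le_of_lt hrj), Matrix.one_apply_ne (fun e' => by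
                  rw [e'] at hrj; exact lt_irrefl _ hrj), mul_zero]
            · intro h; exact absurd (Finset.mem_univ _) h
            · intro h; exact absurd (Finset.mem_univ _) h
          have h3 : ∑ r, (g * x * g⁻¹).1.1 k r * g.1.1 r j = g.1.1 k j := by
            rw [Finset.sum_eq_single k]
            · rw [hu k k le_rfl, Matrix.one_apply_eq, one_mul]
            · intro r _ hr
              by_cases hrk : r.val < k.val
              · rw [hu k r (le_of_lt hrk), Matrix.one_apply_ne (Ne.symm hr), zero_mul]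
              · have hkr : k < r := by
                  have h4 : r.val ≠ k.val := fun e' => hr (Fin.ext e')
                  show k.val < r.val
                  omega
                rw [hrows r hkr j (by
                  show j.val < r.val
                  have : k.val < r.val := hkr
                  simp only [j]
                  omega), mul_zero]
            · intro h; exact absurd (Finset.mem_univ _) h
          rw [h2, h3, hxU j j le_rfl, Matrix.one_apply_eq, mul_one] at h1
          have h4 : g.1.1 k l * x.1.1 l j = 0 := by linear_combination h1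
          exact (mul_eq_zero.1 h4).resolve_right hx0
      intro l hl
      exact inner l.val l rfl hl
  intro k l hkl
  exact key _ k rfl l hkl

/-! ### The diagonal torus -/

theorem diag_unit {g : UG n φ} (hg : g ∈ PL φ (rk n)) (i : Fin n) :
    φ (g.1.1 i.rev i.rev) * g.1.1 i i = 1 := by
  have h1 := congrFun (congrFun (adj_mul_self g) i) i
  rw [Matrix.mul_apply, Matrix.one_apply_eq, Finset.sum_eq_single i] at h1
  · rwa [adj_apply] at h1
  · intro r _ hr
    by_cases hri : r.val < i.val
    · rw [adj_apply, hg r.rev i.rev (by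
        show i.rev.val < r.rev.val
        rw [rev_val, rev_val]
        have := i.2
        omega), map_zero, zero_mul]
    · rw [hg r i (by
        show i.val < r.val
        have : r.val ≠ i.val := fun e => hr (Fin.ext e)
        omega), mul_zero]
  · intro h; exact absurd (Finset.mem_univ _) h

theorem det_diag {g : UG n φ} (hg : g ∈ PL φ (rk n)) : ∏ i, g.1.1 i i = 1 := by
  have h1 : g.1.1.det = ∏ i, g.1.1 i i := by
    apply Matrix.det_of_isUpperTriangular
    intro i j hij
    exact hg i j hij
  rw [← h1]
  exact g.1.2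

/-- The diagonal element with entries `d`. -/
def dg (d : Fin n → K) (h1 : ∀ i, φ (d i.rev) * d i = 1) (h2 : ∏ i, d i = 1) : UG n φ :=
  ⟨⟨Matrix.diagonal d, by rw [Matrix.det_diagonal, h2]⟩, by
    show adj φ (Matrix.diagonal d) * Matrix.diagonal d = 1
    rw [adj_diagonal, Matrix.diagonal_mul_diagonal]
    simp only [h1]
    exact Matrix.diagonal_one⟩

theorem dg_val (d : Fin n → K) (h1 : ∀ i, φ (d i.rev) * d i = 1) (h2 : ∏ i, d i = 1) :
    (dg (φ := φ) d h1 h2).1.1 = Matrix.diagonal d := rfl

theorem dg_mem_PL (d : Fin n → K) (h1 : ∀ i, φ (d i.rev) * d i = 1) (h2 : ∏ i, d i = 1)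
    (lam : Fin n → ℕ) : dg (φ := φ) d h1 h2 ∈ PL φ lam := by
  intro k l hkl
  rw [dg_val]
  exact Matrix.diagonal_apply_ne _ (fun e => by rw [e] at hkl; exact lt_irrefl _ hkl)

/-- Diagonal matrices in `UG` lie in every parabolic. -/
theorem mem_PL_of_diag {g : UG n φ} {d : Fin n → K} (hg : g.1.1 = Matrix.diagonal d)
    (lam : Fin n → ℕ) : g ∈ PL φ lam := by
  intro k l hkl
  rw [hg]
  exact Matrix.diagonal_apply_ne _ (fun e => by rw [e] at hkl; exact lt_irrefl _ hkl)

/-- Triangular elements are (diagonal) · (unitriangular). -/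
theorem exists_torus {g : UG n φ} (hg : g ∈ PL φ (rk n)) :
    ∃ t u : UG n φ, t.1.1 = Matrix.diagonal (fun i => g.1.1 i i) ∧ u ∈ EL φ (rk n) ∧
      g = t * u := by
  refine ⟨dg (fun i => g.1.1 i i) (fun i => diag_unit hg i) (det_diag hg),
    (dg (fun i => g.1.1 i i) (fun i => diag_unit hg i) (det_diag hg))⁻¹ * g, rfl, ?_, ?_⟩
  · intro k l hkl
    rw [mul_val, inv_val, dg_val, adj_diagonal, Matrix.diagonal_mul]
    by_cases hkl' : k = l
    · rw [hkl', diag_unit hg l, Matrix.one_apply_eq]
    · have : l.val < k.val := lt_of_le_of_ne hkl (fun e => hkl' (Fin.ext e).symm)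
      rw [hg k l this, mul_zero, Matrix.one_apply_ne hkl']
  · rw [mul_inv_cancel_left]

end Cfsg.Agent.H88.Un
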