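import Mathlib
import Cfsg.Agent.H88.SUnD

/-!
helper88: the image of the unitriangular subgroup of `UG n φ` in the central quotient is a
Sylow `p`-subgroup (normalizer growth), and is nontrivial.
-/

set_option autoImplicit false
set_option linter.unusedSectionVars false

namespace Cfsg.Agent.H88.Un

open Matrix

variable {n : ℕ} {K : Type*} [Field K] [Fintype K] {φ : K →+* K}

theorem diag_pow {g : UG n φ} (hg : g ∈ PL φ (rk n)) (N : ℕ) (i : Fin n) :
    (g ^ N).1.1 i i = (g.1.1 i i) ^ N := by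
  induction N with
  | zero =>
    rw [pow_zero, pow_zero]
    exact Matrix.one_apply_eq i
  | succ N ih =>
    rw [pow_succ, pow_succ, mul_val, Matrix.mul_apply, Finset.sum_eq_single i]
    · rw [ih]
    · intro r _ hr
      by_cases hri : r.val < i.val
      · rw [(pow_mem hg N : g ^ N ∈ PL φ (rk n)) i r hri, zero_mul]
      · rw [hg r i (by
          show i.val < r.val
          have : r.val ≠ i.val := fun e => hr (Fin.ext e)
          omega), mul_zero]
    · intro h; exact absurd (Finset.mem_univ _) h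

variable (p : ℕ) [Fact p.Prime] [CharP K p]

theorem isPGroup_Eb {f : ℕ} (hK : Fintype.card K = p ^ f) :
    IsPGroup p (Eb φ (rk n) : Subgroup (PU n φ)) := by
  have h1 : IsPGroup p (EL φ (rk n) : Subgroup (UG n φ)) := by
    intro u
    exact ⟨f * ∑ j : Fin n, (j : ℕ), Subtype.ext (U_pow p hK u.2)⟩
  exact h1.map _

/-- The image of the unitriangular subgroup is a Sylow `p`-subgroup. -/
theorem exists_sylow [Invol φ] (hn : 4 ≤ n) (hG : Good φ) {f : ℕ}
    (hK : Fintype.card K = p ^ f) :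
    ∃ P : Sylow p (PU n φ), (P : Subgroup (PU n φ)) = Eb φ (rk n) := by
  refine ⟨⟨Eb φ (rk n), isPGroup_Eb p hK, ?_⟩, rfl⟩
  intro Q hQ hle
  by_contra hne
  have : Group.IsNilpotent Q := hQ.isNilpotent
  have hH : (Eb φ (rk n)).subgroupOf Q < ⊤ := by
    rw [lt_top_iff_ne_top]
    intro e
    exact hne (le_antisymm (Subgroup.subgroupOf_eq_top.1 e) hle)
  have hnc := Group.normalizerCondition_of_isNilpotent (G := Q) _ hH
  obtain ⟨y, hyN, hyH⟩ := SetLike.exists_of_lt hnc
  apply hyH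
  rw [Subgroup.mem_subgroupOf]
  obtain ⟨g, hgy⟩ := QuotientGroup.mk_surjective (y : PU n φ)
  have hconj : ∀ x ∈ Eb φ (rk n), (QuotientGroup.mk g : PU n φ) * x * (QuotientGroup.mk g)⁻¹ ∈
      Eb φ (rk n) := by
    intro x hx
    have h1 : (⟨x, hle hx⟩ : Q) ∈ (Eb φ (rk n)).subgroupOf Q := by
      rw [Subgroup.mem_subgroupOf]
      exact hx
    have h2 := (Subgroup.mem_normalizer_iff.1 hyN ⟨x, hle hx⟩).1 h1
    rw [Subgroup.mem_subgroupOf] at h2
    rw [hgy]
    exact h2
  have hgB : g ∈ PL φ (rk n) :=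
    norm_upper hG g (fun u hu => conj_mem_U_of_conj p hn hG hK hconj hu)
  obtain ⟨k, hk⟩ := hQ y
  have hk' : g ^ (p ^ k) ∈ Subgroup.center (UG n φ) := by
    rw [← QuotientGroup.eq_one_iff, QuotientGroup.mk_pow, hgy]
    have := congrArg Subtype.val hk
    exact this
  obtain ⟨ζ, hζ⟩ := center_scalar hn hG _ hk'
  have hd : ∀ i, (g.1.1 i i) ^ (p ^ k) = ζ := by
    intro i
    rw [← diag_pow hgB, hζ, Matrix.diagonal_apply_eq]
  let i0 : Fin n := ⟨0, by omega⟩
  have hall : ∀ i, g.1.1 i i = g.1.1 i0 i0 := by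
    intro i
    have h1 : (g.1.1 i i - g.1.1 i0 i0) ^ (p ^ k) = 0 := by
      rw [sub_pow_char_pow, hd, hd, sub_self]
    exact sub_eq_zero.1 ((pow_eq_zero_iff (pow_pos (Fact.out : p.Prime).pos k).ne').1 h1)
  obtain ⟨t, u, ht, hu, hgtu⟩ := exists_torus hgB
  have hdn : (g.1.1 i0 i0) ^ n = 1 := by
    have h1 := det_diag hgB
    rw [Finset.prod_congr rfl (fun i _ => hall i), Finset.prod_const, Finset.card_univ,
      Fintype.card_fin] at h1
    exact h1
  have hdu : φ (g.1.1 i0 i0) * g.1.1 i0 i0 = 1 := by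
    have h1 := diag_unit hgB i0
    rwa [hall i0.rev] at h1
  have htc : t ∈ Subgroup.center (UG n φ) := by
    have e : t = sc (g.1.1 i0 i0) hdn hdu := by
      apply ext_val
      rw [ht, sc_val]
      congr 1
      funext i
      exact hall i
    rw [e]
    exact sc_mem_center _ _ _
  rw [← hgy, hgtu, QuotientGroup.mk_mul, (QuotientGroup.eq_one_iff t).2 htc, one_mul]
  exact mk_mem_Eb hu

/-- `Ū` is nontrivial. -/
theorem Eb_ne_bot [Invol φ] (hn : 4 ≤ n) (hG : Good φ) :
    (Eb φ (rk n) : Subgroup (PU n φ)) ≠ ⊥ := by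
  obtain ⟨ε, hε0, hε⟩ := hG.ex_eps
  let i0 : Fin n := ⟨0, by omega⟩
  have hi0 : i0 ≠ i0.rev := by
    intro e
    have := congrArg Fin.val e
    rw [rev_val] at this
    simp only [i0] at this
    omega
  intro hbot
  have h1 : (QuotientGroup.mk (xl hi0 ε hε) : PU n φ) ∈ Eb φ (rk n) := by
    apply mk_mem_Eb
    apply xl_mem_EL
    show i0.val < i0.rev.val
    rw [rev_val]
    simp only [i0]
    omega
  rw [hbot, Subgroup.mem_bot, QuotientGroup.eq_one_iff] at h1
  obtain ⟨d, hd⟩ := center_scalar hn hG _ h1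
  have h2 := congrFun (congrFun hd i0) i0.rev
  rw [xl_apply, Matrix.one_apply_ne hi0, if_pos ⟨rfl, rfl⟩, zero_add,
    Matrix.diagonal_apply_ne _ hi0] at h2
  exact hε0 h2

end Cfsg.Agent.H88.Un
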