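import Mathlib
import Cfsg.Agent.H88.SUnE

/-!
helper88: torus elements of the unitary group `UG n φ` as products of root elements.
-/

set_option autoImplicit false
set_option linter.unusedSectionVars false
set_option linter.unusedTactic false
set_option linter.unreachableTactic false

namespace Cfsg.Agent.H88.Un

open Matrix

variable {n : ℕ} {K : Type*} [Field K]

/-- `h_{ab}(t) = x_{ab}(c) x_{ba}((t-1)/c) x_{ab}(-c/t) x_{ba}(-t(t-1)/c)`. -/
theorem diag2n_gen {a b : Fin n} (hab : a ≠ b) (t : K) (ht : t ≠ 0) (c : K) (hc : c ≠ 0) :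
    Matrix.SpecialLinearGroup.diag2n hab t ht =
      Matrix.SpecialLinearGroup.transvection hab c *
        Matrix.SpecialLinearGroup.transvection hab.symm ((t - 1) / c) *
        Matrix.SpecialLinearGroup.transvection hab (-(c / t)) *
        Matrix.SpecialLinearGroup.transvection hab.symm (-(t * (t - 1) / c)) := by
  have key : Matrix.SpecialLinearGroup.transvection hab c *
      Matrix.SpecialLinearGroup.transvection hab.symm ((t - 1) / c) =
      Matrix.SpecialLinearGroup.diag2n hab t ht *
        (Matrix.SpecialLinearGroup.transvection hab.symm (t * (t - 1) / c) *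
          Matrix.SpecialLinearGroup.transvection hab (c / t)) := by
    apply Subtype.ext
    simp only [Matrix.SpecialLinearGroup.coe_mul, Matrix.SpecialLinearGroup.transvection_coe,
      Matrix.SpecialLinearGroup.diag2n_coe]
    ext k l
    rw [Matrix.diagonal_mul]
    simp only [Matrix.add_mul, Matrix.mul_add, Matrix.one_mul, Matrix.mul_one,
      Matrix.single_mul_single_same, Matrix.add_apply, Matrix.one_apply, Matrix.single_apply]
    by_cases hka : k = a
    · have hkb : k ≠ b := fun h => hab (hka.symm.trans h)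
      by_cases hla : l = a
      · have hlb : l ≠ b := fun h => hab (hla.symm.trans h)
        simp [hka, hla, hab.symm]
        all_goals (try field_simp)
        all_goals (try ring)
      · by_cases hlb : l = b
        · simp [hka, hlb, hab, hab.symm]
          all_goals (try field_simp)
          all_goals (try ring)
        · simp [hka, hab.symm, Ne.symm hla, Ne.symm hlb]
          all_goals (try field_simp)
          all_goals (try ring)
    · by_cases hkb : k = b
      · by_cases hla : l = a
        · simp [hkb, hla, hab, hab.symm]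
          all_goals (try field_simp)
          all_goals (try ring)
        · by_cases hlb : l = b
          · simp [hkb, hlb, hab, hab.symm]
            all_goals (try field_simp)
            all_goals (try ring)
          · simp [hkb, hab, hab.symm, Ne.symm hla, Ne.symm hlb]
            all_goals (try field_simp)
            all_goals (try ring)
      · simp [Ne.symm hka, Ne.symm hkb, hka, hkb]
        all_goals (try field_simp)
        all_goals (try ring)
  rw [← Matrix.SpecialLinearGroup.transvection_inv hab (c / t),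
    ← Matrix.SpecialLinearGroup.transvection_inv hab.symm (t * (t - 1) / c), key]
  group

theorem tv_comm {i j k l : Fin n} (hij : i ≠ j) (hkl : k ≠ l) (hjk : j ≠ k) (hli : l ≠ i)
    (a b : K) :
    Matrix.SpecialLinearGroup.transvection hij a * Matrix.SpecialLinearGroup.transvection hkl b =
      Matrix.SpecialLinearGroup.transvection hkl b *
        Matrix.SpecialLinearGroup.transvection hij a := by
  apply Subtype.ext
  rw [Matrix.SpecialLinearGroup.coe_mul, Matrix.SpecialLinearGroup.coe_mul,
    Matrix.SpecialLinearGroup.transvection_coe, Matrix.SpecialLinearGroup.transvection_coe]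
  have e1 : Matrix.single i j a * Matrix.single k l b = 0 :=
    Matrix.single_mul_single_of_ne _ _ _ _ hjk _
  have e2 : Matrix.single k l b * Matrix.single i j a = 0 :=
    Matrix.single_mul_single_of_ne _ _ _ _ hli _
  simp only [Matrix.add_mul, Matrix.mul_add, Matrix.one_mul, Matrix.mul_one, e1, e2]
  abel

theorem rearr {G : Type*} [Group G] (a₁ a₂ a₃ a₄ b₁ b₂ b₃ b₄ : G)
    (h12 : b₁ * a₂ = a₂ * b₁) (h13 : b₁ * a₃ = a₃ * b₁) (h14 : b₁ * a₄ = a₄ * b₁)
    (h23 : b₂ * a₃ = a₃ * b₂) (h24 : b₂ * a₄ = a₄ * b₂) (h34 : b₃ * a₄ = a₄ * b₃) :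
    a₁ * b₁ * (a₂ * b₂) * (a₃ * b₃) * (a₄ * b₄) = a₁ * a₂ * a₃ * a₄ * (b₁ * b₂ * b₃ * b₄) := by
  have c12 : ∀ x, b₁ * (a₂ * x) = a₂ * (b₁ * x) := fun x => by rw [← mul_assoc, h12, mul_assoc]
  have c13 : ∀ x, b₁ * (a₃ * x) = a₃ * (b₁ * x) := fun x => by rw [← mul_assoc, h13, mul_assoc]
  have c14 : ∀ x, b₁ * (a₄ * x) = a₄ * (b₁ * x) := fun x => by rw [← mul_assoc, h14, mul_assoc]
  have c23 : ∀ x, b₂ * (a₃ * x) = a₃ * (b₂ * x) := fun x => by rw [← mul_assoc, h23, mul_assoc]
  have c24 : ∀ x, b₂ * (a₄ * x) = a₄ * (b₂ * x) := fun x => by rw [← mul_assoc, h24, mul_assoc]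
  have c34 : ∀ x, b₃ * (a₄ * x) = a₄ * (b₃ * x) := fun x => by rw [← mul_assoc, h34, mul_assoc]
  simp only [mul_assoc]
  rw [c12, c23, c13, c34, c24, c14]

variable [Fintype K] {φ : K →+* K}

/-- The torus element `h_{ij}(t)`, as a product of four short root elements. -/
def hh [Invol φ] {i j : Fin n} (hij : i ≠ j) (hi : i ≠ i.rev) (hj : j ≠ j.rev) (t : K) :
    UG n φ :=
  xs hij hi hj 1 * xs hij.symm hj hi (t - 1) * xs hij hi hj (-t⁻¹) *
    xs hij.symm hj hi (-(t * (t - 1)))

/-- The diagonal of `h_{ij}(t)`. -/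
def hd (φ : K →+* K) (i j : Fin n) (t : K) : Fin n → K := fun k =>
  (if k = i then t else if k = j then t⁻¹ else 1) *
    (if k = j.rev then φ t else if k = i.rev then (φ t)⁻¹ else 1)

theorem hh_val [Invol φ] {i j : Fin n} (hij : i ≠ j) (hi : i ≠ i.rev) (hj : j ≠ j.rev)
    (hji : j ≠ i.rev) (t : K) (ht : t ≠ 0) :
    (hh (φ := φ) hij hi hj t).1.1 = Matrix.diagonal (hd φ i j t) := by
  have hs : φ t ≠ 0 := fun e => ht (by rw [← Invol.invol (φ := φ) t, e, map_zero])
  have hij' : i ≠ j.rev := fun e => hji (by rw [e, Fin.rev_rev])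
  have e : (hh (φ := φ) hij hi hj t).1 =
      Matrix.SpecialLinearGroup.transvection hij 1 *
        Matrix.SpecialLinearGroup.transvection (rev_ne hij) (-φ 1) *
      (Matrix.SpecialLinearGroup.transvection hij.symm (t - 1) *
        Matrix.SpecialLinearGroup.transvection (rev_ne hij.symm) (-φ (t - 1))) *
      (Matrix.SpecialLinearGroup.transvection hij (-t⁻¹) *
        Matrix.SpecialLinearGroup.transvection (rev_ne hij) (-φ (-t⁻¹))) *
      (Matrix.SpecialLinearGroup.transvection hij.symm (-(t * (t - 1))) *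
        Matrix.SpecialLinearGroup.transvection (rev_ne hij.symm) (-φ (-(t * (t - 1))))) := rfl
  have p1 : -φ 1 = (-1 : K) := by rw [map_one]
  have p2 : -φ (t - 1) = (φ t - 1) / (-1) := by rw [map_sub, map_one]; ring
  have p3 : -φ (-t⁻¹) = -((-1) / φ t) := by rw [map_neg, map_inv₀]; ring
  have p4 : -φ (-(t * (t - 1))) = -(φ t * (φ t - 1) / (-1)) := by
    rw [map_neg, map_mul, map_sub, map_one]; ring
  rw [e, rearr _ _ _ _ _ _ _ _
    (tv_comm (rev_ne hij) hij.symm hji.symm hij' _ _)
    (tv_comm (rev_ne hij) hij hi.symm hj _ _)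
    (tv_comm (rev_ne hij) hij.symm hji.symm hij' _ _)
    (tv_comm (rev_ne hij.symm) hij hij'.symm hji _ _)
    (tv_comm (rev_ne hij.symm) hij.symm hj.symm hi _ _)
    (tv_comm (rev_ne hij) hij.symm hji.symm hij' _ _)]
  have eA : Matrix.SpecialLinearGroup.transvection hij (1 : K) *
      Matrix.SpecialLinearGroup.transvection hij.symm (t - 1) *
      Matrix.SpecialLinearGroup.transvection hij (-t⁻¹) *
      Matrix.SpecialLinearGroup.transvection hij.symm (-(t * (t - 1))) =
      Matrix.SpecialLinearGroup.diag2n hij t ht := by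
    have h := diag2n_gen hij t ht 1 one_ne_zero
    simp only [div_one, one_div] at h
    exact h.symm
  have eB : Matrix.SpecialLinearGroup.transvection (rev_ne hij) (-φ 1) *
      Matrix.SpecialLinearGroup.transvection (rev_ne hij.symm) (-φ (t - 1)) *
      Matrix.SpecialLinearGroup.transvection (rev_ne hij) (-φ (-t⁻¹)) *
      Matrix.SpecialLinearGroup.transvection (rev_ne hij.symm) (-φ (-(t * (t - 1)))) =
      Matrix.SpecialLinearGroup.diag2n (rev_ne hij) (φ t) hs := by
    rw [p1, p2, p3, p4]
    exact (diag2n_gen (rev_ne hij) (φ t) hs (-1) (by norm_num)).symm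
  rw [eA, eB, Matrix.SpecialLinearGroup.coe_mul, Matrix.SpecialLinearGroup.diag2n_coe,
    Matrix.SpecialLinearGroup.diag2n_coe, Matrix.diagonal_mul_diagonal]
  rfl

theorem hd_i {i j : Fin n} (hi : i ≠ i.rev) (hji : j ≠ i.rev) (t : K) :
    hd φ i j t i = t := by
  have hij' : i ≠ j.rev := fun e => hji (by rw [e, Fin.rev_rev])
  simp [hd, hij', hi]

theorem hd_irev {i j : Fin n} (hij : i ≠ j) (hi : i ≠ i.rev) (hji : j ≠ i.rev) (t : K) :
    hd φ i j t i.rev = (φ t)⁻¹ := by
  simp [hd, hi.symm, hji.symm, (rev_ne hij).symm]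

theorem hd_other {i j : Fin n} (t : K) (k : Fin n) (h1 : k ≠ i) (h2 : k ≠ j) (h3 : k ≠ j.rev)
    (h4 : k ≠ i.rev) : hd φ i j t k = 1 := by
  simp [hd, h1, h2, h3, h4]

/-- The formal basis matrix (used to normalize identities with `module`). -/
def EE (i j : Fin n) : Matrix (Fin n) (Fin n) K := Matrix.single i j 1

theorem single_eq (i j : Fin n) (c : K) : Matrix.single i j c = c • (EE i j : Matrix (Fin n) (Fin n) K) := by
  rw [EE, Matrix.smul_single, smul_eq_mul, mul_one]

/-! ### Long root elements: additivity and torus conjugation -/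

theorem xl_mul [Invol φ] {i : Fin n} (hi : i ≠ i.rev) (c c' : K) (hc : c + φ c = 0)
    (hc' : c' + φ c' = 0) (hcc : (c + c') + φ (c + c') = 0) :
    xl (φ := φ) hi c hc * xl hi c' hc' = xl hi (c + c') hcc := by
  apply ext_val
  rw [mul_val, xl_val, xl_val, xl_val]
  have e1 : Matrix.single i i.rev c * Matrix.single i i.rev c' = 0 :=
    Matrix.single_mul_single_of_ne _ _ _ _ hi.symm _
  rw [Matrix.add_mul, Matrix.one_mul, Matrix.mul_add, Matrix.mul_one, e1, add_zero,
    Matrix.single_add]
  abel

theorem xl_zero [Invol φ] {i : Fin n} (hi : i ≠ i.rev) (h0 : (0 : K) + φ 0 = 0) :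
    xl (φ := φ) hi 0 h0 = 1 := by
  apply ext_val
  rw [xl_val, Matrix.single_zero, add_zero]
  rfl

theorem diag_conj_xl [Invol φ] {D : UG n φ} {d : Fin n → K} (hD : D.1.1 = Matrix.diagonal d)
    {i : Fin n} (hi : i ≠ i.rev) (c c' : K) (hc : c + φ c = 0) (hc' : c' + φ c' = 0)
    (h : d i * c = c' * d i.rev) : D * xl hi c hc * D⁻¹ = xl hi c' hc' := by
  have e : D * xl hi c hc = xl hi c' hc' * D := by
    apply ext_val
    rw [mul_val, mul_val, xl_val, xl_val, hD]
    ext k l
    rw [Matrix.diagonal_mul, Matrix.mul_diagonal, Matrix.add_apply, Matrix.add_apply,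
      Spn.single_apply_c, Spn.single_apply_c]
    by_cases hkl : k = i ∧ l = i.rev
    · rw [if_pos hkl, if_pos hkl, hkl.1, hkl.2, Matrix.one_apply_ne hi]
      linear_combination h
    · rw [if_neg hkl, if_neg hkl, add_zero]
      by_cases hkl' : k = l
      · rw [hkl', Matrix.one_apply_eq, mul_one, one_mul]
      · rw [Matrix.one_apply_ne hkl', mul_zero, zero_mul]
  rw [e, mul_inv_cancel_right]

end Cfsg.Agent.H88.Un
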