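import Mathlib
import Cfsg.Agent.H88.SUnF

/-!
helper88: strongly closed subgroups of the unitriangular subgroup of `UG n φ`, part 1: the
block (Siegel) elements.
-/

set_option autoImplicit false
set_option linter.unusedSectionVars false
set_option linter.unusedSimpArgs false
set_option linter.unusedTactic false
set_option linter.unreachableTactic false
set_option linter.unnecessarySeqFocus false

namespace Cfsg.Agent.H88.Un

open Matrix

variable {n : ℕ} {K : Type*} [Field K] [Fintype K] {φ : K →+* K}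

/-- The first index. -/
def i0 (hn : 4 ≤ n) : Fin n := ⟨0, by omega⟩

/-- The second index. -/
def i1 (hn : 4 ≤ n) : Fin n := ⟨1, by omega⟩

theorem i0_ne_rev (hn : 4 ≤ n) : i0 hn ≠ (i0 hn).rev := by
  intro e
  have := congrArg Fin.val e
  rw [rev_val] at this
  simp only [i0] at this
  omega

theorem i1_ne_rev (hn : 4 ≤ n) : i1 hn ≠ (i1 hn).rev := by
  intro e
  have := congrArg Fin.val e
  rw [rev_val] at this
  simp only [i1] at this
  omega

theorem i0_ne_i1 (hn : 4 ≤ n) : i0 hn ≠ i1 hn := by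
  intro e
  have := congrArg Fin.val e
  simp only [i0, i1] at this
  omega

theorem i1_ne_i0rev (hn : 4 ≤ n) : i1 hn ≠ (i0 hn).rev := by
  intro e
  have := congrArg Fin.val e
  rw [rev_val] at this
  simp only [i0, i1] at this
  omega

/-- Supported on (first half) × (second half). -/
def IsBlk (S : Matrix (Fin n) (Fin n) K) : Prop :=
  ∀ k l : Fin n, ¬(2 * k.val + 1 < n ∧ n < 2 * l.val + 1) → S k l = 0

theorem blk_mul_blk {S S' : Matrix (Fin n) (Fin n) K} (hS : IsBlk S) (hS' : IsBlk S') :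
    S * S' = 0 := by
  ext k l
  rw [Matrix.mul_apply]
  apply Finset.sum_eq_zero
  intro r _
  by_cases h : n < 2 * r.val + 1
  · rw [hS' r l (fun h' => by omega), mul_zero]
  · rw [hS k r (fun h' => h h'.2), zero_mul]

theorem blk_isUL {S : Matrix (Fin n) (Fin n) K} (hS : IsBlk S) : IsUL (rk n) (1 + S) := by
  intro k l hkl
  have hkl' : l.val ≤ k.val := hkl
  rw [Matrix.add_apply, hS k l (fun h => by omega), add_zero]

theorem adj_blk {S : Matrix (Fin n) (Fin n) K} (hS : IsBlk S) : IsBlk (adj φ S) := by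
  intro k l h
  rw [adj_apply, hS l.rev k.rev (fun h' => h (by
    rw [rev_val, rev_val] at h'
    have := k.2
    have := l.2
    omega)), map_zero]

theorem blk_single {i j : Fin n} (hi : 2 * i.val + 1 < n) (hj : n < 2 * j.val + 1) (c : K) :
    IsBlk (Matrix.single i j c) := by
  intro k l h
  rw [Spn.single_apply_c, if_neg]
  rintro ⟨rfl, rfl⟩
  exact h ⟨hi, hj⟩

/-- The block matrices `S` with `1 + S ∈ H`. -/
def blkT (H : Subgroup (UG n φ)) : AddSubgroup (Matrix (Fin n) (Fin n) K) where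
  carrier := {S | IsBlk S ∧ ∃ g : UG n φ, g ∈ H ∧ g.1.1 = 1 + S}
  zero_mem' := ⟨fun _ _ _ => rfl, 1, H.one_mem, by rw [add_zero]; rfl⟩
  add_mem' := by
    rintro S S' ⟨hS, g, hg, e⟩ ⟨hS', g', hg', e'⟩
    refine ⟨fun k l h => by rw [Matrix.add_apply, hS k l h, hS' k l h, add_zero], g * g',
      H.mul_mem hg hg', ?_⟩
    rw [mul_val, e, e', Matrix.add_mul, Matrix.one_mul, Matrix.mul_add, Matrix.mul_one,
      blk_mul_blk hS hS', add_zero]
    abel
  neg_mem' := by
    rintro S ⟨hS, g, hg, e⟩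
    refine ⟨fun k l h => by rw [Matrix.neg_apply, hS k l h, neg_zero], g⁻¹, H.inv_mem hg, ?_⟩
    have h1 : (1 + -S) * g.1.1 = 1 := by
      rw [e, Matrix.add_mul, Matrix.one_mul, Matrix.neg_mul, Matrix.mul_add, Matrix.mul_one,
        blk_mul_blk hS hS, add_zero]
      abel
    calc (g⁻¹).1.1 = (1 + -S) * g.1.1 * (g⁻¹).1.1 := by rw [h1, Matrix.one_mul]
      _ = 1 + -S := by rw [Matrix.mul_assoc, val_mul_inv, Matrix.mul_one]

theorem of_blkT {H : Subgroup (UG n φ)} {S : Matrix (Fin n) (Fin n) K} (hS : S ∈ blkT H)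
    {g : UG n φ} (hg : g.1.1 = 1 + S) : g ∈ H := by
  obtain ⟨_, g₀, hg₀, e⟩ := hS
  rw [ext_val (hg.trans e.symm)]
  exact hg₀

/-- The congruence by the Levi transvection `1 + a E_{ji}` (minus nothing). -/
def Cg (φ : K →+* K) (S : Matrix (Fin n) (Fin n) K) (j i : Fin n) (a : K) :
    Matrix (Fin n) (Fin n) K :=
  Matrix.of fun k l => S k l + (if k = j then a * S i l else 0) +
    (if l = j.rev then φ a * S k i.rev else 0) +
    (if k = j ∧ l = j.rev then a * φ a * S i i.rev else 0)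

theorem Cg_apply (S : Matrix (Fin n) (Fin n) K) (j i : Fin n) (a : K) (k l : Fin n) :
    Cg φ S j i a k l = S k l + (if k = j then a * S i l else 0) +
    (if l = j.rev then φ a * S k i.rev else 0) +
    (if k = j ∧ l = j.rev then a * φ a * S i i.rev else 0) := rfl

theorem Cg_blk {S : Matrix (Fin n) (Fin n) K} (hS : IsBlk S) {j : Fin n}
    (hj : 2 * j.val + 1 < n) (i : Fin n) (a : K) : IsBlk (Cg φ S j i a) := by
  intro k l h
  have h1 : S k l = 0 := hS k l h
  have h2 : k = j → S i l = 0 := fun e => hS i l (fun h' => h ⟨by rw [e]; exact hj, h'.2⟩)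
  have h3 : l = j.rev → S k i.rev = 0 := fun e => hS k i.rev (fun h' => h ⟨h'.1, by
    rw [e, rev_val]; omega⟩)
  have h4 : ¬(k = j ∧ l = j.rev) := fun e => h ⟨by rw [e.1]; exact hj, by
    rw [e.2, rev_val]; omega⟩
  have e1 : (if k = j then a * S i l else 0) = 0 := by
    split_ifs with hk
    · rw [h2 hk, mul_zero]
    · rfl
  have e2 : (if l = j.rev then φ a * S k i.rev else 0) = 0 := by
    split_ifs with hl
    · rw [h3 hl, mul_zero]
    · rfl
  rw [Cg_apply, h1, if_neg h4, e1, e2, add_zero, add_zero, add_zero]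

/-- Conjugating a block element by a Levi transvection. -/
theorem conj_blk [Invol φ] {i j : Fin n} (hji : j ≠ i) (hi : i ≠ i.rev) (hj : j ≠ j.rev)
    (hi1 : 2 * i.val + 1 < n) (hj1 : 2 * j.val + 1 < n) (a : K)
    {S : Matrix (Fin n) (Fin n) K} (hS : IsBlk S) :
    (xs (φ := φ) hji hj hi a).1.1 * (1 + S) =
      (1 + Cg φ S j i a) * (xs (φ := φ) hji hj hi a).1.1 := by
  have hS' := Cg_blk (φ := φ) hS hj1 i a
  have hri : i.rev.val = n - 1 - i.val := rev_val i
  have hrj : j.rev.val = n - 1 - j.val := rev_val j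
  have f1 : ∀ l, S j.rev l = 0 := fun l => hS _ _ (fun h => by omega)
  have f2 : ∀ k, Cg φ S j i a k j = 0 := fun k => hS' _ _ (fun h => by omega)
  have f3 : i.rev ≠ j.rev := rev_ne hji
  have f4 : ∀ k, Cg φ S j i a k i.rev = S k i.rev + (if k = j then a * S i i.rev else 0) := by
    intro k
    rw [Cg_apply]
    simp [f3]
  have hL : ∀ k l, ((1 + Matrix.single j i a - Matrix.single i.rev j.rev (φ a)) * (1 + S)) k l =
      (1 + S) k l + (if k = j then a * (1 + S) i l else 0) -
        (if k = i.rev then φ a * (1 + S) j.rev l else 0) := by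
    intro k l
    rw [Matrix.sub_mul, Matrix.add_mul, Matrix.one_mul, Matrix.sub_apply, Matrix.add_apply,
      Spn.single_mul_apply', Spn.single_mul_apply']
  have hR : ∀ k l, ((1 + Cg φ S j i a) *
      (1 + Matrix.single j i a - Matrix.single i.rev j.rev (φ a))) k l =
      (1 + Cg φ S j i a) k l + (if l = i then (1 + Cg φ S j i a) k j * a else 0) -
        (if l = j.rev then (1 + Cg φ S j i a) k i.rev * φ a else 0) := by
    intro k l
    rw [Matrix.mul_sub, Matrix.mul_add, Matrix.mul_one, Matrix.sub_apply, Matrix.add_apply,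
      Spn.mul_single_apply', Spn.mul_single_apply']
  rw [xs_val]
  ext k l
  rw [hL, hR]
  simp only [Matrix.add_apply, f1, f2, f4, Cg_apply, Matrix.one_apply]
  have hjir : j ≠ i.rev := fun e => by have := congrArg Fin.val e; omega
  have hijr : i ≠ j.rev := fun e => by have := congrArg Fin.val e; omega
  by_cases hk : k = j
  · have hk' : k ≠ i.rev := fun e => hjir (hk ▸ e)
    by_cases hl : l = j.rev
    · have hl' : l ≠ i := fun e => hijr (e ▸ hl)
      simp [hk, hk', hl, hl', hji, hji.symm, hi, hi.symm, hj, hj.symm, f3, f3.symm, hjir, hjir.symm, hijr, hijr.symm] <;> ring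
    · by_cases hl' : l = i
      · simp [hk, hk', hl, hl', hji, hji.symm, hi, hi.symm, hj, hj.symm, f3, f3.symm, hjir, hjir.symm, hijr, hijr.symm] <;> ring
      · simp [hk, hk', hl, hl', Ne.symm hl, Ne.symm hl', hji, hji.symm, hi, hi.symm, hj, hj.symm, f3, f3.symm, hjir, hjir.symm, hijr, hijr.symm] <;> ring
  · by_cases hk' : k = i.rev
    ·
      by_cases hl : l = j.rev
      · have hl' : l ≠ i := fun e => hijr (e ▸ hl)
        simp [hk, hk', hl, hl', hji, hji.symm, hi, hi.symm, hj, hj.symm, f3, f3.symm, hjir, hjir.symm, hijr, hijr.symm] <;> ring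
      · by_cases hl' : l = i
        · simp [hk, hk', hl, hl', hji, hji.symm, hi, hi.symm, hj, hj.symm, f3, f3.symm, hjir, hjir.symm, hijr, hijr.symm] <;> ring
        · simp [hk, hk', hl, hl', Ne.symm hl, Ne.symm hl', hji, hji.symm, hi, hi.symm, hj, hj.symm, f3, f3.symm, hjir, hjir.symm, hijr, hijr.symm] <;> ring
    ·
      by_cases hl : l = j.rev
      · have hl' : l ≠ i := fun e => hijr (e ▸ hl)
        simp [hk, hk', hl, hl', hji, hji.symm, hi, hi.symm, hj, hj.symm, f3, f3.symm, hjir, hjir.symm, hijr, hijr.symm] <;> ring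
      · by_cases hl' : l = i
        · simp [hk, hk', hl, hl', hji, hji.symm, hi, hi.symm, hj, hj.symm, f3, f3.symm, hjir, hjir.symm, hijr, hijr.symm] <;> ring
        · simp [hk, hk', hl, hl', Ne.symm hl, Ne.symm hl', hji, hji.symm, hi, hi.symm, hj, hj.symm, f3, f3.symm, hjir, hjir.symm, hijr, hijr.symm] <;> ring

/-- The strong closure hypothesis. -/
def SC (H : Subgroup (UG n φ)) : Prop :=
  ∀ g ∈ H, ∀ d : UG n φ, d * g * d⁻¹ ∈ EL φ (rk n) → d * g * d⁻¹ ∈ H

theorem xl_eq_one [Invol φ] {i : Fin n} (hi : i ≠ i.rev) (c : K) (hc : c + φ c = 0)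
    (e : c = 0) : xl (φ := φ) hi c hc = 1 := by
  apply ext_val
  rw [xl_val, e, Matrix.single_zero, add_zero]
  rfl

/-- The additive group of `c` with `x_long(i, c) ∈ H`. -/
def xlSub [Invol φ] (H : Subgroup (UG n φ)) {i : Fin n} (hi : i ≠ i.rev) : AddSubgroup K where
  carrier := {c | ∃ hc : c + φ c = 0, xl hi c hc ∈ H}
  zero_mem' := ⟨by rw [map_zero, add_zero], by rw [xl_eq_one hi 0 _ rfl]; exact H.one_mem⟩
  add_mem' := by
    rintro c c' ⟨hc, h⟩ ⟨hc', h'⟩
    have hcc : (c + c') + φ (c + c') = 0 := by rw [map_add]; linear_combination hc + hc'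
    exact ⟨hcc, by rw [← xl_mul hi c c' hc hc' hcc]; exact H.mul_mem h h'⟩
  neg_mem' := by
    rintro c ⟨hc, h⟩
    have hc' : -c + φ (-c) = 0 := by rw [map_neg]; linear_combination -hc
    refine ⟨hc', ?_⟩
    have e : xl hi c hc * xl hi (-c) hc' = 1 := by
      rw [xl_mul hi c (-c) hc hc' (by rw [add_neg_cancel, map_zero, add_zero])]
      exact xl_eq_one hi _ _ (add_neg_cancel c)
    rw [eq_inv_of_mul_eq_one_right e]
    exact H.inv_mem h

/-- If `H` contains one nontrivial long root element at the first index, it contains all. -/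
theorem long_all [Invol φ] (hn : 4 ≤ n) (hG : Good φ) {H : Subgroup (UG n φ)} (hSC : SC H)
    {c₀ : K} (hc₀ : c₀ ≠ 0) (h0 : c₀ + φ c₀ = 0) (hmem : xl (i0_ne_rev hn) c₀ h0 ∈ H)
    (c : K) (hc : c + φ c = 0) : xl (φ := φ) (i0_ne_rev hn) c hc ∈ H := by
  obtain ⟨θ, hθ⟩ := hG.ex_tr
  have hA : ∀ a : K, c₀ * (a * φ a) ∈ xlSub H (i0_ne_rev hn) := by
    intro a
    have hca : c₀ * (a * φ a) + φ (c₀ * (a * φ a)) = 0 := by
      rw [map_mul, map_mul, Invol.invol]
      linear_combination (a * φ a) * h0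
    refine ⟨hca, ?_⟩
    by_cases ha : a = 0
    · rw [xl_eq_one _ _ _ (by rw [ha, zero_mul, mul_zero])]
      exact H.one_mem
    · have hφa : φ a ≠ 0 := fun e => ha (by rw [← Invol.invol (φ := φ) a, e, map_zero])
      have hD := hh_val (φ := φ) (i0_ne_i1 hn) (i0_ne_rev hn) (i1_ne_rev hn) (i1_ne_i0rev hn) a ha
      have hconj := diag_conj_xl hD (i0_ne_rev hn) c₀ (c₀ * (a * φ a)) h0 hca (by
        rw [hd_i (i0_ne_rev hn) (i1_ne_i0rev hn),
          hd_irev (i0_ne_i1 hn) (i0_ne_rev hn) (i1_ne_i0rev hn)]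
        field_simp)
      have := hSC _ hmem (hh (i0_ne_i1 hn) (i0_ne_rev hn) (i1_ne_rev hn) a) (by
        rw [hconj]
        apply xl_mem_EL
        show (i0 hn).val < (i0 hn).rev.val
        rw [rev_val]
        simp only [i0]
        omega)
      rwa [hconj] at this
  have hc₀' : φ c₀ = -c₀ := by linear_combination h0
  have hc' : φ c = -c := by linear_combination hc
  have ht : φ (c / c₀) = c / c₀ := by rw [map_div₀, hc₀', hc', neg_div_neg_eq]
  have h1 := hA (θ * (c / c₀) + 1)
  have h2 := hA (θ * (c / c₀))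
  have h3 := hA 1
  have h4 := (xlSub H (i0_ne_rev hn)).sub_mem ((xlSub H (i0_ne_rev hn)).sub_mem h1 h2) h3
  have e : c₀ * ((θ * (c / c₀) + 1) * φ (θ * (c / c₀) + 1)) -
      c₀ * (θ * (c / c₀) * φ (θ * (c / c₀))) - c₀ * (1 * φ 1) = c := by
    have hφθ : φ θ = 1 - θ := by linear_combination hθ
    rw [map_add, map_mul, map_one, ht, hφθ]
    field_simp
    ring
  rw [e] at h4
  obtain ⟨_, h5⟩ := h4
  exact h5

theorem ne_rev_of_fst {i : Fin n} (hi : 2 * i.val + 1 < n) : i ≠ i.rev := by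
  intro e
  have := congrArg Fin.val e
  rw [rev_val] at this
  omega

theorem cg_mem [Invol φ] {H : Subgroup (UG n φ)} (hSC : SC H) {i j : Fin n} (hji : j ≠ i)
    (hi1 : 2 * i.val + 1 < n) (hj1 : 2 * j.val + 1 < n) (a : K)
    {S : Matrix (Fin n) (Fin n) K} (hS : S ∈ blkT H) : Cg φ S j i a ∈ blkT H := by
  obtain ⟨hSb, g, hg, e⟩ := hS
  have hi : i ≠ i.rev := ne_rev_of_fst hi1
  have hj : j ≠ j.rev := ne_rev_of_fst hj1
  have hb := Cg_blk (φ := φ) hSb hj1 i a
  have hval : (xs (φ := φ) hji hj hi a * g * (xs (φ := φ) hji hj hi a)⁻¹).1.1 =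
      1 + Cg φ S j i a := by
    rw [mul_val, mul_val, e, conj_blk hji hi hj hi1 hj1 a hSb, Matrix.mul_assoc, val_mul_inv,
      Matrix.mul_one]
  refine ⟨hb, _, hSC g hg (xs hji hj hi a) ?_, hval⟩
  intro k l hkl
  rw [hval]
  exact blk_isUL hb k l hkl

theorem Cg_single {i j : Fin n} (hji : j ≠ i) (c a : K) :
    Cg φ (Matrix.single i i.rev c) j i a = Matrix.single i i.rev c +
      Matrix.single j i.rev (a * c) + Matrix.single i j.rev (φ a * c) +
      Matrix.single j j.rev (a * φ a * c) := by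
  have f3 : j.rev ≠ i.rev := fun e => hji (Fin.rev_injective e)
  ext k l
  simp only [Cg_apply, Matrix.add_apply, Spn.single_apply_c]
  by_cases hk : k = j
  · have hk' : k ≠ i := fun e => hji (hk.symm.trans e)
    by_cases hl : l = j.rev
    · have hl' : l ≠ i.rev := fun e => f3 (hl.symm.trans e)
      simp [hk, hk', hl, hl', Ne.symm hk', Ne.symm hl', hji, hji.symm, f3, f3.symm]
    · by_cases hl' : l = i.rev
      · simp [hk, hk', hl, hl', Ne.symm hk', Ne.symm hl, hji, hji.symm, f3, f3.symm]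
      · simp [hk, hk', hl, hl', Ne.symm hk', Ne.symm hl, Ne.symm hl', hji, hji.symm, f3, f3.symm]
  · by_cases hk' : k = i
    · by_cases hl : l = j.rev
      · have hl' : l ≠ i.rev := fun e => f3 (hl.symm.trans e)
        simp [hk, hk', hl, hl', Ne.symm hk, Ne.symm hl', hji, hji.symm, f3, f3.symm]
      · by_cases hl' : l = i.rev
        · simp [hk, hk', hl, hl', Ne.symm hk, Ne.symm hl, hji, hji.symm, f3, f3.symm]
        · simp [hk, hk', hl, hl', Ne.symm hk, Ne.symm hl, Ne.symm hl', hji, hji.symm, f3, f3.symm]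
    · by_cases hl : l = j.rev
      · have hl' : l ≠ i.rev := fun e => f3 (hl.symm.trans e)
        simp [hk, hk', hl, hl', Ne.symm hk, Ne.symm hk', Ne.symm hl', hji, hji.symm, f3, f3.symm]
      · by_cases hl' : l = i.rev
        · simp [hk, hk', hl, hl', Ne.symm hk, Ne.symm hk', Ne.symm hl, hji, hji.symm, f3, f3.symm]
        · simp [hk, hk', hl, hl', Ne.symm hk, Ne.symm hk', Ne.symm hl, Ne.symm hl', hji, hji.symm, f3, f3.symm]

theorem long_step [Invol φ] (hG : Good φ) {H : Subgroup (UG n φ)} (hSC : SC H) {i j : Fin n}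
    (hij : i ≠ j) (hi1 : 2 * i.val + 1 < n) (hj1 : 2 * j.val + 1 < n)
    (hlong : ∀ c : K, c + φ c = 0 → Matrix.single i i.rev c ∈ blkT H) :
    (∀ c : K, c + φ c = 0 → Matrix.single j j.rev c ∈ blkT H) ∧
    (∀ b : K, Matrix.single i j.rev b - Matrix.single j i.rev (φ b) ∈ blkT H) := by
  obtain ⟨θ, hθ⟩ := hG.ex_tr
  obtain ⟨ε, hε0, hε⟩ := hG.ex_eps
  have hV : ∀ (c : K), c + φ c = 0 → ∀ a : K, Matrix.single j i.rev (a * c) +
      Matrix.single i j.rev (φ a * c) + Matrix.single j j.rev (a * φ a * c) ∈ blkT H := by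
    intro c hc a
    have h1 := cg_mem hSC hij.symm hi1 hj1 a (hlong c hc)
    rw [Cg_single hij.symm] at h1
    have h2 := (blkT H).sub_mem h1 (hlong c hc)
    have e : Matrix.single i i.rev c + Matrix.single j i.rev (a * c) +
        Matrix.single i j.rev (φ a * c) + Matrix.single j j.rev (a * φ a * c) -
        Matrix.single i i.rev c = Matrix.single j i.rev (a * c) +
        Matrix.single i j.rev (φ a * c) + Matrix.single j j.rev (a * φ a * c) := by abel
    rwa [e] at h2
  have hJ : ∀ c : K, c + φ c = 0 → Matrix.single j j.rev c ∈ blkT H := by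
    intro c hc
    have h1 := (blkT H).sub_mem ((blkT H).sub_mem (hV c hc (θ + 1)) (hV c hc θ)) (hV c hc 1)
    have hφθ : φ θ = 1 - θ := by linear_combination hθ
    have e : Matrix.single j i.rev ((θ + 1) * c) + Matrix.single i j.rev (φ (θ + 1) * c) +
        Matrix.single j j.rev ((θ + 1) * φ (θ + 1) * c) -
        (Matrix.single j i.rev (θ * c) + Matrix.single i j.rev (φ θ * c) +
          Matrix.single j j.rev (θ * φ θ * c)) -
        (Matrix.single j i.rev (1 * c) + Matrix.single i j.rev (φ 1 * c) +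
          Matrix.single j j.rev (1 * φ 1 * c)) = Matrix.single j j.rev c := by
      rw [map_add, map_one, hφθ]
      simp only [single_eq]
      module
    rwa [e] at h1
  refine ⟨hJ, ?_⟩
  intro b
  have hφε : φ ε = -ε := by linear_combination hε
  have ha1 : (-(φ b) / ε) * ε = -φ b := by field_simp
  have ha2 : φ (-(φ b) / ε) * ε = b := by
    rw [map_div₀, map_neg, Invol.invol, hφε]
    field_simp
  have h1 := hV ε hε (-(φ b) / ε)
  have hc' : (-(φ b) / ε) * φ (-(φ b) / ε) * ε + φ ((-(φ b) / ε) * φ (-(φ b) / ε) * ε) = 0 := by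
    rw [map_mul, map_mul, Invol.invol, hφε]
    ring
  have h2 := (blkT H).sub_mem h1 (hJ _ hc')
  have e : Matrix.single j i.rev (-(φ b) / ε * ε) + Matrix.single i j.rev (φ (-(φ b) / ε) * ε) +
      Matrix.single j j.rev (-(φ b) / ε * φ (-(φ b) / ε) * ε) -
      Matrix.single j j.rev (-(φ b) / ε * φ (-(φ b) / ε) * ε) =
      Matrix.single i j.rev b - Matrix.single j i.rev (φ b) := by
    rw [ha1, ha2, ← Matrix.single_neg]
    abel
  rwa [e] at h2

end Cfsg.Agent.H88.Un
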