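import Mathlib
import Cfsg.Agent.H88.SUnG

/-!
helper88: strongly closed subgroups of the unitriangular subgroup of `UG n φ`, part 2: all block
elements, the Levi root elements, the elements through the middle index, generation.
-/

set_option autoImplicit false
set_option linter.unusedSectionVars false
set_option linter.unusedSimpArgs false
set_option linter.unusedTactic false
set_option linter.unreachableTactic false
set_option linter.unnecessarySeqFocus false

namespace Cfsg.Agent.H88.Un

open Matrix

variable {n : ℕ} {K : Type*} [Field K] [Fintype K] {φ : K →+* K}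

/-- Every skew block matrix lies in `blkT H`. -/
theorem all_blk [Invol φ] {H : Subgroup (UG n φ)}
    (hlong : ∀ i : Fin n, 2 * i.val + 1 < n → ∀ c : K, c + φ c = 0 →
      Matrix.single i i.rev c ∈ blkT H)
    (hpair : ∀ i j : Fin n, 2 * i.val + 1 < n → 2 * j.val + 1 < n → i ≠ j → ∀ b : K,
      Matrix.single i j.rev b - Matrix.single j i.rev (φ b) ∈ blkT H)
    (S : Matrix (Fin n) (Fin n) K) (hS : IsBlk S) (hadj : adj φ S = -S) : S ∈ blkT H := by
  have hent : ∀ k l : Fin n, φ (S l.rev k.rev) = -S k l := fun k l => by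
    have := congrFun (congrFun hadj k) l
    rwa [adj_apply, Matrix.neg_apply] at this
  obtain ⟨D, hD⟩ : ∃ D : Matrix (Fin n) (Fin n) K,
      D = Matrix.of fun k l => if k = l.rev then S k l else 0 := ⟨_, rfl⟩
  obtain ⟨W, hW⟩ : ∃ W : Matrix (Fin n) (Fin n) K,
      W = Matrix.of fun k l => if k.val < l.rev.val then S k l else 0 := ⟨_, rfl⟩
  have hdec : S = D + (W - adj φ W) := by
    ext k l
    rw [Matrix.add_apply, Matrix.sub_apply, adj_apply, hD, hW]
    simp only [Matrix.of_apply, Fin.rev_rev]
    rcases lt_trichotomy k.val l.rev.val with h | h | h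
    · rw [if_neg (fun e => by rw [e] at h; exact lt_irrefl _ h), if_pos h,
        if_neg (not_lt.2 h.le), map_zero, sub_zero, zero_add]
    · rw [if_pos (Fin.ext h), if_neg (by rw [h]; exact lt_irrefl _),
        if_neg (by rw [h]; exact lt_irrefl _), map_zero, sub_zero, add_zero]
    · rw [if_neg (fun e => by rw [e] at h; exact lt_irrefl _ h), if_neg (not_lt.2 h.le),
        if_pos h, hent, zero_sub, neg_neg, zero_add]
  have hDm : D ∈ blkT H := by
    rw [Matrix.matrix_eq_sum_single D]
    apply (blkT H).sum_mem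
    intro k _
    apply (blkT H).sum_mem
    intro l _
    by_cases hkl : k = l.rev
    · have hl : l = k.rev := by rw [hkl, Fin.rev_rev]
      have e : D k l = S k k.rev := by
        rw [hD]
        simp only [Matrix.of_apply]
        rw [if_pos hkl, hl]
      rw [e, hl]
      by_cases hk : 2 * k.val + 1 < n
      · apply hlong k hk
        have := hent k k.rev
        rw [Fin.rev_rev] at this
        rw [this, add_neg_cancel]
      · rw [hS k k.rev (fun h => hk h.1), Matrix.single_zero]
        exact (blkT H).zero_mem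
    · have e : D k l = 0 := by
        rw [hD]
        simp only [Matrix.of_apply]
        rw [if_neg hkl]
      rw [e, Matrix.single_zero]
      exact (blkT H).zero_mem
  have hWm : W - adj φ W ∈ blkT H := by
    have e : W - adj φ W = ∑ k, ∑ l, (Matrix.single k l (W k l) -
        Matrix.single l.rev k.rev (φ (W k l))) := by
      conv_lhs => rw [Matrix.matrix_eq_sum_single W]
      rw [← adjHom_apply, map_sum]
      simp only [map_sum, adjHom_apply, adj_single, ← Finset.sum_sub_distrib]
    rw [e]
    apply (blkT H).sum_mem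
    intro k _
    apply (blkT H).sum_mem
    intro l _
    by_cases h : k.val < l.rev.val
    · have e1 : W k l = S k l := by
        rw [hW]
        simp only [Matrix.of_apply]
        rw [if_pos h]
      rw [e1]
      by_cases hb : 2 * k.val + 1 < n ∧ n < 2 * l.val + 1
      · have h2 := hpair k l.rev hb.1 (by rw [rev_val]; omega)
          (fun e => by rw [e] at h; exact lt_irrefl _ h) (S k l)
        rwa [Fin.rev_rev] at h2
      · rw [hS k l hb, map_zero, Matrix.single_zero, Matrix.single_zero, sub_zero]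
        exact (blkT H).zero_mem
    · have e1 : W k l = 0 := by
        rw [hW]
        simp only [Matrix.of_apply]
        rw [if_neg h]
      rw [e1, map_zero, Matrix.single_zero, Matrix.single_zero, sub_zero]
      exact (blkT H).zero_mem
  rw [hdec]
  exact (blkT H).add_mem hDm hWm

/-- A subgroup whose block module is everything contains all block elements. -/
theorem blk_all [Invol φ] {H : Subgroup (UG n φ)}
    (hall : ∀ S : Matrix (Fin n) (Fin n) K, IsBlk S → adj φ S = -S → S ∈ blkT H)
    (g : UG n φ) (hg : IsBlk (g.1.1 - 1)) : g ∈ H := by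
  obtain ⟨S, hS⟩ : ∃ S : Matrix (Fin n) (Fin n) K, S = g.1.1 - 1 := ⟨_, rfl⟩
  have e : g.1.1 = 1 + S := by rw [hS]; abel
  rw [← hS] at hg
  apply of_blkT (hall S hg ?_) e
  have h1 := adj_mul_self g
  rw [e, adj_add, adj_one, Matrix.add_mul, Matrix.one_mul, Matrix.mul_add, Matrix.mul_one,
    blk_mul_blk (adj_blk hg) hg, add_zero] at h1
  rw [eq_neg_iff_add_eq_zero]
  calc adj φ S + S = ((1 + S) + adj φ S) - 1 := by abel
    _ = 0 := by rw [h1, sub_self]

/-- All block elements lie in a strongly closed subgroup containing a nontrivial long root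
element at the first index. -/
theorem blk_mem [Invol φ] (hn : 4 ≤ n) (hG : Good φ) {H : Subgroup (UG n φ)} (hSC : SC H)
    {c₀ : K} (hc₀ : c₀ ≠ 0) (h0 : c₀ + φ c₀ = 0) (hmem : xl (i0_ne_rev hn) c₀ h0 ∈ H)
    (g : UG n φ) (hg : IsBlk (g.1.1 - 1)) : g ∈ H := by
  have hi0 : 2 * (i0 hn).val + 1 < n := by simp only [i0]; omega
  have hL0 : ∀ c : K, c + φ c = 0 → Matrix.single (i0 hn) (i0 hn).rev c ∈ blkT H := by
    intro c hc
    refine ⟨blk_single hi0 (by rw [rev_val]; simp only [i0]; omega) c, _,
      long_all hn hG hSC hc₀ h0 hmem c hc, xl_val _ _ _⟩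
  have hL : ∀ i : Fin n, 2 * i.val + 1 < n → ∀ c : K, c + φ c = 0 →
      Matrix.single i i.rev c ∈ blkT H := by
    intro i hi
    by_cases hi' : i = i0 hn
    · rw [hi']; exact hL0
    · exact (long_step hG hSC (Ne.symm hi') hi0 hi hL0).1
  apply blk_all (all_blk hL ?_) g hg
  intro i j hi hj hij b
  exact (long_step hG hSC hij hi hj (hL i hi)).2 b

theorem IsBlk.sub {S S' : Matrix (Fin n) (Fin n) K} (h : IsBlk S) (h' : IsBlk S') :
    IsBlk (S - S') := fun k l hkl => by
  rw [Matrix.sub_apply, h k l hkl, h' k l hkl, sub_zero]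

/-- The Levi root elements `x_{ij}`, `i < j` in the first half. -/
theorem levi_mem [Invol φ] (hG : Good φ) {H : Subgroup (UG n φ)} (hSC : SC H)
    (hblk : ∀ g : UG n φ, IsBlk (g.1.1 - 1) → g ∈ H) {i j : Fin n} (hne : i ≠ j)
    (hi : i ≠ i.rev) (hj : j ≠ j.rev) (hij : i.val < j.val) (hj1 : 2 * j.val + 1 < n) (b : K) :
    xs (φ := φ) hne hi hj b ∈ H := by
  obtain ⟨ε, hε0, hε⟩ := hG.ex_eps
  have hφε : φ ε = -ε := by linear_combination hε
  have hri : i.rev.val = n - 1 - i.val := rev_val i
  have hrj : j.rev.val = n - 1 - j.val := rev_val j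
  have hjr : j.rev ≠ j.rev.rev := by rw [Fin.rev_rev]; exact hj.symm
  have hijr : i ≠ j.rev := fun e => by have := congrArg Fin.val e; omega
  have hjir : j ≠ i.rev := fun e => by have := congrArg Fin.val e; omega
  have hrr : j.rev ≠ i.rev := rev_ne hne
  have key : ∀ b₁ : K, xs (φ := φ) hne hi hj (-(b₁ * ε)) ∈ H := by
    intro b₁
    have hf : -(ε * (b₁ * φ b₁)) + φ (-(ε * (b₁ * φ b₁))) = 0 := by
      rw [map_neg, map_mul, map_mul, Invol.invol, hφε]
      ring
    have hg₁ : xs (φ := φ) hijr hi hjr b₁ ∈ H := by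
      apply hblk
      rw [xs_val, Fin.rev_rev]
      have e : (1 : Matrix (Fin n) (Fin n) K) + Matrix.single i j.rev b₁ -
          Matrix.single j i.rev (φ b₁) - 1 =
          Matrix.single i j.rev b₁ - Matrix.single j i.rev (φ b₁) := by abel
      rw [e]
      exact (blk_single (by omega) (by omega) _).sub (blk_single hj1 (by omega) _)
    have hlf : xl (φ := φ) hi (-(ε * (b₁ * φ b₁))) hf ∈ H := by
      apply hblk
      rw [xl_val, add_sub_cancel_left]
      exact blk_single (by omega) (by omega) _
    have hid : xl (φ := φ) hjr ε hε * xs hijr hi hjr b₁ =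
        xs hne hi hj (-(b₁ * ε)) * xs hijr hi hjr b₁ * xl hi (-(ε * (b₁ * φ b₁))) hf *
          xl hjr ε hε := by
      apply ext_val
      simp only [mul_val, xs_val, xl_val, Fin.rev_rev, map_neg, map_mul, hφε]
      simp only [Matrix.add_mul, Matrix.sub_mul, Matrix.mul_add, Matrix.mul_sub, Matrix.one_mul,
        Matrix.mul_one, ssm, hne, hne.symm, hi, hi.symm, hj, hj.symm, hijr, hijr.symm, hjir,
        hjir.symm, hrr, hrr.symm, if_true, if_false, Matrix.zero_mul, Matrix.mul_zero, sub_zero,
        add_zero, zero_add, zero_sub, eq_self_iff_true, ↓reduceIte]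
      simp only [single_eq]
      module
    have hw : xl (φ := φ) hjr ε hε * xs hijr hi hjr b₁ * (xl (φ := φ) hjr ε hε)⁻¹ =
        xs hne hi hj (-(b₁ * ε)) * xs hijr hi hjr b₁ * xl hi (-(ε * (b₁ * φ b₁))) hf := by
      rw [hid, mul_inv_cancel_right]
    have hx1 : xs (φ := φ) hne hi hj (-(b₁ * ε)) ∈ EL φ (rk n) :=
      xs_mem_EL _ _ _ _ _ (by show i.val < j.val; exact hij)
        (by show j.rev.val < i.rev.val; omega)
    have hx2 : xs (φ := φ) hijr hi hjr b₁ ∈ EL φ (rk n) :=
      xs_mem_EL _ _ _ _ _ (by show i.val < j.rev.val; omega)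
        (by show j.rev.rev.val < i.rev.val; rw [Fin.rev_rev]; omega)
    have hx3 : xl (φ := φ) hi (-(ε * (b₁ * φ b₁))) hf ∈ EL φ (rk n) :=
      xl_mem_EL _ _ _ _ (by show i.val < i.rev.val; omega)
    have hwH := hSC _ hg₁ (xl hjr ε hε) (by rw [hw]; exact mul_mem (mul_mem hx1 hx2) hx3)
    rw [hw] at hwH
    have e : xs (φ := φ) hne hi hj (-(b₁ * ε)) =
        (xs hne hi hj (-(b₁ * ε)) * xs hijr hi hjr b₁ * xl hi (-(ε * (b₁ * φ b₁))) hf) *
          (xl (φ := φ) hi (-(ε * (b₁ * φ b₁))) hf)⁻¹ * (xs (φ := φ) hijr hi hjr b₁)⁻¹ := by group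
    rw [e]
    exact H.mul_mem (H.mul_mem hwH (H.inv_mem hlf)) (H.inv_mem hg₁)
  have h := key (-b / ε)
  have e : -(-b / ε * ε) = b := by field_simp
  rw [e] at h
  exact h

end Cfsg.Agent.H88.Un
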