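import Mathlib
import Cfsg.Agent.H88.SUnH

/-!
helper88: strongly closed subgroups of the unitriangular subgroup of `UG n φ`, part 3: the
Siegel unipotent radical `EL φ (lamQ n)` lies in every strongly closed subgroup containing the
block elements and the Levi root elements.
-/

set_option autoImplicit false
set_option linter.unusedSectionVars false
set_option linter.unusedSimpArgs false
set_option linter.unusedTactic false
set_option linter.unreachableTactic false
set_option linter.unnecessarySeqFocus false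

namespace Cfsg.Agent.H88.Un

open Matrix

variable {n : ℕ} {K : Type*} [Field K] [Fintype K] {φ : K →+* K}

/-- The level function of the Siegel parabolic: first half, middle, second half. -/
def lamQ (n : ℕ) : Fin n → ℕ := fun i =>
  if 2 * i.val + 1 < n then 0 else if 2 * i.val + 1 = n then 1 else 2

theorem lamQ_fst {i : Fin n} (h : 2 * i.val + 1 < n) : lamQ n i = 0 := by
  simp only [lamQ]; rw [if_pos h]

theorem lamQ_mid {i : Fin n} (h : 2 * i.val + 1 = n) : lamQ n i = 1 := by
  simp only [lamQ]; rw [if_neg (by omega), if_pos h]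

theorem lamQ_snd {i : Fin n} (h : n < 2 * i.val + 1) : lamQ n i = 2 := by
  simp only [lamQ]; rw [if_neg (by omega), if_neg (by omega)]

theorem lamQ_mono {i j : Fin n} (h : i.val ≤ j.val) : lamQ n i ≤ lamQ n j := by
  simp only [lamQ]
  split_ifs <;> omega

theorem mid_iff {m : Fin n} : m.rev = m ↔ 2 * m.val + 1 = n := by
  constructor
  · intro h
    have := congrArg Fin.val h
    rw [rev_val] at this
    have := m.2
    omega
  · intro h
    apply Fin.ext
    rw [rev_val]
    omega

theorem ELQ_le_U : (EL φ (lamQ n) : Subgroup (UG n φ)) ≤ EL φ (rk n) :=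
  EL_mono (fun _ _ h => lamQ_mono h)

theorem U_le_PLQ : (EL φ (rk n) : Subgroup (UG n φ)) ≤ PL φ (lamQ n) := by
  apply EL_le_PL
  intro i j h
  by_contra hc
  have : i.val ≤ j.val := by
    have : ¬ (rk n j ≤ rk n i) := hc
    simp only [rk] at this
    omega
  exact absurd (lamQ_mono this) (not_le.2 h)

/-- An element of the Siegel radical with trivial middle column is a block element. -/
theorem blk_of_R {r : UG n φ} (hr : r ∈ EL φ (lamQ n))
    (hmid : ∀ m : Fin n, m.rev = m → ∀ k, k ≠ m → r.1.1 k m = 0) : IsBlk (r.1.1 - 1) := by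
  intro k l h
  rw [Matrix.sub_apply]
  by_cases hkl : lamQ n l ≤ lamQ n k
  · rw [hr k l hkl, sub_self]
  · have hkl' : lamQ n k < lamQ n l := not_le.1 hkl
    have hne : k ≠ l := fun e => by rw [e] at hkl'; exact lt_irrefl _ hkl'
    rw [Matrix.one_apply_ne hne, sub_zero]
    by_cases hl : 2 * l.val + 1 = n
    · exact hmid l (mid_iff.2 hl) k hne
    · -- then `k` is the middle index and `l` is in the second half
      have hk : 2 * k.val + 1 = n := by
        by_contra hk
        simp only [lamQ] at hkl'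
        split_ifs at hkl' <;> omega
      have hkm : k.rev = k := mid_iff.2 hk
      have h1 := congrFun (congrFun (adj_mul_self r) k) l
      rw [Matrix.mul_apply, Matrix.one_apply_ne hne, Finset.sum_eq_single k] at h1
      · rw [adj_apply, hkm, hr k k le_rfl, Matrix.one_apply_eq, map_one, one_mul] at h1
        exact h1
      · intro s _ hs
        rw [adj_apply, hkm, hmid k hkm s.rev (fun e => hs (by
          have := congrArg Fin.rev e
          rw [Fin.rev_rev, hkm] at this
          exact this)), map_zero, zero_mul]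
      · intro h; exact absurd (Finset.mem_univ _) h

theorem mid_mul {m : Fin n} (hm : m.rev = m) {r r' : UG n φ} (hr : r ∈ EL φ (lamQ n))
    (hr' : r' ∈ EL φ (lamQ n)) (k : Fin n) (hk : k ≠ m) :
    (r * r').1.1 k m = r.1.1 k m + r'.1.1 k m := by
  rw [mul_val, Matrix.mul_apply, Finset.sum_eq_add k m hk]
  · rw [hr k k le_rfl, hr' m m le_rfl, Matrix.one_apply_eq, Matrix.one_apply_eq, one_mul,
      mul_one, add_comm]
  · intro s _ hs
    by_cases h : lamQ n s ≤ lamQ n k
    · rw [hr k s h, Matrix.one_apply_ne (Ne.symm hs.1), zero_mul]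
    · have h1 : lamQ n m ≤ lamQ n s := by
        rw [lamQ_mid (mid_iff.1 hm)]
        omega
      rw [hr' s m h1, Matrix.one_apply_ne hs.2, mul_zero]
  · intro h; exact absurd (Finset.mem_univ _) h
  · intro h; exact absurd (Finset.mem_univ _) h

theorem mid_inv {m : Fin n} (hm : m.rev = m) {r : UG n φ} (hr : r ∈ EL φ (lamQ n))
    (k : Fin n) (hk : k ≠ m) : (r⁻¹).1.1 k m = -r.1.1 k m := by
  have h1 := mid_mul hm (inv_mem hr) hr k hk
  rw [inv_mul_cancel] at h1
  have h2 : (1 : UG n φ).1.1 k m = 0 := Matrix.one_apply_ne hk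
  rw [h2] at h1
  linear_combination -h1

/-- Conjugation by a Levi root element acts on the middle column. -/
theorem mid_conj [Invol φ] {m : Fin n} (hm : m.rev = m) {i j : Fin n} (hij : i ≠ j)
    (hi1 : 2 * i.val + 1 < n) (hj1 : 2 * j.val + 1 < n) (b : K) {r : UG n φ}
    (hr : r ∈ EL φ (lamQ n)) (k : Fin n) :
    (xs (φ := φ) hij (ne_rev_of_fst hi1) (ne_rev_of_fst hj1) b * r *
      (xs (φ := φ) hij (ne_rev_of_fst hi1) (ne_rev_of_fst hj1) b)⁻¹).1.1 k m =
      r.1.1 k m + (if k = i then b * r.1.1 j m else 0) := by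
  have hmv := mid_iff.1 hm
  have hri : i.rev.val = n - 1 - i.val := rev_val i
  have hrj : j.rev.val = n - 1 - j.val := rev_val j
  have hmi : m ≠ i := fun e => by rw [e] at hmv; omega
  have hmj : m ≠ j.rev := fun e => by rw [e] at hmv; omega
  have hinv : ∀ t : Fin n, ((xs (φ := φ) hij (ne_rev_of_fst hi1) (ne_rev_of_fst hj1) b)⁻¹).1.1 t m =
      (1 : Matrix (Fin n) (Fin n) K) t m := by
    intro t
    rw [inv_val, adj_apply, hm, xs_apply, if_neg (fun h => hmi h.1), if_neg (fun h => hmj h.1),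
      add_zero, sub_zero, Matrix.one_apply, Matrix.one_apply]
    by_cases htm : t = m
    · rw [if_pos htm, if_pos (by rw [htm, hm]), map_one]
    · rw [if_neg htm, if_neg (fun e => htm (by
        have := congrArg Fin.rev e
        rw [Fin.rev_rev, hm] at this
        exact this.symm)), map_zero]
  rw [mul_val, Matrix.mul_apply, Finset.sum_eq_single m]
  · rw [hinv, Matrix.one_apply_eq, mul_one, mul_val, xs_val, Matrix.sub_mul, Matrix.add_mul,
      Matrix.one_mul, Matrix.sub_apply, Matrix.add_apply, Spn.single_mul_apply',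
      Spn.single_mul_apply']
    have h0 : r.1.1 i.rev m = 0 := by
      rw [hr i.rev m (by rw [lamQ_mid hmv, lamQ_snd (by omega)]; omega)]
      exact Matrix.one_apply_ne (fun e => by rw [← e] at hmv; omega)
    rw [h0, mul_zero, ite_self, sub_zero]
  · intro t _ ht
    rw [hinv, Matrix.one_apply_ne ht, mul_zero]
  · intro h; exact absurd (Finset.mem_univ _) h

/-- The middle columns realized by elements of the Siegel radical lying in `H`. -/
def midV (H : Subgroup (UG n φ)) {m : Fin n} (hm : m.rev = m) : AddSubgroup (Fin n → K) where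
  carrier := {v | v m = 0 ∧ ∃ r : UG n φ, r ∈ EL φ (lamQ n) ∧ r ∈ H ∧
    ∀ k, k ≠ m → r.1.1 k m = v k}
  zero_mem' := ⟨rfl, 1, one_mem _, H.one_mem, fun k hk => Matrix.one_apply_ne hk⟩
  add_mem' := by
    rintro v v' ⟨hv, r, hr, hrH, hrv⟩ ⟨hv', r', hr', hrH', hrv'⟩
    refine ⟨by rw [Pi.add_apply, hv, hv', add_zero], r * r', mul_mem hr hr',
      H.mul_mem hrH hrH', ?_⟩
    intro k hk
    rw [mid_mul hm hr hr' k hk, hrv k hk, hrv' k hk, Pi.add_apply]
  neg_mem' := by
    rintro v ⟨hv, r, hr, hrH, hrv⟩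
    refine ⟨by rw [Pi.neg_apply, hv, neg_zero], r⁻¹, inv_mem hr, H.inv_mem hrH, ?_⟩
    intro k hk
    rw [mid_inv hm hr k hk, hrv k hk, Pi.neg_apply]

theorem midV_conj [Invol φ] {H : Subgroup (UG n φ)} (hSC : SC H) {m : Fin n} (hm : m.rev = m)
    {i j : Fin n} (hij : i ≠ j) (hi1 : 2 * i.val + 1 < n) (hj1 : 2 * j.val + 1 < n) (b : K)
    {v : Fin n → K} (hv : v ∈ midV H hm) : v + Pi.single i (b * v j) ∈ midV H hm := by
  obtain ⟨hvm, r, hr, hrH, hrv⟩ := hv
  have hmv := mid_iff.1 hm
  have hmi : m ≠ i := fun e => by rw [e] at hmv; omega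
  have hjm : j ≠ m := fun e => by rw [← e] at hmv; omega
  have hx : xs (φ := φ) hij (ne_rev_of_fst hi1) (ne_rev_of_fst hj1) b ∈ PL φ (lamQ n) := by
    apply xs_mem_PL
    · rw [lamQ_fst hi1, lamQ_fst hj1]
    · rw [lamQ_snd (by rw [rev_val]; omega), lamQ_snd (by rw [rev_val]; omega)]
  have hr' := conj_mem_EL hx hr
  refine ⟨by rw [Pi.add_apply, hvm, Pi.single_apply, if_neg hmi, add_zero], _, hr',
    hSC r hrH _ (ELQ_le_U hr'), ?_⟩
  intro k hk
  rw [mid_conj hm hij hi1 hj1 b hr k, hrv k hk, hrv j hjm, Pi.add_apply, Pi.single_apply]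

/-- The Siegel radical lies in every strongly closed subgroup containing the block elements
and the Levi root elements. -/
theorem R_le [Invol φ] (hn : 4 ≤ n) (hG : Good φ) {H : Subgroup (UG n φ)} (hSC : SC H)
    (hblk : ∀ g : UG n φ, IsBlk (g.1.1 - 1) → g ∈ H)
    (hlevi : ∀ (i j : Fin n) (hne : i ≠ j) (hi : i ≠ i.rev) (hj : j ≠ j.rev), i.val < j.val →
      2 * j.val + 1 < n → ∀ b : K, xs (φ := φ) hne hi hj b ∈ H) :
    EL φ (lamQ n) ≤ H := by
  by_cases hmid : ∃ m : Fin n, m.rev = m
  · obtain ⟨m, hm⟩ := hmid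
    have hmv := mid_iff.1 hm
    obtain ⟨θ, hθ⟩ := hG.ex_tr
    have h0f : 2 * (i0 hn).val + 1 < n := by simp only [i0]; omega
    have h1f : 2 * (i1 hn).val + 1 < n := by simp only [i1]; omega
    have h1m : i1 hn ≠ m := fun e => by rw [← e] at hmv; simp only [i1] at hmv; omega
    have h0m : i0 hn ≠ m := fun e => by rw [← e] at hmv; simp only [i0] at hmv; omega
    have hxH : xs (φ := φ) (i0_ne_i1 hn) (ne_rev_of_fst h0f) (ne_rev_of_fst h1f) 1 ∈ H :=
      hlevi _ _ _ _ _ (by simp only [i0, i1]; omega) h1f 1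
    obtain ⟨x, hx⟩ : ∃ x : UG n φ,
        x = xs (φ := φ) (i0_ne_i1 hn) (ne_rev_of_fst h0f) (ne_rev_of_fst h1f) 1 := ⟨_, rfl⟩
    obtain ⟨u, hu⟩ : ∃ u : UG n φ, u = xb (φ := φ) hm h1m 1 (-θ) (xb_one_param hθ) := ⟨_, rfl⟩
    rw [← hx] at hxH
    have huR : u ∈ EL φ (lamQ n) := by
      rw [hu]
      apply xb_mem_EL
      · rw [lamQ_fst h1f, lamQ_mid hmv]; omega
      · rw [lamQ_mid hmv, lamQ_snd (by rw [rev_val]; simp only [i1]; omega)]; omega
    have hxU : x ∈ EL φ (rk n) := by
      rw [hx]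
      apply xs_mem_EL
      · show (i0 hn).val < (i1 hn).val
        simp only [i0, i1]; omega
      · show (i1 hn).rev.val < (i0 hn).rev.val
        rw [rev_val, rev_val]; simp only [i0, i1]; omega
    have hxP : x ∈ PL φ (lamQ n) := U_le_PLQ hxU
    have hr₀R : x * u * x⁻¹ * u⁻¹ ∈ EL φ (lamQ n) :=
      mul_mem (conj_mem_EL hxP huR) (inv_mem huR)
    have hr₀H : x * u * x⁻¹ * u⁻¹ ∈ H := by
      have h1 : u * x⁻¹ * u⁻¹ ∈ H := hSC x⁻¹ (H.inv_mem hxH) u
        (mul_mem (mul_mem (ELQ_le_U huR) (inv_mem hxU)) (inv_mem (ELQ_le_U huR)))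
      have e : x * u * x⁻¹ * u⁻¹ = x * (u * x⁻¹ * u⁻¹) := by group
      rw [e]
      exact H.mul_mem hxH h1
    have hu1 : u.1.1 (i1 hn) m = 1 := by
      rw [hu, xb_apply, Matrix.one_apply_ne h1m, if_pos ⟨rfl, rfl⟩, if_neg (fun h => h1m h.1),
        if_neg (fun h => (mid_ne_rev hm h1m) h.2)]
      ring
    have hv₀ : (Pi.single (i0 hn) (1 : K) : Fin n → K) ∈ midV H hm := by
      refine ⟨by rw [Pi.single_apply, if_neg h0m.symm], _, hr₀R, hr₀H, ?_⟩
      intro k hk
      rw [mid_mul hm (conj_mem_EL hxP huR) (inv_mem huR) k hk, mid_inv hm huR k hk, hx,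
        mid_conj hm (i0_ne_i1 hn) h0f h1f 1 huR k, hu1, Pi.single_apply]
      split_ifs <;> ring
    have hne0 : ∀ j : Fin n, 2 * j.val + 1 < n → j ≠ i0 hn → ∀ b : K,
        (Pi.single j b : Fin n → K) ∈ midV H hm := by
      intro j hj hj0 b
      have h1 := midV_conj hSC hm hj0 hj h0f b hv₀
      have h2 := (midV H hm).sub_mem h1 hv₀
      rw [add_sub_cancel_left, Pi.single_apply, if_pos rfl, mul_one] at h2
      exact h2
    have hsingle : ∀ j : Fin n, 2 * j.val + 1 < n → ∀ b : K,
        (Pi.single j b : Fin n → K) ∈ midV H hm := by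
      intro j hj b
      by_cases hj0 : j = i0 hn
      · rw [hj0]
        have h1 := hne0 (i1 hn) h1f (i0_ne_i1 hn).symm 1
        have h2 := midV_conj hSC hm (i0_ne_i1 hn) h0f h1f b h1
        have h3 := (midV H hm).sub_mem h2 h1
        rw [add_sub_cancel_left, Pi.single_apply, if_pos rfl, mul_one] at h3
        exact h3
      · exact hne0 j hj hj0 b
    intro r hr
    have hv : (fun k : Fin n => if 2 * k.val + 1 < n then r.1.1 k m else 0) ∈ midV H hm := by
      rw [← Finset.univ_sum_single (fun k : Fin n => if 2 * k.val + 1 < n then r.1.1 k m else 0)]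
      apply (midV H hm).sum_mem
      intro k _
      by_cases hk : 2 * k.val + 1 < n
      · exact hsingle k hk _
      · simp only [if_neg hk]
        rw [Pi.single_zero]
        exact (midV H hm).zero_mem
    obtain ⟨_, r₁, hr₁, hr₁H, hr₁v⟩ := hv
    have h2 : r₁⁻¹ * r ∈ H := by
      apply hblk
      apply blk_of_R (mul_mem (inv_mem hr₁) hr)
      intro m' hm' k hk
      have hmm : m' = m := mid_unique hm' hm
      rw [hmm] at hk ⊢
      rw [mid_mul hm (inv_mem hr₁) hr k hk, mid_inv hm hr₁ k hk, hr₁v k hk]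
      beta_reduce
      by_cases hk1 : 2 * k.val + 1 < n
      · rw [if_pos hk1]; ring
      · rw [if_neg hk1, hr k m (by
          rw [lamQ_mid hmv, lamQ_snd (by
            have : k.val ≠ m.val := fun e => hk (Fin.ext e)
            omega)]
          omega), Matrix.one_apply_ne hk]
        ring
    have e : r = r₁ * (r₁⁻¹ * r) := by group
    rw [e]
    exact H.mul_mem hr₁H h2
  · intro r hr
    exact hblk r (blk_of_R hr (fun m hm => absurd ⟨m, hm⟩ hmid))

end Cfsg.Agent.H88.Un
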