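import Mathlib
import Cfsg.Agent.H88.SUnI
import Cfsg.Agent.H3.Critical

/-!
helper88: strongly closed subgroups of the unitriangular subgroup of `UG n φ`, part 4:
generation of the unitriangular subgroup by the Siegel radical and the Levi root elements, the
centre of the unitriangular subgroup, and the conclusion: the image of the unitriangular
subgroup in the central quotient has no proper nontrivial strongly closed subgroup.
-/

set_option autoImplicit false
set_option linter.unusedSectionVars false
set_option linter.unusedSimpArgs false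
set_option linter.unusedTactic false
set_option linter.unreachableTactic false
set_option linter.unnecessarySeqFocus false

namespace Cfsg.Agent.H88.Un

open Matrix

variable {n : ℕ} {K : Type*} [Field K] [Fintype K] {φ : K →+* K}

open scoped Classical in
/-- The nonzero entries above the diagonal in the first-half columns. -/
noncomputable def regS (u : UG n φ) : Finset (Fin n × Fin n) :=
  Finset.univ.filter (fun x => x.1.val < x.2.val ∧ 2 * x.2.val + 1 < n ∧ u.1.1 x.1 x.2 ≠ 0)

theorem mem_regS {u : UG n φ} {x : Fin n × Fin n} :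
    x ∈ regS u ↔ x.1.val < x.2.val ∧ 2 * x.2.val + 1 < n ∧ u.1.1 x.1 x.2 ≠ 0 := by
  simp only [regS, Finset.mem_filter, Finset.mem_univ, true_and]

/-- The unitriangular subgroup is generated by the Siegel radical and the Levi root elements. -/
theorem gen_U [Invol φ] {H : Subgroup (UG n φ)}
    (hlevi : ∀ (i j : Fin n) (hne : i ≠ j) (hi : i ≠ i.rev) (hj : j ≠ j.rev), i.val < j.val →
      2 * j.val + 1 < n → ∀ b : K, xs (φ := φ) hne hi hj b ∈ H)
    (hR : EL φ (lamQ n) ≤ H) : EL φ (rk n) ≤ H := by
  have key : ∀ N : ℕ, ∀ u : UG n φ, u ∈ EL φ (rk n) → (regS u).card = N → u ∈ H := by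
    intro N
    induction N using Nat.strong_induction_on with
    | _ N ih =>
      intro u hu hN
      by_cases hemp : regS u = ∅
      · apply hR
        have hreg : ∀ i j : Fin n, i.val < j.val → 2 * j.val + 1 < n → u.1.1 i j = 0 := by
          intro i j hij hj
          by_contra h
          have h1 : (i, j) ∈ regS u := mem_regS.2 ⟨hij, hj, h⟩
          rw [hemp] at h1
          exact absurd h1 (Finset.notMem_empty _)
        have hsnd : ∀ i j : Fin n, n < 2 * i.val + 1 → i.val < j.val → u.1.1 i j = 0 := by
          intro i j hi hij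
          have hne : i ≠ j := fun e => by rw [e] at hij; exact lt_irrefl _ hij
          have h1 := congrFun (congrFun (inv_val_mul u) i) j
          rw [Matrix.mul_apply, Matrix.one_apply_ne hne, Finset.sum_eq_single i] at h1
          · rw [(inv_mem hu : u⁻¹ ∈ EL φ (rk n)) i i le_rfl, Matrix.one_apply_eq, one_mul] at h1
            exact h1
          · intro k _ hk
            by_cases hki : k.val < i.val
            · rw [(inv_mem hu : u⁻¹ ∈ EL φ (rk n)) i k (le_of_lt hki),
                Matrix.one_apply_ne (Ne.symm hk), zero_mul]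
            · have hik : i.val < k.val := by
                have : k.val ≠ i.val := fun e => hk (Fin.ext e)
                omega
              rw [inv_val, adj_apply, hreg k.rev i.rev
                (by rw [rev_val, rev_val]; have := k.2; omega) (by rw [rev_val]; omega),
                map_zero, zero_mul]
          · intro h; exact absurd (Finset.mem_univ _) h
        intro i j hij
        by_cases hji : j.val ≤ i.val
        · exact hu i j hji
        · have hij' : i.val < j.val := not_le.1 hji
          have hne : i ≠ j := fun e => by rw [e] at hij'; exact lt_irrefl _ hij'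
          rw [Matrix.one_apply_ne hne]
          by_cases hj : 2 * j.val + 1 < n
          · exact hreg i j hij' hj
          · apply hsnd i j _ hij'
            simp only [lamQ] at hij
            split_ifs at hij <;> omega
      · obtain ⟨⟨r, s⟩, hrs, hmax⟩ := Finset.exists_max_image (regS u) (fun x => x.1.val)
          (Finset.nonempty_iff_ne_empty.2 hemp)
        obtain ⟨hrs1, hs1, hrs0⟩ := mem_regS.1 hrs
        have hrs1' : r.val < s.val := hrs1
        have hs1' : 2 * s.val + 1 < n := hs1
        have hrs0' : u.1.1 r s ≠ 0 := hrs0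
        have hr1 : 2 * r.val + 1 < n := by omega
        have hne : r ≠ s := fun e => by rw [e] at hrs1'; exact lt_irrefl _ hrs1'
        have hx : xs (φ := φ) hne (ne_rev_of_fst hr1) (ne_rev_of_fst hs1') (-(u.1.1 r s)) ∈ H :=
          hlevi _ _ _ _ _ hrs1' hs1' _
        have hxU : xs (φ := φ) hne (ne_rev_of_fst hr1) (ne_rev_of_fst hs1') (-(u.1.1 r s)) ∈
            EL φ (rk n) := by
          apply xs_mem_EL
          · exact hrs1'
          · show s.rev.val < r.rev.val
            rw [rev_val, rev_val]; omega
        obtain ⟨u', hu'⟩ : ∃ u' : UG n φ, u' =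
            xs (φ := φ) hne (ne_rev_of_fst hr1) (ne_rev_of_fst hs1') (-(u.1.1 r s)) * u :=
          ⟨_, rfl⟩
        have hu'U : u' ∈ EL φ (rk n) := by rw [hu']; exact mul_mem hxU hu
        have hent : ∀ i j : Fin n, u'.1.1 i j = u.1.1 i j +
            (if i = r then -(u.1.1 r s) * u.1.1 s j else 0) -
            (if i = s.rev then φ (-(u.1.1 r s)) * u.1.1 r.rev j else 0) := by
          intro i j
          rw [hu', mul_val, xs_val, Matrix.sub_mul, Matrix.add_mul, Matrix.one_mul,
            Matrix.sub_apply, Matrix.add_apply, Spn.single_mul_apply', Spn.single_mul_apply']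
        have hrow : ∀ j : Fin n, 2 * j.val + 1 < n → j ≠ s → u.1.1 s j = 0 := by
          intro j hj hjs
          by_cases hlt : s.val < j.val
          · by_contra h
            have h1 := hmax (s, j) (mem_regS.2 ⟨hlt, hj, h⟩)
            have h1' : s.val ≤ r.val := h1
            omega
          · rw [hu s j (by show j.val ≤ s.val; omega), Matrix.one_apply_ne (Ne.symm hjs)]
        have hsub : regS u' ⊆ regS u := by
          rintro ⟨i, j⟩ hij
          obtain ⟨h1, h2, h3⟩ := mem_regS.1 hij
          have h1' : i.val < j.val := h1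
          have h2' : 2 * j.val + 1 < n := h2
          have h3' : u'.1.1 i j ≠ 0 := h3
          refine mem_regS.2 ⟨h1, h2, ?_⟩
          show u.1.1 i j ≠ 0
          intro h0
          apply h3'
          have his : i ≠ s.rev := fun e => by
            have := congrArg Fin.val e
            rw [rev_val] at this
            omega
          rw [hent, h0, if_neg his, sub_zero, zero_add]
          by_cases hir : i = r
          · rw [if_pos hir]
            by_cases hjs : j = s
            · rw [hir, hjs] at h0
              exact absurd h0 hrs0'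
            · rw [hrow j h2' hjs, mul_zero]
          · rw [if_neg hir]
        have hnot : (r, s) ∉ regS u' := by
          intro h
          obtain ⟨_, _, h3⟩ := mem_regS.1 h
          apply h3
          show u'.1.1 r s = 0
          rw [hent, if_pos rfl, if_neg (fun e => by
            have := congrArg Fin.val e; rw [rev_val] at this; omega), hu s s le_rfl,
            Matrix.one_apply_eq]
          ring
        have hlt : (regS u').card < N := by
          rw [← hN]
          exact Finset.card_lt_card ((Finset.ssubset_iff_of_subset hsub).2 ⟨_, hrs, hnot⟩)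
        have h1 := ih _ hlt u' hu'U rfl
        have e : u = (xs (φ := φ) hne (ne_rev_of_fst hr1) (ne_rev_of_fst hs1')
            (-(u.1.1 r s)))⁻¹ * u' := by
          rw [hu', inv_mul_cancel_left]
        rw [e]
        exact H.mul_mem (H.inv_mem hx) h1
  intro u hu
  exact key _ u hu rfl

/-- The centre of the unitriangular subgroup consists of long root elements. -/
theorem cent_U [Invol φ] (hn : 4 ≤ n) (hG : Good φ) {u : UG n φ} (hu : u ∈ EL φ (rk n))
    (hc : ∀ v ∈ EL φ (rk n), u * v = v * u) :
    ∃ (c : K) (h0 : c + φ c = 0), u = xl (i0_ne_rev hn) c h0 := by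
  obtain ⟨ε, hε0, hε⟩ := hG.ex_eps
  obtain ⟨θ, hθ⟩ := hG.ex_tr
  obtain ⟨a₀, ha₀⟩ := hG.ex_nf
  have h0f : 2 * (i0 hn).val + 1 < n := by simp only [i0]; omega
  have h1f : 2 * (i1 hn).val + 1 < n := by simp only [i1]; omega
  have hxlU : ∀ (i : Fin n) (hi : 2 * i.val + 1 < n),
      xl (φ := φ) (ne_rev_of_fst hi) ε hε ∈ EL φ (rk n) := by
    intro i hi
    apply xl_mem_EL
    show i.val < i.rev.val
    rw [rev_val]; omega
  have hxsU : ∀ (i j : Fin n) (hne : i ≠ j) (hi : 2 * i.val + 1 < n) (hj : 2 * j.val + 1 < n)
      (a : K), i.val < j.val →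
      xs (φ := φ) hne (ne_rev_of_fst hi) (ne_rev_of_fst hj) a ∈ EL φ (rk n) := by
    intro i j hne hi hj a hij
    apply xs_mem_EL
    · exact hij
    · show j.rev.val < i.rev.val
      rw [rev_val, rev_val]; omega
  have hcol : ∀ i : Fin n, 2 * i.val + 1 < n → ∀ k, k ≠ i → u.1.1 k i = 0 := by
    intro i hi k hk
    have h := comm_xl (ne_rev_of_fst hi) ε hε u (hc _ (hxlU i hi)) k i.rev
    rw [if_pos rfl, if_neg hk] at h
    exact (mul_eq_zero.1 h).resolve_right hε0
  have hrow : ∀ k : Fin n, n < 2 * k.val + 1 → ∀ l, l ≠ k → u.1.1 k l = 0 := by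
    intro k hk l hl
    have hk' : 2 * k.rev.val + 1 < n := by rw [rev_val]; have := k.2; omega
    have h := comm_xl (ne_rev_of_fst hk') ε hε u (hc _ (hxlU _ hk')) k.rev l
    rw [Fin.rev_rev, if_neg hl, if_pos rfl] at h
    exact (mul_eq_zero.1 h.symm).resolve_left hε0
  have h01r : i0 hn ≠ (i1 hn).rev := fun e => by
    have := congrArg Fin.val e
    rw [rev_val] at this
    simp only [i0, i1] at this
    omega
  have h10 : u.1.1 (i1 hn) (i0 hn).rev = 0 ∧ u.1.1 (i0 hn) (i1 hn).rev = 0 := by
    have hA := comm_xs (i0_ne_i1 hn) (ne_rev_of_fst h0f) (ne_rev_of_fst h1f) 1 u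
      (hc _ (hxsU _ _ _ h0f h1f 1 (by simp only [i0, i1]; omega))) (i0 hn) (i0 hn).rev
    have hB := comm_xs (i0_ne_i1 hn) (ne_rev_of_fst h0f) (ne_rev_of_fst h1f) a₀ u
      (hc _ (hxsU _ _ _ h0f h1f a₀ (by simp only [i0, i1]; omega))) (i0 hn) (i0 hn).rev
    rw [if_neg (i1_ne_i0rev hn).symm, if_pos rfl, if_pos rfl, if_neg h01r] at hA hB
    rw [map_one] at hA
    have h1 : (φ a₀ - a₀) * u.1.1 (i1 hn) (i0 hn).rev = 0 := by
      linear_combination hB - φ a₀ * hA
    have h2 : u.1.1 (i1 hn) (i0 hn).rev = 0 :=
      (mul_eq_zero.1 h1).resolve_left (sub_ne_zero.2 ha₀)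
    refine ⟨h2, ?_⟩
    rw [h2] at hA
    linear_combination -hA
  have hoff : ∀ k l : Fin n, k ≠ l → ¬(k = i0 hn ∧ l = (i0 hn).rev) → u.1.1 k l = 0 := by
    intro k l hkl hnot
    by_cases hl : 2 * l.val + 1 < n
    · exact hcol l hl k hkl
    by_cases hk : n < 2 * k.val + 1
    · exact hrow k hk l (Ne.symm hkl)
    by_cases hkm : 2 * k.val + 1 = n
    · -- `k` is the middle index; `l` is in the second half
      have hm : k.rev = k := mid_iff.2 hkm
      have hl2 : n < 2 * l.val + 1 := by
        have : l.val ≠ k.val := fun e => hkl (Fin.ext e).symm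
        omega
      have h0m : i0 hn ≠ k := fun e => by rw [← e] at hkm; simp only [i0] at hkm; omega
      have h1m : i1 hn ≠ k := fun e => by rw [← e] at hkm; simp only [i1] at hkm; omega
      have aux : ∀ i : Fin n, 2 * i.val + 1 < n → ∀ him : i ≠ k, l ≠ i.rev →
          u.1.1 k l = 0 := by
        intro i hi him hli
        have hxU : xb (φ := φ) hm him 1 (-θ) (xb_one_param hθ) ∈ EL φ (rk n) := by
          apply xb_mem_EL
          · show i.val < k.val; omega
          · show k.val < i.rev.val; rw [rev_val]; omega
        have h := comm_xb hm him 1 (-θ) (xb_one_param hθ) u (hc _ hxU) i l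
        rw [if_neg hkl.symm, if_neg hli, if_neg hli, if_pos rfl, if_neg him, if_pos rfl,
          hrow i.rev (by rw [rev_val]; omega) l hli] at h
        linear_combination -h
      by_cases hl0 : l = (i0 hn).rev
      · exact aux (i1 hn) h1f h1m (by rw [hl0]; exact (rev_ne (i0_ne_i1 hn)).symm)
      · exact aux (i0 hn) h0f h0m hl0
    · -- `k` is in the first half, `l` is not
      have hk1 : 2 * k.val + 1 < n := by omega
      by_cases hk0 : k = i0 hn
      · have hl0 : l ≠ (i0 hn).rev := fun e => hnot ⟨hk0, e⟩
        by_cases hlm : 2 * l.val + 1 = n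
        · have hm : l.rev = l := mid_iff.2 hlm
          have h1m : i1 hn ≠ l := fun e => by rw [← e] at hlm; simp only [i1] at hlm; omega
          have hxU : xb (φ := φ) hm h1m 1 (-θ) (xb_one_param hθ) ∈ EL φ (rk n) := by
            apply xb_mem_EL
            · show (i1 hn).val < l.val; simp only [i1]; omega
            · show l.val < (i1 hn).rev.val; rw [rev_val]; simp only [i1]; omega
          have h := comm_xb hm h1m 1 (-θ) (xb_one_param hθ) u (hc _ hxU) (i0 hn) (i1 hn).rev
          rw [if_neg (mid_ne_rev hm h1m).symm, if_pos rfl, if_pos rfl, if_neg (i0_ne_i1 hn),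
            if_neg (fun e => hkl (by rw [hk0]; exact e)), if_neg (i0_ne_i1 hn),
            hcol (i1 hn) h1f (i0 hn) (i0_ne_i1 hn), map_one] at h
          rw [hk0]
          linear_combination -h
        · have hl2 : n < 2 * l.val + 1 := by omega
          have hj1 : 2 * l.rev.val + 1 < n := by rw [rev_val]; have := l.2; omega
          by_cases hj : l.rev = i1 hn
          · have e : l = (i1 hn).rev := by rw [← hj, Fin.rev_rev]
            rw [hk0, e]
            exact h10.2
          · have h1j : (i1 hn).val < l.rev.val := by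
              have h1 : l.rev.val ≠ (i1 hn).val := fun e => hj (Fin.ext e)
              have h2 : l.rev.val ≠ (i0 hn).val := fun e => hl0 (by
                rw [← Fin.rev_rev l, Fin.ext e])
              simp only [i0, i1] at h1 h2 ⊢
              omega
            have hne : i1 hn ≠ l.rev := fun e => hj e.symm
            have h := comm_xs hne (ne_rev_of_fst h1f) (ne_rev_of_fst hj1) 1 u
              (hc _ (hxsU _ _ hne h1f hj1 1 h1j)) (i0 hn) (i1 hn).rev
            rw [Fin.rev_rev, if_neg (fun e => by
                have := congrArg Fin.val e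
                rw [rev_val] at this
                simp only [i1] at this h1j
                omega), if_pos rfl, if_neg (i0_ne_i1 hn), if_neg (fun e => hkl (by
                rw [hk0]; exact e)), map_one] at h
            rw [hk0]
            linear_combination -h
      · have hk0v : 0 < k.val := by
          have : k.val ≠ (i0 hn).val := fun e => hk0 (Fin.ext e)
          simp only [i0] at this
          omega
        by_cases hl0 : l = (i0 hn).rev
        · by_cases hk1' : k = i1 hn
          · rw [hk1', hl0]
            exact h10.1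
          · have h1k : (i1 hn).val < k.val := by
              have : k.val ≠ (i1 hn).val := fun e => hk1' (Fin.ext e)
              simp only [i1] at this ⊢
              omega
            have hne : i1 hn ≠ k := fun e => hk1' e.symm
            have h := comm_xs hne (ne_rev_of_fst h1f) (ne_rev_of_fst hk1) 1 u
              (hc _ (hxsU _ _ hne h1f hk1 1 h1k)) (i1 hn) l
            rw [if_neg hkl.symm, if_neg (by rw [hl0]; exact (rev_ne (i0_ne_i1 hn)).symm),
              if_pos rfl, if_neg (fun e => by
                have := congrArg Fin.val e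
                rw [rev_val] at this
                simp only [i1] at this
                omega)] at h
            linear_combination -h
        · have hne : i0 hn ≠ k := fun e => hk0 e.symm
          have h := comm_xs hne (ne_rev_of_fst h0f) (ne_rev_of_fst hk1) 1 u
            (hc _ (hxsU _ _ hne h0f hk1 1 (by simp only [i0]; exact hk0v))) (i0 hn) l
          rw [if_neg hkl.symm, if_neg hl0, if_pos rfl, if_neg (fun e => by
              have := congrArg Fin.val e
              rw [rev_val] at this
              simp only [i0] at this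
              omega)] at h
          linear_combination -h
  obtain ⟨c, hcdef⟩ : ∃ c : K, c = u.1.1 (i0 hn) (i0 hn).rev := ⟨_, rfl⟩
  have hmat : u.1.1 = 1 + Matrix.single (i0 hn) (i0 hn).rev c := by
    ext k l
    rw [Matrix.add_apply, Spn.single_apply_c]
    by_cases hkl : k = l
    · rw [hkl, hu l l le_rfl, if_neg (fun h => (i0_ne_rev hn) (h.1.symm.trans h.2)), add_zero]
    · by_cases h : k = i0 hn ∧ l = (i0 hn).rev
      · rw [if_pos h, h.1, h.2, Matrix.one_apply_ne (i0_ne_rev hn), zero_add, hcdef]
      · rw [if_neg h, hoff k l hkl h, Matrix.one_apply_ne hkl, add_zero]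
  have hc0 : c + φ c = 0 := by
    have h1 := adj_mul_self u
    rw [hmat, adj_add, adj_one, adj_single, Fin.rev_rev, Matrix.add_mul, Matrix.one_mul,
      Matrix.mul_add, Matrix.mul_one, ssm, if_neg (i0_ne_rev hn).symm, add_zero] at h1
    have h2 := congrFun (congrFun h1 (i0 hn)) (i0 hn).rev
    rw [Matrix.add_apply, Matrix.add_apply, Matrix.single_apply_same, Matrix.single_apply_same,
      Matrix.one_apply_ne (i0_ne_rev hn)] at h2
    linear_combination h2
  refine ⟨c, hc0, ?_⟩
  apply ext_val
  rw [hmat, xl_val]

variable (p : ℕ) [Fact p.Prime] [CharP K p]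

/-- No proper nontrivial subgroup of `Ū` is strongly closed. -/
theorem hcl_Ub [Invol φ] (hn : 4 ≤ n) (hG : Good φ) {f : ℕ} (hK : Fintype.card K = p ^ f)
    (T : Subgroup (PU n φ)) (hT : T ≤ Eb φ (rk n)) (hT1 : T ≠ ⊥)
    (hcl : ∀ t ∈ T, ∀ c : PU n φ, c * t * c⁻¹ ∈ Eb φ (rk n) → c * t * c⁻¹ ∈ T) :
    T = Eb φ (rk n) := by
  have hP1 : IsPGroup p ↥(Eb φ (rk n) : Subgroup (PU n φ)) := isPGroup_Eb p hK
  have hN : (T.subgroupOf (Eb φ (rk n))).Normal := by
    constructor
    intro t ht u
    rw [Subgroup.mem_subgroupOf] at ht ⊢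
    exact hcl _ ht (u : PU n φ)
      ((Eb φ (rk n)).mul_mem ((Eb φ (rk n)).mul_mem u.2 t.2) ((Eb φ (rk n)).inv_mem u.2))
  have hN1 : T.subgroupOf (Eb φ (rk n)) ≠ ⊥ := by
    intro h
    apply hT1
    rw [eq_bot_iff]
    intro t ht
    have h1 : (⟨t, hT ht⟩ : (Eb φ (rk n) : Subgroup (PU n φ))) ∈ T.subgroupOf (Eb φ (rk n)) := by
      rw [Subgroup.mem_subgroupOf]
      exact ht
    rw [h, Subgroup.mem_bot] at h1
    rw [Subgroup.mem_bot]
    exact congrArg Subtype.val h1
  obtain ⟨z, hzN, hzc, hz1⟩ := Cfsg.Agent.H3.normal_inf_center_ne_bot hP1 _ hN1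
  have hzT : (z : PU n φ) ∈ T := Subgroup.mem_subgroupOf.1 hzN
  obtain ⟨u, hu, hue⟩ := z.2
  have hue' : (QuotientGroup.mk u : PU n φ) = (z : PU n φ) := hue
  have hcomm : ∀ v ∈ EL φ (rk n), u * v = v * u := by
    intro v hv
    apply comm_of_mk_comm p hn hG u v _ (U_pow p hK hv)
    have h1 := Subgroup.mem_center_iff.1 hzc ⟨QuotientGroup.mk v, mk_mem_Eb hv⟩
    have h2 : (QuotientGroup.mk v : PU n φ) * (z : PU n φ) = (z : PU n φ) * QuotientGroup.mk v :=
      congrArg Subtype.val h1
    rw [hue']
    exact h2.symm
  obtain ⟨c₀, h0, huc⟩ := cent_U hn hG hu hcomm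
  have hc₀ : c₀ ≠ 0 := by
    intro e
    apply hz1
    apply Subtype.ext
    rw [← hue', huc, xl_eq_one _ _ _ e]
    rfl
  have hSC : SC (T.comap (QuotientGroup.mk' (Subgroup.center (UG n φ)))) := by
    intro g hg d hd
    rw [Subgroup.mem_comap] at hg ⊢
    have h1 : (QuotientGroup.mk (d * g * d⁻¹) : PU n φ) ∈ Eb φ (rk n) := mk_mem_Eb hd
    exact hcl _ hg (QuotientGroup.mk d) h1
  have hmem : xl (i0_ne_rev hn) c₀ h0 ∈ T.comap (QuotientGroup.mk' (Subgroup.center (UG n φ))) := by
    rw [Subgroup.mem_comap, ← huc]
    show (QuotientGroup.mk u : PU n φ) ∈ T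
    rw [hue']
    exact hzT
  have hblk := blk_mem hn hG hSC hc₀ h0 hmem
  have hlevi : ∀ (i j : Fin n) (hne : i ≠ j) (hi : i ≠ i.rev) (hj : j ≠ j.rev), i.val < j.val →
      2 * j.val + 1 < n → ∀ b : K, xs (φ := φ) hne hi hj b ∈
        T.comap (QuotientGroup.mk' (Subgroup.center (UG n φ))) :=
    fun i j hne hi hj hij hj1 b => levi_mem hG hSC hblk hne hi hj hij hj1 b
  have hR := R_le hn hG hSC hblk hlevi
  have hU := gen_U hlevi hR
  apply le_antisymm hT
  rintro x ⟨g, hg, rfl⟩
  exact hU hg

end Cfsg.Agent.H88.Un
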