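import Mathlib
import Cfsg.Agent.H88.SUnJ

/-!
helper88: the unitary group `UG n φ`: the two unipotent radicals `R₁` (stabilizer of an isotropic
point) and `R_m` (Siegel parabolic) have images in the central quotient which are normalized by
the image of the unitriangular subgroup and contain their centralizers.
-/

set_option autoImplicit false
set_option linter.unusedSectionVars false
set_option linter.unusedSimpArgs false
set_option linter.unusedTactic false
set_option linter.unreachableTactic false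
set_option linter.unnecessarySeqFocus false

namespace Cfsg.Agent.H88.Un

open Matrix

variable {n : ℕ} {K : Type*} [Field K] [Fintype K] {φ : K →+* K}

/-- The level function of the stabilizer of the isotropic point `⟨e₀⟩`. -/
def lam1 (n : ℕ) : Fin n → ℕ := fun i =>
  if i.val = 0 then 0 else if i.val + 1 = n then 2 else 1

theorem lam1_mono {i j : Fin n} (h : i.val ≤ j.val) : lam1 n i ≤ lam1 n j := by
  simp only [lam1]
  have := i.2
  have := j.2
  split_ifs <;> omega

/-- Elements that are scalar on the level blocks are (scalar) · (unipotent radical). -/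
theorem cent_split {lam : Fin n → ℕ} (hmono : ∀ i j : Fin n, i.val ≤ j.val → lam i ≤ lam j)
    (hn : 0 < n) {x : UG n φ} {d : K}
    (hx : ∀ k l, lam l ≤ lam k → x.1.1 k l = if k = l then d else 0) :
    ∃ (h1 : d ^ n = 1) (h2 : φ d * d = 1) (r : UG n φ), r ∈ EL φ lam ∧ x = sc d h1 h2 * r := by
  have hxB : x ∈ PL φ (rk n) := by
    intro k l hkl
    have hkl' : l.val < k.val := hkl
    rw [hx k l (hmono l k hkl'.le), if_neg (fun e => by rw [e] at hkl'; exact lt_irrefl _ hkl')]
  have hdiag : ∀ i, x.1.1 i i = d := fun i => by rw [hx i i le_rfl, if_pos rfl]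
  have h2 : φ d * d = 1 := by
    have := diag_unit hxB ⟨0, hn⟩
    rwa [hdiag, hdiag] at this
  have h1 : d ^ n = 1 := by
    have := det_diag hxB
    rw [Finset.prod_congr rfl (fun i _ => hdiag i), Finset.prod_const, Finset.card_univ,
      Fintype.card_fin] at this
    exact this
  refine ⟨h1, h2, (sc d h1 h2)⁻¹ * x, ?_, by rw [mul_inv_cancel_left]⟩
  intro k l hkl
  rw [mul_val, inv_val, sc_val, adj_diagonal, Matrix.diagonal_mul, hx k l hkl]
  by_cases e : k = l
  · rw [if_pos e, h2, e, Matrix.one_apply_eq]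
  · rw [if_neg e, mul_zero, Matrix.one_apply_ne e]

/-- The centralizer of `R₁`. -/
theorem cent_R1 [Invol φ] (hn : 4 ≤ n) (hG : Good φ) (x : UG n φ)
    (hx : ∀ e ∈ EL φ (lam1 n), x * e = e * x) :
    ∃ d : K, ∀ k l, lam1 n l ≤ lam1 n k → x.1.1 k l = if k = l then d else 0 := by
  obtain ⟨ε, hε0, hε⟩ := hG.ex_eps
  obtain ⟨θ, hθ⟩ := hG.ex_tr
  have hrv : (i0 hn).rev.val = n - 1 := by rw [rev_val]; simp only [i0]; omega
  have hl0 : lam1 n (i0 hn) = 0 := by
    have h0 : (i0 hn).val = 0 := rfl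
    simp only [lam1]; rw [if_pos h0]
  have hlr : lam1 n (i0 hn).rev = 2 := by
    simp only [lam1]; rw [if_neg (by omega), if_pos (by omega)]
  have hlm : ∀ j : Fin n, j ≠ i0 hn → j ≠ (i0 hn).rev → lam1 n j = 1 := by
    intro j h1 h2
    have h1' : j.val ≠ 0 := fun e => h1 (Fin.ext e)
    have h2' : j.val + 1 ≠ n := fun e => h2 (Fin.ext (by rw [hrv]; omega))
    simp only [lam1]; rw [if_neg h1', if_neg h2']
  have hxl := comm_xl (i0_ne_rev hn) ε hε x (hx _ (xl_mem_EL _ _ _ _ (by
    rw [hl0, hlr]; norm_num)))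
  have hcol0 : ∀ k, k ≠ i0 hn → x.1.1 k (i0 hn) = 0 := by
    intro k hk
    have h := hxl k (i0 hn).rev
    rw [if_pos rfl, if_neg hk] at h
    exact (mul_eq_zero.1 h).resolve_right hε0
  have hrowr : ∀ l, l ≠ (i0 hn).rev → x.1.1 (i0 hn).rev l = 0 := by
    intro l hl
    have h := hxl (i0 hn) l
    rw [if_neg hl, if_pos rfl] at h
    exact (mul_eq_zero.1 h.symm).resolve_left hε0
  have hdr : x.1.1 (i0 hn).rev (i0 hn).rev = x.1.1 (i0 hn) (i0 hn) := by
    have h := hxl (i0 hn) (i0 hn).rev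
    rw [if_pos rfl, if_pos rfl] at h
    have h2 : (x.1.1 (i0 hn) (i0 hn) - x.1.1 (i0 hn).rev (i0 hn).rev) * ε = 0 := by
      linear_combination h
    exact (sub_eq_zero.1 ((mul_eq_zero.1 h2).resolve_right hε0)).symm
  have hmidrow : ∀ j : Fin n, j ≠ i0 hn → j ≠ (i0 hn).rev →
      (∀ l, l ≠ j → l ≠ (i0 hn).rev → x.1.1 j l = 0) ∧
        x.1.1 j j = x.1.1 (i0 hn) (i0 hn) := by
    intro j hj0 hjr
    by_cases hjm : j.rev = j
    · have h0m : i0 hn ≠ j := Ne.symm hj0
      have hmem : xb (φ := φ) hjm h0m 1 (-θ) (xb_one_param hθ) ∈ EL φ (lam1 n) := by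
        apply xb_mem_EL
        · rw [hl0, hlm j hj0 hjr]; norm_num
        · rw [hlm j hj0 hjr, hlr]; norm_num
      have hxb := comm_xb hjm h0m 1 (-θ) (xb_one_param hθ) x (hx _ hmem)
      constructor
      · intro l hl hlr'
        have h := hxb (i0 hn) l
        rw [if_neg hl, if_neg hlr', if_neg hlr', if_pos rfl, if_neg h0m, if_pos rfl,
          hrowr l hlr'] at h
        linear_combination -h
      · have h := hxb (i0 hn) j
        rw [if_pos rfl, if_neg hjr, if_neg hjr, if_pos rfl, if_neg h0m, if_pos rfl,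
          hrowr j hjr] at h
        linear_combination -h
    · have hj : j ≠ j.rev := fun e => hjm e.symm
      have hne : i0 hn ≠ j := Ne.symm hj0
      have h0jr : i0 hn ≠ j.rev := fun e => hjr (by rw [e, Fin.rev_rev])
      have hmem : xs (φ := φ) hne (i0_ne_rev hn) hj 1 ∈ EL φ (lam1 n) := by
        apply xs_mem_EL
        · rw [hl0, hlm j hj0 hjr]; norm_num
        · rw [hlm j.rev (fun e => h0jr e.symm) (fun e => hj0 (Fin.rev_injective e)), hlr]
          norm_num
      have hxs := comm_xs hne (i0_ne_rev hn) hj 1 x (hx _ hmem)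
      constructor
      · intro l hl hlr'
        have h := hxs (i0 hn) l
        rw [if_neg hl, if_neg hlr', if_pos rfl, if_neg h0jr] at h
        linear_combination -h
      · have h := hxs (i0 hn) j
        rw [if_pos rfl, if_neg hjr, if_pos rfl, if_neg h0jr] at h
        linear_combination -h
  refine ⟨x.1.1 (i0 hn) (i0 hn), ?_⟩
  intro k l hkl
  by_cases hk0 : k = i0 hn
  · have hl : l = i0 hn := by
      by_contra hl
      rw [hk0, hl0] at hkl
      by_cases hlr' : l = (i0 hn).rev
      · rw [hlr', hlr] at hkl; omega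
      · rw [hlm l hl hlr'] at hkl; omega
    rw [hk0, hl, if_pos rfl]
  by_cases hkr : k = (i0 hn).rev
  · rw [hkr]
    by_cases hl : (i0 hn).rev = l
    · rw [if_pos hl, ← hl, hdr]
    · rw [if_neg hl, hrowr l (Ne.symm hl)]
  · have hlr' : l ≠ (i0 hn).rev := by
      intro e
      rw [e, hlr, hlm k hk0 hkr] at hkl
      omega
    by_cases hkl' : k = l
    · rw [if_pos hkl', ← hkl']
      exact (hmidrow k hk0 hkr).2
    · rw [if_neg hkl']
      exact (hmidrow k hk0 hkr).1 l (Ne.symm hkl') hlr'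

/-- The centralizer of the Siegel radical. -/
theorem cent_Rm [Invol φ] (hn : 4 ≤ n) (hG : Good φ) (x : UG n φ)
    (hx : ∀ e ∈ EL φ (lamQ n), x * e = e * x) :
    ∃ d : K, ∀ k l, lamQ n l ≤ lamQ n k → x.1.1 k l = if k = l then d else 0 := by
  obtain ⟨ε, hε0, hε⟩ := hG.ex_eps
  obtain ⟨θ, hθ⟩ := hG.ex_tr
  have h0f : 2 * (i0 hn).val + 1 < n := by simp only [i0]; omega
  have hxl : ∀ (i : Fin n) (hi : 2 * i.val + 1 < n) (k l : Fin n),
      (if l = i.rev then x.1.1 k i * ε else 0) = (if k = i then ε * x.1.1 i.rev l else 0) := by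
    intro i hi
    exact comm_xl (ne_rev_of_fst hi) ε hε x (hx _ (xl_mem_EL _ _ _ _ (by
      rw [lamQ_fst hi, lamQ_snd (by rw [rev_val]; omega)]; norm_num)))
  have hcol : ∀ i : Fin n, 2 * i.val + 1 < n → ∀ k, k ≠ i → x.1.1 k i = 0 := by
    intro i hi k hk
    have h := hxl i hi k i.rev
    rw [if_pos rfl, if_neg hk] at h
    exact (mul_eq_zero.1 h).resolve_right hε0
  have hrow : ∀ k : Fin n, n < 2 * k.val + 1 → ∀ l, l ≠ k → x.1.1 k l = 0 := by
    intro k hk l hl
    have hk' : 2 * k.rev.val + 1 < n := by rw [rev_val]; have := k.2; omega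
    have h := hxl k.rev hk' k.rev l
    rw [Fin.rev_rev, if_neg hl, if_pos rfl] at h
    exact (mul_eq_zero.1 h.symm).resolve_left hε0
  have hdr : ∀ i : Fin n, 2 * i.val + 1 < n → x.1.1 i.rev i.rev = x.1.1 i i := by
    intro i hi
    have h := hxl i hi i i.rev
    rw [if_pos rfl, if_pos rfl] at h
    have h2 : (x.1.1 i i - x.1.1 i.rev i.rev) * ε = 0 := by linear_combination h
    exact (sub_eq_zero.1 ((mul_eq_zero.1 h2).resolve_right hε0)).symm
  have hdf : ∀ i : Fin n, 2 * i.val + 1 < n → x.1.1 i i = x.1.1 (i0 hn) (i0 hn) := by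
    intro i hi
    by_cases hi0 : i = i0 hn
    · rw [hi0]
    · have hne : i0 hn ≠ i.rev := fun e => by
        have := congrArg Fin.val e
        rw [rev_val] at this
        simp only [i0] at this
        omega
      have hirr : i.rev ≠ i.rev.rev := by rw [Fin.rev_rev]; exact (ne_rev_of_fst hi).symm
      have hmem : xs (φ := φ) hne (i0_ne_rev hn) hirr 1 ∈ EL φ (lamQ n) := by
        apply xs_mem_EL
        · rw [lamQ_fst h0f, lamQ_snd (by rw [rev_val]; omega)]; norm_num
        · rw [Fin.rev_rev, lamQ_fst hi, lamQ_snd (by rw [rev_val]; simp only [i0]; omega)]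
          norm_num
      have h := comm_xs hne (i0_ne_rev hn) hirr 1 x (hx _ hmem) (i0 hn) i.rev
      rw [Fin.rev_rev, if_pos rfl, if_neg (rev_ne (Ne.symm hi0)), if_pos rfl,
        if_neg (Ne.symm hi0)] at h
      rw [← hdr i hi]
      linear_combination -h
  have hmid : ∀ m : Fin n, m.rev = m → x.1.1 m m = x.1.1 (i0 hn) (i0 hn) := by
    intro m hm
    have hmv := mid_iff.1 hm
    have h0m : i0 hn ≠ m := fun e => by rw [← e] at hmv; simp only [i0] at hmv; omega
    have hmem : xb (φ := φ) hm h0m 1 (-θ) (xb_one_param hθ) ∈ EL φ (lamQ n) := by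
      apply xb_mem_EL
      · rw [lamQ_fst h0f, lamQ_mid hmv]; norm_num
      · rw [lamQ_mid hmv, lamQ_snd (by rw [rev_val]; simp only [i0]; omega)]; norm_num
    have h := comm_xb hm h0m 1 (-θ) (xb_one_param hθ) x (hx _ hmem) (i0 hn) m
    have hmr : m ≠ (i0 hn).rev := mid_ne_rev hm h0m
    rw [if_pos rfl, if_neg hmr, if_neg hmr, if_pos rfl, if_neg h0m, if_pos rfl,
      hrow (i0 hn).rev (by rw [rev_val]; simp only [i0]; omega) m hmr] at h
    linear_combination -h
  refine ⟨x.1.1 (i0 hn) (i0 hn), ?_⟩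
  intro k l hkl
  by_cases hl : 2 * l.val + 1 < n
  · by_cases e : k = l
    · rw [if_pos e, e, hdf l hl]
    · rw [if_neg e, hcol l hl k e]
  · by_cases hk : n < 2 * k.val + 1
    · by_cases e : k = l
      · rw [if_pos e, ← e]
        have hk' : 2 * k.rev.val + 1 < n := by rw [rev_val]; have := k.2; omega
        have h1 := hdr k.rev hk'
        rw [Fin.rev_rev] at h1
        rw [h1, hdf k.rev hk']
      · rw [if_neg e, hrow k hk l (Ne.symm e)]
    · have hkm : 2 * k.val + 1 = n := by
        simp only [lamQ] at hkl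
        split_ifs at hkl <;> omega
      have hlm : 2 * l.val + 1 = n := by
        simp only [lamQ] at hkl
        split_ifs at hkl <;> omega
      have e : k = l := Fin.ext (by omega)
      rw [if_pos e, ← e, hmid k (mid_iff.2 hkm)]

variable (p : ℕ) [Fact p.Prime] [CharP K p]

/-- The image of a unipotent radical contains its centralizer. -/
theorem cent_Eb [Invol φ] (hn : 4 ≤ n) (hG : Good φ) {f : ℕ} (hK : Fintype.card K = p ^ f)
    {lam : Fin n → ℕ} (hmono : ∀ i j : Fin n, i.val ≤ j.val → lam i ≤ lam j)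
    (hcent : ∀ x : UG n φ, (∀ e ∈ EL φ lam, x * e = e * x) →
      ∃ d : K, ∀ k l, lam l ≤ lam k → x.1.1 k l = if k = l then d else 0) :
    Subgroup.centralizer ((Eb φ lam : Subgroup (PU n φ)) : Set (PU n φ)) ≤ Eb φ lam := by
  intro y hy
  obtain ⟨x, rfl⟩ := QuotientGroup.mk_surjective y
  have hELU : (EL φ lam : Subgroup (UG n φ)) ≤ EL φ (rk n) := EL_mono (fun i j h => hmono j i h)
  have hcomm : ∀ e ∈ EL φ lam, x * e = e * x := by
    intro e he
    apply comm_of_mk_comm p hn hG x e _ (U_pow p hK (hELU he))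
    exact (Subgroup.mem_centralizer_iff.1 hy _ (mk_mem_Eb he)).symm
  obtain ⟨d, hd⟩ := hcent x hcomm
  obtain ⟨h1, h2, r, hr, hxr⟩ := cent_split hmono (by omega) hd
  rw [hxr, QuotientGroup.mk_mul, (QuotientGroup.eq_one_iff _).2 (sc_mem_center d h1 h2), one_mul]
  exact mk_mem_Eb hr

/-- The three properties of a family member. -/
theorem fam_mem [Invol φ] (hn : 4 ≤ n) (hG : Good φ) {f : ℕ} (hK : Fintype.card K = p ^ f)
    {lam : Fin n → ℕ} (hmono : ∀ i j : Fin n, i.val ≤ j.val → lam i ≤ lam j)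
    (hcent : ∀ x : UG n φ, (∀ e ∈ EL φ lam, x * e = e * x) →
      ∃ d : K, ∀ k l, lam l ≤ lam k → x.1.1 k l = if k = l then d else 0) :
    (Eb φ lam : Subgroup (PU n φ)) ≤ Eb φ (rk n) ∧
      (Eb φ (rk n) : Subgroup (PU n φ)) ≤
        Subgroup.normalizer ((Eb φ lam : Subgroup (PU n φ)) : Set (PU n φ)) ∧
      Subgroup.centralizer ((Eb φ lam : Subgroup (PU n φ)) : Set (PU n φ)) ≤ Eb φ lam := by
  refine ⟨Subgroup.map_mono (EL_mono (fun i j h => hmono j i h)), ?_,
    cent_Eb p hn hG hK hmono hcent⟩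
  rintro y ⟨u, hu, rfl⟩
  apply mk_mem_normalizer
  have h1 : (EL φ (rk n) : Subgroup (UG n φ)) ≤ PL φ lam := by
    apply EL_le_PL
    intro i j h
    by_contra hc
    have h2 : i.val ≤ j.val := by
      have : ¬ (rk n j ≤ rk n i) := hc
      simp only [rk] at this
      omega
    exact absurd (hmono i j h2) (not_le.2 h)
  exact h1 hu

end Cfsg.Agent.H88.Un
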