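import Mathlib
import Cfsg.Agent.H88.SUnK

/-!
helper88: the unitary group `UG n φ`: root elements are `p`-elements; the torus elements
needed to generate the normalizer of the unitriangular subgroup (even rank-one torus through
an `SL₂`, odd rank-one torus through the Bruhat identity of `SU₃`).
-/

set_option autoImplicit false
set_option linter.unusedSectionVars false
set_option linter.unusedSimpArgs false
set_option linter.unusedTactic false
set_option linter.unreachableTactic false
set_option linter.unnecessarySeqFocus false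

namespace Cfsg.Agent.H88.Un

open Matrix

variable {n : ℕ} {K : Type*} [Field K] [Fintype K] {φ : K →+* K}

theorem xb_mul_apply [Invol φ] {i m : Fin n} (hm : m.rev = m) (hi : i ≠ m) (a d : K)
    (h : d + φ d + a * φ a = 0) (W : Matrix (Fin n) (Fin n) K) (r l : Fin n) :
    ((xb (φ := φ) hm hi a d h).1.1 * W) r l = W r l + (if r = i then a * W m l else 0) -
      (if r = m then φ a * W i.rev l else 0) + (if r = i then d * W i.rev l else 0) := by
  rw [xb_val, Matrix.add_mul, Matrix.sub_mul, Matrix.add_mul, Matrix.one_mul, Matrix.add_apply,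
    Matrix.sub_apply, Matrix.add_apply, Spn.single_mul_apply', Spn.single_mul_apply',
    Spn.single_mul_apply']

variable (p : ℕ) [Fact p.Prime] [CharP K p]

/-- The subgroup generated by the `p`-elements of the normalizer of `Eb lam`. -/
def OP (φ : K →+* K) (lam : Fin n → ℕ) : Subgroup (PU n φ) :=
  Subgroup.closure {y : PU n φ |
    y ∈ Subgroup.normalizer ((Eb φ lam : Subgroup (PU n φ)) : Set (PU n φ)) ∧
      ∃ k : ℕ, orderOf y = p ^ k}

theorem mk_mem_OP {lam : Fin n → ℕ} {y : UG n φ} (hy : y ∈ PL φ lam) (N : ℕ)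
    (hpow : y ^ (p ^ N) = 1) : (QuotientGroup.mk y : PU n φ) ∈ OP p φ lam := by
  apply Subgroup.subset_closure
  refine ⟨mk_mem_normalizer hy, ?_⟩
  have h1 : (QuotientGroup.mk y : PU n φ) ^ (p ^ N) = 1 := by
    rw [← QuotientGroup.mk_pow, hpow]; rfl
  obtain ⟨k, -, hk⟩ := (Nat.dvd_prime_pow (Fact.out : p.Prime)).1 (orderOf_dvd_of_pow_eq_one h1)
  exact ⟨k, hk⟩

theorem xs_pow [Invol φ] {f : ℕ} (hK : Fintype.card K = p ^ f) {i j : Fin n} (hij : i ≠ j)
    (hi : i ≠ i.rev) (hj : j ≠ j.rev) (a : K) :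
    (xs (φ := φ) hij hi hj a) ^ (p ^ (f * ∑ j : Fin n, (j : ℕ))) = 1 := by
  by_cases h : i.val < j.val
  · apply U_pow p hK
    apply xs_mem_EL
    · exact h
    · show j.rev.val < i.rev.val
      rw [rev_val, rev_val]; have := j.2; omega
  · have hji : j.val < i.val := by
      have : i.val ≠ j.val := fun e => hij (Fin.ext e)
      omega
    apply L_pow p hK
    · intro r l hrl
      have hrl' : r.val < l.val := hrl
      rw [xs_apply, Matrix.one_apply_ne (ne_of_lt hrl), if_neg, if_neg, add_zero, sub_zero]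
      all_goals
        rintro ⟨h1, h2⟩
        rw [h1, h2] at hrl'
        try rw [rev_val, rev_val] at hrl'
        have := i.2
        have := j.2
        omega
    · intro r
      rw [xs_apply, Matrix.one_apply_eq, if_neg, if_neg, add_zero, sub_zero]
      all_goals
        rintro ⟨h1, h2⟩
        first
          | exact (rev_ne hij) (h1.symm.trans h2)
          | exact hij (h1.symm.trans h2)

theorem xl_pow [Invol φ] {f : ℕ} (hK : Fintype.card K = p ^ f) {i : Fin n} (hi : i ≠ i.rev)
    (c : K) (hc : c + φ c = 0) :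
    (xl (φ := φ) hi c hc) ^ (p ^ (f * ∑ j : Fin n, (j : ℕ))) = 1 := by
  by_cases h : i.val < i.rev.val
  · exact U_pow p hK (xl_mem_EL _ _ _ _ h)
  · have hji : i.rev.val < i.val := by
      have : i.val ≠ i.rev.val := fun e => hi (Fin.ext e)
      omega
    apply L_pow p hK
    · intro r l hrl
      have hrl' : r.val < l.val := hrl
      rw [xl_apply, Matrix.one_apply_ne (ne_of_lt hrl), if_neg, add_zero]
      rintro ⟨rfl, rfl⟩
      omega
    · intro r
      rw [xl_apply, Matrix.one_apply_eq, if_neg, add_zero]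
      rintro ⟨h1, h2⟩
      exact hi (h1.symm.trans h2)

theorem xb_pow [Invol φ] {f : ℕ} (hK : Fintype.card K = p ^ f) {i m : Fin n} (hm : m.rev = m)
    (hi : i ≠ m) (a d : K) (h : d + φ d + a * φ a = 0) :
    (xb (φ := φ) hm hi a d h) ^ (p ^ (f * ∑ j : Fin n, (j : ℕ))) = 1 := by
  have hmv := mid_iff.1 hm
  by_cases hlt : i.val < m.val
  · apply U_pow p hK
    apply xb_mem_EL
    · exact hlt
    · show m.val < i.rev.val
      rw [rev_val]; omega
  · have hgt : m.val < i.val := by
      have : i.val ≠ m.val := fun e => hi (Fin.ext e)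
      omega
    have hir : i.rev.val < m.val := by rw [rev_val]; have := i.2; omega
    apply L_pow p hK
    · intro r l hrl
      have hrl' : r.val < l.val := hrl
      rw [xb_apply, Matrix.one_apply_ne (ne_of_lt hrl), if_neg, if_neg, if_neg, add_zero,
        sub_zero, add_zero]
      all_goals
        rintro ⟨rfl, rfl⟩
        omega
    · intro r
      rw [xb_apply, Matrix.one_apply_eq, if_neg, if_neg, if_neg, add_zero, sub_zero, add_zero]
      all_goals
        rintro ⟨h1, h2⟩
        first
          | exact (ne_rev_of_ne_mid hm hi) (h1.symm.trans h2)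
          | exact (mid_ne_rev hm hi) (h1.symm.trans h2)
          | exact hi (h1.symm.trans h2)

/-- The rank-one torus element through the middle pair (even `n`). -/
theorem special_even [Invol φ] (hn : 4 ≤ n) (hG : Good φ) {f : ℕ} (hK : Fintype.card K = p ^ f)
    (k : Fin n) (hk : 2 * k.val + 2 = n) (c : K) (hc : c ≠ 0) (hφc : φ c = c) :
    ∃ (h : UG n φ) (e : Fin n → K), h.1.1 = Matrix.diagonal e ∧ e k = c ∧
      (∀ i : Fin n, i.val < k.val → e i = 1) ∧
      (QuotientGroup.mk h : PU n φ) ∈ OP p φ (lam1 n) := by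
  obtain ⟨ε, hε0, hε⟩ := hG.ex_eps
  have hφε : φ ε = -ε := by linear_combination hε
  have hk1 : 2 * k.val + 1 < n := by omega
  have hkr : k ≠ k.rev := ne_rev_of_fst hk1
  have hkr' : k.rev ≠ k.rev.rev := by rw [Fin.rev_rev]; exact hkr.symm
  have hkv : k.rev.val = k.val + 1 := by rw [rev_val]; omega
  have h2 : (c - 1) / ε + φ ((c - 1) / ε) = 0 := by
    rw [map_div₀, map_sub, map_one, hφc, hφε]; field_simp; ring
  have h3 : -(ε / c) + φ (-(ε / c)) = 0 := by
    rw [map_neg, map_div₀, hφc, hφε]; ring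
  have h4 : -(c * (c - 1) / ε) + φ (-(c * (c - 1) / ε)) = 0 := by
    rw [map_neg, map_div₀, map_mul, map_sub, map_one, hφc, hφε]; field_simp; ring
  have hl1 : lam1 n k = 1 := by simp only [lam1]; rw [if_neg (by omega), if_neg (by omega)]
  have hl2 : lam1 n k.rev = 1 := by
    simp only [lam1]; rw [if_neg (by omega), if_neg (by omega)]
  have hP1 : ∀ (c' : K) (hc' : c' + φ c' = 0),
      (QuotientGroup.mk (xl (φ := φ) hkr c' hc') : PU n φ) ∈ OP p φ (lam1 n) :=
    fun c' hc' => mk_mem_OP p (xl_mem_PL _ _ _ _ (by rw [hl1, hl2])) _ (xl_pow p hK hkr c' hc')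
  have hP2 : ∀ (c' : K) (hc' : c' + φ c' = 0),
      (QuotientGroup.mk (xl (φ := φ) hkr' c' hc') : PU n φ) ∈ OP p φ (lam1 n) :=
    fun c' hc' => mk_mem_OP p (xl_mem_PL _ _ _ _ (by rw [Fin.rev_rev, hl1, hl2])) _
      (xl_pow p hK hkr' c' hc')
  refine ⟨xl hkr ε hε * xl hkr' ((c - 1) / ε) h2 * xl hkr (-(ε / c)) h3 *
      xl hkr' (-(c * (c - 1) / ε)) h4,
    fun i => if i = k then c else if i = k.rev then c⁻¹ else 1, ?_, if_pos rfl, ?_, ?_⟩
  · have key := congrArg Subtype.val (diag2n_gen hkr c hc ε hε0)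
    rw [Matrix.SpecialLinearGroup.coe_mul, Matrix.SpecialLinearGroup.coe_mul,
      Matrix.SpecialLinearGroup.coe_mul, Matrix.SpecialLinearGroup.transvection_coe,
      Matrix.SpecialLinearGroup.transvection_coe, Matrix.SpecialLinearGroup.transvection_coe,
      Matrix.SpecialLinearGroup.transvection_coe, Matrix.SpecialLinearGroup.diag2n_coe] at key
    rw [mul_val, mul_val, mul_val, xl_val, xl_val, xl_val, xl_val, Fin.rev_rev]
    exact key.symm
  · intro i hi
    have hik : i ≠ k := fun e => by rw [e] at hi; exact lt_irrefl _ hi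
    have hik' : i ≠ k.rev := fun e => by rw [e, hkv] at hi; omega
    show (if i = k then c else if i = k.rev then c⁻¹ else 1) = 1
    rw [if_neg hik, if_neg hik']
  · rw [QuotientGroup.mk_mul, QuotientGroup.mk_mul, QuotientGroup.mk_mul]
    exact mul_mem (mul_mem (mul_mem (hP1 _ _) (hP2 _ _)) (hP1 _ _)) (hP2 _ _)

theorem bruhat [Invol φ] {k m : Fin n} (hm : m.rev = m) (hk : k ≠ m) (hk' : k.rev ≠ m) (a b : K)
    (hb : b ≠ 0) (h : b + φ b + a * φ a = 0)
    (h₁ : 1 / φ b + φ (1 / φ b) + -(a / φ b) * φ (-(a / φ b)) = 0)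
    (h₂ : 1 / φ b + φ (1 / φ b) + -(a / b) * φ (-(a / b)) = 0) :
    (xb (φ := φ) hm hk' (-(a / φ b)) (1 / φ b) h₁ * xb hm hk a b h *
      xb hm hk' (-(a / b)) (1 / φ b) h₂).1.1 =
      1 + Matrix.single k k (-1) + Matrix.single m m (-(φ b / b) - 1) +
        Matrix.single k.rev k.rev (-1) + Matrix.single k k.rev b +
        Matrix.single k.rev k (1 / φ b) := by
  have hB : φ b ≠ 0 := fun e => hb (by rw [← Invol.invol (φ := φ) b, e, map_zero])
  have hkk' : k ≠ k.rev := ne_rev_of_ne_mid hm hk
  have hmk' : m ≠ k.rev := Ne.symm hk'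
  have hmk : m ≠ k := Ne.symm hk
  have hk'k : k.rev ≠ k := Ne.symm hkk'
  have hφb : φ b = -b - a * φ a := by linear_combination h
  have hB' : -b - a * φ a ≠ 0 := by rw [← hφb]; exact hB
  have hB'' : -b - φ a * a ≠ 0 := by rw [mul_comm]; exact hB'
  ext i j
  rw [mul_val, mul_val, Matrix.mul_assoc, xb_mul_apply]
  simp only [xb_mul_apply, xb_apply, Fin.rev_rev, Matrix.add_apply, Spn.single_apply_c, map_neg,
    map_div₀, Invol.invol, Matrix.one_apply]
  by_cases hik : i = k
  · by_cases hjk : j = k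
    · (simp [hik, hjk, hk, hk', hkk', hmk', hmk, hk'k]) <;> (try simp only [hφb]) <;> field_simp <;> ring
    by_cases hjm : j = m
    · (simp [hik, hjm, hk, hk', hkk', hmk', hmk, hk'k]) <;> (try simp only [hφb]) <;> field_simp <;> ring
    by_cases hjk' : j = k.rev
    · (simp [hik, hjk', hk, hk', hkk', hmk', hmk, hk'k]) <;> (try simp only [hφb]) <;> field_simp <;> ring
    (simp [hik, hjk, hjm, hjk', Ne.symm hjk, Ne.symm hjm, Ne.symm hjk', hk, hk', hkk', hmk', hmk, hk'k]) <;> (try simp only [hφb]) <;> field_simp <;> ring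
  by_cases him : i = m
  · by_cases hjk : j = k
    · (simp [hik, him, hjk, hk, hk', hkk', hmk', hmk, hk'k]) <;> (try simp only [hφb]) <;> field_simp <;> ring
    by_cases hjm : j = m
    · (simp [hik, him, hjm, hk, hk', hkk', hmk', hmk, hk'k]) <;> (try simp only [hφb]) <;> field_simp <;> ring
    by_cases hjk' : j = k.rev
    · (simp [hik, him, hjk', hk, hk', hkk', hmk', hmk, hk'k]) <;> (try simp only [hφb]) <;> field_simp <;> ring
    (simp [hik, him, hjk, hjm, hjk', Ne.symm hjk, Ne.symm hjm, Ne.symm hjk', hk, hk', hkk', hmk', hmk, hk'k]) <;> (try simp only [hφb]) <;> field_simp <;> ring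
  by_cases hik' : i = k.rev
  · by_cases hjk : j = k
    · (simp [hik, him, hik', hjk, hk, hk', hkk', hmk', hmk, hk'k]) <;> (try simp only [hφb]) <;> field_simp <;> ring
    by_cases hjm : j = m
    · (simp [hik, him, hik', hjm, hk, hk', hkk', hmk', hmk, hk'k]) <;> (try simp only [hφb]) <;> field_simp <;> ring
    by_cases hjk' : j = k.rev
    · (simp [hik, him, hik', hjk', hk, hk', hkk', hmk', hmk, hk'k]) <;> (try simp only [hφb]) <;> field_simp <;> ring
    (simp [hik, him, hik', hjk, hjm, hjk', Ne.symm hjk, Ne.symm hjm, Ne.symm hjk', hk, hk', hkk', hmk', hmk, hk'k]) <;> (try simp only [hφb]) <;> field_simp <;> ring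
  by_cases hjk : j = k
  · (simp [hik, him, hik', Ne.symm hik, Ne.symm him, Ne.symm hik', hjk, hk, hk', hkk', hmk', hmk, hk'k]) <;> (try simp only [hφb]) <;> field_simp <;> ring
  by_cases hjm : j = m
  · (simp [hik, him, hik', Ne.symm hik, Ne.symm him, Ne.symm hik', hjm, hk, hk', hkk', hmk', hmk, hk'k]) <;> (try simp only [hφb]) <;> field_simp <;> ring
  by_cases hjk' : j = k.rev
  · (simp [hik, him, hik', Ne.symm hik, Ne.symm him, Ne.symm hik', hjk', hk, hk', hkk', hmk', hmk, hk'k]) <;> (try simp only [hφb]) <;> field_simp <;> ring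
  (simp [hik, him, hik', Ne.symm hik, Ne.symm him, Ne.symm hik', hjk, hjm, hjk', Ne.symm hjk, Ne.symm hjm, Ne.symm hjk', hk, hk', hkk', hmk', hmk, hk'k]) <;> (try simp only [hφb]) <;> field_simp <;> ring


theorem mono_mul {k m : Fin n} (hk : k ≠ m) (hk' : k.rev ≠ m) (hkk' : k ≠ k.rev)
    (α β b α' β' b' : K) :
    ((1 : Matrix (Fin n) (Fin n) K) + Matrix.single k k (-1) + Matrix.single m m α +
        Matrix.single k.rev k.rev (-1) + Matrix.single k k.rev b + Matrix.single k.rev k β) *
      (1 + Matrix.single k k (-1) + Matrix.single m m α' + Matrix.single k.rev k.rev (-1) +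
        Matrix.single k k.rev b' + Matrix.single k.rev k β') =
      1 + Matrix.single k k (b * β' - 1) + Matrix.single m m (α + α' + α * α') +
        Matrix.single k.rev k.rev (β * b' - 1) := by
  simp only [Matrix.add_mul, Matrix.mul_add, Matrix.one_mul, Matrix.mul_one, ssm, hk, hk.symm,
    hk', hk'.symm, hkk', hkk'.symm, if_true, if_false, add_zero, zero_add, eq_self_iff_true,
    ↓reduceIte]
  simp only [single_eq]
  module

/-- The rank-one torus element through the middle triple (odd `n`). -/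
theorem special_odd [Invol φ] (hn : 4 ≤ n) (hG : Good φ) {f : ℕ} (hK : Fintype.card K = p ^ f)
    (k : Fin n) (hk : 2 * k.val + 3 = n) (c : K) (hc : c ≠ 0) :
    ∃ (h : UG n φ) (e : Fin n → K), h.1.1 = Matrix.diagonal e ∧ e k = c ∧
      (∀ i : Fin n, i.val < k.val → e i = 1) ∧
      (QuotientGroup.mk h : PU n φ) ∈ OP p φ (lam1 n) := by
  obtain ⟨m, hmdef⟩ : ∃ m : Fin n, m.val = k.val + 1 := ⟨⟨k.val + 1, by omega⟩, rfl⟩
  have hm : m.rev = m := mid_iff.2 (by omega)
  have hkm : k ≠ m := fun e => by rw [e] at hmdef; omega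
  have hkv : k.rev.val = k.val + 2 := by rw [rev_val]; omega
  have hk'm : k.rev ≠ m := fun e => by have := congrArg Fin.val e; omega
  have hkk' : k ≠ k.rev := ne_rev_of_ne_mid hm hkm
  obtain ⟨a, ha⟩ := hG.ex_norm (-(c + φ c)) (by rw [map_neg, map_add, Invol.invol]; ring)
  obtain ⟨a₁, ha₁⟩ := hG.ex_norm (-(1 + φ 1)) (by rw [map_neg, map_add, Invol.invol]; ring)
  have h : c + φ c + a * φ a = 0 := by rw [ha]; ring
  have h' : (1 : K) + φ 1 + a₁ * φ a₁ = 0 := by rw [ha₁]; ring
  have aux : ∀ (a b : K), b ≠ 0 → b + φ b + a * φ a = 0 →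
      (1 / φ b + φ (1 / φ b) + -(a / φ b) * φ (-(a / φ b)) = 0) ∧
        (1 / φ b + φ (1 / φ b) + -(a / b) * φ (-(a / b)) = 0) := by
    intro a b hb hab
    have hB : φ b ≠ 0 := fun e => hb (by rw [← Invol.invol (φ := φ) b, e, map_zero])
    constructor
    · rw [map_div₀, map_one, Invol.invol, map_neg, map_div₀, Invol.invol]
      field_simp
      linear_combination hab
    · rw [map_div₀, map_one, Invol.invol, map_neg, map_div₀]
      field_simp
      linear_combination hab
  obtain ⟨h₁, h₂⟩ := aux a c hc h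
  obtain ⟨h₁', h₂'⟩ := aux a₁ 1 one_ne_zero h'
  have hl1 : lam1 n k = 1 := by simp only [lam1]; rw [if_neg (by omega), if_neg (by omega)]
  have hlm : lam1 n m = 1 := by simp only [lam1]; rw [if_neg (by omega), if_neg (by omega)]
  have hl2 : lam1 n k.rev = 1 := by
    simp only [lam1]; rw [if_neg (by omega), if_neg (by omega)]
  have hP1 : ∀ (a' d' : K) (hh : d' + φ d' + a' * φ a' = 0),
      (QuotientGroup.mk (xb (φ := φ) hm hkm a' d' hh) : PU n φ) ∈ OP p φ (lam1 n) :=
    fun a' d' hh => mk_mem_OP p (xb_mem_PL _ _ _ _ _ _ (by rw [hl1, hlm]) (by rw [hlm, hl2])) _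
      (xb_pow p hK hm hkm a' d' hh)
  have hP2 : ∀ (a' d' : K) (hh : d' + φ d' + a' * φ a' = 0),
      (QuotientGroup.mk (xb (φ := φ) hm hk'm a' d' hh) : PU n φ) ∈ OP p φ (lam1 n) :=
    fun a' d' hh => mk_mem_OP p (xb_mem_PL _ _ _ _ _ _ (by rw [hl2, hlm])
      (by rw [Fin.rev_rev, hlm, hl1])) _ (xb_pow p hK hm hk'm a' d' hh)
  refine ⟨(xb hm hk'm (-(a / φ c)) (1 / φ c) h₁ * xb hm hkm a c h *
      xb hm hk'm (-(a / c)) (1 / φ c) h₂) *
      (xb hm hk'm (-(a₁ / φ 1)) (1 / φ 1) h₁' * xb hm hkm a₁ 1 h' *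
        xb hm hk'm (-(a₁ / 1)) (1 / φ 1) h₂'),
    fun i => (1 : K) + (Pi.single k (c * (1 / φ 1) - 1) : Fin n → K) i +
      (Pi.single m (-(φ c / c) - 1 + (-(φ 1 / 1) - 1) + (-(φ c / c) - 1) * (-(φ 1 / 1) - 1)) :
        Fin n → K) i +
      (Pi.single k.rev (1 / φ c * 1 - 1) : Fin n → K) i, ?_, ?_, ?_, ?_⟩
  · rw [mul_val, bruhat hm hkm hk'm a c hc h h₁ h₂,
      bruhat hm hkm hk'm a₁ 1 one_ne_zero h' h₁' h₂', mono_mul hkm hk'm hkk',
      ← Matrix.diagonal_single, ← Matrix.diagonal_single, ← Matrix.diagonal_single,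
      ← Matrix.diagonal_one, Matrix.diagonal_add, Matrix.diagonal_add, Matrix.diagonal_add]
  · show (1 : K) + (Pi.single k (c * (1 / φ 1) - 1) : Fin n → K) k +
      (Pi.single m (-(φ c / c) - 1 + (-(φ 1 / 1) - 1) + (-(φ c / c) - 1) * (-(φ 1 / 1) - 1)) :
        Fin n → K) k +
      (Pi.single k.rev (1 / φ c * 1 - 1) : Fin n → K) k = c
    rw [Pi.single_eq_same, Pi.single_eq_of_ne hkm, Pi.single_eq_of_ne hkk', map_one]
    ring
  · intro i hi
    have hik : i ≠ k := fun e => by rw [e] at hi; exact lt_irrefl _ hi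
    have him : i ≠ m := fun e => by rw [e, hmdef] at hi; omega
    have hik' : i ≠ k.rev := fun e => by rw [e, hkv] at hi; omega
    show (1 : K) + (Pi.single k (c * (1 / φ 1) - 1) : Fin n → K) i +
      (Pi.single m (-(φ c / c) - 1 + (-(φ 1 / 1) - 1) + (-(φ c / c) - 1) * (-(φ 1 / 1) - 1)) :
        Fin n → K) i +
      (Pi.single k.rev (1 / φ c * 1 - 1) : Fin n → K) i = 1
    rw [Pi.single_eq_of_ne hik, Pi.single_eq_of_ne him, Pi.single_eq_of_ne hik']
    ring
  · rw [QuotientGroup.mk_mul, QuotientGroup.mk_mul, QuotientGroup.mk_mul, QuotientGroup.mk_mul,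
      QuotientGroup.mk_mul]
    exact mul_mem (mul_mem (mul_mem (hP2 _ _ _) (hP1 _ _ _)) (hP2 _ _ _))
      (mul_mem (mul_mem (hP2 _ _ _) (hP1 _ _ _)) (hP2 _ _ _))

/-- The generating set for the normalizer of the Sylow subgroup. -/
def genSet (φ : K →+* K) : Set (PU n φ) :=
  {x | x ∈ Subgroup.normalizer ((Eb φ (rk n) : Subgroup (PU n φ)) : Set (PU n φ)) ∧
    (x ∈ OP p φ (lam1 n) ∨ x ∈ OP p φ (lamQ n))}

theorem diag_mem_gen [Invol φ] (hn : 4 ≤ n) (hG : Good φ) {f : ℕ} (hK : Fintype.card K = p ^ f) :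
    ∀ (e r : ℕ), r + e = n / 2 → ∀ (t : UG n φ) (d : Fin n → K), t.1.1 = Matrix.diagonal d →
      (∀ i : Fin n, i.val < r → d i = 1) →
      (QuotientGroup.mk t : PU n φ) ∈ Subgroup.closure (genSet p φ) := by
  intro e
  induction e with
  | zero =>
    intro r hr t d ht hd1
    have htB : t ∈ PL φ (rk n) := mem_PL_of_diag ht (rk n)
    have hunit : ∀ i, φ (d i.rev) * d i = 1 := by
      intro i
      have h1 := diag_unit htB i
      rwa [ht, Matrix.diagonal_apply_eq, Matrix.diagonal_apply_eq] at h1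
    have hsnd : ∀ i : Fin n, n < 2 * i.val + 1 → d i = 1 := by
      intro i hi
      have h1 := hunit i
      rw [hd1 i.rev (by rw [rev_val]; omega), map_one, one_mul] at h1
      exact h1
    have hall : ∀ i, d i = 1 := by
      intro i
      by_cases h1 : i.val < r
      · exact hd1 i h1
      by_cases h2 : n < 2 * i.val + 1
      · exact hsnd i h2
      have hmid : 2 * i.val + 1 = n := by omega
      have hdet := det_diag htB
      rw [Finset.prod_eq_single i] at hdet
      · rwa [ht, Matrix.diagonal_apply_eq] at hdet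
      · intro j _ hj
        rw [ht, Matrix.diagonal_apply_eq]
        by_cases h3 : j.val < r
        · exact hd1 j h3
        · exact hsnd j (by have : j.val ≠ i.val := fun e => hj (Fin.ext e); omega)
      · intro h; exact absurd (Finset.mem_univ _) h
    have ht1 : t = 1 := by
      apply ext_val
      rw [ht, one_val]
      have h1 : d = fun _ => 1 := funext hall
      rw [h1, Matrix.diagonal_one]
    rw [ht1]
    exact one_mem _
  | succ e ih =>
    intro r hr t d ht hd1
    have hr1 : 2 * r + 1 < n := by omega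
    obtain ⟨k, hkdef⟩ : ∃ k : Fin n, k.val = r := ⟨⟨r, by omega⟩, rfl⟩
    have htB : t ∈ PL φ (rk n) := mem_PL_of_diag ht (rk n)
    have hunit : ∀ i, φ (d i.rev) * d i = 1 := by
      intro i
      have h1 := diag_unit htB i
      rwa [ht, Matrix.diagonal_apply_eq, Matrix.diagonal_apply_eq] at h1
    have hs0 : d k ≠ 0 := by
      intro e0
      have h1 := hunit k
      rw [e0, mul_zero] at h1
      exact zero_ne_one h1
    have key : ∃ (h : UG n φ) (e' : Fin n → K), h.1.1 = Matrix.diagonal e' ∧ e' k = (d k)⁻¹ ∧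
        (∀ i : Fin n, i.val < k.val → e' i = 1) ∧
        ((QuotientGroup.mk h : PU n φ) ∈ OP p φ (lam1 n) ∨
          (QuotientGroup.mk h : PU n φ) ∈ OP p φ (lamQ n)) := by
      by_cases hcase : r + 1 < n / 2
      · obtain ⟨j, hjdef⟩ : ∃ j : Fin n, j.val = r + 1 := ⟨⟨r + 1, by omega⟩, rfl⟩
        have hk1 : 2 * k.val + 1 < n := by omega
        have hj1 : 2 * j.val + 1 < n := by omega
        have hkj : k ≠ j := fun e => by rw [e] at hkdef; omega
        have hjk' : j ≠ k.rev := fun e => by
          have := congrArg Fin.val e; rw [rev_val] at this; omega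
        refine ⟨hh hkj (ne_rev_of_fst hk1) (ne_rev_of_fst hj1) (d k)⁻¹, hd φ k j (d k)⁻¹,
          hh_val hkj _ _ hjk' _ (inv_ne_zero hs0), hd_i (ne_rev_of_fst hk1) hjk' _, ?_,
          Or.inr ?_⟩
        · intro i hi
          apply hd_other
          · exact fun e => by rw [e] at hi; exact lt_irrefl _ hi
          · exact fun e => by rw [e] at hi; omega
          · exact fun e => by rw [e, rev_val] at hi; omega
          · exact fun e => by rw [e, rev_val] at hi; omega
        · have hx : ∀ (i' j' : Fin n) (hne : i' ≠ j') (hi' : 2 * i'.val + 1 < n)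
              (hj' : 2 * j'.val + 1 < n) (a : K),
              (QuotientGroup.mk (xs (φ := φ) hne (ne_rev_of_fst hi') (ne_rev_of_fst hj') a) :
                PU n φ) ∈ OP p φ (lamQ n) := by
            intro i' j' hne hi' hj' a
            apply mk_mem_OP p _ _ (xs_pow p hK hne _ _ a)
            apply xs_mem_PL
            · rw [lamQ_fst hi', lamQ_fst hj']
            · rw [lamQ_snd (by rw [rev_val]; omega), lamQ_snd (by rw [rev_val]; omega)]
          unfold hh
          rw [QuotientGroup.mk_mul, QuotientGroup.mk_mul, QuotientGroup.mk_mul]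
          exact mul_mem (mul_mem (mul_mem (hx _ _ _ hk1 hj1 _) (hx _ _ _ hj1 hk1 _))
            (hx _ _ _ hk1 hj1 _)) (hx _ _ _ hj1 hk1 _)
      · by_cases hpar : 2 * r + 2 = n
        · have hφs : φ (d k)⁻¹ = (d k)⁻¹ := by
            have hkr : k ≠ k.rev := ne_rev_of_fst (by omega)
            have hkrv : k.rev.val = r + 1 := by rw [rev_val]; omega
            have hdet := det_diag htB
            rw [Finset.prod_eq_mul k k.rev hkr] at hdet
            · rw [ht, Matrix.diagonal_apply_eq, Matrix.diagonal_apply_eq] at hdet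
              have h1 : d k.rev = (d k)⁻¹ := by
                field_simp
                linear_combination hdet
              have h2 := hunit k
              rw [h1] at h2
              exact eq_inv_of_mul_eq_one_left h2
            · intro i _ hi
              rw [ht, Matrix.diagonal_apply_eq]
              by_cases h3 : i.val < r
              · exact hd1 i h3
              · have h4 : r + 1 < i.val := by
                  have h5 : i.val ≠ k.val := fun e => hi.1 (Fin.ext e)
                  have h6 : i.val ≠ k.rev.val := fun e => hi.2 (Fin.ext e)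
                  omega
                have h7 := hunit i
                rw [hd1 i.rev (by rw [rev_val]; omega), map_one, one_mul] at h7
                exact h7
            · intro h; exact absurd (Finset.mem_univ _) h
            · intro h; exact absurd (Finset.mem_univ _) h
          obtain ⟨h, e', h1, h2, h3, h4⟩ :=
            special_even p hn hG hK k (by omega) (d k)⁻¹ (inv_ne_zero hs0) hφs
          exact ⟨h, e', h1, h2, h3, Or.inl h4⟩
        · obtain ⟨h, e', h1, h2, h3, h4⟩ :=
            special_odd p hn hG hK k (by omega) (d k)⁻¹ (inv_ne_zero hs0)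
          exact ⟨h, e', h1, h2, h3, Or.inl h4⟩
    obtain ⟨h, e', hh1, hh2, hh3, hh4⟩ := key
    have ht' : (h * t).1.1 = Matrix.diagonal (fun i => e' i * d i) := by
      rw [mul_val, hh1, ht, Matrix.diagonal_mul_diagonal]
    have hmem' := ih (r + 1) (by omega) (h * t) _ ht' (by
      intro i hi
      by_cases hik : i = k
      · rw [hik, hh2, inv_mul_cancel₀ hs0]
      · have h1 : i.val < r := by
          have : i.val ≠ k.val := fun e => hik (Fin.ext e)
          omega
        rw [hh3 i (by omega), hd1 i h1, one_mul])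
    have hhmem : (QuotientGroup.mk h : PU n φ) ∈ Subgroup.closure (genSet p φ) := by
      apply Subgroup.subset_closure
      exact ⟨mk_mem_normalizer (mem_PL_of_diag hh1 (rk n)), hh4⟩
    have e1 : (QuotientGroup.mk t : PU n φ) =
        (QuotientGroup.mk h)⁻¹ * QuotientGroup.mk (h * t) := by
      rw [QuotientGroup.mk_mul, inv_mul_cancel_left]
    rw [e1]
    exact mul_mem (inv_mem hhmem) hmem'

/-- The normalizer of the Sylow subgroup is generated by `genSet`. -/
theorem norm_gen [Invol φ] (hn : 4 ≤ n) (hG : Good φ) {f : ℕ} (hK : Fintype.card K = p ^ f)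
    (g : PU n φ)
    (hg : g ∈ Subgroup.normalizer ((Eb φ (rk n) : Subgroup (PU n φ)) : Set (PU n φ))) :
    g ∈ Subgroup.closure (genSet p φ) := by
  obtain ⟨g₀, rfl⟩ := QuotientGroup.mk_surjective g
  have hgB : g₀ ∈ PL φ (rk n) :=
    norm_upper hG g₀ (fun u hu => conj_mem_U_of_normalizer p hn hG hK hg hu)
  obtain ⟨t, u, ht, hu, hgtu⟩ := exists_torus hgB
  rw [hgtu, QuotientGroup.mk_mul]
  apply mul_mem
  · exact diag_mem_gen p hn hG hK (n / 2) 0 (by omega) t _ ht
      (fun i hi => absurd hi (Nat.not_lt_zero _))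
  · apply Subgroup.subset_closure
    refine ⟨?_, Or.inr ?_⟩
    · exact Subgroup.le_normalizer (mk_mem_Eb hu)
    · exact mk_mem_OP p (U_le_PLQ hu) _ (U_pow p hK hu)

end Cfsg.Agent.H88.Un
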