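import Mathlib
import Cfsg.Agent.H45.PSpInvol
import Cfsg.Agent.H7.SL2
import Cfsg.Agent.H7.PSL2

/-!
helper88: `Sp(4, F)` through the tensor decomposition `F⁴ = F² ⊗ F²`: the subgroup
`SL(2, F) ≀ C₂`, the involution `z = diag(1, -1)` on the second factor and its centralizer.
-/

set_option autoImplicit false
set_option linter.unusedSectionVars false

namespace Cfsg.Agent.H88.S4

open Matrix

open scoped MatrixGroups

variable {F : Type*} [Field F]

/-- The Kronecker product `A ⊗ B` in the block form of the symplectic group. -/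
def ten (A B : Matrix (Fin 2) (Fin 2) F) : Matrix (Fin 2 ⊕ Fin 2) (Fin 2 ⊕ Fin 2) F :=
  Matrix.fromBlocks (A 0 0 • B) (A 0 1 • B) (A 1 0 • B) (A 1 1 • B)

theorem ten_mul (A B A' B' : Matrix (Fin 2) (Fin 2) F) :
    ten A B * ten A' B' = ten (A * A') (B * B') := by
  unfold ten
  rw [Matrix.fromBlocks_multiply]
  simp only [Matrix.smul_mul, Matrix.mul_smul, smul_smul, ← add_smul, Matrix.mul_apply,
    Fin.sum_univ_two]
  congr 1 <;> congr 1 <;> ring

theorem ten_add_left (A A' B : Matrix (Fin 2) (Fin 2) F) :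
    ten (A + A') B = ten A B + ten A' B := by
  unfold ten
  rw [Matrix.fromBlocks_add]
  simp only [Matrix.add_apply, add_smul]

theorem ten_add_right (A B B' : Matrix (Fin 2) (Fin 2) F) :
    ten A (B + B') = ten A B + ten A B' := by
  unfold ten
  rw [Matrix.fromBlocks_add]
  simp only [smul_add]

theorem ten_smul_left (c : F) (A B : Matrix (Fin 2) (Fin 2) F) :
    ten (c • A) B = c • ten A B := by
  unfold ten
  rw [Matrix.fromBlocks_smul]
  simp only [Matrix.smul_apply, smul_eq_mul, mul_smul]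

theorem ten_smul_right (c : F) (A B : Matrix (Fin 2) (Fin 2) F) :
    ten A (c • B) = c • ten A B := by
  unfold ten
  rw [Matrix.fromBlocks_smul]
  simp only [smul_comm c]

theorem ten_neg_left (A B : Matrix (Fin 2) (Fin 2) F) : ten (-A) B = -ten A B := by
  have h := ten_smul_left (-1 : F) A B
  rwa [neg_one_smul, neg_one_smul] at h

theorem ten_neg_right (A B : Matrix (Fin 2) (Fin 2) F) : ten A (-B) = -ten A B := by
  have h := ten_smul_right (-1 : F) A B
  rwa [neg_one_smul, neg_one_smul] at h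

theorem ten_zero_right (A : Matrix (Fin 2) (Fin 2) F) : ten A 0 = 0 := by
  unfold ten
  simp

theorem ten_zero_left (B : Matrix (Fin 2) (Fin 2) F) : ten 0 B = 0 := by
  unfold ten
  simp

theorem ten_one : ten (1 : Matrix (Fin 2) (Fin 2) F) 1 = 1 := by
  unfold ten
  simp [Matrix.fromBlocks_one]

theorem ten_transpose (A B : Matrix (Fin 2) (Fin 2) F) : (ten A B)ᵀ = ten Aᵀ Bᵀ := by
  unfold ten
  rw [Matrix.fromBlocks_transpose]
  simp only [Matrix.transpose_smul, Matrix.transpose_apply]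

theorem ten_inl_inl (A B : Matrix (Fin 2) (Fin 2) F) (i j : Fin 2) :
    ten A B (Sum.inl i) (Sum.inl j) = A 0 0 * B i j := by
  simp [ten]

theorem ten_inl_inr (A B : Matrix (Fin 2) (Fin 2) F) (i j : Fin 2) :
    ten A B (Sum.inl i) (Sum.inr j) = A 0 1 * B i j := by
  simp [ten]

theorem ten_inr_inl (A B : Matrix (Fin 2) (Fin 2) F) (i j : Fin 2) :
    ten A B (Sum.inr i) (Sum.inl j) = A 1 0 * B i j := by
  simp [ten]

theorem ten_inr_inr (A B : Matrix (Fin 2) (Fin 2) F) (i j : Fin 2) :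
    ten A B (Sum.inr i) (Sum.inr j) = A 1 1 * B i j := by
  simp [ten]

/-- The matrix units and the standard `2 × 2` matrices used below. -/
def E1 : Matrix (Fin 2) (Fin 2) F := !![1, 0; 0, 0]

def E2 : Matrix (Fin 2) (Fin 2) F := !![0, 0; 0, 1]

def J2 : Matrix (Fin 2) (Fin 2) F := !![0, -1; 1, 0]

def Wm : Matrix (Fin 2) (Fin 2) F := !![0, 1; 1, 0]

def Hd : Matrix (Fin 2) (Fin 2) F := !![1, 1; 1, -1]

theorem E1_mul_E1 : (E1 : Matrix (Fin 2) (Fin 2) F) * E1 = E1 := by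
  ext i j; fin_cases i <;> fin_cases j <;> simp [E1, Matrix.mul_apply, Fin.sum_univ_two]

theorem E2_mul_E2 : (E2 : Matrix (Fin 2) (Fin 2) F) * E2 = E2 := by
  ext i j; fin_cases i <;> fin_cases j <;> simp [E2, Matrix.mul_apply, Fin.sum_univ_two]

theorem E1_mul_E2 : (E1 : Matrix (Fin 2) (Fin 2) F) * E2 = 0 := by
  ext i j; fin_cases i <;> fin_cases j <;> simp [E1, E2, Matrix.mul_apply, Fin.sum_univ_two]

theorem E2_mul_E1 : (E2 : Matrix (Fin 2) (Fin 2) F) * E1 = 0 := by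
  ext i j; fin_cases i <;> fin_cases j <;> simp [E1, E2, Matrix.mul_apply, Fin.sum_univ_two]

theorem E1_add_E2 : (E1 : Matrix (Fin 2) (Fin 2) F) + E2 = 1 := by
  ext i j; fin_cases i <;> fin_cases j <;> simp [E1, E2]

theorem E1_transpose : (E1 : Matrix (Fin 2) (Fin 2) F)ᵀ = E1 := by
  ext i j; fin_cases i <;> fin_cases j <;> simp [E1]

theorem E2_transpose : (E2 : Matrix (Fin 2) (Fin 2) F)ᵀ = E2 := by
  ext i j; fin_cases i <;> fin_cases j <;> simp [E2]

theorem Wm_mul_Wm : (Wm : Matrix (Fin 2) (Fin 2) F) * Wm = 1 := by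
  ext i j; fin_cases i <;> fin_cases j <;> simp [Wm, Matrix.mul_apply, Fin.sum_univ_two]

theorem Wm_transpose : (Wm : Matrix (Fin 2) (Fin 2) F)ᵀ = Wm := by
  ext i j; fin_cases i <;> fin_cases j <;> simp [Wm]

theorem Wm_mul_E1 : (Wm : Matrix (Fin 2) (Fin 2) F) * E1 = E2 * Wm := by
  ext i j; fin_cases i <;> fin_cases j <;> simp [Wm, E1, E2, Matrix.mul_apply, Fin.sum_univ_two]

theorem Wm_mul_E2 : (Wm : Matrix (Fin 2) (Fin 2) F) * E2 = E1 * Wm := by
  ext i j; fin_cases i <;> fin_cases j <;> simp [Wm, E1, E2, Matrix.mul_apply, Fin.sum_univ_two]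

theorem J_eq : Matrix.J (Fin 2) F = ten J2 1 := by
  unfold Matrix.J ten
  simp [J2]

theorem mul_J2 (A : Matrix (Fin 2) (Fin 2) F) : A * J2 * Aᵀ = A.det • J2 := by
  ext i j
  fin_cases i <;> fin_cases j <;>
    simp [J2, Matrix.mul_apply, Fin.sum_univ_two, Matrix.det_fin_two] <;> ring

/-- The block diagonal matrix acting as `A` on the first and `B` on the second hyperbolic
plane. -/
def blkM (A B : Matrix (Fin 2) (Fin 2) F) : Matrix (Fin 2 ⊕ Fin 2) (Fin 2 ⊕ Fin 2) F :=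
  ten A E1 + ten B E2

theorem blkM_mul (A B A' B' : Matrix (Fin 2) (Fin 2) F) :
    blkM A B * blkM A' B' = blkM (A * A') (B * B') := by
  unfold blkM
  rw [add_mul, mul_add, mul_add, ten_mul, ten_mul, ten_mul, ten_mul, E1_mul_E1, E2_mul_E2,
    E1_mul_E2, E2_mul_E1, ten_zero_right, ten_zero_right, add_zero, zero_add]

theorem blkM_one : blkM (1 : Matrix (Fin 2) (Fin 2) F) 1 = 1 := by
  unfold blkM
  rw [← ten_add_right, E1_add_E2, ten_one]

theorem blkM_mem (A B : Matrix (Fin 2) (Fin 2) F) (hA : A.det = 1) (hB : B.det = 1) :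
    blkM A B ∈ Matrix.symplecticGroup (Fin 2) F := by
  rw [SymplecticGroup.mem_iff, J_eq]
  unfold blkM
  rw [Matrix.transpose_add, ten_transpose, ten_transpose, E1_transpose, E2_transpose]
  simp only [add_mul, mul_add, ten_mul, mul_one, E1_mul_E1, E2_mul_E2, E1_mul_E2, E2_mul_E1,
    ten_zero_right, add_zero, zero_add, mul_J2, hA, hB, one_smul]
  rw [← ten_add_right, E1_add_E2]

/-- The image of `(A, B)` under `SL(2, F) × SL(2, F) → Sp(4, F)`. -/
def blk (A B : SL(2, F)) : Matrix.symplecticGroup (Fin 2) F :=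
  ⟨blkM A.1 B.1, blkM_mem A.1 B.1 A.2 B.2⟩

theorem blk_coe (A B : SL(2, F)) : (blk A B).1 = blkM A.1 B.1 := rfl

theorem blk_mul (A B A' B' : SL(2, F)) : blk A B * blk A' B' = blk (A * A') (B * B') :=
  Subtype.ext (blkM_mul A.1 B.1 A'.1 B'.1)

theorem blk_one : blk (1 : SL(2, F)) 1 = 1 := Subtype.ext blkM_one

theorem blk_inv (A B : SL(2, F)) : (blk A B)⁻¹ = blk A⁻¹ B⁻¹ := by
  apply inv_eq_of_mul_eq_one_right
  rw [blk_mul, mul_inv_cancel, mul_inv_cancel, blk_one]

theorem blk_pow (A B : SL(2, F)) (n : ℕ) : blk A B ^ n = blk (A ^ n) (B ^ n) := by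
  induction n with
  | zero => simp [blk_one]
  | succ n ih => rw [pow_succ, ih, blk_mul, pow_succ, pow_succ]

/-- The element swapping the two hyperbolic planes. -/
def sig (F : Type*) [Field F] : Matrix.symplecticGroup (Fin 2) F :=
  ⟨ten 1 Wm, by
    rw [SymplecticGroup.mem_iff, J_eq, ten_transpose, ten_mul, ten_mul, Matrix.transpose_one,
      one_mul, mul_one, mul_one, Wm_transpose, Wm_mul_Wm]⟩

theorem sig_coe : (sig F).1 = ten 1 Wm := rfl

theorem sig_mul_sig : sig F * sig F = 1 := by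
  apply Subtype.ext
  show ten 1 Wm * ten 1 Wm = 1
  rw [ten_mul, one_mul, Wm_mul_Wm, ten_one]

theorem sig_inv : (sig F)⁻¹ = sig F := inv_eq_of_mul_eq_one_left sig_mul_sig

theorem sig_blk (A B : SL(2, F)) : sig F * blk A B = blk B A * sig F := by
  apply Subtype.ext
  show ten 1 Wm * (ten A.1 E1 + ten B.1 E2) = (ten B.1 E1 + ten A.1 E2) * ten 1 Wm
  rw [mul_add, add_mul, ten_mul, ten_mul, ten_mul, ten_mul, one_mul, one_mul, mul_one, mul_one,
    Wm_mul_E1, Wm_mul_E2, add_comm]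

theorem blkM_eq (A B : Matrix (Fin 2) (Fin 2) F) :
    blkM A B = Matrix.fromBlocks (Matrix.diagonal ![A 0 0, B 0 0]) (Matrix.diagonal ![A 0 1, B 0 1])
      (Matrix.diagonal ![A 1 0, B 1 0]) (Matrix.diagonal ![A 1 1, B 1 1]) := by
  unfold blkM ten
  rw [Matrix.fromBlocks_add]
  congr 1 <;> ext i j <;> fin_cases i <;> fin_cases j <;> simp [E1, E2]

theorem blkM_inj {A B A' B' : Matrix (Fin 2) (Fin 2) F} (h : blkM A B = blkM A' B') :
    A = A' ∧ B = B' := by
  rw [blkM_eq, blkM_eq, Matrix.fromBlocks_inj] at h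
  obtain ⟨h1, h2, h3, h4⟩ := h
  have a1 := Matrix.diagonal_injective h1
  have a2 := Matrix.diagonal_injective h2
  have a3 := Matrix.diagonal_injective h3
  have a4 := Matrix.diagonal_injective h4
  constructor
  · ext i j
    fin_cases i <;> fin_cases j
    · exact congrFun a1 0
    · exact congrFun a2 0
    · exact congrFun a3 0
    · exact congrFun a4 0
  · ext i j
    fin_cases i <;> fin_cases j
    · exact congrFun a1 1
    · exact congrFun a2 1
    · exact congrFun a3 1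
    · exact congrFun a4 1

theorem blk_inj {A B A' B' : SL(2, F)} (h : blk A B = blk A' B') : A = A' ∧ B = B' := by
  have h1 := blkM_inj (congrArg Subtype.val h)
  exact ⟨Subtype.ext h1.1, Subtype.ext h1.2⟩

theorem sig_ne_blk (A B : SL(2, F)) : sig F ≠ blk A B := by
  intro h
  have h0 : (ten 1 Wm : Matrix (Fin 2 ⊕ Fin 2) (Fin 2 ⊕ Fin 2) F) = blkM A.1 B.1 :=
    congrArg Subtype.val h
  have e1 := congrFun (congrFun h0 (Sum.inl 0)) (Sum.inl 0)
  have e2 := congrFun (congrFun h0 (Sum.inl 0)) (Sum.inr 0)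
  have e3 := congrFun (congrFun h0 (Sum.inr 0)) (Sum.inl 0)
  have e4 := congrFun (congrFun h0 (Sum.inr 0)) (Sum.inr 0)
  simp [blkM, ten, Wm, E1, E2] at e1 e2 e3 e4
  have hd := A.2
  rw [Matrix.det_fin_two, ← e1, ← e2, ← e3, ← e4] at hd
  simp at hd

theorem blk_sig_ne_blk (A B A' B' : SL(2, F)) : blk A B * sig F ≠ blk A' B' := by
  intro h
  apply sig_ne_blk (A⁻¹ * A') (B⁻¹ * B')
  rw [← blk_mul, ← blk_inv, ← h, inv_mul_cancel_left]

theorem negOne_coe : (blk (-1 : SL(2, F)) (-1)).1 = -1 := by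
  rw [blk_coe]
  unfold blkM
  rw [Matrix.SpecialLinearGroup.coe_neg, Matrix.SpecialLinearGroup.coe_one, ten_neg_left,
    ten_neg_left, ← neg_add, ← ten_add_right, E1_add_E2, ten_one]

theorem negOne_eq : blk (-1 : SL(2, F)) (-1) = Cfsg.Agent.H6.spNegOne (Fin 2) F :=
  Subtype.ext negOne_coe

theorem negOne_comm (g : Matrix.symplecticGroup (Fin 2) F) :
    blk (-1 : SL(2, F)) (-1) * g = g * blk (-1 : SL(2, F)) (-1) := by
  apply Subtype.ext
  show (blk (-1 : SL(2, F)) (-1)).1 * g.1 = g.1 * (blk (-1 : SL(2, F)) (-1)).1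
  rw [negOne_coe, neg_one_mul, mul_neg_one]

theorem negOne_mul_negOne : blk (-1 : SL(2, F)) (-1) * blk (-1 : SL(2, F)) (-1) = 1 := by
  rw [blk_mul, neg_mul_neg, one_mul, blk_one]

theorem mem_center_iff (g : Matrix.symplecticGroup (Fin 2) F) :
    g ∈ Subgroup.center (Matrix.symplecticGroup (Fin 2) F) ↔ g = 1 ∨ g = blk (-1 : SL(2, F)) (-1) := by
  rw [Cfsg.Agent.H45.sp_mem_center_iff 2 g, negOne_eq]

theorem mk_eq_mk_iff (g h : Matrix.symplecticGroup (Fin 2) F) :
    (QuotientGroup.mk g : Cfsg.PSp 2 F) = QuotientGroup.mk h ↔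
      g = h ∨ g = blk (-1 : SL(2, F)) (-1) * h := by
  rw [QuotientGroup.eq, mem_center_iff]
  constructor
  · rintro (h1 | h1)
    · left
      exact (inv_mul_eq_one.1 h1)
    · right
      have h2 : h = g * blk (-1 : SL(2, F)) (-1) := by rw [← h1, mul_inv_cancel_left]
      rw [h2, negOne_comm, mul_assoc, negOne_mul_negOne, mul_one]
  · rintro (h1 | h1)
    · left
      rw [h1, inv_mul_cancel]
    · right
      have e : (blk (-1 : SL(2, F)) (-1))⁻¹ = blk (-1 : SL(2, F)) (-1) :=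
        inv_eq_of_mul_eq_one_left negOne_mul_negOne
      rw [h1, _root_.mul_inv_rev, e, mul_assoc, negOne_comm, inv_mul_cancel_left]

theorem mk_eq_one_iff (g : Matrix.symplecticGroup (Fin 2) F) :
    (QuotientGroup.mk g : Cfsg.PSp 2 F) = 1 ↔ g = 1 ∨ g = blk (-1 : SL(2, F)) (-1) := by
  rw [QuotientGroup.eq_one_iff, mem_center_iff]

theorem blkM_symp (A B : Matrix (Fin 2) (Fin 2) F) :
    blkM A B * Matrix.J (Fin 2) F * (blkM A B)ᵀ = ten (A.det • J2) E1 + ten (B.det • J2) E2 := by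
  rw [J_eq]
  unfold blkM
  rw [Matrix.transpose_add, ten_transpose, ten_transpose, E1_transpose, E2_transpose]
  simp only [add_mul, mul_add, ten_mul, mul_one, E1_mul_E1, E2_mul_E2, E1_mul_E2, E2_mul_E1,
    ten_zero_right, add_zero, zero_add, mul_J2]

theorem zt_coe : (blk (1 : SL(2, F)) (-1)).1 =
    Matrix.diagonal (Sum.elim ![(1 : F), -1] ![(1 : F), -1]) := by
  rw [blk_coe, blkM_eq, ← Matrix.fromBlocks_diagonal]
  congr 1 <;> ext i j <;> fin_cases i <;> fin_cases j <;> simp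

/-- The centralizer of `z = blk 1 (-1)` consists of the block diagonal matrices. -/
theorem cent_zt (h2 : (2 : F) ≠ 0) (g : Matrix.symplecticGroup (Fin 2) F)
    (h : g * blk (1 : SL(2, F)) (-1) = blk (1 : SL(2, F)) (-1) * g) :
    ∃ A B : SL(2, F), g = blk A B := by
  have h0 : g.1 * Matrix.diagonal (Sum.elim ![(1 : F), -1] ![(1 : F), -1]) =
      Matrix.diagonal (Sum.elim ![(1 : F), -1] ![(1 : F), -1]) * g.1 := by
    have := congrArg Subtype.val h
    rw [← zt_coe]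
    exact this
  have key : ∀ a b : Fin 2 ⊕ Fin 2, Sum.elim ![(1 : F), -1] ![(1 : F), -1] a = 1 →
      Sum.elim ![(1 : F), -1] ![(1 : F), -1] b = -1 → g.1 a b = 0 ∧ g.1 b a = 0 := by
    intro a b ha hb
    have e1 := congrFun (congrFun h0 a) b
    have e2 := congrFun (congrFun h0 b) a
    rw [Matrix.mul_diagonal, Matrix.diagonal_mul, ha, hb] at e1 e2
    constructor
    · have : (2 : F) * g.1 a b = 0 := by linear_combination -e1
      exact (mul_eq_zero.1 this).resolve_left h2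
    · have : (2 : F) * g.1 b a = 0 := by linear_combination e2
      exact (mul_eq_zero.1 this).resolve_left h2
  obtain ⟨k1, k1'⟩ := key (Sum.inl 0) (Sum.inl 1) (by simp) (by simp)
  obtain ⟨k2, k2'⟩ := key (Sum.inl 0) (Sum.inr 1) (by simp) (by simp)
  obtain ⟨k3, k3'⟩ := key (Sum.inr 0) (Sum.inl 1) (by simp) (by simp)
  obtain ⟨k4, k4'⟩ := key (Sum.inr 0) (Sum.inr 1) (by simp) (by simp)
  obtain ⟨A, hA⟩ : ∃ A : Matrix (Fin 2) (Fin 2) F, A = !![g.1 (Sum.inl 0) (Sum.inl 0),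
    g.1 (Sum.inl 0) (Sum.inr 0); g.1 (Sum.inr 0) (Sum.inl 0), g.1 (Sum.inr 0) (Sum.inr 0)] :=
    ⟨_, rfl⟩
  obtain ⟨B, hB⟩ : ∃ B : Matrix (Fin 2) (Fin 2) F, B = !![g.1 (Sum.inl 1) (Sum.inl 1),
    g.1 (Sum.inl 1) (Sum.inr 1); g.1 (Sum.inr 1) (Sum.inl 1), g.1 (Sum.inr 1) (Sum.inr 1)] :=
    ⟨_, rfl⟩
  have hg : g.1 = blkM A B := by
    rw [blkM_eq, hA, hB]
    ext a b
    rcases a with i | i <;> rcases b with j | j <;> fin_cases i <;> fin_cases j <;>
      simp [k1, k1', k2, k2', k3, k3', k4, k4']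
  have hs := g.2
  rw [SymplecticGroup.mem_iff, hg, blkM_symp] at hs
  have d1 := congrFun (congrFun hs (Sum.inl 0)) (Sum.inr 0)
  have d2 := congrFun (congrFun hs (Sum.inl 1)) (Sum.inr 1)
  simp [ten, E1, E2, J2, Matrix.J] at d1 d2
  exact ⟨⟨A, d1⟩, ⟨B, d2⟩, Subtype.ext hg⟩

theorem cent_zt' (h2 : (2 : F) ≠ 0) (g : Matrix.symplecticGroup (Fin 2) F)
    (h : g * blk (1 : SL(2, F)) (-1) = blk (-1 : SL(2, F)) 1 * g) :
    ∃ A B : SL(2, F), g = blk A B * sig F := by
  have h1 : (g * sig F) * blk (1 : SL(2, F)) (-1) = blk (1 : SL(2, F)) (-1) * (g * sig F) := by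
    rw [mul_assoc, sig_blk, ← mul_assoc, ← mul_assoc]
    have e1 : blk (-1 : SL(2, F)) 1 = blk (-1) (-1) * blk 1 (-1) := by
      rw [blk_mul]
      simp
    have e2 : blk (1 : SL(2, F)) (-1) = blk (-1) (-1) * blk (-1) 1 := by
      rw [blk_mul]
      simp
    congr 1
    rw [e1, ← mul_assoc, ← negOne_comm, mul_assoc, h, ← mul_assoc, ← e2]
  obtain ⟨A, B, hAB⟩ := cent_zt h2 _ h1
  exact ⟨A, B, by rw [← hAB, mul_assoc, sig_mul_sig, mul_one]⟩

end Cfsg.Agent.H88.S4
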