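import Mathlib
import Cfsg.Agent.H88.Quat
import Cfsg.Agent.H88.PSL2Fus

/-!
helper88: facts on `SL(2, F)` in odd characteristic used for the Sylow `2`-subgroups of
`Sp(4, F)`: elements of square `±1`, centralizers of non-central elements, generalized
quaternion subgroups and their normalizers.
-/

set_option autoImplicit false
set_option linter.unusedSectionVars false

namespace Cfsg.Agent.H88.S4

open Matrix

open scoped MatrixGroups

variable {F : Type*} [Field F]

theorem sl2_det (A : SL(2, F)) : A.1 0 0 * A.1 1 1 - A.1 0 1 * A.1 1 0 = 1 := by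
  have h := A.2
  rw [Matrix.det_fin_two] at h
  exact h

theorem sq_of_trace_zero (A : SL(2, F)) (h : A.1 0 0 + A.1 1 1 = 0) : A * A = -1 := by
  have hd := sl2_det A
  ext i j
  rw [Cfsg.Agent.H7.sl2_mul_apply, Matrix.SpecialLinearGroup.coe_neg,
    Matrix.SpecialLinearGroup.coe_one]
  fin_cases i <;> fin_cases j <;> simp
  · linear_combination A.1 0 0 * h - hd
  · linear_combination A.1 0 1 * h
  · linear_combination A.1 1 0 * h
  · linear_combination A.1 1 1 * h - hd

theorem trace_zero_of_sq (A : SL(2, F)) (h : A * A = -1) : A.1 0 0 + A.1 1 1 = 0 := by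
  have hd := sl2_det A
  have e00 := congrArg (fun M : SL(2, F) => M.1 0 0) h
  have e11 := congrArg (fun M : SL(2, F) => M.1 1 1) h
  simp only [Cfsg.Agent.H7.sl2_mul_apply, Matrix.SpecialLinearGroup.coe_neg,
    Matrix.SpecialLinearGroup.coe_one, Matrix.neg_apply, Matrix.one_apply_eq] at e00 e11
  have : (A.1 0 0 + A.1 1 1) ^ 2 = 0 := by linear_combination e00 + e11 + 2 * hd
  exact (pow_eq_zero_iff (by norm_num)).1 this

theorem sq_one (h2 : (2 : F) ≠ 0) (A : SL(2, F)) (h : A * A = 1) : A = 1 ∨ A = -1 := by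
  have hd := sl2_det A
  have e00 := congrArg (fun M : SL(2, F) => M.1 0 0) h
  have e01 := congrArg (fun M : SL(2, F) => M.1 0 1) h
  have e10 := congrArg (fun M : SL(2, F) => M.1 1 0) h
  have e11 := congrArg (fun M : SL(2, F) => M.1 1 1) h
  simp only [Cfsg.Agent.H7.sl2_mul_apply, Matrix.SpecialLinearGroup.coe_one,
    Matrix.one_apply_eq] at e00 e11
  simp only [Cfsg.Agent.H7.sl2_mul_apply, Matrix.SpecialLinearGroup.coe_one] at e01 e10
  rw [Matrix.one_apply_ne (by decide)] at e01 e10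
  have h4 : (A.1 0 0 + A.1 1 1 - 2) * (A.1 0 0 + A.1 1 1 + 2) = 0 := by
    linear_combination e00 + e11 + 2 * hd
  rcases mul_eq_zero.1 h4 with h5 | h5
  · left
    have hb : A.1 0 1 = 0 := by
      have : (2 : F) * A.1 0 1 = 0 := by linear_combination e01 - A.1 0 1 * h5
      exact (mul_eq_zero.1 this).resolve_left h2
    have hc : A.1 1 0 = 0 := by
      have : (2 : F) * A.1 1 0 = 0 := by linear_combination e10 - A.1 1 0 * h5
      exact (mul_eq_zero.1 this).resolve_left h2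
    have ha : A.1 0 0 = 1 := by
      have : (A.1 0 0 - 1) ^ 2 = 0 := by
        linear_combination (-1 : F) * hd + A.1 0 0 * h5 - A.1 0 1 * hc
      have h6 := (pow_eq_zero_iff (by norm_num)).1 this
      linear_combination h6
    have hdd : A.1 1 1 = 1 := by linear_combination h5 - ha
    ext i j
    rw [Matrix.SpecialLinearGroup.coe_one]
    fin_cases i <;> fin_cases j <;> simp [ha, hb, hc, hdd]
  · right
    have hb : A.1 0 1 = 0 := by
      have : (2 : F) * A.1 0 1 = 0 := by linear_combination -e01 + A.1 0 1 * h5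
      exact (mul_eq_zero.1 this).resolve_left h2
    have hc : A.1 1 0 = 0 := by
      have : (2 : F) * A.1 1 0 = 0 := by linear_combination -e10 + A.1 1 0 * h5
      exact (mul_eq_zero.1 this).resolve_left h2
    have ha : A.1 0 0 = -1 := by
      have : (A.1 0 0 + 1) ^ 2 = 0 := by
        linear_combination (-1 : F) * hd + A.1 0 0 * h5 - A.1 0 1 * hc
      have h6 := (pow_eq_zero_iff (by norm_num)).1 this
      linear_combination h6
    have hdd : A.1 1 1 = -1 := by linear_combination h5 - ha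
    ext i j
    rw [Matrix.SpecialLinearGroup.coe_neg, Matrix.SpecialLinearGroup.coe_one]
    fin_cases i <;> fin_cases j <;> simp [ha, hb, hc, hdd]

theorem neg_one_ne_one (h2 : (2 : F) ≠ 0) : (-1 : SL(2, F)) ≠ 1 := by
  intro h
  have e := congrArg (fun M : SL(2, F) => M.1 0 0) h
  simp only [Matrix.SpecialLinearGroup.coe_neg, Matrix.SpecialLinearGroup.coe_one,
    Matrix.neg_apply, Matrix.one_apply_eq] at e
  apply h2
  linear_combination -e

/-- Elements of square `-1` are conjugate. -/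
theorem conj_of_sq [Fintype F] (hodd : Fintype.card F % 2 = 1) (A B : SL(2, F))
    (hA : A * A = -1) (hB : B * B = -1) : ∃ d : SL(2, F), d * A * d⁻¹ = B := by
  have h2 : (2 : F) ≠ 0 := Cfsg.Agent.H7.two_ne_zero_of_odd_card (Nat.odd_iff.2 hodd)
  have tA := trace_zero_of_sq A hA
  have tB := trace_zero_of_sq B hB
  have hc : IsConj A B := by
    apply Cfsg.Agent.H46.isConj_of_trace_odd hodd A B
    · rw [Matrix.trace_fin_two, Matrix.trace_fin_two, tA, tB]
    · rw [Matrix.trace_fin_two, tA]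
      intro h
      have h4 : (2 : F) * 2 = 0 := by linear_combination -h
      rcases mul_eq_zero.1 h4 with h | h <;> exact h2 h
  exact isConj_iff.1 hc

/-- The centralizer of a non-central element `x` is contained in `F + F x`. -/
theorem comm_span (A x : SL(2, F)) (hx : x ∉ Subgroup.center SL(2, F)) (h : A * x = x * A) :
    ∃ α β : F, A.1 0 0 = α + β * x.1 0 0 ∧ A.1 0 1 = β * x.1 0 1 ∧ A.1 1 0 = β * x.1 1 0 ∧
      A.1 1 1 = α + β * x.1 1 1 := by
  have e00 := congrArg (fun M : SL(2, F) => M.1 0 0) h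
  have e01 := congrArg (fun M : SL(2, F) => M.1 0 1) h
  have e10 := congrArg (fun M : SL(2, F) => M.1 1 0) h
  simp only [Cfsg.Agent.H7.sl2_mul_apply] at e00 e01 e10
  rw [Cfsg.Agent.H7.sl2_mem_center_iff] at hx
  by_cases hq : x.1 0 1 = 0
  · by_cases hr : x.1 1 0 = 0
    · have hps : x.1 0 0 - x.1 1 1 ≠ 0 := fun h' => hx ⟨hq, hr, sub_eq_zero.1 h'⟩
      have hb : A.1 0 1 = 0 := by
        have : A.1 0 1 * (x.1 0 0 - x.1 1 1) = 0 := by
          linear_combination -e01 + (A.1 0 0 - A.1 1 1) * hq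
        exact (mul_eq_zero.1 this).resolve_right hps
      have hc : A.1 1 0 = 0 := by
        have : A.1 1 0 * (x.1 0 0 - x.1 1 1) = 0 := by
          linear_combination e10 + (A.1 0 0 - A.1 1 1) * hr
        exact (mul_eq_zero.1 this).resolve_right hps
      refine ⟨A.1 0 0 - (A.1 0 0 - A.1 1 1) / (x.1 0 0 - x.1 1 1) * x.1 0 0,
        (A.1 0 0 - A.1 1 1) / (x.1 0 0 - x.1 1 1), ?_, ?_, ?_, ?_⟩
      · ring
      · rw [hb, hq, mul_zero]
      · rw [hc, hr, mul_zero]
      · field_simp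
        ring
    · refine ⟨A.1 0 0 - A.1 1 0 / x.1 1 0 * x.1 0 0, A.1 1 0 / x.1 1 0, ?_, ?_, ?_, ?_⟩
      · ring
      · field_simp
        linear_combination e00
      · field_simp
      · field_simp
        linear_combination e10
  · refine ⟨A.1 0 0 - A.1 0 1 / x.1 0 1 * x.1 0 0, A.1 0 1 / x.1 0 1, ?_, ?_, ?_, ?_⟩
    · ring
    · field_simp
    · field_simp
      linear_combination -e00
    · field_simp
      linear_combination -e01

/-- An element inverting `x` by conjugation inverts the whole centralizer of `x`. -/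
theorem conj_inv_of_comm (x y A : SL(2, F)) (hyx : y * x * y⁻¹ = x⁻¹)
    (hx : x ∉ Subgroup.center SL(2, F)) (h : A * x = x * A) : y * A * y⁻¹ = A⁻¹ := by
  obtain ⟨α, β, a00, a01, a10, a11⟩ := comm_span A x hx h
  have hyx' : y * x = x⁻¹ * y := by
    rw [← hyx]
    group
  have f00 := congrArg (fun M : SL(2, F) => M.1 0 0) hyx'
  have f01 := congrArg (fun M : SL(2, F) => M.1 0 1) hyx'
  have f10 := congrArg (fun M : SL(2, F) => M.1 1 0) hyx'
  have f11 := congrArg (fun M : SL(2, F) => M.1 1 1) hyx'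
  simp only [Cfsg.Agent.H7.sl2_mul_apply, Cfsg.Agent.H7.sl2_inv_00, Cfsg.Agent.H7.sl2_inv_01,
    Cfsg.Agent.H7.sl2_inv_10, Cfsg.Agent.H7.sl2_inv_11] at f00 f01 f10 f11
  have key : y * A = A⁻¹ * y := by
    ext i j
    rw [Cfsg.Agent.H7.sl2_mul_apply, Cfsg.Agent.H7.sl2_mul_apply]
    fin_cases i <;> fin_cases j <;>
      simp [Cfsg.Agent.H7.sl2_inv_00, Cfsg.Agent.H7.sl2_inv_01, Cfsg.Agent.H7.sl2_inv_10,
        Cfsg.Agent.H7.sl2_inv_11, a00, a01, a10, a11]
    · linear_combination β * f00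
    · linear_combination β * f01
    · linear_combination β * f10
    · linear_combination β * f11
  rw [key, mul_inv_cancel_right]

theorem neg_one_mem_center : (-1 : SL(2, F)) ∈ Subgroup.center SL(2, F) := by
  rw [Cfsg.Agent.H7.sl2_mem_center_iff]
  simp [Matrix.SpecialLinearGroup.coe_neg, Matrix.SpecialLinearGroup.coe_one]

/-- Elements commuting with `x` and with an element inverting `x` are central. -/
theorem central_of_comm (h2 : (2 : F) ≠ 0) (x y A : SL(2, F)) (hyx : y * x * y⁻¹ = x⁻¹)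
    (hx2 : x * x ≠ 1) (hAx : A * x = x * A) (hAy : A * y = y * A) : A = 1 ∨ A = -1 := by
  have hxc : x ∉ Subgroup.center SL(2, F) := by
    intro hc
    apply hx2
    have h1 : y * x * y⁻¹ = x := by
      rw [Subgroup.mem_center_iff.1 hc y, mul_inv_cancel_right]
    rw [hyx] at h1
    have h3 := mul_inv_cancel x
    rw [h1] at h3
    exact h3
  have h1 := conj_inv_of_comm x y A hyx hxc hAx
  have h3 : A * A = 1 := by
    have h4 : y * A * y⁻¹ = A := by rw [← hAy, mul_inv_cancel_right]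
    rw [h4] at h1
    have h5 := mul_inv_cancel A
    rw [← h1] at h5
    exact h5
  exact sq_one h2 A h3

theorem eq_one_of_trace_two (h2 : (2 : F) ≠ 0) (r : ℕ) : ∀ w : SL(2, F),
    w.1 0 0 + w.1 1 1 = 2 → w ^ (2 ^ r) = 1 → w = 1 := by
  induction r with
  | zero =>
    intro w _ h
    simpa using h
  | succ r ih =>
    intro w ht hw
    have hd := sl2_det w
    have h1 : (w * w) ^ (2 ^ r) = 1 := by
      rw [← pow_two, ← pow_mul, ← pow_succ']
      exact hw
    have h2' : (w * w).1 0 0 + (w * w).1 1 1 = 2 := by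
      simp only [Cfsg.Agent.H7.sl2_mul_apply]
      linear_combination (w.1 0 0 + w.1 1 1 + 2) * ht - 2 * hd
    have h3 := ih (w * w) h2' h1
    rcases sq_one h2 w h3 with h4 | h4
    · exact h4
    · exfalso
      rw [h4] at ht
      simp only [Matrix.SpecialLinearGroup.coe_neg, Matrix.SpecialLinearGroup.coe_one,
        Matrix.neg_apply, Matrix.one_apply_eq] at ht
      have h5 : (2 : F) * 2 = 0 := by linear_combination -ht
      rcases mul_eq_zero.1 h5 with h | h <;> exact h2 h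

theorem trace_sq_ne_four (h2 : (2 : F) ≠ 0) (x : SL(2, F)) (r : ℕ) (hx : x ^ (2 ^ r) = 1)
    (hxc : x ∉ Subgroup.center SL(2, F)) : (x.1 0 0 + x.1 1 1) ^ 2 ≠ 4 := by
  intro h
  have hd := sl2_det x
  have h1 : (x * x).1 0 0 + (x * x).1 1 1 = 2 := by
    simp only [Cfsg.Agent.H7.sl2_mul_apply]
    linear_combination h - 2 * hd
  have h3 : (x * x) ^ (2 ^ r) = 1 := by
    rw [← pow_two, ← pow_mul, mul_comm, pow_mul, hx, one_pow]
  have h4 := eq_one_of_trace_two h2 r (x * x) h1 h3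
  apply hxc
  rcases sq_one h2 x h4 with h5 | h5
  · rw [h5]
    exact Subgroup.one_mem _
  · rw [h5]
    exact neg_one_mem_center

/-- An element of the centralizer of `x` with the trace of `x` is `x` or `x⁻¹`. -/
theorem eq_or_eq_inv (h2 : (2 : F) ≠ 0) (x u : SL(2, F)) (hx : x ∉ Subgroup.center SL(2, F))
    (hc : u * x = x * u) (ht : u.1 0 0 + u.1 1 1 = x.1 0 0 + x.1 1 1)
    (ht4 : (x.1 0 0 + x.1 1 1) ^ 2 ≠ 4) : u = x ∨ u = x⁻¹ := by
  obtain ⟨α, β, a00, a01, a10, a11⟩ := comm_span u x hx hc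
  have hdx := sl2_det x
  have hdu := sl2_det u
  rw [a00, a01, a10, a11] at hdu
  rw [a00, a11] at ht
  obtain ⟨t, ht_def⟩ : ∃ t : F, t = x.1 0 0 + x.1 1 1 := ⟨_, rfl⟩
  rw [← ht_def] at ht4
  have htr : 2 * α + β * t = t := by
    rw [ht_def]
    linear_combination ht
  have hdet : α ^ 2 + α * β * t + β ^ 2 = 1 := by
    rw [ht_def]
    linear_combination hdu - β ^ 2 * hdx
  have key : (1 - β) * (1 + β) * (t ^ 2 - 4) = 0 := by
    linear_combination 4 * hdet - (2 * α + β * t + t) * htr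
  have ht4' : t ^ 2 - 4 ≠ 0 := fun h => ht4 (by linear_combination h)
  rcases mul_eq_zero.1 ((mul_eq_zero.1 key).resolve_right ht4') with h1 | h1
  · left
    have hβ : β = 1 := by linear_combination -h1
    have hα : α = 0 := by
      have : (2 : F) * α = 0 := by linear_combination htr - t * hβ
      exact (mul_eq_zero.1 this).resolve_left h2
    ext i j
    fin_cases i <;> fin_cases j <;> simp [a00, a01, a10, a11, hα, hβ]
  · right
    have hβ : β = -1 := by linear_combination h1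
    have hα : α = t := by
      have : (2 : F) * (α - t) = 0 := by linear_combination htr - t * hβ
      have h6 := (mul_eq_zero.1 this).resolve_left h2
      linear_combination h6
    ext i j
    fin_cases i <;> fin_cases j <;>
      simp [Cfsg.Agent.H7.sl2_inv_00, Cfsg.Agent.H7.sl2_inv_01, Cfsg.Agent.H7.sl2_inv_10,
        Cfsg.Agent.H7.sl2_inv_11, a00, a01, a10, a11, hα, hβ, ht_def]

theorem trace_conj (A x : SL(2, F)) :
    (A * x * A⁻¹).1 0 0 + (A * x * A⁻¹).1 1 1 = x.1 0 0 + x.1 1 1 := by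
  have hd := sl2_det A
  simp only [Cfsg.Agent.H7.sl2_mul_apply, Cfsg.Agent.H7.sl2_inv_00, Cfsg.Agent.H7.sl2_inv_01,
    Cfsg.Agent.H7.sl2_inv_10, Cfsg.Agent.H7.sl2_inv_11]
  linear_combination (x.1 0 0 + x.1 1 1) * hd

theorem center_cases (A : SL(2, F)) (h : A ∈ Subgroup.center SL(2, F)) : A = 1 ∨ A = -1 := by
  rw [Cfsg.Agent.H7.sl2_mem_center_iff] at h
  obtain ⟨h01, h10, h00⟩ := h
  have hd := sl2_det A
  rw [h01, ← h00, zero_mul, sub_zero] at hd
  have h4 : (A.1 0 0 - 1) * (A.1 0 0 + 1) = 0 := by linear_combination hd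
  rcases mul_eq_zero.1 h4 with h5 | h5
  · left
    have ha : A.1 0 0 = 1 := by linear_combination h5
    ext i j
    rw [Matrix.SpecialLinearGroup.coe_one]
    fin_cases i <;> fin_cases j <;> simp [ha, h01, h10, ← h00]
  · right
    have ha : A.1 0 0 = -1 := by linear_combination h5
    ext i j
    rw [Matrix.SpecialLinearGroup.coe_neg, Matrix.SpecialLinearGroup.coe_one]
    fin_cases i <;> fin_cases j <;> simp [ha, h01, h10, ← h00]

/-- Generators `x`, `y` of a generalized quaternion subgroup of order `2 ^ m` of `SL(2, F)`. -/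
structure QP (x y : SL(2, F)) (m : ℕ) : Prop where
  hm : 3 ≤ m
  hx : x ^ (2 ^ (m - 2)) = -1
  hy : y * y = -1
  hyx : y * x * y⁻¹ = x⁻¹

namespace QP

variable {x y : SL(2, F)} {m : ℕ}

theorem x_pow (d : QP x y m) : x ^ (2 ^ (m - 1)) = 1 := by
  have e : 2 ^ (m - 1) = 2 ^ (m - 2) * 2 := by
    rw [← pow_succ]
    congr 1
    have := d.hm
    omega
  rw [e, pow_mul, d.hx, neg_one_sq]

theorem x_sq_ne (h2 : (2 : F) ≠ 0) (d : QP x y m) : x * x ≠ 1 := by
  intro h
  have e : 2 ^ (m - 2) = 2 * 2 ^ (m - 3) := by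
    rw [← pow_succ']
    congr 1
    have := d.hm
    omega
  have h1 := d.hx
  rw [e, pow_mul, pow_two, h, one_pow] at h1
  exact neg_one_ne_one h2 h1.symm

theorem x_notMem_center (h2 : (2 : F) ≠ 0) (d : QP x y m) : x ∉ Subgroup.center SL(2, F) := by
  intro hc
  apply d.x_sq_ne h2
  have h1 : y * x * y⁻¹ = x := by
    rw [Subgroup.mem_center_iff.1 hc y, mul_inv_cancel_right]
  rw [d.hyx] at h1
  have h3 := mul_inv_cancel x
  rw [h1] at h3
  exact h3

theorem orderOf_x (h2 : (2 : F) ≠ 0) (d : QP x y m) : orderOf x = 2 ^ (m - 1) := by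
  have : Fact (Nat.Prime 2) := ⟨Nat.prime_two⟩
  have e : m - 1 = (m - 2) + 1 := by
    have := d.hm
    omega
  rw [e]
  apply orderOf_eq_prime_pow
  · rw [d.hx]
    exact neg_one_ne_one h2
  · rw [← e]
    exact d.x_pow

theorem x_mem (_d : QP x y m) : x ∈ Subgroup.closure {x, y} := Subgroup.subset_closure (by simp)

theorem y_mem (_d : QP x y m) : y ∈ Subgroup.closure {x, y} := Subgroup.subset_closure (by simp)

theorem neg_one_mem (d : QP x y m) : (-1 : SL(2, F)) ∈ Subgroup.closure {x, y} := by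
  rw [← d.hy]
  exact mul_mem d.y_mem d.y_mem

theorem neg_mem (d : QP x y m) {a : SL(2, F)} (ha : a ∈ Subgroup.closure {x, y}) :
    -a ∈ Subgroup.closure {x, y} := by
  have e : -a = (-1 : SL(2, F)) * a := by rw [neg_mul, one_mul]
  rw [e]
  exact mul_mem d.neg_one_mem ha

theorem cases (d : QP x y m) (g : SL(2, F)) (hg : g ∈ Subgroup.closure {x, y}) :
    (∃ i : ℤ, g = x ^ i) ∨ ∃ i : ℤ, g = y * x ^ i :=
  Cfsg.Agent.H88.Quat.closure_cases (k := ((2 ^ (m - 2) : ℕ) : ℤ))
    (by rw [zpow_natCast, d.hx, d.hy]) d.hyx g hg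

theorem sq_yx (d : QP x y m) (i : ℤ) : (y * x ^ i) * (y * x ^ i) = -1 := by
  rw [Cfsg.Agent.H88.Quat.sq_mul d.hyx, d.hy]

theorem isPGroup (d : QP x y m) : IsPGroup 2 (Subgroup.closure {x, y}) := by
  intro g
  rcases d.cases g.1 g.2 with ⟨i, hi⟩ | ⟨i, hi⟩
  · refine ⟨m - 1, Subtype.ext ?_⟩
    rw [Subgroup.coe_pow, hi, Subgroup.coe_one, ← zpow_natCast, ← _root_.zpow_mul, mul_comm,
      _root_.zpow_mul, zpow_natCast, d.x_pow, _root_.one_zpow]
  · refine ⟨2, Subtype.ext ?_⟩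
    rw [Subgroup.coe_pow, hi, Subgroup.coe_one]
    have e : (y * x ^ i) ^ 2 ^ 2 = ((y * x ^ i) * (y * x ^ i)) * ((y * x ^ i) * (y * x ^ i)) := by
      norm_num [pow_succ, mul_assoc]
    rw [e, d.sq_yx, neg_mul_neg, one_mul]

theorem card_ge [Fintype F] (h2 : (2 : F) ≠ 0) (d : QP x y m) :
    2 ^ m ≤ Nat.card (Subgroup.closure {x, y}) := by
  have h := Cfsg.Agent.H88.Quat.card_closure_ge (t := y) d.hyx (d.x_sq_ne h2)
  rw [d.orderOf_x h2, ← pow_succ'] at h
  have e : m - 1 + 1 = m := by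
    have := d.hm
    omega
  rwa [e] at h

theorem exists_sylow [Fintype F] (h2 : (2 : F) ≠ 0) (d : QP x y m)
    (hcard : ¬ 2 ^ (m + 1) ∣ Nat.card SL(2, F)) :
    ∃ P : Sylow 2 SL(2, F), (P : Subgroup SL(2, F)) = Subgroup.closure {x, y} := by
  obtain ⟨P, hP⟩ := d.isPGroup.exists_le_sylow
  refine ⟨P, (Subgroup.eq_of_le_of_card_ge hP ?_).symm⟩
  obtain ⟨n, hn⟩ := IsPGroup.iff_card.1 P.isPGroup'
  have hdvd : 2 ^ n ∣ Nat.card SL(2, F) := by
    rw [← hn]
    exact Subgroup.card_subgroup_dvd_card _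
  have hle' : n ≤ m := by
    by_contra hlt
    push Not at hlt
    exact hcard ((pow_dvd_pow 2 hlt).trans hdvd)
  rw [hn]
  exact (Nat.pow_le_pow_right (by norm_num) hle').trans (d.card_ge h2)

/-- An element of the normalizer of `Q = ⟨x, y⟩` that maps `x` to `x` or `x⁻¹` lies in `Q`. -/
theorem norm_core [Fintype F] (h2 : (2 : F) ≠ 0) (d : QP x y m)
    (hcard : ¬ 2 ^ (m + 1) ∣ Nat.card SL(2, F)) (A : SL(2, F))
    (hA : A ∈ Subgroup.normalizer ((Subgroup.closure {x, y} : Subgroup SL(2, F)) : Set SL(2, F)))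
    (h : A * x * A⁻¹ = x ∨ A * x * A⁻¹ = x⁻¹) : A ∈ Subgroup.closure {x, y} := by
  have hxQ := d.x_mem
  have hyQ := d.y_mem
  have key : ∀ B : SL(2, F),
      B ∈ Subgroup.normalizer ((Subgroup.closure {x, y} : Subgroup SL(2, F)) : Set SL(2, F)) →
      B * x = x * B → B ∈ Subgroup.closure {x, y} := by
    intro B hB hBx
    have h1 : B * y * B⁻¹ ∈ Subgroup.closure {x, y} := (Subgroup.mem_normalizer_iff.1 hB y).1 hyQ
    have h2' := conj_inv_of_comm x y B d.hyx (d.x_notMem_center h2) hBx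
    have h3 : B * B ∈ Subgroup.closure {x, y} := by
      have e0 : y * B⁻¹ * y⁻¹ = B := by
        calc y * B⁻¹ * y⁻¹ = (y * B * y⁻¹)⁻¹ := by group
          _ = B := by rw [h2', inv_inv]
      have e : B * B = (B * y * B⁻¹) * y⁻¹ := by
        calc B * B = B * (y * B⁻¹ * y⁻¹) := by rw [e0]
          _ = B * y * B⁻¹ * y⁻¹ := by group
      rw [e]
      exact mul_mem h1 (inv_mem hyQ)
    obtain ⟨k, hk⟩ := d.isPGroup ⟨B * B, h3⟩
    have hk' : (B * B) ^ (2 ^ k) = 1 := by
      have := congrArg Subtype.val hk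
      rwa [Subgroup.coe_pow, Subgroup.coe_one] at this
    have hB2 : B ^ (2 ^ (k + 1)) = 1 := by
      rw [pow_succ', pow_mul, pow_two]
      exact hk'
    obtain ⟨P, hP⟩ := d.exists_sylow h2 hcard
    have hz : IsPGroup 2 (Subgroup.zpowers B) := by
      obtain ⟨j, -, hj⟩ := (Nat.dvd_prime_pow Nat.prime_two).1 (orderOf_dvd_of_pow_eq_one hB2)
      exact IsPGroup.of_card (n := j) (by rw [Nat.card_zpowers, hj])
    have h5 := hz.inf_normalizer_sylow P
    have hBn : B ∈ Subgroup.normalizer ((P : Subgroup SL(2, F)) : Set SL(2, F)) := by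
      rw [hP]
      exact hB
    have hBm : B ∈ Subgroup.zpowers B ⊓ Subgroup.normalizer (P : Set SL(2, F)) :=
      ⟨Subgroup.mem_zpowers B, hBn⟩
    rw [h5] at hBm
    rw [← hP]
    exact hBm.2
  rcases h with h | h
  · apply key A hA
    calc A * x = (A * x * A⁻¹) * A := by group
      _ = x * A := by rw [h]
  · have hB : y * A ∈ Subgroup.normalizer ((Subgroup.closure {x, y} : Subgroup SL(2, F)) : Set SL(2, F)) :=
      mul_mem (Subgroup.le_normalizer hyQ) hA
    have e2 : y * x⁻¹ = x * y := by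
      calc y * x⁻¹ = (y * x * y⁻¹)⁻¹ * y := by group
        _ = x * y := by rw [d.hyx, inv_inv]
    have hc : (y * A) * x = x * (y * A) := by
      calc y * A * x = y * (A * x * A⁻¹) * A := by group
        _ = x * (y * A) := by rw [h, e2, mul_assoc]
    have h6 := key _ hB hc
    have e : A = y⁻¹ * (y * A) := by group
    rw [e]
    exact mul_mem (inv_mem hyQ) h6

/-- For `m ≥ 4` the subgroup `Q = ⟨x, y⟩` is self-normalizing. -/
theorem norm_large [Fintype F] (h2 : (2 : F) ≠ 0) (d : QP x y m) (hm4 : 4 ≤ m)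
    (hcard : ¬ 2 ^ (m + 1) ∣ Nat.card SL(2, F)) (A : SL(2, F))
    (hA : A ∈ Subgroup.normalizer ((Subgroup.closure {x, y} : Subgroup SL(2, F)) : Set SL(2, F))) :
    A ∈ Subgroup.closure {x, y} := by
  apply d.norm_core h2 hcard A hA
  have h1 : A * x * A⁻¹ ∈ Subgroup.closure {x, y} := (Subgroup.mem_normalizer_iff.1 hA x).1 d.x_mem
  rcases d.cases _ h1 with ⟨i, hi⟩ | ⟨i, hi⟩
  · have hc : (A * x * A⁻¹) * x = x * (A * x * A⁻¹) := by
      rw [hi, ← _root_.zpow_add_one, ← _root_.zpow_one_add, add_comm]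
    exact eq_or_eq_inv h2 x _ (d.x_notMem_center h2) hc (trace_conj A x)
      (trace_sq_ne_four h2 x (m - 1) d.x_pow (d.x_notMem_center h2))
  · exfalso
    have h3 := d.sq_yx i
    rw [← hi] at h3
    have h4 : x * x = -1 := by
      have e : x * x = A⁻¹ * ((A * x * A⁻¹) * (A * x * A⁻¹)) * A := by group
      rw [e, h3, mul_neg, mul_one, neg_mul, inv_mul_cancel]
    have e : 2 ^ (m - 2) = 2 * (2 * 2 ^ (m - 4)) := by
      rw [← pow_succ', ← pow_succ']
      congr 1
      omega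
    have h5 := d.hx
    rw [e, pow_mul, pow_two, h4, pow_mul, neg_one_sq, one_pow] at h5
    exact neg_one_ne_one h2 h5.symm

end QP

/-- The `2`-part of the order of `PSp(4, q)`. -/
theorem arith_sp4 (q m : ℕ) (hodd : q % 2 = 1) (hq : 3 ≤ q) (h : ¬ 2 ^ (m + 1) ∣ q ^ 2 - 1)
    (N : ℕ) (hN : 2 * N = q ^ 4 * ((q ^ 2 - 1) * (q ^ 4 - 1))) : ¬ 2 ^ (2 * m + 1) ∣ N := by
  obtain ⟨a, rfl⟩ : ∃ a, q = 2 * a + 1 := ⟨q / 2, by omega⟩
  have h1 : 1 ≤ (2 * a + 1) ^ 2 := Nat.one_le_pow _ _ (by omega)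
  obtain ⟨b, hb⟩ : ∃ b, (2 * a + 1) ^ 2 = b + 1 := ⟨(2 * a + 1) ^ 2 - 1, by omega⟩
  have e2 : (2 * a + 1) ^ 2 - 1 = b := by omega
  have e4 : (2 * a + 1) ^ 4 - 1 = b * (b + 2) := by
    have h3 : (2 * a + 1) ^ 4 = b * (b + 2) + 1 := by
      have h4 : (2 * a + 1) ^ 4 = ((2 * a + 1) ^ 2) ^ 2 := by ring
      rw [h4, hb]
      ring
    omega
  have eb2 : b + 2 = 2 * (2 * a ^ 2 + 2 * a + 1) := by
    have h5 : (2 * a + 1) ^ 2 = 4 * a ^ 2 + 4 * a + 1 := by ring
    linarith
  have hbne : b ≠ 0 := by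
    intro hb0
    rw [hb0] at hb
    have : 9 ≤ (2 * a + 1) ^ 2 := by nlinarith
    omega
  rw [e2] at h
  obtain ⟨k, u, hu, hku⟩ := Nat.exists_eq_two_pow_mul_odd hbne
  have hkm : k ≤ m := by
    by_contra hlt
    push Not at hlt
    apply h
    rw [hku]
    exact Dvd.dvd.mul_right (pow_dvd_pow 2 hlt) u
  rw [e2, e4, eb2] at hN
  have hN' : N = 2 ^ (2 * k) * ((2 * a + 1) ^ 4 * (u ^ 2 * (2 * a ^ 2 + 2 * a + 1))) := by
    have : 2 * N = 2 * (2 ^ (2 * k) * ((2 * a + 1) ^ 4 * (u ^ 2 * (2 * a ^ 2 + 2 * a + 1)))) := by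
      rw [hN, hku]
      ring
    omega
  intro hdiv
  have hdiv2 : 2 ^ (2 * k + 1) ∣ N := (pow_dvd_pow 2 (by omega)).trans hdiv
  rw [hN', pow_succ] at hdiv2
  have h6 : 2 ∣ (2 * a + 1) ^ 4 * (u ^ 2 * (2 * a ^ 2 + 2 * a + 1)) :=
    (Nat.mul_dvd_mul_iff_left (by positivity)).1 hdiv2
  have hodd1 : Odd ((2 * a + 1) ^ 4) := Odd.pow ⟨a, rfl⟩
  have hodd2 : Odd (u ^ 2) := Odd.pow hu
  have hodd3 : Odd (2 * a ^ 2 + 2 * a + 1) := ⟨a ^ 2 + a, by ring⟩
  have hodd4 := hodd1.mul (hodd2.mul hodd3)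
  rw [← Nat.not_even_iff_odd] at hodd4
  exact hodd4 (even_iff_two_dvd.2 h6)

/-- A generalized quaternion subgroup of order the `2`-part of `q² - 1 ≥ 16`. -/
theorem exists_qp_large [Fintype F] (hodd : Fintype.card F % 2 = 1)
    (h16 : 16 ∣ Fintype.card F ^ 2 - 1) :
    ∃ (m : ℕ) (x y : SL(2, F)), 4 ≤ m ∧ QP x y m ∧ ¬ 2 ^ (m + 1) ∣ Fintype.card F ^ 2 - 1 := by
  have hF : Odd (Fintype.card F) := Nat.odd_iff.2 hodd
  have h1 : 1 < Fintype.card F := Fintype.one_lt_card
  have h3 : Fintype.card F ≠ 3 := by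
    intro h
    rw [h] at h16
    norm_num at h16
  have hq : 3 ≤ Fintype.card F := by omega
  obtain ⟨k, hk, hdiv, hN⟩ := Cfsg.Agent.H88.L2.arith (Fintype.card F) hodd h16 hq
  have : Fact (ringChar F).Prime := ⟨CharP.char_is_prime F (ringChar F)⟩
  have hspec := Cfsg.Agent.H62.psl2_spectrum (F := F) (ringChar F)
    (by rw [Nat.card_eq_fintype_card]; omega)
  rw [Nat.card_eq_fintype_card] at hspec
  have hmem : 2 ^ k ∈ Set.range (orderOf : PSL(2, F) → ℕ) := by
    rw [hspec]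
    exact Or.inr hdiv
  obtain ⟨c, hc⟩ := hmem
  obtain ⟨c', rfl⟩ := QuotientGroup.mk_surjective c
  have h2 : (2 : F) ≠ 0 := Cfsg.Agent.H7.two_ne_zero_of_odd_card hF
  have h4k : 2 ^ 2 ≤ 2 ^ k := Nat.pow_le_pow_right (by norm_num) hk
  have htr : c'.1.trace ^ 2 ≠ 4 := by
    intro h
    rw [Matrix.trace_fin_two] at h
    obtain ⟨l, hl⟩ : ∃ l : F, c'.1 0 0 + c'.1 1 1 = 2 * l := ⟨(c'.1 0 0 + c'.1 1 1) / 2, by
      field_simp⟩
    have hll : l * l = 1 := by
      have h5 : (2 : F) * 2 * (l * l - 1) = 0 := by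
        rw [hl] at h
        linear_combination h
      rcases mul_eq_zero.1 h5 with h6 | h6
      · rcases mul_eq_zero.1 h6 with h7 | h7 <;> exact absurd h7 h2
      · linear_combination h6
    have hp := (Fact.out : (ringChar F).Prime)
    have hcheb : Cfsg.Agent.H62.chebU (Cfsg.Agent.H62.sl2tr c') (ringChar F - 1 + 1) = 0 := by
      rw [show Cfsg.Agent.H62.sl2tr c' = 2 * l from hl, Cfsg.Agent.H62.chebU_double l hll]
      have e : ((ringChar F - 1 : ℕ) : F) + 1 = ((ringChar F : ℕ) : F) := by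
        rw [← Nat.cast_add_one, Nat.sub_add_cancel hp.pos]
      rw [e, CharP.cast_eq_zero, zero_mul]
    have hpow := Cfsg.Agent.H62.psl2_pow_eq_one_of_cheb c' (ringChar F - 1) hcheb
    rw [Nat.sub_add_cancel hp.pos] at hpow
    have hdvd := orderOf_dvd_of_pow_eq_one hpow
    rw [hc] at hdvd
    rcases (Nat.dvd_prime hp).1 hdvd with h8 | h8
    · omega
    · have h9 : 2 ∣ ringChar F := by
        rw [← h8]
        exact dvd_pow_self 2 (by omega)
      have h10 := (Nat.prime_dvd_prime_iff_eq Nat.prime_two hp).1 h9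
      rw [← h10] at h8
      omega
  have hconj : IsConj c' c'⁻¹ := by
    apply Cfsg.Agent.H46.isConj_of_trace_odd hodd c' c'⁻¹ _ htr
    rw [Matrix.trace_fin_two, Matrix.trace_fin_two, Cfsg.Agent.H7.sl2_inv_00,
      Cfsg.Agent.H7.sl2_inv_11, add_comm]
  obtain ⟨t', ht'⟩ := isConj_iff.1 hconj
  have hc2 := Cfsg.Agent.H88.Dih.sq_ne_one_of_orderOf hk hc
  have hcc : c' ∉ Subgroup.center SL(2, F) := by
    intro h
    apply hc2
    have : (QuotientGroup.mk c' : PSL(2, F)) = 1 := (QuotientGroup.eq_one_iff c').2 h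
    rw [this, mul_one]
  have htt := Cfsg.Agent.H88.L2.trace_eq_zero_of_inverts c' t' ht' hcc
  refine ⟨k + 2, c', t', by omega, ⟨by omega, ?_, sq_of_trace_zero t' htt, ht'⟩, ?_⟩
  · show c' ^ (2 ^ (k + 2 - 2)) = -1
    rw [Nat.add_sub_cancel]
    have h5 : (QuotientGroup.mk c' : PSL(2, F)) ^ (2 ^ k) = 1 := by
      rw [← hc]
      exact pow_orderOf_eq_one _
    rw [← QuotientGroup.mk_pow, QuotientGroup.eq_one_iff] at h5
    rcases center_cases _ h5 with h6 | h6
    · exfalso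
      have e : 2 ^ k = 2 ^ (k - 1) * 2 := by
        rw [← pow_succ]
        congr 1
        omega
      rw [e, pow_mul, pow_two] at h6
      have h8 : (QuotientGroup.mk c' : PSL(2, F)) ^ (2 ^ (k - 1)) = 1 := by
        rw [← QuotientGroup.mk_pow, QuotientGroup.eq_one_iff]
        rcases sq_one h2 _ h6 with h7 | h7
        · rw [h7]
          exact Subgroup.one_mem _
        · rw [h7]
          exact neg_one_mem_center
      have h9 := orderOf_dvd_of_pow_eq_one h8
      rw [hc] at h9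
      have h10 := Nat.le_of_dvd (by positivity) h9
      have h11 : 2 ^ (k - 1) < 2 ^ k := Nat.pow_lt_pow_right (by norm_num) (by omega)
      omega
    · exact h6
  · intro hdvd
    obtain ⟨e, he⟩ := hdvd
    apply hN (Fintype.card F * (2 ^ (k + 2) * e))
    · rw [he]
      ring
    · exact Dvd.dvd.mul_left (Dvd.intro e rfl) _

end Cfsg.Agent.H88.S4
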