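import Mathlib
import Cfsg.Agent.H88.Sp4A
import Cfsg.Agent.H88.Sp4B
import Cfsg.Agent.H88.PSL3A
import Cfsg.Agent.H6.SpCenter
import Cfsg.Agent.H50.SpCard

/-!
helper88: the `2`-subgroup `(Q ≀ C₂)/Z` of `PSp(4, F)`, `Q = ⟨x, y⟩` generalized quaternion in
`SL(2, F)`: order, fusion of involutions, and the normalizer.
-/

set_option autoImplicit false
set_option linter.unusedSectionVars false

namespace Cfsg.Agent.H88.S4

open Matrix Cfsg

open scoped MatrixGroups

variable {F : Type*} [Field F]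

/-- The subgroup `(Q × Q) ⟨σ⟩` of `Sp(4, F)`. -/
def St (Q : Subgroup SL(2, F)) : Subgroup (Matrix.symplecticGroup (Fin 2) F) where
  carrier := {g | ∃ a ∈ Q, ∃ b ∈ Q, g = blk a b ∨ g = blk a b * sig F}
  mul_mem' := by
    rintro g g' ⟨a, ha, b, hb, rfl | rfl⟩ ⟨a', ha', b', hb', rfl | rfl⟩
    · exact ⟨a * a', mul_mem ha ha', b * b', mul_mem hb hb', Or.inl (blk_mul a b a' b')⟩
    · exact ⟨a * a', mul_mem ha ha', b * b', mul_mem hb hb', Or.inr (by
        rw [← mul_assoc, blk_mul])⟩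
    · refine ⟨a * b', mul_mem ha hb', b * a', mul_mem hb ha', Or.inr ?_⟩
      rw [mul_assoc, sig_blk, ← mul_assoc, blk_mul]
    · refine ⟨a * b', mul_mem ha hb', b * a', mul_mem hb ha', Or.inl ?_⟩
      calc blk a b * sig F * (blk a' b' * sig F)
          = blk a b * (sig F * blk a' b') * sig F := by simp only [mul_assoc]
        _ = blk a b * (blk b' a' * sig F) * sig F := by rw [sig_blk]
        _ = blk a b * blk b' a' * (sig F * sig F) := by simp only [mul_assoc]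
        _ = blk (a * b') (b * a') := by rw [sig_mul_sig, mul_one, blk_mul]
  one_mem' := ⟨1, one_mem _, 1, one_mem _, Or.inl blk_one.symm⟩
  inv_mem' := by
    rintro g ⟨a, ha, b, hb, rfl | rfl⟩
    · exact ⟨a⁻¹, inv_mem ha, b⁻¹, inv_mem hb, Or.inl (blk_inv a b)⟩
    · refine ⟨b⁻¹, inv_mem hb, a⁻¹, inv_mem ha, Or.inr ?_⟩
      rw [_root_.mul_inv_rev, sig_inv, blk_inv, sig_blk]

theorem mem_St {Q : Subgroup SL(2, F)} {g : Matrix.symplecticGroup (Fin 2) F} :
    g ∈ St Q ↔ ∃ a ∈ Q, ∃ b ∈ Q, g = blk a b ∨ g = blk a b * sig F := Iff.rfl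

theorem blk_mem_St {Q : Subgroup SL(2, F)} {a b : SL(2, F)} :
    blk a b ∈ St Q ↔ a ∈ Q ∧ b ∈ Q := by
  constructor
  · rintro ⟨a', ha', b', hb', h | h⟩
    · obtain ⟨rfl, rfl⟩ := blk_inj h
      exact ⟨ha', hb'⟩
    · exact absurd h.symm (blk_sig_ne_blk a' b' a b)
  · rintro ⟨ha, hb⟩
    exact ⟨a, ha, b, hb, Or.inl rfl⟩

theorem blk_sig_mem_St {Q : Subgroup SL(2, F)} {a b : SL(2, F)} :
    blk a b * sig F ∈ St Q ↔ a ∈ Q ∧ b ∈ Q := by
  constructor
  · rintro ⟨a', ha', b', hb', h | h⟩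
    · exact absurd h (blk_sig_ne_blk a b a' b')
    · obtain ⟨rfl, rfl⟩ := blk_inj (mul_right_cancel h)
      exact ⟨ha', hb'⟩
  · rintro ⟨ha, hb⟩
    exact ⟨a, ha, b, hb, Or.inr rfl⟩

theorem sig_mem_St (Q : Subgroup SL(2, F)) : sig F ∈ St Q :=
  ⟨1, one_mem _, 1, one_mem _, Or.inr (by rw [blk_one, one_mul])⟩

theorem blk_sig_sq (a b : SL(2, F)) : (blk a b * sig F) * (blk a b * sig F) = blk (a * b) (b * a) := by
  calc blk a b * sig F * (blk a b * sig F)
      = blk a b * (sig F * blk a b) * sig F := by simp only [mul_assoc]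
    _ = blk a b * (blk b a * sig F) * sig F := by rw [sig_blk]
    _ = blk a b * blk b a * (sig F * sig F) := by simp only [mul_assoc]
    _ = blk (a * b) (b * a) := by rw [sig_mul_sig, mul_one, blk_mul]

theorem St_isPGroup [Finite F] {Q : Subgroup SL(2, F)} (hQ : IsPGroup 2 Q) : IsPGroup 2 (St Q) := by
  obtain ⟨n, hn⟩ := IsPGroup.iff_card.1 hQ
  have hpow : ∀ a ∈ Q, a ^ (2 ^ n) = 1 := by
    intro a ha
    have h := pow_card_eq_one' (x := (⟨a, ha⟩ : Q))
    rw [hn] at h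
    have := congrArg Subtype.val h
    rwa [Subgroup.coe_pow, Subgroup.coe_one] at this
  rintro ⟨g, a, ha, b, hb, rfl | rfl⟩
  · refine ⟨n, Subtype.ext ?_⟩
    rw [Subgroup.coe_pow, Subgroup.coe_one]
    show blk a b ^ (2 ^ n) = 1
    rw [blk_pow, hpow a ha, hpow b hb, blk_one]
  · refine ⟨n + 1, Subtype.ext ?_⟩
    rw [Subgroup.coe_pow, Subgroup.coe_one]
    show (blk a b * sig F) ^ (2 ^ (n + 1)) = 1
    rw [pow_succ', pow_mul, pow_two, blk_sig_sq, blk_pow, hpow _ (mul_mem ha hb),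
      hpow _ (mul_mem hb ha), blk_one]

theorem card_St_ge [Fintype F] (Q : Subgroup SL(2, F)) :
    2 * (Nat.card Q * Nat.card Q) ≤ Nat.card (St Q) := by
  classical
  have hinj : Function.Injective (fun t : Bool × Q × Q =>
      (⟨if t.1 then blk t.2.1.1 t.2.2.1 * sig F else blk t.2.1.1 t.2.2.1, by
        by_cases h : t.1
        · rw [if_pos h]
          exact blk_sig_mem_St.2 ⟨t.2.1.2, t.2.2.2⟩
        · rw [if_neg h]
          exact blk_mem_St.2 ⟨t.2.1.2, t.2.2.2⟩⟩ : St Q)) := by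
    rintro ⟨i, a, b⟩ ⟨i', a', b'⟩ h
    have h0 := congrArg Subtype.val h
    simp only at h0
    cases i <;> cases i'
    · simp only [Bool.false_eq_true, if_false] at h0
      obtain ⟨h1, h2⟩ := blk_inj h0
      rw [Subtype.ext h1, Subtype.ext h2]
    · simp only [Bool.false_eq_true, if_false, if_true] at h0
      exact absurd h0.symm (blk_sig_ne_blk _ _ _ _)
    · simp only [Bool.false_eq_true, if_false, if_true] at h0
      exact absurd h0 (blk_sig_ne_blk _ _ _ _)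
    · simp only [if_true] at h0
      obtain ⟨h1, h2⟩ := blk_inj (mul_right_cancel h0)
      rw [Subtype.ext h1, Subtype.ext h2]
  have h := Nat.card_le_card_of_injective _ hinj
  rw [Nat.card_prod, Nat.card_prod] at h
  simpa using h

/-- The image of `St Q` in `PSp(4, F)`. -/
def Sb (Q : Subgroup SL(2, F)) : Subgroup (Cfsg.PSp 2 F) :=
  (St Q).map (QuotientGroup.mk' (Subgroup.center (Matrix.symplecticGroup (Fin 2) F)))

theorem negOne_mem_St {Q : Subgroup SL(2, F)} (hQ : (-1 : SL(2, F)) ∈ Q) :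
    blk (-1 : SL(2, F)) (-1) ∈ St Q := blk_mem_St.2 ⟨hQ, hQ⟩

theorem mk_mem_Sb {Q : Subgroup SL(2, F)} (hQ : (-1 : SL(2, F)) ∈ Q)
    (g : Matrix.symplecticGroup (Fin 2) F) :
    (QuotientGroup.mk g : Cfsg.PSp 2 F) ∈ Sb Q ↔ g ∈ St Q := by
  constructor
  · rintro ⟨s, hs, hsg⟩
    have h1 : (QuotientGroup.mk s : Cfsg.PSp 2 F) = QuotientGroup.mk g := hsg
    rcases (mk_eq_mk_iff s g).1 h1 with h | h
    · rw [← h]
      exact hs
    · have e : g = blk (-1 : SL(2, F)) (-1) * s := by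
        rw [h, ← mul_assoc, negOne_mul_negOne, one_mul]
      rw [e]
      exact mul_mem (negOne_mem_St hQ) hs
  · intro h
    exact ⟨g, h, rfl⟩

theorem Sb_isPGroup [Finite F] {Q : Subgroup SL(2, F)} (hQ : IsPGroup 2 Q) : IsPGroup 2 (Sb Q) :=
  (St_isPGroup hQ).map _

theorem card_center_sp4 [Fintype F] (hodd : Fintype.card F % 2 = 1) :
    Nat.card (Subgroup.center (Matrix.symplecticGroup (Fin 2) F)) = 2 := by
  have h := Cfsg.Agent.H6.card_center_symplectic (l := Fin 2) (F := F) rfl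
  rw [h]
  have h1 : 1 < Fintype.card F := Fintype.one_lt_card
  obtain ⟨k, hk⟩ : ∃ k, Fintype.card F - 1 = 2 * k := ⟨(Fintype.card F - 1) / 2, by omega⟩
  rw [hk]
  exact Nat.gcd_eq_left (dvd_mul_right 2 k)

theorem card_psp4 [Fintype F] (hodd : Fintype.card F % 2 = 1) :
    2 * Nat.card (Cfsg.PSp 2 F) =
      Fintype.card F ^ 4 * ((Fintype.card F ^ 2 - 1) * (Fintype.card F ^ 4 - 1)) := by
  have h2 := Subgroup.card_eq_card_quotient_mul_card_subgroup
    (Subgroup.center (Matrix.symplecticGroup (Fin 2) F))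
  rw [card_center_sp4 hodd] at h2
  have h4 := Cfsg.Agent.H50.SpCard.card_sp (F := F) rfl 2
  rw [h2] at h4
  simp [Finset.prod_range_succ] at h4
  rw [mul_comm, h4]

theorem card_Sb_ge [Fintype F] (hodd : Fintype.card F % 2 = 1) (Q : Subgroup SL(2, F)) :
    Nat.card Q * Nat.card Q ≤ Nat.card (Sb Q) := by
  have hr : ((QuotientGroup.mk' (Subgroup.center (Matrix.symplecticGroup (Fin 2) F))).comp
      (St Q).subtype).range = Sb Q := by
    rw [MonoidHom.range_comp, Subgroup.range_subtype]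
    rfl
  have h1 := Subgroup.card_mul_index ((QuotientGroup.mk'
    (Subgroup.center (Matrix.symplecticGroup (Fin 2) F))).comp (St Q).subtype).ker
  rw [Subgroup.index_ker, hr] at h1
  have h2 : Nat.card ((QuotientGroup.mk'
      (Subgroup.center (Matrix.symplecticGroup (Fin 2) F))).comp (St Q).subtype).ker ≤ 2 := by
    refine le_of_le_of_eq ?_ (card_center_sp4 hodd)
    refine Nat.card_le_card_of_injective
      (fun x => (⟨x.1.1, ?_⟩ : Subgroup.center (Matrix.symplecticGroup (Fin 2) F))) ?_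
    · have hx := x.2
      rw [MonoidHom.mem_ker] at hx
      exact (QuotientGroup.eq_one_iff _).1 hx
    · intro x x' hxx
      have h5 := congrArg Subtype.val hxx
      dsimp only at h5
      exact Subtype.ext (Subtype.ext h5)
  have h3 := card_St_ge Q
  have h4 : Nat.card (St Q) ≤ 2 * Nat.card (Sb Q) := by
    rw [← h1]
    exact Nat.mul_le_mul_right _ h2
  omega

theorem orderOf_mk_two (g : Matrix.symplecticGroup (Fin 2) F) (h1 : g ≠ 1)
    (hm1 : g ≠ blk (-1 : SL(2, F)) (-1)) (hsq : g * g = 1 ∨ g * g = blk (-1 : SL(2, F)) (-1)) :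
    orderOf (QuotientGroup.mk g : Cfsg.PSp 2 F) = 2 := by
  haveI : Fact (Nat.Prime 2) := ⟨Nat.prime_two⟩
  apply orderOf_eq_prime
  · rw [pow_two, ← QuotientGroup.mk_mul, mk_eq_one_iff]
    exact hsq
  · rw [Ne, mk_eq_one_iff]
    push Not
    exact ⟨h1, hm1⟩

theorem zt_order (h2 : (2 : F) ≠ 0) :
    orderOf (QuotientGroup.mk (blk (1 : SL(2, F)) (-1)) : Cfsg.PSp 2 F) = 2 := by
  apply orderOf_mk_two
  · intro h
    rw [← blk_one] at h
    exact neg_one_ne_one h2 (blk_inj h).2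
  · intro h
    exact neg_one_ne_one h2 (blk_inj h).1.symm
  · left
    rw [blk_mul, one_mul, neg_mul_neg, one_mul, blk_one]

theorem sig_order : orderOf (QuotientGroup.mk (sig F) : Cfsg.PSp 2 F) = 2 := by
  apply orderOf_mk_two
  · intro h
    rw [← blk_one] at h
    exact sig_ne_blk _ _ h
  · exact sig_ne_blk _ _
  · exact Or.inl sig_mul_sig

theorem blk_sig_order (a : SL(2, F)) :
    orderOf (QuotientGroup.mk (blk a a⁻¹ * sig F) : Cfsg.PSp 2 F) = 2 := by
  apply orderOf_mk_two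
  · intro h
    rw [← blk_one] at h
    exact blk_sig_ne_blk _ _ _ _ h
  · exact blk_sig_ne_blk _ _ _ _
  · left
    rw [blk_sig_sq, mul_inv_cancel, inv_mul_cancel, blk_one]

theorem blk_order_B (h2 : (2 : F) ≠ 0) (u w : SL(2, F)) (hu : u * u = -1) (hw : w * w = -1) :
    orderOf (QuotientGroup.mk (blk u w) : Cfsg.PSp 2 F) = 2 := by
  apply orderOf_mk_two
  · intro h
    rw [← blk_one] at h
    have h3 := (blk_inj h).1
    rw [h3, one_mul] at hu
    exact neg_one_ne_one h2 hu.symm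
  · intro h
    have h3 := (blk_inj h).1
    rw [h3, neg_mul_neg, one_mul] at hu
    exact neg_one_ne_one h2 hu.symm
  · right
    rw [blk_mul, hu, hw]

section Invol

variable [Fintype F]

/-- Involutions of `PSp(4, F)` whose lifts are involutions are conjugate. -/
theorem invol_conj_A (h2 : (2 : F) ≠ 0) (g g' : Matrix.symplecticGroup (Fin 2) F)
    (hg : orderOf (QuotientGroup.mk g : Cfsg.PSp 2 F) = 2)
    (hg' : orderOf (QuotientGroup.mk g' : Cfsg.PSp 2 F) = 2) (h : g * g = 1) (h' : g' * g' = 1) :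
    ∃ d : Cfsg.PSp 2 F, d * QuotientGroup.mk g * d⁻¹ = QuotientGroup.mk g' := by
  obtain ⟨p, hp⟩ := CharP.exists F
  haveI := hp
  haveI : Fact p.Prime := ⟨CharP.char_is_prime F p⟩
  have hm : g.1 * g.1 = 1 := congrArg Subtype.val h
  have hm' : g'.1 * g'.1 = 1 := congrArg Subtype.val h'
  obtain ⟨-, h1, hm1⟩ := Cfsg.Agent.H45.psp_lift_facts 2 g hg
  obtain ⟨-, h1', hm1'⟩ := Cfsg.Agent.H45.psp_lift_facts 2 g' hg'
  obtain ⟨r, r', hr, hr', hsum, e1, e2, -, -⟩ := Cfsg.Agent.H45.sp_invol_mult h2 p 2 g hm h1 hm1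
  obtain ⟨s, s', hs, hs', hsum', e1', e2', -, -⟩ :=
    Cfsg.Agent.H45.sp_invol_mult h2 p 2 g' hm' h1' hm1'
  have hne : ¬ (g.1 * g.1 = -1) := by
    rw [hm]
    exact Cfsg.Agent.H45.neg_one_ne_one_matrix h2 2
  have hne' : ¬ (g'.1 * g'.1 = -1) := by
    rw [hm']
    exact Cfsg.Agent.H45.neg_one_ne_one_matrix h2 2
  have hr1 : r = 1 := by omega
  have hr1' : r' = 1 := by omega
  have hs1 : s = 1 := by omega
  have hs1' : s' = 1 := by omega
  have hc := Cfsg.Agent.H45.psp_invol_conj h2 p 2 g g' hg hg' (by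
    rw [Cfsg.Agent.H45.spTy_of_not 2 _ hne, Cfsg.Agent.H45.spTy_of_not 2 _ hne', e1, e2, e1', e2',
      hr1, hr1', hs1, hs1'])
  exact isConj_iff.1 hc

/-- Involutions of `PSp(4, F)` whose lifts have square `-1` are conjugate. -/
theorem invol_conj_B (h2 : (2 : F) ≠ 0) (g g' : Matrix.symplecticGroup (Fin 2) F)
    (hg : orderOf (QuotientGroup.mk g : Cfsg.PSp 2 F) = 2)
    (hg' : orderOf (QuotientGroup.mk g' : Cfsg.PSp 2 F) = 2)
    (h : g * g = blk (-1 : SL(2, F)) (-1)) (h' : g' * g' = blk (-1 : SL(2, F)) (-1)) :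
    ∃ d : Cfsg.PSp 2 F, d * QuotientGroup.mk g * d⁻¹ = QuotientGroup.mk g' := by
  obtain ⟨p, hp⟩ := CharP.exists F
  haveI := hp
  haveI : Fact p.Prime := ⟨CharP.char_is_prime F p⟩
  have hm : g.1 * g.1 = -1 := by
    have := congrArg Subtype.val h
    rwa [negOne_coe] at this
  have hm' : g'.1 * g'.1 = -1 := by
    have := congrArg Subtype.val h'
    rwa [negOne_coe] at this
  have hc := Cfsg.Agent.H45.psp_invol_conj h2 p 2 g g' hg hg' (by
    rw [Cfsg.Agent.H45.spTy_of_sq_neg 2 _ hm, Cfsg.Agent.H45.spTy_of_sq_neg 2 _ hm'])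
  exact isConj_iff.1 hc

end Invol

end Cfsg.Agent.H88.S4
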