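import Mathlib
import Cfsg.Agent.H88.Sp4C
import Cfsg.Agent.H88.Sp4Crit

/-!
helper88: the `2`-subgroup `S̄ = (Q ≀ C₂)/Z` of `PSp(4, F)`: it is a Sylow `2`-subgroup, no proper
nontrivial subgroup of it is strongly closed, and its normalizer lies in `(N(Q) ≀ C₂)/Z`.
The case `16 ∣ q² - 1` of the simplicity of the `2`-fusion system.
-/

set_option autoImplicit false
set_option linter.unusedSectionVars false

namespace Cfsg.Agent.H88.S4

open Matrix Cfsg

open scoped MatrixGroups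

variable {F : Type*} [Field F] [Fintype F]

theorem inv_neg_one' : ((-1 : SL(2, F)))⁻¹ = -1 :=
  inv_eq_of_mul_eq_one_left (by rw [neg_mul_neg, one_mul])

theorem mk_sq_cases (g : Matrix.symplecticGroup (Fin 2) F)
    (hg : orderOf (QuotientGroup.mk g : Cfsg.PSp 2 F) = 2) :
    g * g = 1 ∨ g * g = blk (-1 : SL(2, F)) (-1) := by
  have h := pow_orderOf_eq_one (QuotientGroup.mk g : Cfsg.PSp 2 F)
  rw [hg, pow_two, ← QuotientGroup.mk_mul, mk_eq_one_iff] at h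
  exact h

/-- No proper nontrivial subgroup of `S̄` is closed under `G`-fusion in `S̄`. -/
theorem hcl_Sb (h2 : (2 : F) ≠ 0) {x y : SL(2, F)} {m : ℕ} (d : QP x y m)
    (T : Subgroup (Cfsg.PSp 2 F)) (hT : T ≤ Sb (Subgroup.closure {x, y})) (hT1 : T ≠ ⊥)
    (hcl : ∀ t ∈ T, ∀ c : Cfsg.PSp 2 F, c * t * c⁻¹ ∈ Sb (Subgroup.closure {x, y}) →
      c * t * c⁻¹ ∈ T) :
    T = Sb (Subgroup.closure {x, y}) := by
  have hm1 : (-1 : SL(2, F)) ∈ Subgroup.closure {x, y} := d.neg_one_mem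
  obtain ⟨u, huT, hu⟩ := Cfsg.Agent.H88.L3.exists_invol (Sb_isPGroup d.isPGroup) hT hT1
  obtain ⟨g, rfl⟩ := QuotientGroup.mk_surjective u
  have keyB : ∀ g0 : Matrix.symplecticGroup (Fin 2) F,
      (QuotientGroup.mk g0 : Cfsg.PSp 2 F) ∈ T →
      orderOf (QuotientGroup.mk g0 : Cfsg.PSp 2 F) = 2 → g0 * g0 = blk (-1 : SL(2, F)) (-1) →
      ∀ g' : Matrix.symplecticGroup (Fin 2) F, g' ∈ St (Subgroup.closure {x, y}) →
      orderOf (QuotientGroup.mk g' : Cfsg.PSp 2 F) = 2 → g' * g' = blk (-1 : SL(2, F)) (-1) →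
      (QuotientGroup.mk g' : Cfsg.PSp 2 F) ∈ T := by
    intro g0 hg0T hg0 hsq g' hg'S hg' hsq'
    obtain ⟨c, hc⟩ := invol_conj_B h2 g0 g' hg0 hg' hsq hsq'
    have := hcl _ hg0T c (by rw [hc]; exact (mk_mem_Sb hm1 g').2 hg'S)
    rwa [hc] at this
  have keyA : ∀ g0 : Matrix.symplecticGroup (Fin 2) F,
      (QuotientGroup.mk g0 : Cfsg.PSp 2 F) ∈ T →
      orderOf (QuotientGroup.mk g0 : Cfsg.PSp 2 F) = 2 → g0 * g0 = 1 →
      ∀ g' : Matrix.symplecticGroup (Fin 2) F, g' ∈ St (Subgroup.closure {x, y}) →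
      orderOf (QuotientGroup.mk g' : Cfsg.PSp 2 F) = 2 → g' * g' = 1 →
      (QuotientGroup.mk g' : Cfsg.PSp 2 F) ∈ T := by
    intro g0 hg0T hg0 hsq g' hg'S hg' hsq'
    obtain ⟨c, hc⟩ := invol_conj_A h2 g0 g' hg0 hg' hsq hsq'
    have := hcl _ hg0T c (by rw [hc]; exact (mk_mem_Sb hm1 g').2 hg'S)
    rwa [hc] at this
  have hyi : y⁻¹ * y⁻¹ = -1 := by
    rw [← _root_.mul_inv_rev, d.hy, inv_neg_one']
  have hBT : ∃ g0 : Matrix.symplecticGroup (Fin 2) F,
      (QuotientGroup.mk g0 : Cfsg.PSp 2 F) ∈ T ∧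
      orderOf (QuotientGroup.mk g0 : Cfsg.PSp 2 F) = 2 ∧ g0 * g0 = blk (-1 : SL(2, F)) (-1) := by
    rcases mk_sq_cases g hu with h | h
    · have h1 : (QuotientGroup.mk (sig F) : Cfsg.PSp 2 F) ∈ T :=
        keyA g huT hu h (sig F) (sig_mem_St _) sig_order sig_mul_sig
      have h3 : (QuotientGroup.mk (blk y y⁻¹ * sig F) : Cfsg.PSp 2 F) ∈ T :=
        keyA g huT hu h _ (blk_sig_mem_St.2 ⟨d.y_mem, inv_mem d.y_mem⟩) (blk_sig_order y)
          (by rw [blk_sig_sq, mul_inv_cancel, inv_mul_cancel, blk_one])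
      refine ⟨blk y y⁻¹, ?_, blk_order_B h2 y y⁻¹ d.hy hyi, ?_⟩
      · have h4 := mul_mem h3 h1
        rw [← QuotientGroup.mk_mul, mul_assoc, sig_mul_sig, mul_one] at h4
        exact h4
      · rw [blk_mul, d.hy, hyi]
    · exact ⟨g, huT, hu, h⟩
  obtain ⟨g0, hg0T, hg0, hsq0⟩ := hBT
  have hBB : ∀ u w : SL(2, F), u ∈ Subgroup.closure {x, y} → w ∈ Subgroup.closure {x, y} →
      u * u = -1 → w * w = -1 → (QuotientGroup.mk (blk u w) : Cfsg.PSp 2 F) ∈ T := by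
    intro u w hu hw hu2 hw2
    exact keyB g0 hg0T hg0 hsq0 (blk u w) (blk_mem_St.2 ⟨hu, hw⟩) (blk_order_B h2 u w hu2 hw2)
      (by rw [blk_mul, hu2, hw2])
  have hyx1 : (y * x) * (y * x) = -1 := by
    have := d.sq_yx 1
    rwa [zpow_one] at this
  have hyxQ : y * x ∈ Subgroup.closure {x, y} := mul_mem d.y_mem d.x_mem
  have h1x : (QuotientGroup.mk (blk 1 x) : Cfsg.PSp 2 F) ∈ T := by
    have a := hBB y y d.y_mem d.y_mem d.hy d.hy
    have b := hBB y (y * x) d.y_mem hyxQ d.hy hyx1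
    have h4 := mul_mem (inv_mem a) b
    rw [← QuotientGroup.mk_inv, ← QuotientGroup.mk_mul, blk_inv, blk_mul, inv_mul_cancel,
      inv_mul_cancel_left] at h4
    exact h4
  have hx1 : (QuotientGroup.mk (blk x 1) : Cfsg.PSp 2 F) ∈ T := by
    have a := hBB y y d.y_mem d.y_mem d.hy d.hy
    have b := hBB (y * x) y hyxQ d.y_mem hyx1 d.hy
    have h4 := mul_mem (inv_mem a) b
    rw [← QuotientGroup.mk_inv, ← QuotientGroup.mk_mul, blk_inv, blk_mul, inv_mul_cancel,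
      inv_mul_cancel_left] at h4
    exact h4
  obtain ⟨u4, hu4⟩ : ∃ u4 : SL(2, F), u4 = x ^ (2 ^ (m - 3)) := ⟨_, rfl⟩
  have hu4Q : u4 ∈ Subgroup.closure {x, y} := by
    rw [hu4]
    exact pow_mem d.x_mem _
  have hu4sq : u4 * u4 = -1 := by
    rw [hu4, ← pow_two, ← pow_mul, ← pow_succ]
    have e : m - 3 + 1 = m - 2 := by
      have := d.hm
      omega
    rw [e, d.hx]
  have h1u : (QuotientGroup.mk (blk 1 u4) : Cfsg.PSp 2 F) ∈ T := by
    have h4 := pow_mem h1x (2 ^ (m - 3))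
    rw [← QuotientGroup.mk_pow, blk_pow, one_pow, ← hu4] at h4
    exact h4
  have hu1 : (QuotientGroup.mk (blk u4 1) : Cfsg.PSp 2 F) ∈ T := by
    have h4 := pow_mem hx1 (2 ^ (m - 3))
    rw [← QuotientGroup.mk_pow, blk_pow, one_pow, ← hu4] at h4
    exact h4
  have h1y : (QuotientGroup.mk (blk 1 y) : Cfsg.PSp 2 F) ∈ T := by
    have a := hBB u4 y hu4Q d.y_mem hu4sq d.hy
    have h4 := mul_mem (inv_mem hu1) a
    rw [← QuotientGroup.mk_inv, ← QuotientGroup.mk_mul, blk_inv, blk_mul, inv_mul_cancel,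
      inv_one, one_mul] at h4
    exact h4
  have hy1 : (QuotientGroup.mk (blk y 1) : Cfsg.PSp 2 F) ∈ T := by
    have a := hBB y u4 d.y_mem hu4Q d.hy hu4sq
    have h4 := mul_mem (inv_mem h1u) a
    rw [← QuotientGroup.mk_inv, ← QuotientGroup.mk_mul, blk_inv, blk_mul, inv_mul_cancel,
      inv_one, one_mul] at h4
    exact h4
  have hR : ∀ b ∈ Subgroup.closure {x, y}, (QuotientGroup.mk (blk 1 b) : Cfsg.PSp 2 F) ∈ T := by
    intro b hb
    let φ : SL(2, F) →* Cfsg.PSp 2 F :=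
      { toFun := fun b => QuotientGroup.mk (blk 1 b)
        map_one' := by rw [blk_one]; rfl
        map_mul' := fun a b => by rw [← QuotientGroup.mk_mul, blk_mul, one_mul] }
    have hle : Subgroup.closure {x, y} ≤ T.comap φ := by
      rw [Subgroup.closure_le]
      rintro c (rfl | hc)
      · exact h1x
      · rw [Set.mem_singleton_iff] at hc
        subst hc
        exact h1y
    exact hle hb
  have hL : ∀ a ∈ Subgroup.closure {x, y}, (QuotientGroup.mk (blk a 1) : Cfsg.PSp 2 F) ∈ T := by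
    intro a ha
    let φ : SL(2, F) →* Cfsg.PSp 2 F :=
      { toFun := fun a => QuotientGroup.mk (blk a 1)
        map_one' := by rw [blk_one]; rfl
        map_mul' := fun a b => by rw [← QuotientGroup.mk_mul, blk_mul, one_mul] }
    have hle : Subgroup.closure {x, y} ≤ T.comap φ := by
      rw [Subgroup.closure_le]
      rintro c (rfl | hc)
      · exact hx1
      · rw [Set.mem_singleton_iff] at hc
        subst hc
        exact hy1
    exact hle ha
  have hz : (QuotientGroup.mk (blk 1 (-1)) : Cfsg.PSp 2 F) ∈ T := hR _ hm1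
  have hσ : (QuotientGroup.mk (sig F) : Cfsg.PSp 2 F) ∈ T := by
    obtain ⟨c, hc⟩ := invol_conj_A h2 (blk 1 (-1)) (sig F) (zt_order h2) sig_order
      (by rw [blk_mul, one_mul, neg_mul_neg, one_mul, blk_one]) sig_mul_sig
    have := hcl _ hz c (by rw [hc]; exact (mk_mem_Sb hm1 _).2 (sig_mem_St _))
    rwa [hc] at this
  apply le_antisymm hT
  rintro _ ⟨s, hs, rfl⟩
  obtain ⟨a, ha, b, hb, rfl | rfl⟩ := mem_St.1 hs
  · have h4 := mul_mem (hL a ha) (hR b hb)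
    rw [← QuotientGroup.mk_mul, blk_mul, one_mul, mul_one] at h4
    exact h4
  · have h4 := mul_mem (mul_mem (hL a ha) (hR b hb)) hσ
    rw [← QuotientGroup.mk_mul, ← QuotientGroup.mk_mul, blk_mul, one_mul, mul_one] at h4
    exact h4

theorem conj_mem_St {Q : Subgroup SL(2, F)} (hQ : (-1 : SL(2, F)) ∈ Q)
    (g : Matrix.symplecticGroup (Fin 2) F)
    (hg : (QuotientGroup.mk g : Cfsg.PSp 2 F) ∈ Subgroup.normalizer
      ((Sb Q : Subgroup (Cfsg.PSp 2 F)) : Set (Cfsg.PSp 2 F)))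
    (s : Matrix.symplecticGroup (Fin 2) F) (hs : s ∈ St Q) : g * s * g⁻¹ ∈ St Q := by
  have h := (Subgroup.mem_normalizer_iff.1 hg (QuotientGroup.mk s)).1 ((mk_mem_Sb hQ s).2 hs)
  rw [← QuotientGroup.mk_inv, ← QuotientGroup.mk_mul, ← QuotientGroup.mk_mul, mk_mem_Sb hQ] at h
  exact h

theorem norm_blk {Q : Subgroup SL(2, F)} (A B : SL(2, F))
    (hg : ∀ s ∈ St Q, blk A B * s * (blk A B)⁻¹ ∈ St Q) :
    A ∈ Subgroup.normalizer (Q : Set SL(2, F)) ∧ B ∈ Subgroup.normalizer (Q : Set SL(2, F)) ∧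
      A * B⁻¹ ∈ Q := by
  refine ⟨?_, ?_, ?_⟩
  · apply Subgroup.mem_normalizer_fintype
    intro a ha
    have h := hg (blk a 1) (blk_mem_St.2 ⟨ha, one_mem _⟩)
    rw [blk_inv, blk_mul, blk_mul, blk_mem_St] at h
    exact h.1
  · apply Subgroup.mem_normalizer_fintype
    intro b hb
    have h := hg (blk 1 b) (blk_mem_St.2 ⟨one_mem _, hb⟩)
    rw [blk_inv, blk_mul, blk_mul, blk_mem_St] at h
    exact h.2
  · have h := hg (sig F) (sig_mem_St Q)
    have e : blk A B * sig F * (blk A B)⁻¹ = blk (A * B⁻¹) (B * A⁻¹) * sig F := by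
      rw [blk_inv, mul_assoc, sig_blk, ← mul_assoc, blk_mul]
    rw [e, blk_sig_mem_St] at h
    exact h.1

/-- The normalizer of `S̄` lies in the image of `N(Q) ≀ C₂`. -/
theorem norm_Sb (h2 : (2 : F) ≠ 0) {x y : SL(2, F)} {m : ℕ} (d : QP x y m)
    (g : Matrix.symplecticGroup (Fin 2) F)
    (hg : (QuotientGroup.mk g : Cfsg.PSp 2 F) ∈ Subgroup.normalizer
      ((Sb (Subgroup.closure {x, y}) : Subgroup (Cfsg.PSp 2 F)) : Set (Cfsg.PSp 2 F))) :
    ∃ A B : SL(2, F),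
      A ∈ Subgroup.normalizer ((Subgroup.closure {x, y} : Subgroup SL(2, F)) : Set SL(2, F)) ∧
      B ∈ Subgroup.normalizer ((Subgroup.closure {x, y} : Subgroup SL(2, F)) : Set SL(2, F)) ∧
      A * B⁻¹ ∈ Subgroup.closure {x, y} ∧ (g = blk A B ∨ g = blk A B * sig F) := by
  have hm1 := d.neg_one_mem
  have hconj := conj_mem_St hm1 g hg
  obtain ⟨u4, hu4⟩ : ∃ u4 : SL(2, F), u4 = x ^ (2 ^ (m - 3)) := ⟨_, rfl⟩
  have hu4Q : u4 ∈ Subgroup.closure {x, y} := by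
    rw [hu4]
    exact pow_mem d.x_mem _
  have hu4sq : u4 * u4 = -1 := by
    rw [hu4, ← pow_two, ← pow_mul, ← pow_succ]
    have e : m - 3 + 1 = m - 2 := by
      have := d.hm
      omega
    rw [e, d.hx]
  have hs0 : blk 1 u4 * blk 1 u4 = blk (1 : SL(2, F)) (-1) := by rw [blk_mul, one_mul, hu4sq]
  have hzz : blk (1 : SL(2, F)) (-1) * blk 1 (-1) = 1 := by
    rw [blk_mul, one_mul, neg_mul_neg, one_mul, blk_one]
  have h1 := hconj (blk 1 u4) (blk_mem_St.2 ⟨one_mem _, hu4Q⟩)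
  have hsq : (g * blk 1 u4 * g⁻¹) * (g * blk 1 u4 * g⁻¹) = g * blk 1 (-1) * g⁻¹ := by
    rw [← hs0]
    group
  have hsq2 : (g * blk 1 (-1) * g⁻¹) * (g * blk 1 (-1) * g⁻¹) = 1 := by
    have e : (g * blk (1 : SL(2, F)) (-1) * g⁻¹) * (g * blk 1 (-1) * g⁻¹) =
        g * (blk 1 (-1) * blk 1 (-1)) * g⁻¹ := by group
    rw [e, hzz, mul_one, mul_inv_cancel]
  have hne1 : g * blk (1 : SL(2, F)) (-1) * g⁻¹ ≠ 1 := by
    intro h
    have h3 : blk (1 : SL(2, F)) (-1) = 1 := by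
      have e : blk (1 : SL(2, F)) (-1) = g⁻¹ * (g * blk 1 (-1) * g⁻¹) * g := by group
      rw [e, h, mul_one, inv_mul_cancel]
    rw [← blk_one] at h3
    exact neg_one_ne_one h2 (blk_inj h3).2
  have hneζ : g * blk (1 : SL(2, F)) (-1) * g⁻¹ ≠ blk (-1) (-1) := by
    intro h
    have h3 : blk (1 : SL(2, F)) (-1) = blk (-1) (-1) := by
      have e : blk (1 : SL(2, F)) (-1) = g⁻¹ * (g * blk 1 (-1) * g⁻¹) * g := by group
      rw [e, h, mul_assoc, negOne_comm, inv_mul_cancel_left]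
    exact neg_one_ne_one h2 (blk_inj h3).1.symm
  have hcase : g * blk (1 : SL(2, F)) (-1) * g⁻¹ = blk 1 (-1) ∨
      g * blk (1 : SL(2, F)) (-1) * g⁻¹ = blk (-1) 1 := by
    obtain ⟨a, ha, b, hb, hab | hab⟩ := mem_St.1 h1
    · rw [hab, blk_mul] at hsq
      rw [← hsq, blk_mul, ← blk_one] at hsq2
      obtain ⟨ea, eb⟩ := blk_inj hsq2
      rcases sq_one h2 _ ea with ha1 | ha1 <;> rcases sq_one h2 _ eb with hb1 | hb1
      · exfalso
        apply hne1
        rw [← hsq, ha1, hb1, blk_one]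
      · left
        rw [← hsq, ha1, hb1]
      · right
        rw [← hsq, ha1, hb1]
      · exfalso
        apply hneζ
        rw [← hsq, ha1, hb1]
    · rw [hab, blk_sig_sq] at hsq
      rw [← hsq, blk_mul, ← blk_one] at hsq2
      obtain ⟨ea, eb⟩ := blk_inj hsq2
      exfalso
      rcases sq_one h2 _ ea with ha1 | ha1
      · have hba : b * a = 1 := by
          have e : b = a⁻¹ := by
            have e' : b = a⁻¹ * (a * b) := by group
            rw [e', ha1, mul_one]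
          rw [e, inv_mul_cancel]
        apply hne1
        rw [← hsq, ha1, hba, blk_one]
      · have hba : b * a = -1 := by
          have e : b = -a⁻¹ := by
            have e' : b = a⁻¹ * (a * b) := by group
            rw [e', ha1, mul_neg, mul_one]
          rw [e, neg_mul, inv_mul_cancel]
        apply hneζ
        rw [← hsq, ha1, hba]
  rcases hcase with hc | hc
  · have hcomm : g * blk (1 : SL(2, F)) (-1) = blk 1 (-1) * g := by
      calc g * blk (1 : SL(2, F)) (-1) = (g * blk 1 (-1) * g⁻¹) * g := by group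
        _ = blk 1 (-1) * g := by rw [hc]
    obtain ⟨A, B, rfl⟩ := cent_zt h2 g hcomm
    obtain ⟨hA, hB, hAB⟩ := norm_blk A B hconj
    exact ⟨A, B, hA, hB, hAB, Or.inl rfl⟩
  · have hcomm : g * blk (1 : SL(2, F)) (-1) = blk (-1) 1 * g := by
      calc g * blk (1 : SL(2, F)) (-1) = (g * blk 1 (-1) * g⁻¹) * g := by group
        _ = blk (-1) 1 * g := by rw [hc]
    obtain ⟨A, B, rfl⟩ := cent_zt' h2 g hcomm
    have hss : ∀ t : Matrix.symplecticGroup (Fin 2) F, sig F * (sig F * t) = t := fun t => by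
      rw [← mul_assoc, sig_mul_sig, one_mul]
    have hconj' : ∀ s ∈ St (Subgroup.closure {x, y}),
        blk A B * s * (blk A B)⁻¹ ∈ St (Subgroup.closure {x, y}) := by
      intro s hs
      have h3 := hconj (sig F * s * sig F) (mul_mem (mul_mem (sig_mem_St _) hs) (sig_mem_St _))
      have e : blk A B * sig F * (sig F * s * sig F) * (blk A B * sig F)⁻¹ =
          blk A B * s * (blk A B)⁻¹ := by
        rw [_root_.mul_inv_rev, sig_inv]
        simp only [mul_assoc, hss]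
      rwa [e] at h3
    obtain ⟨hA, hB, hAB⟩ := norm_blk A B hconj'
    exact ⟨A, B, hA, hB, hAB, Or.inr rfl⟩

theorem not_dvd_card_SL2 (hodd : Fintype.card F % 2 = 1) (m : ℕ)
    (hm : ¬ 2 ^ (m + 1) ∣ Fintype.card F ^ 2 - 1) : ¬ 2 ^ (m + 1) ∣ Nat.card SL(2, F) := by
  rw [Cfsg.Agent.H7.card_SL2]
  intro h
  apply hm
  have hcop : Nat.Coprime (2 ^ (m + 1)) (Fintype.card F) :=
    Nat.Coprime.pow_left _ (Nat.coprime_two_left.2 (Nat.odd_iff.2 hodd))
  exact hcop.dvd_of_dvd_mul_left h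

/-- `S̄` is a Sylow `2`-subgroup of `PSp(4, F)` when `|Q|` is the `2`-part of `q² - 1`. -/
theorem sylow_Sb (hodd : Fintype.card F % 2 = 1) {x y : SL(2, F)} {m : ℕ} (d : QP x y m)
    (hm : ¬ 2 ^ (m + 1) ∣ Fintype.card F ^ 2 - 1) :
    ∃ P : Sylow 2 (Cfsg.PSp 2 F),
      (P : Subgroup (Cfsg.PSp 2 F)) = Sb (Subgroup.closure {x, y}) := by
  have h2 : (2 : F) ≠ 0 := Cfsg.Agent.H7.two_ne_zero_of_odd_card (Nat.odd_iff.2 hodd)
  have hq : 3 ≤ Fintype.card F := by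
    have := Fintype.one_lt_card (α := F)
    omega
  have hN := arith_sp4 (Fintype.card F) m hodd hq hm (Nat.card (Cfsg.PSp 2 F)) (card_psp4 hodd)
  obtain ⟨P, hP⟩ := (Sb_isPGroup d.isPGroup).exists_le_sylow
  refine ⟨P, (Subgroup.eq_of_le_of_card_ge hP ?_).symm⟩
  obtain ⟨n, hn⟩ := IsPGroup.iff_card.1 P.isPGroup'
  have hdvd : 2 ^ n ∣ Nat.card (Cfsg.PSp 2 F) := by
    rw [← hn]
    exact Subgroup.card_subgroup_dvd_card _
  have hle' : n ≤ 2 * m := by
    by_contra hlt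
    push Not at hlt
    exact hN ((pow_dvd_pow 2 hlt).trans hdvd)
  rw [hn]
  have h1 := d.card_ge h2
  have h3 := card_Sb_ge hodd (Subgroup.closure {x, y})
  calc 2 ^ n ≤ 2 ^ (2 * m) := Nat.pow_le_pow_right (by norm_num) hle'
    _ = 2 ^ m * 2 ^ m := by rw [two_mul, pow_add]
    _ ≤ Nat.card (Subgroup.closure {x, y}) * Nat.card (Subgroup.closure {x, y}) :=
      Nat.mul_le_mul h1 h1
    _ ≤ _ := h3

theorem Sb_ne_bot {Q : Subgroup SL(2, F)} (hQ : (-1 : SL(2, F)) ∈ Q) : Sb Q ≠ ⊥ := by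
  intro h
  have h1 : (QuotientGroup.mk (sig F) : Cfsg.PSp 2 F) ∈ Sb Q := (mk_mem_Sb hQ _).2 (sig_mem_St _)
  rw [h, Subgroup.mem_bot] at h1
  have ho := sig_order (F := F)
  rw [h1, orderOf_one] at ho
  omega

theorem orderOf_of_mem_sylow (P : Sylow 2 (Cfsg.PSp 2 F)) (g : Cfsg.PSp 2 F)
    (hg : g ∈ (P : Subgroup (Cfsg.PSp 2 F))) : ∃ k : ℕ, orderOf g = 2 ^ k := by
  obtain ⟨k, hk⟩ := (IsPGroup.iff_orderOf.1 P.isPGroup') ⟨g, hg⟩
  refine ⟨k, ?_⟩
  rw [← hk, ← Subgroup.orderOf_coe]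

/-- The case `16 ∣ q² - 1`: `N_G(S̄) = S̄`. -/
theorem psp4_simple_large (hodd : Fintype.card F % 2 = 1) (h16 : 16 ∣ Fintype.card F ^ 2 - 1)
    (S : Sylow 2 (Cfsg.PSp 2 F)) :
    (Cfsg.groupFusionSystem (S : Subgroup (Cfsg.PSp 2 F))).IsSimple 2 := by
  have : Fact (Nat.Prime 2) := ⟨Nat.prime_two⟩
  have h2 : (2 : F) ≠ 0 := Cfsg.Agent.H7.two_ne_zero_of_odd_card (Nat.odd_iff.2 hodd)
  obtain ⟨m, x, y, hm4, d, hm⟩ := exists_qp_large hodd h16
  obtain ⟨P, hP⟩ := sylow_Sb hodd d hm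
  have hcardSL := not_dvd_card_SL2 hodd m hm
  have hm1 := d.neg_one_mem
  have hNP : ∀ g ∈ Subgroup.normalizer ((P : Subgroup (Cfsg.PSp 2 F)) : Set (Cfsg.PSp 2 F)),
      g ∈ (P : Subgroup (Cfsg.PSp 2 F)) := by
    intro g hg
    obtain ⟨g, rfl⟩ := QuotientGroup.mk_surjective g
    rw [hP] at hg ⊢
    obtain ⟨A, B, hA, hB, -, hAB⟩ := norm_Sb h2 d g hg
    have hAQ := d.norm_large h2 hm4 hcardSL A hA
    have hBQ := d.norm_large h2 hm4 hcardSL B hB
    rw [mk_mem_Sb hm1]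
    rcases hAB with rfl | rfl
    · exact blk_mem_St.2 ⟨hAQ, hBQ⟩
    · exact blk_sig_mem_St.2 ⟨hAQ, hBQ⟩
  refine Cfsg.Agent.H88.simple_of_centric_model 2 P ?_ ?_ (P : Subgroup (Cfsg.PSp 2 F)) le_rfl
    Subgroup.le_normalizer ?_ ?_ S
  · rw [hP]
    exact Sb_ne_bot hm1
  · intro T hT hT1 hcl
    rw [hP] at hT hcl ⊢
    exact hcl_Sb h2 d T hT hT1 hcl
  · intro g hg
    exact hNP g (Subgroup.centralizer_le_normalizer _ hg)
  · intro g hg
    apply Subgroup.subset_closure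
    exact ⟨Subgroup.le_normalizer (hNP g hg), orderOf_of_mem_sylow P g (hNP g hg)⟩

end Cfsg.Agent.H88.S4
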