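import Mathlib
import Cfsg.Agent.H88.Sp4B

/-!
helper88: the explicit quaternion group `Q₈ = ⟨x₀, y₀⟩` of `SL(2, F)`, `F` of odd characteristic
(`x₀ = [0 1; -1 0]`, `y₀ = [a b; b -a]` with `a² + b² = -1`), the element `c₀` of order `3`
normalizing it, and its normalizer when `16 ∤ |SL(2, F)|`.
-/

set_option autoImplicit false
set_option linter.unusedSectionVars false

namespace Cfsg.Agent.H88.S4

open Matrix

open scoped MatrixGroups

variable {F : Type*} [Field F]

/-- `x₀ = [0 1; -1 0]`. -/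
def x0 (F : Type*) [Field F] : SL(2, F) := ⟨!![0, 1; -1, 0], by simp [Matrix.det_fin_two]⟩

/-- `y₀ = [a b; b -a]` with `a² + b² = -1`. -/
def y0 (a b : F) (hab : a ^ 2 + b ^ 2 = -1) : SL(2, F) :=
  ⟨!![a, b; b, -a], by
    rw [Matrix.det_fin_two]
    simp
    linear_combination -hab⟩

/-- `c₀ = (-1 + x₀ + y₀ + x₀ y₀) / 2`, with `h = 1/2`. -/
def c0 (h a b : F) (hh : 2 * h = 1) (hab : a ^ 2 + b ^ 2 = -1) : SL(2, F) :=
  ⟨!![h * (-1 + a + b), h * (1 + b - a); h * (-1 + b - a), h * (-1 - a - b)], by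
    rw [Matrix.det_fin_two]
    simp
    linear_combination (-2 * h ^ 2) * hab + (2 * h + 1) * hh⟩

theorem x0_coe : (x0 F).1 = !![0, 1; -1, 0] := rfl

theorem y0_coe (a b : F) (hab : a ^ 2 + b ^ 2 = -1) : (y0 a b hab).1 = !![a, b; b, -a] := rfl

theorem c0_coe (h a b : F) (hh : 2 * h = 1) (hab : a ^ 2 + b ^ 2 = -1) :
    (c0 h a b hh hab).1 =
      !![h * (-1 + a + b), h * (1 + b - a); h * (-1 + b - a), h * (-1 - a - b)] := rfl

theorem x0_sq : x0 F * x0 F = -1 := sq_of_trace_zero _ (by simp [x0_coe])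

theorem y0_sq (a b : F) (hab : a ^ 2 + b ^ 2 = -1) : y0 a b hab * y0 a b hab = -1 :=
  sq_of_trace_zero _ (by simp [y0_coe])

theorem y0_x0 (a b : F) (hab : a ^ 2 + b ^ 2 = -1) :
    y0 a b hab * x0 F * (y0 a b hab)⁻¹ = (x0 F)⁻¹ := by
  have e : y0 a b hab * x0 F = (x0 F)⁻¹ * y0 a b hab := by
    ext i j
    rw [Cfsg.Agent.H7.sl2_mul_apply, Cfsg.Agent.H7.sl2_mul_apply]
    fin_cases i <;> fin_cases j <;>
      simp [Cfsg.Agent.H7.sl2_inv_00, Cfsg.Agent.H7.sl2_inv_01, Cfsg.Agent.H7.sl2_inv_10,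
        Cfsg.Agent.H7.sl2_inv_11, x0_coe, y0_coe]
  rw [e, mul_inv_cancel_right]

theorem qp0 (a b : F) (hab : a ^ 2 + b ^ 2 = -1) : QP (x0 F) (y0 a b hab) 3 where
  hm := le_refl 3
  hx := by
    show x0 F ^ (2 ^ 1) = -1
    rw [pow_one, pow_two]
    exact x0_sq
  hy := y0_sq a b hab
  hyx := y0_x0 a b hab

theorem c0_x0 (h a b : F) (hh : 2 * h = 1) (hab : a ^ 2 + b ^ 2 = -1) :
    c0 h a b hh hab * x0 F = x0 F * y0 a b hab * c0 h a b hh hab := by
  ext i j
  simp only [Cfsg.Agent.H7.sl2_mul_apply]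
  fin_cases i <;> fin_cases j <;> simp [x0_coe, y0_coe, c0_coe]
  · linear_combination (-h) * hab
  · linear_combination (-h) * hab
  · linear_combination h * hab
  · linear_combination (-h) * hab

theorem c0_y0 (h a b : F) (hh : 2 * h = 1) (hab : a ^ 2 + b ^ 2 = -1) :
    c0 h a b hh hab * y0 a b hab = x0 F * c0 h a b hh hab := by
  ext i j
  simp only [Cfsg.Agent.H7.sl2_mul_apply]
  fin_cases i <;> fin_cases j <;> simp [x0_coe, y0_coe, c0_coe]
  · linear_combination h * hab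
  · linear_combination h * hab
  · linear_combination (-h) * hab
  · linear_combination h * hab

theorem c0_conj_x (h a b : F) (hh : 2 * h = 1) (hab : a ^ 2 + b ^ 2 = -1) :
    c0 h a b hh hab * x0 F * (c0 h a b hh hab)⁻¹ = x0 F * y0 a b hab := by
  rw [c0_x0, mul_inv_cancel_right]

theorem c0_conj_y (h a b : F) (hh : 2 * h = 1) (hab : a ^ 2 + b ^ 2 = -1) :
    c0 h a b hh hab * y0 a b hab * (c0 h a b hh hab)⁻¹ = x0 F := by
  rw [c0_y0, mul_inv_cancel_right]

theorem c0_mem_normalizer [Fintype F] (h a b : F) (hh : 2 * h = 1) (hab : a ^ 2 + b ^ 2 = -1) :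
    c0 h a b hh hab ∈ Subgroup.normalizer
      ((Subgroup.closure {x0 F, y0 a b hab} : Subgroup SL(2, F)) : Set SL(2, F)) := by
  apply Subgroup.mem_normalizer_fintype
  intro n hn
  have hle : Subgroup.closure {x0 F, y0 a b hab} ≤
      (Subgroup.closure {x0 F, y0 a b hab}).comap
        (MulAut.conj (c0 h a b hh hab)).toMonoidHom := by
    rw [Subgroup.closure_le]
    rintro g (rfl | hg)
    · rw [SetLike.mem_coe, Subgroup.mem_comap]
      show c0 h a b hh hab * x0 F * (c0 h a b hh hab)⁻¹ ∈ Subgroup.closure {x0 F, y0 a b hab}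
      rw [c0_conj_x]
      exact mul_mem (qp0 a b hab).x_mem (qp0 a b hab).y_mem
    · rw [Set.mem_singleton_iff] at hg
      subst hg
      rw [SetLike.mem_coe, Subgroup.mem_comap]
      show c0 h a b hh hab * y0 a b hab * (c0 h a b hh hab)⁻¹ ∈
        Subgroup.closure {x0 F, y0 a b hab}
      rw [c0_conj_y]
      exact (qp0 a b hab).x_mem
  exact hle hn

theorem neg_one_zpow_cases (n : ℤ) : (-1 : SL(2, F)) ^ n = 1 ∨ (-1 : SL(2, F)) ^ n = -1 := by
  rcases Int.even_or_odd' n with ⟨k, hk | hk⟩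
  · left
    rw [hk, _root_.zpow_mul, zpow_two, neg_mul_neg, one_mul, _root_.one_zpow]
  · right
    rw [hk, _root_.zpow_add_one, _root_.zpow_mul, zpow_two, neg_mul_neg, one_mul, _root_.one_zpow,
      one_mul]

/-- The normalizer of `Q₈` in `SL(2, F)` when `16 ∤ |SL(2, F)|`. -/
theorem norm_q8 [Fintype F] (h2 : (2 : F) ≠ 0) (h a b : F) (hh : 2 * h = 1)
    (hab : a ^ 2 + b ^ 2 = -1) (hcard : ¬ 2 ^ (3 + 1) ∣ Nat.card SL(2, F)) (A : SL(2, F))
    (hA : A ∈ Subgroup.normalizer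
      ((Subgroup.closure {x0 F, y0 a b hab} : Subgroup SL(2, F)) : Set SL(2, F))) :
    ∃ j : ℕ, c0 h a b hh hab ^ j * A ∈ Subgroup.closure {x0 F, y0 a b hab} := by
  have d := qp0 a b hab
  have hcN := c0_mem_normalizer h a b hh hab
  have hcx := c0_conj_x h a b hh hab
  have hcy := c0_conj_y h a b hh hab
  have hxx : x0 F * x0 F = -1 := x0_sq
  have hxi : (x0 F)⁻¹ = -x0 F := by
    apply inv_eq_of_mul_eq_one_right
    rw [mul_neg, hxx, neg_neg]
  have hxc := d.x_notMem_center h2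
  have hu : A * x0 F * A⁻¹ ∈ Subgroup.closure {x0 F, y0 a b hab} :=
    (Subgroup.mem_normalizer_iff.1 hA _).1 d.x_mem
  rcases d.cases _ hu with ⟨i, hi⟩ | ⟨i, hi⟩
  · refine ⟨0, ?_⟩
    rw [pow_zero, one_mul]
    apply d.norm_core h2 hcard A hA
    have hc : (A * x0 F * A⁻¹) * x0 F = x0 F * (A * x0 F * A⁻¹) := by
      rw [hi, ← _root_.zpow_add_one, ← _root_.zpow_one_add, add_comm]
    exact eq_or_eq_inv h2 _ _ hxc hc (trace_conj A _)
      (trace_sq_ne_four h2 _ (3 - 1) d.x_pow hxc)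
  · have hcases : (x0 F) ^ i = 1 ∨ (x0 F) ^ i = -1 ∨ (x0 F) ^ i = x0 F ∨ (x0 F) ^ i = -x0 F := by
      rcases Int.even_or_odd' i with ⟨n, hn | hn⟩
      · rw [hn, _root_.zpow_mul, zpow_two, hxx]
        rcases neg_one_zpow_cases (F := F) n with h | h
        · exact Or.inl h
        · exact Or.inr (Or.inl h)
      · rw [hn, _root_.zpow_add_one, _root_.zpow_mul, zpow_two, hxx]
        rcases neg_one_zpow_cases (F := F) n with h | h
        · rw [h, one_mul]
          exact Or.inr (Or.inr (Or.inl rfl))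
        · rw [h, neg_mul, one_mul]
          exact Or.inr (Or.inr (Or.inr rfl))
    have e1 : c0 h a b hh hab * A * x0 F * (c0 h a b hh hab * A)⁻¹ =
        (c0 h a b hh hab * y0 a b hab * (c0 h a b hh hab)⁻¹) *
          (c0 h a b hh hab * (x0 F) ^ i * (c0 h a b hh hab)⁻¹) := by
      have e : c0 h a b hh hab * A * x0 F * (c0 h a b hh hab * A)⁻¹ =
          c0 h a b hh hab * (A * x0 F * A⁻¹) * (c0 h a b hh hab)⁻¹ := by group
      rw [e, hi]
      group
    have hcN2 : c0 h a b hh hab * A ∈ Subgroup.normalizer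
        ((Subgroup.closure {x0 F, y0 a b hab} : Subgroup SL(2, F)) : Set SL(2, F)) :=
      mul_mem hcN hA
    have hcN3 : c0 h a b hh hab * (c0 h a b hh hab * A) ∈ Subgroup.normalizer
        ((Subgroup.closure {x0 F, y0 a b hab} : Subgroup SL(2, F)) : Set SL(2, F)) :=
      mul_mem hcN hcN2
    have e2 : c0 h a b hh hab * (c0 h a b hh hab * A) * x0 F *
        (c0 h a b hh hab * (c0 h a b hh hab * A))⁻¹ =
        c0 h a b hh hab * (c0 h a b hh hab * A * x0 F * (c0 h a b hh hab * A)⁻¹) *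
          (c0 h a b hh hab)⁻¹ := by group
    have hk1 : c0 h a b hh hab * (x0 F * (x0 F * y0 a b hab)) * (c0 h a b hh hab)⁻¹ = -x0 F := by
      rw [← mul_assoc (x0 F) (x0 F) (y0 a b hab), hxx, neg_mul, one_mul, mul_neg, neg_mul, hcy]
    rcases hcases with h1 | h1 | h1 | h1
    · refine ⟨1, ?_⟩
      rw [pow_one]
      apply d.norm_core h2 hcard _ hcN2
      left
      rw [e1, hcy, h1, mul_one, mul_inv_cancel, mul_one]
    · refine ⟨1, ?_⟩
      rw [pow_one]
      apply d.norm_core h2 hcard _ hcN2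
      right
      rw [e1, hcy, h1, mul_neg, mul_one, neg_mul, mul_inv_cancel, mul_neg, mul_one, hxi]
    · refine ⟨2, ?_⟩
      rw [pow_two, mul_assoc]
      apply d.norm_core h2 hcard _ hcN3
      right
      rw [e2, e1, hcy, h1, hcx, hk1, hxi]
    · refine ⟨2, ?_⟩
      rw [pow_two, mul_assoc]
      apply d.norm_core h2 hcard _ hcN3
      left
      rw [e2, e1, hcy, h1, mul_neg, neg_mul, hcx, mul_neg, mul_neg, neg_mul, hk1, neg_neg]

end Cfsg.Agent.H88.S4
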