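import Mathlib
import Cfsg.Agent.H88.Sp4D
import Cfsg.Agent.H88.Sp4Q8

/-!
helper88: the case `16 ∤ q² - 1` of the simplicity of the `2`-fusion system of `PSp(4, F)`:
`S̄ = (Q₈ ≀ C₂)/Z`, the self-centralizing elementary abelian subgroup `Ē = 2⁴` normal in `S̄`, and
the `2`-elements `u`, `v` of `N(Ē)` with `u⁻¹ v` generating `N(S̄)` modulo `S̄`.
-/

set_option autoImplicit false
set_option linter.unusedSectionVars false

namespace Cfsg.Agent.H88.S4

open Matrix Cfsg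

open scoped MatrixGroups

section Mat

variable {F : Type*} [Field F]

def Dz : Matrix (Fin 2) (Fin 2) F := !![1, 0; 0, -1]

def A0 (h : F) : Matrix (Fin 2) (Fin 2) F := !![h, h; -h, h]

theorem blk_diag (a : SL(2, F)) : (blk a a).1 = ten a.1 1 := by
  rw [blk_coe]
  unfold blkM
  rw [← ten_add_right, E1_add_E2]

theorem zt_ten : (blk (1 : SL(2, F)) (-1)).1 = ten 1 Dz := by
  rw [blk_coe]
  unfold blkM
  rw [Matrix.SpecialLinearGroup.coe_neg, Matrix.SpecialLinearGroup.coe_one, ten_neg_left,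
    ← ten_neg_right, ← ten_add_right]
  congr 1
  ext i j
  fin_cases i <;> fin_cases j <;> simp [E1, E2, Dz]

theorem Hd_mul_Hd : (Hd : Matrix (Fin 2) (Fin 2) F) * Hd = (2 : F) • (1 : Matrix (Fin 2) (Fin 2) F) := by
  ext i j
  fin_cases i <;> fin_cases j <;> simp [Hd, Matrix.mul_apply, Fin.sum_univ_two] <;> ring

theorem Hd_transpose : (Hd : Matrix (Fin 2) (Fin 2) F)ᵀ = Hd := by
  ext i j
  fin_cases i <;> fin_cases j <;> simp [Hd]

theorem Hd_mul_Dz : (Hd : Matrix (Fin 2) (Fin 2) F) * Dz = Wm * Hd := by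
  ext i j
  fin_cases i <;> fin_cases j <;> simp [Hd, Dz, Wm, Matrix.mul_apply, Fin.sum_univ_two]

theorem Hd_mul_Wm : (Hd : Matrix (Fin 2) (Fin 2) F) * Wm = Dz * Hd := by
  ext i j
  fin_cases i <;> fin_cases j <;> simp [Hd, Dz, Wm, Matrix.mul_apply, Fin.sum_univ_two]

/-- The element `((1 + x₀)/2) ⊗ [1 1; 1 -1]` of `Sp(4, F)`. -/
def Mm (h : F) (hh : 2 * h = 1) : Matrix.symplecticGroup (Fin 2) F :=
  ⟨ten (A0 h) Hd, by
    rw [SymplecticGroup.mem_iff, J_eq, ten_transpose, ten_mul, ten_mul, mul_one, mul_J2,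
      Hd_transpose, Hd_mul_Hd, ten_smul_left, ten_smul_right, smul_smul]
    have e : (A0 h).det * 2 = 1 := by
      simp only [A0, Matrix.det_fin_two_of]
      linear_combination (2 * h + 1) * hh
    rw [e, one_smul]⟩

theorem Mm_coe (h : F) (hh : 2 * h = 1) : (Mm h hh).1 = ten (A0 h) Hd := rfl

theorem Mm_sq (h : F) (hh : 2 * h = 1) : Mm h hh * Mm h hh = blk (x0 F) (x0 F) := by
  apply Subtype.ext
  show ten (A0 h) Hd * ten (A0 h) Hd = (blk (x0 F) (x0 F)).1
  rw [blk_diag, ten_mul, Hd_mul_Hd, ten_smul_right, ← ten_smul_left]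
  congr 1
  ext i j
  fin_cases i <;> fin_cases j <;> simp [A0, x0_coe]
  · linear_combination (2 * h + 1) * hh
  · linear_combination (-(2 * h + 1)) * hh

theorem Mm_zt (h : F) (hh : 2 * h = 1) :
    Mm h hh * blk (1 : SL(2, F)) (-1) = sig F * Mm h hh := by
  apply Subtype.ext
  show ten (A0 h) Hd * (blk (1 : SL(2, F)) (-1)).1 = ten 1 Wm * ten (A0 h) Hd
  rw [zt_ten, ten_mul, ten_mul, mul_one, one_mul, Hd_mul_Dz]

theorem Mm_sig (h : F) (hh : 2 * h = 1) :
    Mm h hh * sig F = blk (1 : SL(2, F)) (-1) * Mm h hh := by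
  apply Subtype.ext
  show ten (A0 h) Hd * ten 1 Wm = (blk (1 : SL(2, F)) (-1)).1 * ten (A0 h) Hd
  rw [zt_ten, ten_mul, ten_mul, mul_one, one_mul, Hd_mul_Wm]

theorem Mm_dy (h a b : F) (hh : 2 * h = 1) (hab : a ^ 2 + b ^ 2 = -1) :
    Mm h hh * blk (y0 a b hab) (y0 a b hab) =
      blk (x0 F * y0 a b hab) (x0 F * y0 a b hab) * Mm h hh := by
  apply Subtype.ext
  show ten (A0 h) Hd * (blk (y0 a b hab) (y0 a b hab)).1 =
    (blk (x0 F * y0 a b hab) (x0 F * y0 a b hab)).1 * ten (A0 h) Hd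
  rw [blk_diag, blk_diag, ten_mul, ten_mul, mul_one, one_mul]
  congr 1
  rw [Matrix.SpecialLinearGroup.coe_mul]
  ext i j
  fin_cases i <;> fin_cases j <;>
    simp [A0, x0_coe, y0_coe, Matrix.mul_apply, Fin.sum_univ_two] <;> ring

theorem A0_c0 (h a b : F) (hh : 2 * h = 1) (hab : a ^ 2 + b ^ 2 = -1) :
    A0 h * (c0 h a b hh hab).1 = !![h * (b - 1), -(h * a); -(h * a), h * (-b - 1)] := by
  ext i j
  fin_cases i <;> fin_cases j <;> simp [A0, c0_coe, Matrix.mul_apply, Fin.sum_univ_two]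
  · linear_combination h * (b - 1) * hh
  · linear_combination (-h * a) * hh
  · linear_combination (-h * a) * hh
  · linear_combination h * (-b - 1) * hh

theorem N0_sq (h a b : F) (hh : 2 * h = 1) (hab : a ^ 2 + b ^ 2 = -1) :
    (2 : F) • ((!![h * (b - 1), -(h * a); -(h * a), h * (-b - 1)] : Matrix (Fin 2) (Fin 2) F) *
      !![h * (b - 1), -(h * a); -(h * a), h * (-b - 1)]) = (-(x0 F * y0 a b hab) : SL(2, F)).1 := by
  rw [Matrix.SpecialLinearGroup.coe_neg, Matrix.SpecialLinearGroup.coe_mul]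
  ext i j
  fin_cases i <;> fin_cases j <;> simp [x0_coe, y0_coe]
  · linear_combination (2 * h ^ 2) * hab - b * (2 * h + 1) * hh
  · linear_combination a * (2 * h + 1) * hh
  · linear_combination a * (2 * h + 1) * hh
  · linear_combination (2 * h ^ 2) * hab + b * (2 * h + 1) * hh

theorem Mm_c_sq (h a b : F) (hh : 2 * h = 1) (hab : a ^ 2 + b ^ 2 = -1) :
    (Mm h hh * blk (c0 h a b hh hab) (c0 h a b hh hab)) *
      (Mm h hh * blk (c0 h a b hh hab) (c0 h a b hh hab)) =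
      blk (-(x0 F * y0 a b hab)) (-(x0 F * y0 a b hab)) := by
  apply Subtype.ext
  show (ten (A0 h) Hd * (blk (c0 h a b hh hab) (c0 h a b hh hab)).1) *
    (ten (A0 h) Hd * (blk (c0 h a b hh hab) (c0 h a b hh hab)).1) =
    (blk (-(x0 F * y0 a b hab)) (-(x0 F * y0 a b hab))).1
  rw [blk_diag, blk_diag, ten_mul, ten_mul, mul_one, Hd_mul_Hd, ten_smul_right, ← ten_smul_left,
    A0_c0, N0_sq h a b hh hab]

end Mat

section Grp

variable {F : Type*} [Field F] [Fintype F]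

/-- The elementary abelian subgroup `Ē` generated by the images of `z̃`, `σ`, `blk x x`,
`blk y y`. -/
def Eb (x y : SL(2, F)) : Subgroup (Cfsg.PSp 2 F) :=
  Subgroup.closure {(QuotientGroup.mk (blk (1 : SL(2, F)) (-1)) : Cfsg.PSp 2 F),
    QuotientGroup.mk (sig F), QuotientGroup.mk (blk x x), QuotientGroup.mk (blk y y)}

theorem zb_mem_Eb (x y : SL(2, F)) :
    (QuotientGroup.mk (blk (1 : SL(2, F)) (-1)) : Cfsg.PSp 2 F) ∈ Eb x y :=
  Subgroup.subset_closure (by simp)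

theorem sb_mem_Eb (x y : SL(2, F)) : (QuotientGroup.mk (sig F) : Cfsg.PSp 2 F) ∈ Eb x y :=
  Subgroup.subset_closure (by simp)

theorem dx_mem_Eb (x y : SL(2, F)) : (QuotientGroup.mk (blk x x) : Cfsg.PSp 2 F) ∈ Eb x y :=
  Subgroup.subset_closure (by simp)

theorem dy_mem_Eb (x y : SL(2, F)) : (QuotientGroup.mk (blk y y) : Cfsg.PSp 2 F) ∈ Eb x y :=
  Subgroup.subset_closure (by simp)

theorem mk_comm (g h : Matrix.symplecticGroup (Fin 2) F)
    (H : g * h = h * g ∨ g * h = blk (-1 : SL(2, F)) (-1) * (h * g)) :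
    (QuotientGroup.mk g : Cfsg.PSp 2 F) * QuotientGroup.mk h =
      QuotientGroup.mk h * QuotientGroup.mk g := by
  rw [← QuotientGroup.mk_mul, ← QuotientGroup.mk_mul, mk_eq_mk_iff]
  exact H

theorem comm_cases (g h : Matrix.symplecticGroup (Fin 2) F)
    (H : (QuotientGroup.mk g : Cfsg.PSp 2 F) * QuotientGroup.mk h =
      QuotientGroup.mk h * QuotientGroup.mk g) :
    g * h = h * g ∨ g * h = blk (-1 : SL(2, F)) (-1) * (h * g) := by
  rw [← QuotientGroup.mk_mul, ← QuotientGroup.mk_mul, mk_eq_mk_iff] at H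
  exact H

/-- An element conjugating the four generators of `Ē` into `Ē` normalizes `Ē`. -/
theorem norm_Eb_of (x y : SL(2, F)) (c : Cfsg.PSp 2 F)
    (h1 : c * QuotientGroup.mk (blk (1 : SL(2, F)) (-1)) * c⁻¹ ∈ Eb x y)
    (h2 : c * QuotientGroup.mk (sig F) * c⁻¹ ∈ Eb x y)
    (h3 : c * QuotientGroup.mk (blk x x) * c⁻¹ ∈ Eb x y)
    (h4 : c * QuotientGroup.mk (blk y y) * c⁻¹ ∈ Eb x y) :
    c ∈ Subgroup.normalizer ((Eb x y : Subgroup (Cfsg.PSp 2 F)) : Set (Cfsg.PSp 2 F)) := by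
  apply Subgroup.mem_normalizer_fintype
  intro n hn
  have hle : Subgroup.closure {(QuotientGroup.mk (blk (1 : SL(2, F)) (-1)) : Cfsg.PSp 2 F),
      QuotientGroup.mk (sig F), QuotientGroup.mk (blk x x), QuotientGroup.mk (blk y y)} ≤
      (Eb x y).comap (MulAut.conj c).toMonoidHom := by
    rw [Subgroup.closure_le]
    rintro t (rfl | rfl | rfl | ht)
    · exact h1
    · exact h2
    · exact h3
    · rw [Set.mem_singleton_iff] at ht
      subst ht
      exact h4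
  exact hle hn

theorem q8_rel {x y : SL(2, F)} (d : QP x y 3) :
    x * x = -1 ∧ y * y = -1 ∧ x⁻¹ = -x ∧ y⁻¹ = -y ∧ y * x = -(x * y) := by
  have hxx : x * x = -1 := by
    have h := d.hx
    rwa [show 2 ^ (3 - 2) = 2 from rfl, pow_two] at h
  have hxi : x⁻¹ = -x := inv_eq_of_mul_eq_one_right (by rw [mul_neg, hxx, neg_neg])
  have hyi : y⁻¹ = -y := inv_eq_of_mul_eq_one_right (by rw [mul_neg, d.hy, neg_neg])
  refine ⟨hxx, d.hy, hxi, hyi, ?_⟩
  have h := d.hyx
  calc y * x = (y * x * y⁻¹) * y := by group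
    _ = -(x * y) := by rw [h, hxi, neg_mul]

theorem conj_blk1_zb (a : SL(2, F)) :
    (QuotientGroup.mk (blk a 1) : Cfsg.PSp 2 F) * QuotientGroup.mk (blk 1 (-1)) *
      (QuotientGroup.mk (blk a 1))⁻¹ = QuotientGroup.mk (blk 1 (-1)) := by
  rw [← QuotientGroup.mk_inv, ← QuotientGroup.mk_mul, ← QuotientGroup.mk_mul, blk_inv, blk_mul,
    blk_mul]
  simp

theorem conj_blk1_sb (a : SL(2, F)) (ha : a * a = -1) :
    (QuotientGroup.mk (blk a 1) : Cfsg.PSp 2 F) * QuotientGroup.mk (sig F) *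
      (QuotientGroup.mk (blk a 1))⁻¹ =
      QuotientGroup.mk (blk a a) * QuotientGroup.mk (blk 1 (-1)) * QuotientGroup.mk (sig F) := by
  have hai : a⁻¹ = -a := inv_eq_of_mul_eq_one_right (by rw [mul_neg, ha, neg_neg])
  rw [← QuotientGroup.mk_inv, ← QuotientGroup.mk_mul, ← QuotientGroup.mk_mul,
    ← QuotientGroup.mk_mul, ← QuotientGroup.mk_mul]
  congr 1
  rw [blk_inv, mul_assoc, sig_blk, ← mul_assoc, blk_mul, blk_mul, inv_one, mul_one, one_mul,
    hai, mul_neg, mul_one]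

theorem conj_blk1_d (a u : SL(2, F)) (h : a * u * a⁻¹ = u) :
    (QuotientGroup.mk (blk a 1) : Cfsg.PSp 2 F) * QuotientGroup.mk (blk u u) *
      (QuotientGroup.mk (blk a 1))⁻¹ = QuotientGroup.mk (blk u u) := by
  rw [← QuotientGroup.mk_inv, ← QuotientGroup.mk_mul, ← QuotientGroup.mk_mul, blk_inv, blk_mul,
    blk_mul, h, inv_one, one_mul, mul_one]

theorem conj_blk1_d' (a u : SL(2, F)) (h : a * u * a⁻¹ = -u) :
    (QuotientGroup.mk (blk a 1) : Cfsg.PSp 2 F) * QuotientGroup.mk (blk u u) *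
      (QuotientGroup.mk (blk a 1))⁻¹ =
      QuotientGroup.mk (blk u u) * QuotientGroup.mk (blk 1 (-1)) := by
  rw [← QuotientGroup.mk_inv, ← QuotientGroup.mk_mul, ← QuotientGroup.mk_mul,
    ← QuotientGroup.mk_mul, blk_inv, blk_mul, blk_mul, blk_mul, h, inv_one, one_mul, mul_one,
    mk_eq_mk_iff]
  right
  rw [blk_mul]
  simp

/-- `S̄` normalizes `Ē`. -/
theorem Sb_le_norm_Eb {x y : SL(2, F)} (d : QP x y 3) :
    Sb (Subgroup.closure {x, y}) ≤
      Subgroup.normalizer ((Eb x y : Subgroup (Cfsg.PSp 2 F)) : Set (Cfsg.PSp 2 F)) := by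
  obtain ⟨hxx, hyy, hxi, hyi, hyx⟩ := q8_rel d
  have hσ : (QuotientGroup.mk (sig F) : Cfsg.PSp 2 F) ∈
      Subgroup.normalizer ((Eb x y : Subgroup (Cfsg.PSp 2 F)) : Set (Cfsg.PSp 2 F)) :=
    Subgroup.le_normalizer (sb_mem_Eb x y)
  have hX : (QuotientGroup.mk (blk x 1) : Cfsg.PSp 2 F) ∈
      Subgroup.normalizer ((Eb x y : Subgroup (Cfsg.PSp 2 F)) : Set (Cfsg.PSp 2 F)) := by
    apply norm_Eb_of
    · rw [conj_blk1_zb]
      exact zb_mem_Eb x y
    · rw [conj_blk1_sb x hxx]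
      exact mul_mem (mul_mem (dx_mem_Eb x y) (zb_mem_Eb x y)) (sb_mem_Eb x y)
    · rw [conj_blk1_d x x (by rw [mul_inv_cancel_right])]
      exact dx_mem_Eb x y
    · rw [conj_blk1_d' x y (by
        rw [hxi, mul_neg, mul_assoc, hyx, mul_neg, neg_neg, ← mul_assoc, hxx, neg_mul, one_mul])]
      exact mul_mem (dy_mem_Eb x y) (zb_mem_Eb x y)
  have hY : (QuotientGroup.mk (blk y 1) : Cfsg.PSp 2 F) ∈
      Subgroup.normalizer ((Eb x y : Subgroup (Cfsg.PSp 2 F)) : Set (Cfsg.PSp 2 F)) := by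
    apply norm_Eb_of
    · rw [conj_blk1_zb]
      exact zb_mem_Eb x y
    · rw [conj_blk1_sb y hyy]
      exact mul_mem (mul_mem (dy_mem_Eb x y) (zb_mem_Eb x y)) (sb_mem_Eb x y)
    · rw [conj_blk1_d' y x (by rw [d.hyx, hxi])]
      exact mul_mem (dx_mem_Eb x y) (zb_mem_Eb x y)
    · rw [conj_blk1_d y y (by rw [mul_inv_cancel_right])]
      exact dy_mem_Eb x y
  have hL : ∀ a ∈ Subgroup.closure {x, y}, (QuotientGroup.mk (blk a 1) : Cfsg.PSp 2 F) ∈
      Subgroup.normalizer ((Eb x y : Subgroup (Cfsg.PSp 2 F)) : Set (Cfsg.PSp 2 F)) := by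
    intro a ha
    let φ : SL(2, F) →* Cfsg.PSp 2 F :=
      { toFun := fun a => QuotientGroup.mk (blk a 1)
        map_one' := by rw [blk_one]; rfl
        map_mul' := fun a b => by rw [← QuotientGroup.mk_mul, blk_mul, one_mul] }
    have hle : Subgroup.closure {x, y} ≤
        (Subgroup.normalizer ((Eb x y : Subgroup (Cfsg.PSp 2 F)) : Set (Cfsg.PSp 2 F))).comap φ := by
      rw [Subgroup.closure_le]
      rintro c (rfl | hc)
      · exact hX
      · rw [Set.mem_singleton_iff] at hc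
        subst hc
        exact hY
    exact hle ha
  have hR : ∀ b ∈ Subgroup.closure {x, y}, (QuotientGroup.mk (blk 1 b) : Cfsg.PSp 2 F) ∈
      Subgroup.normalizer ((Eb x y : Subgroup (Cfsg.PSp 2 F)) : Set (Cfsg.PSp 2 F)) := by
    intro b hb
    have h := mul_mem (mul_mem hσ (hL b hb)) hσ
    rw [← QuotientGroup.mk_mul, ← QuotientGroup.mk_mul, sig_blk, mul_assoc, sig_mul_sig,
      mul_one] at h
    exact h
  rintro _ ⟨s, hs, rfl⟩
  obtain ⟨a, ha, b, hb, rfl | rfl⟩ := mem_St.1 hs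
  · have h4 := mul_mem (hL a ha) (hR b hb)
    rw [← QuotientGroup.mk_mul, blk_mul, one_mul, mul_one] at h4
    exact h4
  · have h4 := mul_mem (mul_mem (hL a ha) (hR b hb)) hσ
    rw [← QuotientGroup.mk_mul, ← QuotientGroup.mk_mul, blk_mul, one_mul, mul_one] at h4
    exact h4

/-- Block diagonal elements centralizing `Ē` lie in `Ē`. -/
theorem mem_Eb_blk (h2 : (2 : F) ≠ 0) {x y : SL(2, F)} (d : QP x y 3) (A B : SL(2, F))
    (h3 : (QuotientGroup.mk (blk A B) : Cfsg.PSp 2 F) * QuotientGroup.mk (sig F) =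
      QuotientGroup.mk (sig F) * QuotientGroup.mk (blk A B))
    (h4 : (QuotientGroup.mk (blk A B) : Cfsg.PSp 2 F) * QuotientGroup.mk (blk x x) =
      QuotientGroup.mk (blk x x) * QuotientGroup.mk (blk A B))
    (h5 : (QuotientGroup.mk (blk A B) : Cfsg.PSp 2 F) * QuotientGroup.mk (blk y y) =
      QuotientGroup.mk (blk y y) * QuotientGroup.mk (blk A B)) :
    (QuotientGroup.mk (blk A B) : Cfsg.PSp 2 F) ∈ Eb x y := by
  obtain ⟨hxx, hyy, hxi, hyi, hyx⟩ := q8_rel d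
  have hAB : B = A ∨ B = -A := by
    rcases comm_cases _ _ h3 with h | h
    · rw [sig_blk] at h
      exact Or.inl (blk_inj (mul_right_cancel h)).2
    · rw [sig_blk, ← mul_assoc, blk_mul] at h
      have h6 := (blk_inj (mul_right_cancel h)).2
      right
      rw [h6, neg_mul, one_mul]
  have hAx : A * x = x * A ∨ A * x = -(x * A) := by
    rcases comm_cases _ _ h4 with h | h
    · rw [blk_mul, blk_mul] at h
      exact Or.inl (blk_inj h).1
    · rw [blk_mul, blk_mul, blk_mul] at h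
      right
      have h6 := (blk_inj h).1
      rw [h6, neg_mul, one_mul]
  have hAy : A * y = y * A ∨ A * y = -(y * A) := by
    rcases comm_cases _ _ h5 with h | h
    · rw [blk_mul, blk_mul] at h
      exact Or.inl (blk_inj h).1
    · rw [blk_mul, blk_mul, blk_mul] at h
      right
      have h6 := (blk_inj h).1
      rw [h6, neg_mul, one_mul]
  have hw : ∃ w : SL(2, F), (QuotientGroup.mk (blk w w) : Cfsg.PSp 2 F) ∈ Eb x y ∧
      (w * A = 1 ∨ w * A = -1) := by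
    rcases hAx with hAx | hAx <;> rcases hAy with hAy | hAy
    · refine ⟨1, ?_, ?_⟩
      · rw [blk_one]
        exact one_mem _
      · rw [one_mul]
        exact central_of_comm h2 x y A d.hyx (d.x_sq_ne h2) hAx hAy
    · refine ⟨x, dx_mem_Eb x y, central_of_comm h2 x y (x * A) d.hyx (d.x_sq_ne h2) ?_ ?_⟩
      · rw [mul_assoc, hAx]
      · calc x * A * y = x * (A * y) := mul_assoc _ _ _
          _ = -(x * (y * A)) := by rw [hAy, mul_neg]
          _ = y * x * A := by rw [hyx, neg_mul, mul_assoc]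
          _ = y * (x * A) := mul_assoc _ _ _
    · refine ⟨y, dy_mem_Eb x y, central_of_comm h2 x y (y * A) d.hyx (d.x_sq_ne h2) ?_ ?_⟩
      · calc y * A * x = y * (A * x) := mul_assoc _ _ _
          _ = -(y * x * A) := by rw [hAx, mul_neg, mul_assoc]
          _ = x * y * A := by rw [hyx, neg_mul, neg_neg]
          _ = x * (y * A) := mul_assoc _ _ _
      · rw [mul_assoc, hAy]
    · refine ⟨x * y, ?_, central_of_comm h2 x y (x * y * A) d.hyx (d.x_sq_ne h2) ?_ ?_⟩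
      · have h6 := mul_mem (dx_mem_Eb x y) (dy_mem_Eb x y)
        rwa [← QuotientGroup.mk_mul, blk_mul] at h6
      · calc x * y * A * x = x * y * (A * x) := mul_assoc _ _ _
          _ = -(x * (y * x) * A) := by rw [hAx, mul_neg, ← mul_assoc, mul_assoc x y x]
          _ = x * (x * y * A) := by rw [hyx, mul_neg, neg_mul, neg_neg, mul_assoc x (x * y) A]
      · calc x * y * A * y = x * y * (A * y) := mul_assoc _ _ _
          _ = -(x * y * y * A) := by rw [hAy, mul_neg, ← mul_assoc]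
          _ = y * x * y * A := by rw [hyx, neg_mul, neg_mul]
          _ = y * (x * y * A) := by rw [mul_assoc y x y, mul_assoc y (x * y) A]
  obtain ⟨w, hwE, hwA⟩ := hw
  have hAA : (QuotientGroup.mk (blk A A) : Cfsg.PSp 2 F) ∈ Eb x y := by
    have e : (QuotientGroup.mk (blk w w) : Cfsg.PSp 2 F) * QuotientGroup.mk (blk A A) = 1 := by
      rw [← QuotientGroup.mk_mul, blk_mul, mk_eq_one_iff]
      rcases hwA with h | h
      · left
        rw [h, blk_one]
      · right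
        rw [h]
    have e2 : (QuotientGroup.mk (blk A A) : Cfsg.PSp 2 F) = (QuotientGroup.mk (blk w w))⁻¹ :=
      eq_inv_of_mul_eq_one_right e
    rw [e2]
    exact inv_mem hwE
  rcases hAB with rfl | rfl
  · exact hAA
  · have h6 := mul_mem hAA (zb_mem_Eb x y)
    rw [← QuotientGroup.mk_mul, blk_mul, mul_one, mul_neg, mul_one] at h6
    exact h6

/-- `Ē` is self-centralizing in `PSp(4, F)`. -/
theorem mem_Eb_of_comm (h2 : (2 : F) ≠ 0) {x y : SL(2, F)} (d : QP x y 3) (c : Cfsg.PSp 2 F)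
    (hc : c ∈ Subgroup.centralizer ((Eb x y : Subgroup (Cfsg.PSp 2 F)) : Set (Cfsg.PSp 2 F))) :
    c ∈ Eb x y := by
  obtain ⟨g, rfl⟩ := QuotientGroup.mk_surjective c
  rw [Subgroup.mem_centralizer_iff] at hc
  have h1 := (hc _ (zb_mem_Eb x y)).symm
  have h3 := (hc _ (sb_mem_Eb x y)).symm
  have h4 := (hc _ (dx_mem_Eb x y)).symm
  have h5 := (hc _ (dy_mem_Eb x y)).symm
  rcases comm_cases _ _ h1 with hc1 | hc1
  · obtain ⟨A, B, rfl⟩ := cent_zt h2 g hc1
    exact mem_Eb_blk h2 d A B h3 h4 h5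
  · have hc2 : g * blk (1 : SL(2, F)) (-1) = blk (-1) 1 * g := by
      rw [hc1, ← mul_assoc, blk_mul]
      simp
    obtain ⟨A, B, rfl⟩ := cent_zt' h2 g hc2
    have key : ∀ t : Cfsg.PSp 2 F,
        (QuotientGroup.mk (sig F) : Cfsg.PSp 2 F) * t = t * QuotientGroup.mk (sig F) →
        (QuotientGroup.mk (blk A B * sig F) : Cfsg.PSp 2 F) * t =
          t * QuotientGroup.mk (blk A B * sig F) →
        (QuotientGroup.mk (blk A B) : Cfsg.PSp 2 F) * t = t * QuotientGroup.mk (blk A B) := by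
      intro t hst h
      rw [QuotientGroup.mk_mul] at h
      have h6 : (QuotientGroup.mk (blk A B) : Cfsg.PSp 2 F) * t * QuotientGroup.mk (sig F) =
          t * QuotientGroup.mk (blk A B) * QuotientGroup.mk (sig F) := by
        rw [mul_assoc, ← hst, ← mul_assoc, h, mul_assoc]
      exact mul_right_cancel h6
    have h6 := mem_Eb_blk h2 d A B (key _ rfl h3)
      (key _ (mk_comm _ _ (Or.inl (sig_blk x x))) h4)
      (key _ (mk_comm _ _ (Or.inl (sig_blk y y))) h5)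
    have h7 := mul_mem h6 (sb_mem_Eb x y)
    rwa [← QuotientGroup.mk_mul] at h7

/-- The case `|Q| = 8` in abstract form: `M` and `M * blk c c` are `2`-elements normalizing `Ē`,
and `c` generates `N(Q)` modulo `Q`. -/
theorem small_core (h2 : (2 : F) ≠ 0) (x y c : SL(2, F)) (M : Matrix.symplecticGroup (Fin 2) F)
    (d : QP x y 3) (hMsq : M * M = blk x x)
    (hMz : M * blk (1 : SL(2, F)) (-1) = sig F * M)
    (hMs : M * sig F = blk (1 : SL(2, F)) (-1) * M)
    (hMy : M * blk y y = blk (x * y) (x * y) * M)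
    (hMc : (M * blk c c) * (M * blk c c) = blk (-(x * y)) (-(x * y)))
    (hcx : c * x * c⁻¹ = x * y) (hcy : c * y * c⁻¹ = x)
    (hcn : c ∈ Subgroup.normalizer
      ((Subgroup.closure {x, y} : Subgroup SL(2, F)) : Set SL(2, F)))
    (hcN : ∀ A ∈ Subgroup.normalizer
      ((Subgroup.closure {x, y} : Subgroup SL(2, F)) : Set SL(2, F)),
      ∃ j : ℕ, c ^ j * A ∈ Subgroup.closure {x, y})
    (P : Sylow 2 (Cfsg.PSp 2 F))
    (hP : (P : Subgroup (Cfsg.PSp 2 F)) = Sb (Subgroup.closure {x, y}))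
    (S : Sylow 2 (Cfsg.PSp 2 F)) :
    (Cfsg.groupFusionSystem (S : Subgroup (Cfsg.PSp 2 F))).IsSimple 2 := by
  have : Fact (Nat.Prime 2) := ⟨Nat.prime_two⟩
  have hm1 := d.neg_one_mem
  obtain ⟨hxx, hyy, hxi, hyi, hyx⟩ := q8_rel d
  have hEn : (P : Subgroup (Cfsg.PSp 2 F)) ≤
      Subgroup.normalizer ((Eb x y : Subgroup (Cfsg.PSp 2 F)) : Set (Cfsg.PSp 2 F)) := by
    rw [hP]
    exact Sb_le_norm_Eb d
  have hu : (QuotientGroup.mk M : Cfsg.PSp 2 F) ∈
      Subgroup.normalizer ((Eb x y : Subgroup (Cfsg.PSp 2 F)) : Set (Cfsg.PSp 2 F)) := by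
    apply norm_Eb_of
    · have e : (QuotientGroup.mk M : Cfsg.PSp 2 F) * QuotientGroup.mk (blk 1 (-1)) *
          (QuotientGroup.mk M)⁻¹ = QuotientGroup.mk (sig F) := by
        rw [← QuotientGroup.mk_mul, hMz, QuotientGroup.mk_mul, mul_inv_cancel_right]
      rw [e]
      exact sb_mem_Eb x y
    · have e : (QuotientGroup.mk M : Cfsg.PSp 2 F) * QuotientGroup.mk (sig F) *
          (QuotientGroup.mk M)⁻¹ = QuotientGroup.mk (blk 1 (-1)) := by
        rw [← QuotientGroup.mk_mul, hMs, QuotientGroup.mk_mul, mul_inv_cancel_right]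
      rw [e]
      exact zb_mem_Eb x y
    · have e : (QuotientGroup.mk M : Cfsg.PSp 2 F) * QuotientGroup.mk (blk x x) *
          (QuotientGroup.mk M)⁻¹ = QuotientGroup.mk (blk x x) := by
        rw [← hMsq, QuotientGroup.mk_mul, ← mul_assoc, mul_inv_cancel_right]
      rw [e]
      exact dx_mem_Eb x y
    · have e : (QuotientGroup.mk M : Cfsg.PSp 2 F) * QuotientGroup.mk (blk y y) *
          (QuotientGroup.mk M)⁻¹ = QuotientGroup.mk (blk x x) * QuotientGroup.mk (blk y y) := by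
        rw [← QuotientGroup.mk_mul, hMy, QuotientGroup.mk_mul, mul_inv_cancel_right,
          ← QuotientGroup.mk_mul, blk_mul]
      rw [e]
      exact mul_mem (dx_mem_Eb x y) (dy_mem_Eb x y)
  have hh' : (QuotientGroup.mk (blk c c) : Cfsg.PSp 2 F) ∈
      Subgroup.normalizer ((Eb x y : Subgroup (Cfsg.PSp 2 F)) : Set (Cfsg.PSp 2 F)) := by
    apply norm_Eb_of
    · have e : (QuotientGroup.mk (blk c c) : Cfsg.PSp 2 F) * QuotientGroup.mk (blk 1 (-1)) *
          (QuotientGroup.mk (blk c c))⁻¹ = QuotientGroup.mk (blk 1 (-1)) := by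
        rw [← QuotientGroup.mk_inv, ← QuotientGroup.mk_mul, ← QuotientGroup.mk_mul, blk_inv,
          blk_mul, blk_mul]
        simp
      rw [e]
      exact zb_mem_Eb x y
    · have e : (QuotientGroup.mk (blk c c) : Cfsg.PSp 2 F) * QuotientGroup.mk (sig F) *
          (QuotientGroup.mk (blk c c))⁻¹ = QuotientGroup.mk (sig F) := by
        rw [← QuotientGroup.mk_mul, ← sig_blk, QuotientGroup.mk_mul, mul_inv_cancel_right]
      rw [e]
      exact sb_mem_Eb x y
    · have e : (QuotientGroup.mk (blk c c) : Cfsg.PSp 2 F) * QuotientGroup.mk (blk x x) *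
          (QuotientGroup.mk (blk c c))⁻¹ = QuotientGroup.mk (blk x x) * QuotientGroup.mk (blk y y) := by
        rw [← QuotientGroup.mk_inv, ← QuotientGroup.mk_mul, ← QuotientGroup.mk_mul,
          ← QuotientGroup.mk_mul, blk_inv, blk_mul, blk_mul, blk_mul, hcx]
      rw [e]
      exact mul_mem (dx_mem_Eb x y) (dy_mem_Eb x y)
    · have e : (QuotientGroup.mk (blk c c) : Cfsg.PSp 2 F) * QuotientGroup.mk (blk y y) *
          (QuotientGroup.mk (blk c c))⁻¹ = QuotientGroup.mk (blk x x) := by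
        rw [← QuotientGroup.mk_inv, ← QuotientGroup.mk_mul, ← QuotientGroup.mk_mul, blk_inv,
          blk_mul, blk_mul, hcy]
      rw [e]
      exact dx_mem_Eb x y
  have hv : (QuotientGroup.mk (M * blk c c) : Cfsg.PSp 2 F) ∈
      Subgroup.normalizer ((Eb x y : Subgroup (Cfsg.PSp 2 F)) : Set (Cfsg.PSp 2 F)) := by
    rw [QuotientGroup.mk_mul]
    exact mul_mem hu hh'
  have hxyxy : (x * y) * (x * y) = -1 := by
    calc (x * y) * (x * y) = x * (y * x) * y := by simp only [mul_assoc]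
      _ = -(x * x * (y * y)) := by
        rw [hyx, mul_neg, neg_mul]
        simp only [mul_assoc]
      _ = -1 := by rw [hxx, hyy, neg_mul_neg, one_mul]
  have ou : ∃ k : ℕ, orderOf (QuotientGroup.mk M : Cfsg.PSp 2 F) = 2 ^ k := by
    have h4 : (QuotientGroup.mk M : Cfsg.PSp 2 F) ^ (2 ^ 2) = 1 := by
      have e : (QuotientGroup.mk M : Cfsg.PSp 2 F) ^ (2 ^ 2) =
          (QuotientGroup.mk M * QuotientGroup.mk M) * (QuotientGroup.mk M * QuotientGroup.mk M) := by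
        norm_num [pow_succ, mul_assoc]
      rw [e, ← QuotientGroup.mk_mul, hMsq, ← QuotientGroup.mk_mul, blk_mul, hxx, mk_eq_one_iff]
      exact Or.inr rfl
    obtain ⟨k, -, hk⟩ := (Nat.dvd_prime_pow Nat.prime_two).1 (orderOf_dvd_of_pow_eq_one h4)
    exact ⟨k, hk⟩
  have ov : ∃ k : ℕ, orderOf (QuotientGroup.mk (M * blk c c) : Cfsg.PSp 2 F) = 2 ^ k := by
    have h4 : (QuotientGroup.mk (M * blk c c) : Cfsg.PSp 2 F) ^ (2 ^ 2) = 1 := by
      have e : ∀ t : Cfsg.PSp 2 F, t ^ (2 ^ 2) = (t * t) * (t * t) := by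
        intro t
        norm_num [pow_succ, mul_assoc]
      rw [e, ← QuotientGroup.mk_mul, hMc, ← QuotientGroup.mk_mul, blk_mul, neg_mul_neg, hxyxy,
        mk_eq_one_iff]
      exact Or.inr rfl
    obtain ⟨k, -, hk⟩ := (Nat.dvd_prime_pow Nat.prime_two).1 (orderOf_dvd_of_pow_eq_one h4)
    exact ⟨k, hk⟩
  refine Cfsg.Agent.H88.simple_of_centric_model 2 P ?_ ?_ (Eb x y) ?_ hEn ?_ ?_ S
  · rw [hP]
    exact Sb_ne_bot hm1
  · intro T hT hT1 hcl
    rw [hP] at hT hcl ⊢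
    exact hcl_Sb h2 d T hT hT1 hcl
  · rw [hP]
    have hle : Subgroup.closure {(QuotientGroup.mk (blk (1 : SL(2, F)) (-1)) : Cfsg.PSp 2 F),
        QuotientGroup.mk (sig F), QuotientGroup.mk (blk x x), QuotientGroup.mk (blk y y)} ≤
        Sb (Subgroup.closure {x, y}) := by
      rw [Subgroup.closure_le]
      rintro t (rfl | rfl | rfl | ht)
      · exact (mk_mem_Sb hm1 _).2 (blk_mem_St.2 ⟨one_mem _, hm1⟩)
      · exact (mk_mem_Sb hm1 _).2 (sig_mem_St _)
      · exact (mk_mem_Sb hm1 _).2 (blk_mem_St.2 ⟨d.x_mem, d.x_mem⟩)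
      · rw [Set.mem_singleton_iff] at ht
        subst ht
        exact (mk_mem_Sb hm1 _).2 (blk_mem_St.2 ⟨d.y_mem, d.y_mem⟩)
    exact hle
  · exact fun g hg => mem_Eb_of_comm h2 d g hg
  · intro g hg
    obtain ⟨g, rfl⟩ := QuotientGroup.mk_surjective g
    rw [hP] at hg
    obtain ⟨A, B, hA, hB, hAB, hgAB⟩ := norm_Sb h2 d g hg
    obtain ⟨j, hj⟩ := hcN A hA
    have hcj : c ^ j ∈ Subgroup.normalizer
        ((Subgroup.closure {x, y} : Subgroup SL(2, F)) : Set SL(2, F)) := pow_mem hcn j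
    have hBj : c ^ j * B ∈ Subgroup.closure {x, y} := by
      have e : c ^ j * B = (c ^ j * (A * B⁻¹)⁻¹ * (c ^ j)⁻¹) * (c ^ j * A) := by group
      rw [e]
      exact mul_mem ((Subgroup.mem_normalizer_iff.1 hcj _).1 (inv_mem hAB)) hj
    have hs : (QuotientGroup.mk (blk (c ^ j * A) (c ^ j * B)) : Cfsg.PSp 2 F) ∈
        (P : Subgroup (Cfsg.PSp 2 F)) := by
      rw [hP, mk_mem_Sb hm1]
      exact blk_mem_St.2 ⟨hj, hBj⟩
    have hK_P : ∀ s ∈ (P : Subgroup (Cfsg.PSp 2 F)), s ∈ Subgroup.closure {g : Cfsg.PSp 2 F |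
        g ∈ Subgroup.normalizer ((Eb x y : Subgroup (Cfsg.PSp 2 F)) : Set (Cfsg.PSp 2 F)) ∧
        ∃ k : ℕ, orderOf g = 2 ^ k} := fun s hs =>
      Subgroup.subset_closure ⟨hEn hs, orderOf_of_mem_sylow P s hs⟩
    have hK_h : (QuotientGroup.mk (blk c c) : Cfsg.PSp 2 F) ∈ Subgroup.closure {g : Cfsg.PSp 2 F |
        g ∈ Subgroup.normalizer ((Eb x y : Subgroup (Cfsg.PSp 2 F)) : Set (Cfsg.PSp 2 F)) ∧
        ∃ k : ℕ, orderOf g = 2 ^ k} := by
      have e : (QuotientGroup.mk (blk c c) : Cfsg.PSp 2 F) =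
          (QuotientGroup.mk M)⁻¹ * QuotientGroup.mk (M * blk c c) := by
        rw [QuotientGroup.mk_mul, inv_mul_cancel_left]
      rw [e]
      exact mul_mem (inv_mem (Subgroup.subset_closure ⟨hu, ou⟩)) (Subgroup.subset_closure ⟨hv, ov⟩)
    have hAB' : (QuotientGroup.mk (blk A B) : Cfsg.PSp 2 F) ∈ Subgroup.closure {g : Cfsg.PSp 2 F |
        g ∈ Subgroup.normalizer ((Eb x y : Subgroup (Cfsg.PSp 2 F)) : Set (Cfsg.PSp 2 F)) ∧
        ∃ k : ℕ, orderOf g = 2 ^ k} := by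
      have e : (QuotientGroup.mk (blk A B) : Cfsg.PSp 2 F) =
          (QuotientGroup.mk (blk c c) ^ j)⁻¹ * QuotientGroup.mk (blk (c ^ j * A) (c ^ j * B)) := by
        rw [← QuotientGroup.mk_pow, blk_pow, ← QuotientGroup.mk_inv, ← QuotientGroup.mk_mul,
          blk_inv, blk_mul, inv_mul_cancel_left, inv_mul_cancel_left]
      rw [e]
      exact mul_mem (inv_mem (pow_mem hK_h j)) (hK_P _ hs)
    rcases hgAB with rfl | rfl
    · exact hAB'
    · rw [QuotientGroup.mk_mul]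
      exact mul_mem hAB' (hK_P _ (by
        rw [hP]
        exact (mk_mem_Sb hm1 _).2 (sig_mem_St _)))

/-- The case `16 ∤ q² - 1`. -/
theorem psp4_simple_small (hodd : Fintype.card F % 2 = 1)
    (h16 : ¬ 16 ∣ Fintype.card F ^ 2 - 1) (S : Sylow 2 (Cfsg.PSp 2 F)) :
    (Cfsg.groupFusionSystem (S : Subgroup (Cfsg.PSp 2 F))).IsSimple 2 := by
  have h2 : (2 : F) ≠ 0 := Cfsg.Agent.H7.two_ne_zero_of_odd_card (Nat.odd_iff.2 hodd)
  obtain ⟨p, hp⟩ := CharP.exists F
  have hpp : p.Prime := CharP.char_is_prime F p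
  have : NeZero p := ⟨hpp.ne_zero⟩
  obtain ⟨a', b', hab'⟩ := CharP.sq_add_sq F p (-1)
  have hab : (a' : F) ^ 2 + (b' : F) ^ 2 = -1 := by
    rw [hab']
    simp
  obtain ⟨h, hh⟩ : ∃ h : F, 2 * h = 1 := ⟨2⁻¹, mul_inv_cancel₀ h2⟩
  have d := qp0 (a' : F) (b' : F) hab
  have hm : ¬ 2 ^ (3 + 1) ∣ Fintype.card F ^ 2 - 1 := by
    norm_num
    exact h16
  obtain ⟨P, hP⟩ := sylow_Sb hodd d hm
  have hcardSL := not_dvd_card_SL2 hodd 3 hm
  exact small_core h2 (x0 F) (y0 (a' : F) (b' : F) hab) (c0 h (a' : F) (b' : F) hh hab) (Mm h hh) d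
    (Mm_sq h hh) (Mm_zt h hh) (Mm_sig h hh) (Mm_dy h _ _ hh hab) (Mm_c_sq h _ _ hh hab)
    (c0_conj_x h _ _ hh hab) (c0_conj_y h _ _ hh hab) (c0_mem_normalizer h _ _ hh hab)
    (fun A hA => norm_q8 h2 h _ _ hh hab hcardSL A hA) P hP S

/-- **The `2`-fusion system of `PSp(4, F)`, `F` finite of odd order, is simple.** -/
theorem psp4_fusion_simple (hodd : Fintype.card F % 2 = 1) (S : Sylow 2 (Cfsg.PSp 2 F)) :
    (Cfsg.groupFusionSystem (S : Subgroup (Cfsg.PSp 2 F))).IsSimple 2 := by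
  by_cases h16 : 16 ∣ Fintype.card F ^ 2 - 1
  · exact psp4_simple_large hodd h16 S
  · exact psp4_simple_small hodd h16 S

end Grp

end Cfsg.Agent.H88.S4
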