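import Cfsg.Agent.H88.StNDefs
import Cfsg.Agent.H78.StDbl
import Cfsg.Agent.H78.StM4

/-!
helper88: Steinberg module for `Ω⁻_{2m+2}(q)`: the action of the isometry group on flags, the
coarse apartment, and general fixing lemmas.
-/

set_option autoImplicit false

namespace Cfsg.Agent.H88.StN

open Matrix Cfsg.Agent.H78.StSL Cfsg.Agent.H50.AutPSL

variable {m : ℕ} {F : Type*} [Field F] {a b : F}

theorem mat_mulVec_inv (g : OGm m F a b) (v : Fin (2 * m + 2) → F) :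
    mat g *ᵥ (mat g⁻¹ *ᵥ v) = v := by
  rw [mulVec_mulVec, mat_mul_inv, one_mulVec]

theorem mat_inv_mulVec (g : OGm m F a b) (v : Fin (2 * m + 2) → F) :
    mat g⁻¹ *ᵥ (mat g *ᵥ v) = v := by
  rw [mulVec_mulVec, mat_inv_mul, one_mulVec]

/-- The action of the isometry group on flags. -/
noncomputable instance flgN : MulAction (OGm m F a b) (Flg (2 * m + 2) F) where
  smul g φ := ⟨fun k => {v | mat g⁻¹ *ᵥ v ∈ φ.s k}⟩
  one_smul φ := Flg.ext' fun k v => by
    show mat (1 : OGm m F a b)⁻¹ *ᵥ v ∈ φ.s k ↔ _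
    rw [inv_one, mat_one, one_mulVec]
  mul_smul g h φ := Flg.ext' fun k v => by
    show mat (g * h)⁻¹ *ᵥ v ∈ φ.s k ↔ mat h⁻¹ *ᵥ (mat g⁻¹ *ᵥ v) ∈ φ.s k
    rw [_root_.mul_inv_rev, mat_mul, mulVec_mulVec]

theorem mem_smulN (g : OGm m F a b) (φ : Flg (2 * m + 2) F) (k : Fin (2 * m + 2))
    (v : Fin (2 * m + 2) → F) : v ∈ (g • φ).s k ↔ mat g⁻¹ *ᵥ v ∈ φ.s k := Iff.rfl

/-- Comparison with the action of `SL`. -/
theorem smul_eq_sl (g : OGm m F a b) (s : SpecialLinearGroup (Fin (2 * m + 2)) F)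
    (h : mat g = s.1) (φ : Flg (2 * m + 2) F) : g • φ = s • φ := by
  have h1 : (s⁻¹).1 * s.1 = 1 := by
    show (s⁻¹ * s).1 = 1
    rw [inv_mul_cancel]
    rfl
  have h2 : mat g⁻¹ = (s⁻¹).1 := by
    calc mat g⁻¹ = (s⁻¹).1 * s.1 * mat g⁻¹ := by rw [h1, Matrix.one_mul]
      _ = (s⁻¹).1 * (mat g * mat g⁻¹) := by rw [Matrix.mul_assoc, h]
      _ = (s⁻¹).1 := by rw [mat_mul_inv, Matrix.mul_one]
  apply Flg.ext'
  intro k v
  rw [mem_smulN, mem_smul, h2]

/-- The coarse level: the level `pZ m 0` is replaced by the level `pZ m 1`. -/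
def cl (m : ℕ) (k : Fin (2 * m + 2)) : Fin (2 * m + 2) := if k = pZ m 0 then pZ m 1 else k

/-- The coarse flag of a flag. -/
def crs (φ : Flg (2 * m + 2) F) : Flg (2 * m + 2) F := ⟨fun k => φ.s (cl m k)⟩

theorem smul_crs (g : OGm m F a b) (φ : Flg (2 * m + 2) F) : g • crs φ = crs (g • φ) := rfl

theorem sl_smul_crs (s : SpecialLinearGroup (Fin (2 * m + 2)) F) (φ : Flg (2 * m + 2) F) :
    s • crs φ = crs (s • φ) := rfl

/-- The coarse apartment. -/
def aN (m : ℕ) (F : Type*) [Field F] (w : WN m) : Flg (2 * m + 2) F := crs (apt w.1)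

theorem mem_aN (w : WN m) (k : Fin (2 * m + 2)) (v : Fin (2 * m + 2) → F) :
    v ∈ (aN m F w).s k ↔ ∀ c, cl m k < w.1.symm c → v c = 0 := Iff.rfl

/-- If a matrix with a two-sided inverse maps a coordinate subspace into itself, so does its
inverse. -/
theorem inv_stable {n : ℕ} (M M' : Matrix (Fin n) (Fin n) F) (h2 : M' * M = 1)
    (S : Set (Fin n)) (hM : ∀ v : Fin n → F, (∀ c ∈ S, v c = 0) → ∀ c ∈ S, (M *ᵥ v) c = 0) :
    ∀ v : Fin n → F, (∀ c ∈ S, v c = 0) → ∀ c ∈ S, (M' *ᵥ v) c = 0 := by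
  obtain ⟨L, hL⟩ : ∃ L : Submodule F (Fin n → F), ∀ v, v ∈ L ↔ ∀ c ∈ S, v c = 0 :=
    ⟨{ carrier := {v | ∀ c ∈ S, v c = 0}
       add_mem' := fun {x y} hx hy c hc => by rw [Pi.add_apply, hx c hc, hy c hc, add_zero]
       zero_mem' := fun c _ => rfl
       smul_mem' := fun r x hx c hc => by rw [Pi.smul_apply, hx c hc, smul_zero] },
      fun v => Iff.rfl⟩
  have hML : ∀ v ∈ L, Matrix.mulVecLin M v ∈ L := by
    intro v hv
    rw [hL] at hv ⊢
    exact hM v hv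
  have hinj : Function.Injective ((Matrix.mulVecLin M).restrict hML) := by
    intro x y hxy
    have h3 : M *ᵥ x.1 = M *ᵥ y.1 := congrArg Subtype.val hxy
    have h4 : M' *ᵥ (M *ᵥ x.1) = M' *ᵥ (M *ᵥ y.1) := by rw [h3]
    rw [mulVec_mulVec, mulVec_mulVec, h2, one_mulVec, one_mulVec] at h4
    exact Subtype.ext h4
  have hsurj := LinearMap.surjective_of_injective hinj
  intro v hv
  obtain ⟨u, hu⟩ := hsurj ⟨v, (hL v).2 hv⟩
  have h5 : M *ᵥ u.1 = v := congrArg Subtype.val hu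
  have h6 : M' *ᵥ v = u.1 := by
    rw [← h5, mulVec_mulVec, h2, one_mulVec]
  rw [h6]
  exact (hL u.1).1 u.2

/-- An isometry whose matrix maps the sets of a flag given by coordinate subspaces into
themselves fixes the flag. -/
theorem smul_fix_of_stable (g : OGm m F a b) (φ : Flg (2 * m + 2) F)
    (S : Fin (2 * m + 2) → Set (Fin (2 * m + 2)))
    (hφ : ∀ k v, v ∈ φ.s k ↔ ∀ c ∈ S k, v c = 0)
    (hg : ∀ k (v : Fin (2 * m + 2) → F), (∀ c ∈ S k, v c = 0) →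
      ∀ c ∈ S k, (mat g *ᵥ v) c = 0) : g • φ = φ := by
  apply Flg.ext'
  intro k v
  rw [mem_smulN, hφ, hφ]
  constructor
  · intro h
    have h1 := hg k _ h
    rw [mat_mulVec_inv] at h1
    exact h1
  · intro h
    exact inv_stable (mat g) (mat g⁻¹) (mat_inv_mul g) (S k) (hg k) v h

/-- Two isometries agree on a flag given by coordinate subspaces as soon as `g'⁻¹ g` maps its
sets into themselves. -/
theorem smul_eq_of_stable (g g' : OGm m F a b) (φ : Flg (2 * m + 2) F)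
    (S : Fin (2 * m + 2) → Set (Fin (2 * m + 2)))
    (hφ : ∀ k v, v ∈ φ.s k ↔ ∀ c ∈ S k, v c = 0)
    (hg : ∀ k (v : Fin (2 * m + 2) → F), (∀ c ∈ S k, v c = 0) →
      ∀ c ∈ S k, (mat g'⁻¹ *ᵥ (mat g *ᵥ v)) c = 0) : g • φ = g' • φ := by
  have h1 : (g'⁻¹ * g) • φ = φ := by
    apply smul_fix_of_stable (g'⁻¹ * g) φ S hφ
    intro k v hv c hc
    rw [mat_mul, ← mulVec_mulVec]
    exact hg k v hv c hc
  calc g • φ = g' • ((g'⁻¹ * g) • φ) := by rw [← mul_smul, mul_inv_cancel_left]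
    _ = g' • φ := by rw [h1]

/-- Unitriangular isometries fix the base flag. -/
theorem uni_fix (w1 : WN m) (hw1 : w1.1 = 1) (u : OGm m F a b) (hu : IsUniM u) :
    u • aN m F w1 = aN m F w1 := by
  apply smul_fix_of_stable u _ (fun k => {c | cl m k < c})
  · intro k v
    rw [mem_aN, hw1]
    rfl
  · intro k v hv c hc
    exact Cfsg.Agent.H78.StSL.isUT_mulVec hu.1 v (cl m k) hv c hc

end Cfsg.Agent.H88.StN
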