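import Mathlib
import Cfsg.Agent.H78.StM4

/-!
helper88: the subgroup and centre version of `H78.StM.steinberg_quot'`: if the Steinberg module
of `G` is stable under `G`, then every subgroup `H ≥ U` reaching the opposite flag has a
Steinberg character on `H ⧸ Z(H)`, provided `Z(H)` fixes the apartment.
-/

set_option autoImplicit false

namespace Cfsg.Agent.H88.StN

open Cfsg.Agent.H78.StM

universe u

theorem steinberg_sub_quot {G : Type u} [Group G] [Finite G] {Ω : Type*} [MulAction G Ω]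
    {W : Type*} [Fintype W] (p : ℕ) [Fact p.Prime] (U : Subgroup G) (a : W → Ω) (sg : W → ℂ)
    (ω₀ : Ω) (hU : ∀ u ∈ U, u • ω₀ = ω₀) (w₀ : W) (hw₀ : sg w₀ ≠ 0)
    (hind : ∀ v ∈ U, ∀ w, v • a w₀ = a w → v = 1 ∧ w = w₀)
    (hst : ∀ g : G, ∀ v ∈ stV U a sg, trep G Ω g v ∈ stV U a sg) (hUp : IsPGroup p U)
    (H : Subgroup G) (hUH : U ≤ H) (horb : ∃ g ∈ H, g • ω₀ = a w₀)
    (hUi : ¬ p ∣ (U.subgroupOf H).index)
    (hZ : ∀ z ∈ H, (∀ h ∈ H, z * h = h * z) → ∀ w, z • a w = a w) :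
    ∃ χ : (↥H ⧸ Subgroup.center ↥H) → ℂ, Cfsg.IsIrrCharacter (↥H ⧸ Subgroup.center ↥H) χ ∧
      ∀ P : Sylow p (↥H ⧸ Subgroup.center ↥H), χ 1 = Nat.card P ∧
        ∀ x : ↥H ⧸ Subgroup.center ↥H, x ∈ P → x ≠ 1 → χ x = 0 := by
  have htrep : ∀ (h : H) (f : Ω → ℂ), trep H Ω h f = trep G Ω (h : G) f := fun h f => rfl
  have hstV : stV (U.subgroupOf H) a sg = stV U a sg := by
    unfold stV
    congr 1
    ext f
    constructor
    · rintro ⟨u, rfl⟩
      exact ⟨⟨((u : H) : G), Subgroup.mem_subgroupOf.mp u.2⟩, rfl⟩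
    · rintro ⟨u, rfl⟩
      exact ⟨⟨⟨(u : G), hUH u.2⟩, Subgroup.mem_subgroupOf.mpr u.2⟩, rfl⟩
  obtain ⟨g, hg, hgw⟩ := horb
  exact steinberg_quot' (G := H) p (U.subgroupOf H) a sg ω₀
    (fun u hu => hU (u : G) (Subgroup.mem_subgroupOf.mp hu))
    w₀ hw₀
    (fun v hv w hvw => by
      obtain ⟨h1, h2⟩ := hind (v : G) (Subgroup.mem_subgroupOf.mp hv) w hvw
      exact ⟨Subtype.ext h1, h2⟩)
    ⟨⟨g, hg⟩, hgw⟩
    (fun g v hv => by
      rw [hstV] at hv ⊢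
      rw [htrep]
      exact hst (g : G) v hv)
    (hUp.comap_of_injective H.subtype H.subtype_injective)
    hUi
    (Subgroup.center H)
    (fun z hz => ⟨fun u _ => (Subgroup.mem_center_iff.mp hz u).symm,
      fun w => hZ z.1 z.2 (fun h hh =>
        congrArg Subtype.val (Subgroup.mem_center_iff.mp hz ⟨h, hh⟩).symm) w⟩)

end Cfsg.Agent.H88.StN
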